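import Cfsg.Agent.H916.RG.Pair_m3
import Cfsg.Agent.H727.GW.Isom
import Cfsg.Agent.H520.RC.MHom
import Cfsg.Agent.H727.GW.Glue
import Cfsg.Agent.ClassicalGeometry.SympIso
import Cfsg.Agent.ClassicalGeometry.SympAutSemi
import Cfsg.Agent.LieClassical.SympPerfect
import Cfsg.Agent.LieClassical.FieldTransfer
import Cfsg.Agent.S0244
import Cfsg.Agent.S0270
import Cfsg.Agent.S0810
import Cfsg.Agent.H206.PspFix
import Cfsg.Agent.H233.RC.RedA
import Cfsg.Agent.H31.RC.Spor.Gen
import Mathlib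
import Cfsg.Agent.Lib.FrattiniBasic
import Cfsg.Agent.H982.TWModel
import Cfsg.Agent.H319.FC.Sem
import Cfsg.Agent.H319.FC.Defs
import Cfsg.Agent.ClassicalGeometry.Sp4Graph
import Cfsg.Agent.ClassicalGeometry.SympBasic
import Cfsg.Agent.H319.FC.Dual
import Cfsg.Agent.H93.RC.BoxB3_m3
import Cfsg.Agent.S0247
import Cfsg.Agent.H837.RC.KilledP2
import Cfsg.Agent.LieClassical.HermPerfect
import Cfsg.Agent.S0283
import Cfsg.Agent.S0249
import Cfsg.Agent.LieClassical.SLGen
import Cfsg.Prelude.Def_Classical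
import Cfsg.Agent.H578.RC.Lin_m3
import Cfsg.Agent.H198.TriCls
import Cfsg.Agent.H160.QSpin
import Cfsg.Agent.FastGrp
import Cfsg.Agent.Prune
set_option linter.all false

section
prune_inst 0x7f00000000000000000000000000000000000000000000000000000000000000000000000000000000000000000000000000000000000000000000000000000000000000000000000000000000000000003ffffffffcffffffffffffffffffbeffbdfbfeffff

section
prune_inst 0xfffffbbbf839dedfff7fffa7decffc3f919fffe6fffd4bbfe0abef9bff03020de7abad8de09afe5fe3623400b87853fffffeffe36bfc7ffffd5df41ffbee4ff5f7b50951f68c340fbc0ff703f0778e7f000000000300000000000000000000000204010000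

-- part: H520/RC/SpId
section
prune_inst 0x40002000000000200001c02a2000000000804000441000004c08c000001002180000001401005440030000000000000000000000020040001190080008000009008010002008e000000000000000000000000000000000000000000000000000
set_option linter.all false
open scoped Cfsg.Agent.FastGrp

-- part: H520/RC/SpDefs
section
/-!
# S3510, row D (symplectic groups): the common setting (helper520)

* `NAlt B` : `B` is alternating and nondegenerate;  `Sp B` : the isometry group (subgroup of `V ≃ₗ[F] V`).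
* `SS B` : the group of semisimilitudes `M` : `M : V ≃+ V`, `M.σ : F ≃+* F`, `M.l : F`,
  `M (a • v) = M.σ a • M v`, `B (M u) (M v) = M.l * M.σ (B u v)`.
* `cj M : MulAut (Sp B)` : conjugation, `cj M t (M v) = M (t v)`;  `tg t : SS B` for `t : Sp B`.
* `tv h e c : Sp B` : `x ↦ x + (c * B x e) • e`;  `cj_tv`.
* `SpEnv Ω N ρ` : the environment, `ρ : Sp B →* G` onto `N`, kernel the scalars;
  `Lf ρ x M` : `M` is a lift of `x`.
-/

set_option autoImplicit false
open Cfsg

namespace Cfsg.Agent.H520.RC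

open MulAction Module Cfsg.Agent.H106.RC Cfsg.Agent.H727.GW

universe u v

section defs

variable {F : Type u} {V : Type v} [Field F] [AddCommGroup V] [Module F V]

/-- alternating and nondegenerate -/
structure NAlt (B : LinearMap.BilinForm F V) : Prop where
  alt : ∀ x, B x x = 0
  nd : ∀ x, (∀ y, B x y = 0) → x = 0

/-- the symplectic group -/
abbrev Sp (B : LinearMap.BilinForm F V) : Subgroup (V ≃ₗ[F] V) := isomGroup B

/-- semisimilitudes -/
@[ext]
structure SS (B : LinearMap.BilinForm F V) where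
  /-- the map -/
  f : V ≃+ V
  /-- the field automorphism -/
  σ : F ≃+* F
  /-- the multiplier -/
  l : F
  hl : l ≠ 0
  smul' : ∀ (a : F) (v : V), f (a • v) = σ a • f v
  form' : ∀ u v : V, B (f u) (f v) = l * σ (B u v)

variable {B : LinearMap.BilinForm F V}

theorem NAlt.swap (h : NAlt B) (x y : V) : B x y = - B y x := by
  have h1 := h.alt (x + y)
  simp only [map_add, LinearMap.add_apply, h.alt, zero_add, add_zero] at h1
  linear_combination h1

theorem NAlt.swap0 (h : NAlt B) {x y : V} (hxy : B x y = 0) : B y x = 0 := by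
  rw [h.swap, hxy, neg_zero]

theorem NAlt.nd' (h : NAlt B) (x : V) (hx : ∀ y, B y x = 0) : x = 0 :=
  h.nd x fun y => h.swap0 (hx y)

theorem NAlt.exists_ne (h : NAlt B) {x : V} (hx : x ≠ 0) : ∃ y, B x y ≠ 0 := by
  by_contra hno
  push Not at hno
  exact hx (h.nd x hno)

/-- hyperbolic partner -/
theorem NAlt.exists_one (h : NAlt B) {x : V} (hx : x ≠ 0) : ∃ y, B x y = 1 := by
  obtain ⟨y, hy⟩ := h.exists_ne hx
  exact ⟨(B x y)⁻¹ • y, by rw [map_smul, smul_eq_mul, inv_mul_cancel₀ hy]⟩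

namespace SS

instance : CoeFun (SS B) fun _ => V → V := ⟨fun M => M.f⟩

theorem ext' {M L : SS B} (h : ∀ v, M v = L v) (hσ : M.σ = L.σ) (hl : M.l = L.l) : M = L :=
  SS.ext (AddEquiv.ext h) hσ hl

theorem map_smul (M : SS B) (a : F) (v : V) : M (a • v) = M.σ a • M v := M.smul' a v

theorem form (M : SS B) (u v : V) : B (M u) (M v) = M.l * M.σ (B u v) := M.form' u v

theorem map_add (M : SS B) (u v : V) : M (u + v) = M u + M v := M.f.map_add u v

theorem map_sub (M : SS B) (u v : V) : M (u - v) = M u - M v := _root_.map_sub M.f u v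

theorem map_neg (M : SS B) (u : V) : M (-u) = -M u := _root_.map_neg M.f u

theorem map_zero (M : SS B) : M 0 = 0 := M.f.map_zero

theorem injective (M : SS B) : Function.Injective M := M.f.injective

theorem surjective (M : SS B) : Function.Surjective M := M.f.surjective

instance : One (SS B) := ⟨⟨AddEquiv.refl V, RingEquiv.refl F, 1, one_ne_zero, fun _ _ => rfl, fun u v => by
  rw [one_mul]; rfl⟩⟩

instance : Mul (SS B) := ⟨fun M L => ⟨L.f.trans M.f, L.σ.trans M.σ, M.l * M.σ L.l,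
  mul_ne_zero M.hl ((map_ne_zero M.σ).2 L.hl), fun a v => by
    show M.f (L.f (a • v)) = M.σ (L.σ a) • M.f (L.f v)
    rw [L.smul', M.smul'], fun u v => by
    show B (M.f (L.f u)) (M.f (L.f v)) = M.l * M.σ L.l * M.σ (L.σ (B u v))
    rw [M.form', L.form', map_mul, mul_assoc]⟩⟩

instance : Inv (SS B) := ⟨fun M => ⟨M.f.symm, M.σ.symm, M.σ.symm M.l⁻¹,
  (map_ne_zero M.σ.symm).2 (inv_ne_zero M.hl), fun a v => by
    apply M.f.injective
    rw [M.smul', AddEquiv.apply_symm_apply, AddEquiv.apply_symm_apply, RingEquiv.apply_symm_apply],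
  fun u v => by
    apply M.σ.injective
    rw [map_mul, RingEquiv.apply_symm_apply, RingEquiv.apply_symm_apply]
    have h := M.form' (M.f.symm u) (M.f.symm v)
    rw [AddEquiv.apply_symm_apply, AddEquiv.apply_symm_apply] at h
    rw [h, ← mul_assoc, inv_mul_cancel₀ M.hl, one_mul]⟩⟩

@[simp] theorem one_apply (v : V) : (1 : SS B) v = v := rfl
@[simp] theorem mul_apply (M L : SS B) (v : V) : (M * L) v = M (L v) := rfl
@[simp] theorem inv_apply_self (M : SS B) (v : V) : M⁻¹ (M v) = v := M.f.symm_apply_apply v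
@[simp] theorem apply_inv_self (M : SS B) (v : V) : M (M⁻¹ v) = v := M.f.apply_symm_apply v
theorem one_σ : (1 : SS B).σ = 1 := rfl
theorem one_l : (1 : SS B).l = 1 := rfl
theorem mul_σ (M L : SS B) : (M * L).σ = M.σ * L.σ := rfl
theorem mul_l (M L : SS B) : (M * L).l = M.l * M.σ L.l := rfl
theorem inv_σ (M : SS B) : M⁻¹.σ = M.σ⁻¹ := rfl

instance : Group (SS B) where
  mul_assoc M L K := ext' (fun _ => rfl) rfl (by
    simp only [mul_l, mul_σ, map_mul, mul_assoc]
    rfl)
  one_mul M := ext' (fun _ => rfl) rfl (by rw [mul_l, one_l, one_mul, one_σ]; rfl)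
  mul_one M := ext' (fun _ => rfl) rfl (by rw [mul_l, one_l, map_one, mul_one])
  inv_mul_cancel M := ext' (fun v => M.f.symm_apply_apply v) (RingEquiv.ext fun a => M.σ.symm_apply_apply a) (by
    show M.σ.symm M.l⁻¹ * M.σ.symm M.l = 1
    rw [← map_mul, inv_mul_cancel₀ M.hl, map_one])

theorem pow_apply (M : SS B) (n : ℕ) (v : V) : (M ^ n) v = M^[n] v := by
  induction n generalizing v with
  | zero => rfl
  | succ n ih => rw [pow_succ, mul_apply, ih, Function.iterate_succ_apply]

/-- the semisimilitude is a scalar -/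
def IsScal (M : SS B) : Prop := ∃ a : F, a ≠ 0 ∧ ∀ v, M v = a • v

/-- the semisimilitude acts as a scalar on `W` -/
def ScalOn (M : SS B) (W : Submodule F V) : Prop := ∃ a : F, a ≠ 0 ∧ ∀ v ∈ W, M v = a • v

/-- the semisimilitude is linear -/
def IsLin (M : SS B) : Prop := M.σ = 1

theorem IsLin.map_smul {M : SS B} (h : M.IsLin) (a : F) (v : V) : M (a • v) = a • M v := by
  have h' : M.σ = 1 := h
  rw [M.map_smul, h']; rfl

theorem IsLin.form {M : SS B} (h : M.IsLin) (u v : V) : B (M u) (M v) = M.l * B u v := by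
  have h' : M.σ = 1 := h
  rw [M.form, h']; rfl

theorem IsLin.mul {M L : SS B} (h : M.IsLin) (h' : L.IsLin) : (M * L).IsLin := by
  show (M * L).σ = 1
  rw [mul_σ, show M.σ = 1 from h, show L.σ = 1 from h', one_mul]

theorem isLin_one : (1 : SS B).IsLin := rfl

theorem IsLin.pow {M : SS B} (h : M.IsLin) (n : ℕ) : (M ^ n).IsLin := by
  induction n with
  | zero => rw [pow_zero]; exact isLin_one
  | succ n ih => rw [pow_succ]; exact ih.mul h

/-- a semisimilitude as a linear map -/
def IsLin.lin {M : SS B} (h : M.IsLin) : V ≃ₗ[F] V :=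
  { M.f with map_smul' := fun a v => h.map_smul a v }

@[simp] theorem IsLin.lin_apply {M : SS B} (h : M.IsLin) (v : V) : h.lin v = M v := rfl

/-- scalars -/
def sc (B : LinearMap.BilinForm F V) (a : F) (ha : a ≠ 0) : SS B where
  f := (LinearEquiv.smulOfUnit (Units.mk0 a ha) : V ≃ₗ[F] V).toAddEquiv
  σ := 1
  l := a * a
  hl := mul_ne_zero ha ha
  smul' b v := by
    show a • (b • v) = b • (a • v)
    rw [smul_comm]
  form' u v := by
    show B (a • u) (a • v) = a * a * B u v
    rw [_root_.map_smul, LinearMap.map_smul₂, smul_eq_mul, smul_eq_mul, mul_assoc]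

/-- conjugation of an isometry by a semisimilitude, as a linear map -/
def cjLin (M : SS B) (t : V ≃ₗ[F] V) : V ≃ₗ[F] V where
  toFun v := M (t (M⁻¹ v))
  invFun v := M (t.symm (M⁻¹ v))
  left_inv v := by simp
  right_inv v := by simp
  map_add' u v := by
    rw [M⁻¹.map_add, t.map_add, M.map_add]
  map_smul' a v := by
    rw [M⁻¹.map_smul, t.map_smul, M.map_smul, inv_σ]
    show M.σ (M.σ.symm a) • _ = _
    rw [RingEquiv.apply_symm_apply]
    rfl

theorem cjLin_apply (M : SS B) (t : V ≃ₗ[F] V) (v : V) : cjLin M t (M v) = M (t v) := by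
  show M (t (M⁻¹ (M v))) = _
  rw [inv_apply_self]

theorem cjLin_mem (M : SS B) {t : V ≃ₗ[F] V} (ht : t ∈ Sp B) : cjLin M t ∈ Sp B := by
  intro u v
  obtain ⟨u, rfl⟩ := M.surjective u
  obtain ⟨v, rfl⟩ := M.surjective v
  rw [cjLin_apply, cjLin_apply, M.form, M.form, ht u v]

/-- conjugation -/
def cj : SS B →* MulAut (Sp B) where
  toFun M :=
    { toFun := fun t => ⟨cjLin M t.1, cjLin_mem M t.2⟩
      invFun := fun t => ⟨cjLin M⁻¹ t.1, cjLin_mem M⁻¹ t.2⟩
      left_inv := fun t => Subtype.ext (LinearEquiv.ext fun v => by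
        show M⁻¹ (M (t.1 (M⁻¹ (M⁻¹⁻¹ v)))) = t.1 v
        simp)
      right_inv := fun t => Subtype.ext (LinearEquiv.ext fun v => by
        show M (M⁻¹ (t.1 (M⁻¹⁻¹ (M⁻¹ v)))) = t.1 v
        simp)
      map_mul' := fun s t => Subtype.ext (LinearEquiv.ext fun v => by
        show M ((s.1 * t.1) (M⁻¹ v)) = M (s.1 (M⁻¹ (M (t.1 (M⁻¹ v)))))
        rw [inv_apply_self]
        rfl) }
  map_one' := rfl
  map_mul' M L := by
    apply MulEquiv.ext
    intro t
    apply Subtype.ext
    apply LinearEquiv.ext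
    intro v
    show (M * L) (t.1 ((M * L)⁻¹ v)) = M (L (t.1 (L⁻¹ (M⁻¹ v))))
    rw [mul_inv_rev]
    rfl

@[simp] theorem cj_apply (M : SS B) (t : Sp B) (v : V) : (cj M t).1 (M v) = M (t.1 v) := cjLin_apply M t.1 v

theorem cj_eq {M : SS B} {s t : Sp B} (h : ∀ v, t.1 (M v) = M (s.1 v)) : cj M s = t := by
  apply Subtype.ext
  apply LinearEquiv.ext
  intro v
  obtain ⟨v, rfl⟩ := M.surjective v
  rw [cj_apply, h]

/-- isometries as semisimilitudes -/
def tg : Sp B →* SS B where
  toFun t := ⟨t.1.toAddEquiv, 1, 1, one_ne_zero, fun a v => _root_.map_smul t.1 a v, fun u v => by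
    rw [one_mul]
    exact t.2 u v⟩
  map_one' := rfl
  map_mul' s t := ext' (fun _ => rfl) rfl (by rw [mul_l]; simp)

@[simp] theorem tg_apply (t : Sp B) (v : V) : tg t v = t.1 v := rfl

theorem tg_lin (t : Sp B) : (tg t).IsLin := rfl

theorem cj_tg (s t : Sp B) : cj (tg s) t = s * t * s⁻¹ := by
  apply cj_eq
  intro v
  show s.1 (t.1 (s.1.symm (s.1 v))) = s.1 (t.1 v)
  rw [LinearEquiv.symm_apply_apply]

theorem cj_of_scal {M : SS B} (h : M.IsScal) : cj M = 1 := by
  obtain ⟨a, ha, h⟩ := h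
  apply MulEquiv.ext
  intro t
  apply cj_eq
  intro v
  rw [h, h, _root_.map_smul]
  rfl

end SS

/-- transvections -/
def tv (h : NAlt B) (e : V) (c : F) : Sp B :=
  ⟨{ toFun := fun x => x + (c * B x e) • e
     invFun := fun x => x - (c * B x e) • e
     left_inv := fun x => by
      have h1 : B (x + (c * B x e) • e) e = B x e := by
        rw [map_add, LinearMap.add_apply, map_smul, LinearMap.smul_apply, h.alt, smul_zero, add_zero]
      show (x + (c * B x e) • e) - (c * B (x + (c * B x e) • e) e) • e = x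
      rw [h1, add_sub_cancel_right]
     right_inv := fun x => by
      have h1 : B (x - (c * B x e) • e) e = B x e := by
        rw [map_sub, LinearMap.sub_apply, map_smul, LinearMap.smul_apply, h.alt, smul_zero, sub_zero]
      show (x - (c * B x e) • e) + (c * B (x - (c * B x e) • e) e) • e = x
      rw [h1, sub_add_cancel]
     map_add' := fun x y => by
      rw [map_add, LinearMap.add_apply, mul_add, add_smul]
      abel
     map_smul' := fun a x => by
      rw [map_smul, LinearMap.smul_apply, smul_eq_mul, RingHom.id_apply, smul_add, smul_smul]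
      congr 2
      ring }, by
    intro x y
    show B (x + (c * B x e) • e) (y + (c * B y e) • e) = B x y
    simp only [map_add, LinearMap.add_apply, map_smul, LinearMap.smul_apply, smul_eq_mul, h.alt, mul_zero, add_zero]
    rw [h.swap e y]
    ring⟩

@[simp] theorem tv_apply (h : NAlt B) (e : V) (c : F) (x : V) : (tv h e c).1 x = x + (c * B x e) • e := rfl

theorem tv_add (h : NAlt B) (e : V) (c d : F) : tv h e (c + d) = tv h e c * tv h e d := by
  apply Subtype.ext
  apply LinearEquiv.ext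
  intro x
  show (tv h e (c + d)).1 x = (tv h e c).1 ((tv h e d).1 x)
  rw [tv_apply, tv_apply, tv_apply, map_add, LinearMap.add_apply, map_smul, LinearMap.smul_apply, h.alt, smul_zero,
    add_zero, add_mul, add_smul]
  abel

@[simp] theorem tv_zero (h : NAlt B) (e : V) : tv h e 0 = 1 := by
  apply Subtype.ext
  apply LinearEquiv.ext
  intro x
  rw [tv_apply, zero_mul, zero_smul, add_zero]
  rfl

theorem tv_inv (h : NAlt B) (e : V) (c : F) : (tv h e c)⁻¹ = tv h e (-c) := by
  rw [inv_eq_iff_mul_eq_one, ← tv_add, add_neg_cancel, tv_zero]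

theorem tv_smul (h : NAlt B) (e : V) (a c : F) : tv h (a • e) c = tv h e (c * a * a) := by
  apply Subtype.ext
  apply LinearEquiv.ext
  intro x
  rw [tv_apply, tv_apply, map_smul, smul_eq_mul, smul_smul]
  congr 2
  ring

theorem tv_ne_one (h : NAlt B) {e : V} (he : e ≠ 0) {c : F} (hc : c ≠ 0) : tv h e c ≠ 1 := by
  intro h1
  obtain ⟨y, hy⟩ := h.exists_ne he
  have h2 := congrArg (fun t : Sp B => t.1 y) h1
  change (tv h e c).1 y = y at h2
  rw [tv_apply, add_eq_left, smul_eq_zero] at h2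
  rcases h2 with h2 | h2
  · rcases mul_eq_zero.1 h2 with h3 | h3
    · exact hc h3
    · exact hy (h.swap0 h3)
  · exact he h2

/-- conjugates of transvections -/
theorem cj_tv (h : NAlt B) (M : SS B) (e : V) (c : F) : SS.cj M (tv h e c) = tv h (M e) (M.σ c * M.l⁻¹) := by
  apply SS.cj_eq
  intro x
  rw [tv_apply, tv_apply, M.map_add, M.map_smul, M.form, map_mul]
  congr 2
  rw [mul_assoc, inv_mul_cancel_left₀ M.hl]

/-- an additive map preserving all lines is a scalar -/
theorem scal_of_lines [FiniteDimensional F V] (hd : 2 ≤ finrank F V) (f : V →+ V) (h : ∀ v, ∃ c : F, f v = c • v) :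
    ∃ c : F, ∀ v, f v = c • v := by
  classical
  have hV : Nontrivial V := Module.nontrivial_of_finrank_pos (R := F) (by omega)
  obtain ⟨w, hw⟩ := exists_ne (0 : V)
  obtain ⟨c, hc⟩ := h w
  have hstep : ∀ {a b : V} {ca cb : F}, f a = ca • a → f b = cb • b → a ≠ 0 → (∀ t : F, b ≠ t • a) → ca = cb := by
    intro a b ca cb ha hb ha0 hab
    obtain ⟨cd, hcd⟩ := h (a + b)
    rw [f.map_add, ha, hb, smul_add] at hcd
    have h1 : (cb - cd) • b = (cd - ca) • a := by
      rw [sub_smul, sub_smul]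
      rw [← sub_eq_zero] at hcd ⊢
      rw [← hcd]; abel
    have h2 : cb = cd := by
      by_contra hne
      apply hab ((cb - cd)⁻¹ * (cd - ca))
      rw [mul_smul, ← h1, smul_smul, inv_mul_cancel₀ (sub_ne_zero.2 hne), one_smul]
    have h3 : (cd - ca) • a = 0 := by rw [← h1, h2, sub_self, zero_smul]
    rcases smul_eq_zero.1 h3 with h4 | h4
    · rw [h2]; exact (sub_eq_zero.1 h4).symm
    · exact absurd h4 ha0
  refine ⟨c, fun v => ?_⟩
  by_cases hv : v = 0
  · rw [hv, f.map_zero, smul_zero]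
  obtain ⟨cv, hcv⟩ := h v
  by_cases hdep : ∀ t : F, v ≠ t • w
  · rw [hcv, hstep hc hcv hw hdep]
  · push Not at hdep
    obtain ⟨t, rfl⟩ := hdep
    -- a third vector outside the line
    obtain ⟨z, hz⟩ : ∃ z : V, ∀ t : F, z ≠ t • w := by
      by_contra hno
      push Not at hno
      have h1 : (Submodule.span F {w}) = ⊤ := by
        rw [eq_top_iff]
        intro z _
        obtain ⟨t, rfl⟩ := hno z
        exact Submodule.smul_mem _ _ (Submodule.mem_span_singleton_self w)
      have h2 : finrank F (Submodule.span F {w}) = 1 := finrank_span_singleton hw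
      rw [h1, finrank_top] at h2
      omega
    obtain ⟨cz, hcz⟩ := h z
    have h1 := hstep hc hcz hw hz
    have h2 : cv = cz := by
      refine hstep hcv hcz hv fun s hs => hz (s * t) ?_
      rw [hs, smul_smul]
    rw [hcv, h2, h1]

end defs

section env

variable {F : Type u} {V : Type v} [Field F] [AddCommGroup V] [Module F V] {B : LinearMap.BilinForm F V}
variable {G : Type*} [Group G]

/-- `M` is a lift of `x` -/
def Lf (ρ : ↥(Sp B) →* G) (x : G) (M : SS B) : Prop := ∀ t : ↥(Sp B), x * ρ t * x⁻¹ = ρ (SS.cj M t)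

/-- the working environment of the symplectic rows -/
structure SpEnv (Ω : Type*) [MulAction G Ω] (N : Subgroup G) (ρ : ↥(Sp B) →* G) : Prop where
  env : Env G Ω N
  form : NAlt B
  range : ρ.range = N
  ker : ∀ t : ↥(Sp B), ρ t = 1 ↔ ∃ a : F, ∀ v, t.1 v = a • v
  lift : ∀ x : G, ∃ M : SS B, Lf ρ x M
  dim : 4 ≤ finrank F V

variable {ρ : ↥(Sp B) →* G} {x y : G} {M L : SS B}

theorem Lf.one : Lf ρ 1 (1 : SS B) := by
  intro t
  rw [map_one]
  simp

theorem Lf.mul (h : Lf ρ x M) (h' : Lf ρ y L) : Lf ρ (x * y) (M * L) := by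
  intro t
  rw [map_mul, MulAut.mul_apply, ← h, ← h']
  group

theorem Lf.inv (h : Lf ρ x M) : Lf ρ x⁻¹ M⁻¹ := by
  intro t
  have h1 := h (SS.cj M⁻¹ t)
  have h2 : SS.cj M (SS.cj M⁻¹ t) = t := by
    rw [← MulAut.mul_apply, ← map_mul, mul_inv_cancel, map_one]; rfl
  rw [h2] at h1
  rw [← h1]
  group

theorem Lf.pow (h : Lf ρ x M) (n : ℕ) : Lf ρ (x ^ n) (M ^ n) := by
  induction n with
  | zero => rw [pow_zero, pow_zero]; exact Lf.one
  | succ n ih => rw [pow_succ, pow_succ]; exact ih.mul h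

theorem Lf.tg (s : ↥(Sp B)) : Lf ρ (ρ s) (SS.tg s) := by
  intro t
  rw [SS.cj_tg, map_mul, map_mul, map_inv]

theorem Lf.of_scal (h : Lf ρ x M) (hL : L.IsScal) : Lf ρ x (L * M) := by
  intro t
  rw [map_mul, SS.cj_of_scal hL, one_mul]
  exact h t

namespace SpEnv

variable {Ω : Type*} [MulAction G Ω] {N : Subgroup G} (E : SpEnv Ω N ρ)
include E

/-- equality of images of transvections -/
theorem line_of_eq [FiniteDimensional F V] {e e' : V} {c c' : F} (hc : c ≠ 0)
    (h : ρ (tv E.form e c) = ρ (tv E.form e' c')) : ∃ a : F, e = a • e' := by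
  have h1 : ρ (tv E.form e c * (tv E.form e' c')⁻¹) = 1 := by rw [map_mul, map_inv, h, mul_inv_cancel]
  obtain ⟨a, ha⟩ := (E.ker _).1 h1
  have h2 : ∀ v, (tv E.form e c).1 v = a • (tv E.form e' c').1 v := by
    intro v
    have h3 := ha ((tv E.form e' c').1 v)
    have h4 : ((tv E.form e c * (tv E.form e' c')⁻¹).1) ((tv E.form e' c').1 v) = (tv E.form e c).1 v := by
      show (tv E.form e c).1 ((tv E.form e' c').1.symm ((tv E.form e' c').1 v)) = _
      rw [LinearEquiv.symm_apply_apply]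
    rw [h4] at h3
    exact h3
  by_cases he : e = 0
  · exact ⟨0, by rw [he, zero_smul]⟩
  -- a vector orthogonal to both and nonzero
  have hd := E.dim
  have hW : 2 ≤ finrank F ↥(LinearMap.ker (B e) ⊓ LinearMap.ker (B e')) := by
    have h3 : finrank F V ≤ finrank F (LinearMap.ker (B e)) + 1 := by
      have := LinearMap.finrank_range_add_finrank_ker (B e)
      have h4 : finrank F (LinearMap.range (B e)) ≤ 1 := by
        calc finrank F (LinearMap.range (B e)) ≤ finrank F F := Submodule.finrank_le _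
          _ = 1 := finrank_self F
      omega
    have h5 : finrank F V ≤ finrank F (LinearMap.ker (B e')) + 1 := by
      have := LinearMap.finrank_range_add_finrank_ker (B e')
      have h4 : finrank F (LinearMap.range (B e')) ≤ 1 := by
        calc finrank F (LinearMap.range (B e')) ≤ finrank F F := Submodule.finrank_le _
          _ = 1 := finrank_self F
      omega
    have h6 := Submodule.finrank_sup_add_finrank_inf_eq (LinearMap.ker (B e)) (LinearMap.ker (B e'))
    have h7 := Submodule.finrank_le (LinearMap.ker (B e) ⊔ LinearMap.ker (B e'))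
    omega
  have : Nontrivial ↥(LinearMap.ker (B e) ⊓ LinearMap.ker (B e')) :=
    Module.nontrivial_of_finrank_pos (R := F) (by omega)
  obtain ⟨⟨w, hw⟩, hw0⟩ := exists_ne (0 : ↥(LinearMap.ker (B e) ⊓ LinearMap.ker (B e')))
  have hw1 : B e w = 0 := LinearMap.mem_ker.1 hw.1
  have hw2 : B e' w = 0 := LinearMap.mem_ker.1 hw.2
  have hwne : w ≠ 0 := fun h => hw0 (Subtype.ext h)
  have ha1 : a = 1 := by
    have h3 := h2 w
    rw [tv_apply, tv_apply, E.form.swap0 hw1, E.form.swap0 hw2, mul_zero, zero_smul, add_zero, mul_zero, zero_smul,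
      add_zero] at h3
    have h4 : (a - 1) • w = 0 := by rw [sub_smul, one_smul, ← h3, sub_self]
    rcases smul_eq_zero.1 h4 with h5 | h5
    · exact sub_eq_zero.1 h5
    · exact absurd h5 hwne
  obtain ⟨y, hy⟩ := E.form.exists_ne he
  have h3 := h2 y
  rw [ha1, one_smul, tv_apply, tv_apply, add_right_inj] at h3
  have hy' : B y e ≠ 0 := fun h0 => hy (E.form.swap0 h0)
  refine ⟨(c * B y e)⁻¹ * (c' * B y e'), ?_⟩
  rw [mul_smul, ← h3, smul_smul, inv_mul_cancel₀ (mul_ne_zero hc hy'), one_smul]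

/-- the lift is a scalar iff the element centralises `N` -/
theorem scal_iff [FiniteDimensional F V] (h : Lf ρ x M) : M.IsScal ↔ ∀ t : ↥(Sp B), x * ρ t = ρ t * x := by
  constructor
  · intro hs t
    have h1 := h t
    rw [SS.cj_of_scal hs] at h1
    exact mul_inv_eq_iff_eq_mul.1 h1
  · intro hx
    have h1 : ∀ t : ↥(Sp B), ρ (SS.cj M t) = ρ t := by
      intro t
      rw [← h t, hx t, mul_inv_cancel_right]
    have h2 : ∀ v, ∃ c : F, M.f.toAddMonoidHom v = c • v := by
      intro v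
      have h3 := h1 (tv E.form v 1)
      rw [cj_tv, map_one, one_mul] at h3
      exact E.line_of_eq (inv_ne_zero M.hl) h3
    obtain ⟨c, hc⟩ := scal_of_lines (by have := E.dim; omega) _ h2
    refine ⟨c, ?_, hc⟩
    rintro rfl
    have := E.dim
    have : Nontrivial V := Module.nontrivial_of_finrank_pos (R := F) (by omega)
    obtain ⟨w, hw⟩ := exists_ne (0 : V)
    apply hw
    apply M.injective
    have h3 := hc w
    rw [zero_smul] at h3
    rw [M.map_zero]
    exact h3

/-- `x = 1` iff the lift is a scalar -/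
theorem eq_one_iff [FiniteDimensional F V] (h : Lf ρ x M) : x = 1 ↔ M.IsScal := by
  rw [E.scal_iff h]
  constructor
  · rintro rfl t
    simp
  · intro hx
    have h1 : x ∈ Subgroup.centralizer (N : Set G) := by
      rw [Subgroup.mem_centralizer_iff]
      intro n hn
      have hn' : n ∈ N := hn
      rw [← E.range] at hn'
      obtain ⟨t, rfl⟩ := hn'
      exact (hx t).symm
    rw [E.env.cent] at h1
    exact Subgroup.mem_bot.1 h1

/-- the lifts of one element differ by a scalar -/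
theorem lf_unique [FiniteDimensional F V] (h : Lf ρ x M) (h' : Lf ρ x L) : ∃ a : F, a ≠ 0 ∧ ∀ v, L v = a • M v := by
  have h1 : Lf ρ (x * x⁻¹) (L * M⁻¹) := h'.mul h.inv
  rw [mul_inv_cancel] at h1
  obtain ⟨a, ha, h2⟩ := (E.eq_one_iff h1).1 rfl
  refine ⟨a, ha, fun v => ?_⟩
  have h3 := h2 (M v)
  rw [SS.mul_apply, SS.inv_apply_self] at h3
  exact h3

/-- lifts of commuting elements commute up to a scalar -/
theorem lf_comm [FiniteDimensional F V] (h : Lf ρ x M) (h' : Lf ρ y L) (hxy : x * y = y * x) :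
    ∃ a : F, a ≠ 0 ∧ ∀ v, M (L v) = a • L (M v) :=
  E.lf_unique (h'.mul h) (hxy ▸ h.mul h')

/-- the powers -/
theorem pow_scal [FiniteDimensional F V] (h : Lf ρ x M) {r : ℕ} (hx : x ^ r = 1) :
    ∃ a : F, a ≠ 0 ∧ ∀ v, M^[r] v = a • v := by
  have h1 := h.pow r
  rw [hx] at h1
  obtain ⟨a, ha, h2⟩ := (E.eq_one_iff h1).1 rfl
  exact ⟨a, ha, fun v => by rw [← SS.pow_apply, h2]⟩

/-- an element all of whose lifts are isometries up to scalars -/
theorem eq_of_lf [FiniteDimensional F V] (h : Lf ρ x M) {t : ↥(Sp B)} {a : F} (ha : a ≠ 0)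
    (ht : ∀ v, M v = a • t.1 v) : x = ρ t := by
  have h1 : Lf ρ (x * (ρ t)⁻¹) (M * (SS.tg t)⁻¹) := h.mul (Lf.tg t).inv
  refine mul_inv_eq_one.1 ((E.eq_one_iff h1).2 ⟨a, ha, fun v => ?_⟩)
  obtain ⟨v, rfl⟩ := (SS.tg t).surjective v
  rw [SS.mul_apply, SS.inv_apply_self, ht]
  rfl

end SpEnv

end env

end Cfsg.Agent.H520.RC
end

-- part: H520/RC/SpId
section
/-!
# S3510, row D: identification of `Sp B`, embeddings, M-rule for homomorphisms (helper520)

* `exists_spE`, `gen_tv`, `perfect_Sp`, `mem_center_Sp`, `simple_Sp`, `ncomm_Sp`, `cl_Sp`, `not_exc_Sp`,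
  `not_exc_Sp2`;
* `emb hB hA : Sp (B.restrict A) →* Sp B`;
* `SpEnv.mrule` : M-rule for an injective homomorphism `j : X →* Sp B`.
-/

set_option autoImplicit false
open Cfsg

namespace Cfsg.Agent.H520.RC

open MulAction Module Cfsg.Agent.H106.RC Cfsg.Agent.H727.GW
open Cfsg.Agent.ClassicalGeometry.SympAutSemi Cfsg.Agent.ClassicalGeometry.SympBasic
open scoped commutatorElement

universe u v

section ident

variable {F : Type u} {V : Type v} [Field F] [AddCommGroup V] [Module F V] {B : LinearMap.BilinForm F V}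

/-- the homomorphism `Sp_{2m}(F) → Sp B` given by an isometry of the spaces -/
def spHom {m : ℕ} (e : (Fin m ⊕ Fin m → F) ≃ₗ[F] V) (he : ∀ x y, B (e x) (e y) = sympForm m F x y) :
    Matrix.symplecticGroup (Fin m) F →* Sp B where
  toFun A := ⟨{ toFun := fun v => e (rho m F A (e.symm v))
                invFun := fun v => e (rho m F A⁻¹ (e.symm v))
                left_inv := fun v => by
                  show e (rho m F A⁻¹ (e.symm (e (rho m F A (e.symm v))))) = v
                  rw [e.symm_apply_apply, map_inv, perm_inv_apply_self, e.apply_symm_apply]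
                right_inv := fun v => by
                  show e (rho m F A (e.symm (e (rho m F A⁻¹ (e.symm v))))) = v
                  rw [e.symm_apply_apply, map_inv, perm_apply_inv_self, e.apply_symm_apply]
                map_add' := fun u v => by
                  rw [map_add, (isSemi_rho A).1, map_add]
                map_smul' := fun a v => by
                  rw [map_smul, (isSemi_rho A).2.1, map_smul]
                  rfl }, by
    intro u v
    show B (e (rho m F A (e.symm u))) (e (rho m F A (e.symm v))) = B u v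
    rw [he, sympForm_rho, ← he, e.apply_symm_apply, e.apply_symm_apply]⟩
  map_one' := by
    apply Subtype.ext
    apply LinearEquiv.ext
    intro v
    show e (rho m F 1 (e.symm v)) = v
    rw [map_one]
    exact e.apply_symm_apply v
  map_mul' A C := by
    apply Subtype.ext
    apply LinearEquiv.ext
    intro v
    show e (rho m F (A * C) (e.symm v)) = e (rho m F A (e.symm (e (rho m F C (e.symm v)))))
    rw [map_mul, e.symm_apply_apply]
    rfl

theorem spHom_apply {m : ℕ} (e : (Fin m ⊕ Fin m → F) ≃ₗ[F] V) (he : ∀ x y, B (e x) (e y) = sympForm m F x y)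
    (A : Matrix.symplecticGroup (Fin m) F) (v : V) : (spHom e he A).1 v = e (rho m F A (e.symm v)) := rfl

theorem spHom_bijective {m : ℕ} (e : (Fin m ⊕ Fin m → F) ≃ₗ[F] V)
    (he : ∀ x y, B (e x) (e y) = sympForm m F x y) : Function.Bijective (spHom e he) := by
  constructor
  · intro A C h
    apply rho_injective
    ext1 x
    have h1 := congrArg (fun t : Sp B => t.1 (e x)) h
    change e (rho m F A (e.symm (e x))) = e (rho m F C (e.symm (e x))) at h1
    rw [e.symm_apply_apply] at h1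
    exact e.injective h1
  · intro t
    obtain ⟨A, hA⟩ := exists_rho_eq ((e.trans (t.1.trans e.symm)).toEquiv)
      (fun u v => (e.trans (t.1.trans e.symm)).map_add u v) (fun a v => (e.trans (t.1.trans e.symm)).map_smul a v)
      (fun u v => by
        show sympForm m F (e.symm (t.1 (e u))) (e.symm (t.1 (e v))) = _
        rw [← he, e.apply_symm_apply, e.apply_symm_apply, t.2, he])
    refine ⟨A, ?_⟩
    apply Subtype.ext
    apply LinearEquiv.ext
    intro v
    rw [spHom_apply, hA]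
    show e (e.symm (t.1 (e (e.symm v)))) = _
    rw [e.apply_symm_apply, e.apply_symm_apply]

theorem exists_dim [FiniteDimensional F V] (hB : NAlt B) : ∃ m, finrank F V = 2 * m := by
  obtain ⟨k, hk⟩ := even_finrank _ V B hB.alt hB.nd rfl
  exact ⟨k, by omega⟩

theorem exists_spE [FiniteDimensional F V] (hB : NAlt B) {m : ℕ} (hm : finrank F V = 2 * m) :
    Nonempty (Matrix.symplecticGroup (Fin m) F ≃* Sp B) := by
  obtain ⟨e, he⟩ := Cfsg.Agent.ClassicalGeometry.SympIso.exists_linearEquiv_sympForm B hB.alt hB.nd hm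
  exact ⟨MulEquiv.ofBijective (spHom e he) (spHom_bijective e he)⟩

theorem spHom_transv {m : ℕ} (e : (Fin m ⊕ Fin m → F) ≃ₗ[F] V)
    (he : ∀ x y, B (e x) (e y) = sympForm m F x y) (hB : NAlt B) (w : Fin m ⊕ Fin m → F) (c : F) :
    spHom e he (transv w c) = tv hB (e w) c := by
  apply Subtype.ext
  apply LinearEquiv.ext
  intro v
  rw [spHom_apply, rho_transv, tv_apply]
  obtain ⟨v, rfl⟩ := e.surjective v
  rw [e.symm_apply_apply, he, map_add, map_smul]

/-- `Sp B` is generated by the transvections -/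
theorem gen_tv [FiniteDimensional F V] (hB : NAlt B) (K : Subgroup (Sp B)) (hK : ∀ e c, tv hB e c ∈ K) : K = ⊤ := by
  obtain ⟨m, hm⟩ := exists_dim hB
  obtain ⟨e, he⟩ := Cfsg.Agent.ClassicalGeometry.SympIso.exists_linearEquiv_sympForm B hB.alt hB.nd hm
  have h1 : (⊤ : Subgroup (Matrix.symplecticGroup (Fin m) F)) ≤ K.comap (spHom e he) := by
    rw [← S0765.result, Subgroup.closure_le]
    rintro A ⟨w, c, hA⟩
    have hA' : A = transv w c := Subtype.ext hA
    show spHom e he A ∈ K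
    rw [hA', spHom_transv e he hB]
    exact hK _ _
  rw [eq_top_iff]
  intro t _
  obtain ⟨A, rfl⟩ := (spHom_bijective e he).2 t
  exact h1 (Subgroup.mem_top A)

/-- the centre of `Sp B` is the group of scalars -/
theorem mem_center_Sp [FiniteDimensional F V] (hB : NAlt B) {t : Sp B} :
    t ∈ Subgroup.center (Sp B) ↔ ∃ a : F, ∀ v, t.1 v = a • v := by
  constructor
  · intro ht
    by_cases hV : ∃ v : V, v ≠ 0
    · obtain ⟨v0, hv0⟩ := hV
      obtain ⟨m, hm⟩ := exists_dim hB
      have hd : 2 ≤ finrank F V := by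
        have : Nontrivial V := ⟨⟨v0, 0, hv0⟩⟩
        have : 0 < finrank F V := Module.finrank_pos
        omega
      have h2 : ∀ v, ∃ c : F, t.1.toAddEquiv.toAddMonoidHom v = c • v := by
        intro v
        by_cases hv : v = 0
        · exact ⟨0, by rw [hv]; simp only [_root_.AddEquiv.toAddMonoidHom_eq_coe, _root_.AddMonoidHom.coe_coe, _root_.AddEquiv.coe_mk, _root_.AddHom.toFun_eq_coe, _root_.LinearMap.coe_toAddHom, _root_.LinearEquiv.coe_coe, _root_.LinearEquiv.invFun_eq_symm, _root_.Equiv.coe_fn_mk, _root_.map_zero, _root_.smul_zero]⟩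
        have h3 : SS.cj (SS.tg t) (tv hB v 1) = tv hB v 1 := by
          rw [SS.cj_tg, ← Subgroup.mem_center_iff.1 ht, mul_inv_cancel_right]
        rw [cj_tv] at h3
        obtain ⟨y, hy⟩ := hB.exists_ne hv
        have h4 := congrArg (fun s : Sp B => s.1 y) h3
        change (tv hB (SS.tg t v) _).1 y = (tv hB v 1).1 y at h4
        rw [tv_apply, tv_apply, add_right_inj] at h4
        have h5 : (SS.tg t).σ 1 * (SS.tg t).l⁻¹ = 1 := by rw [map_one, one_mul]; exact inv_one
        rw [h5, one_mul, one_mul] at h4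
        have h6 : B y v ≠ 0 := fun h0 => hy (hB.swap0 h0)
        have h7 : B y (SS.tg t v) ≠ 0 := by
          intro h0
          rw [h0, zero_smul] at h4
          rcases smul_eq_zero.1 h4.symm with h8 | h8
          · exact h6 h8
          · exact hv h8
        refine ⟨(B y (SS.tg t v))⁻¹ * B y v, ?_⟩
        show SS.tg t v = _
        rw [mul_smul, ← h4, smul_smul, inv_mul_cancel₀ h7, one_smul]
      obtain ⟨c, hc⟩ := scal_of_lines hd _ h2
      exact ⟨c, hc⟩
    · push Not at hV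
      exact ⟨1, fun v => by rw [hV v, map_zero, smul_zero]⟩
  · rintro ⟨a, ha⟩
    rw [Subgroup.mem_center_iff]
    intro s
    apply Subtype.ext
    apply LinearEquiv.ext
    intro v
    show s.1 (t.1 v) = t.1 (s.1 v)
    rw [ha, ha, map_smul]

section fin

variable [Finite F] [FiniteDimensional F V]

/-- `Sp B` is perfect -/
theorem perfect_Sp (hB : NAlt B)
    (h : 6 ≤ finrank F V ∨ (finrank F V = 4 ∧ 3 ≤ Nat.card F) ∨ 4 ≤ Nat.card F) :
    commutator (Sp B) = ⊤ := by
  have : Fintype F := Fintype.ofFinite F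
  obtain ⟨m, hm⟩ := exists_dim hB
  obtain ⟨e⟩ := exists_spE hB hm
  have h1 : commutator (Matrix.symplecticGroup (Fin m) F) = ⊤ := by
    apply Cfsg.Agent.LieClassical.SympPerfect.commutator_eq_top
    rw [← Nat.card_eq_fintype_card]
    rcases h with h | h | h
    · left; omega
    · right; left; exact ⟨by omega, h.2⟩
    · right; right; exact h
  have h2 := Subgroup.map_commutator (⊤ : Subgroup (Matrix.symplecticGroup (Fin m) F)) ⊤ e.toMonoidHom
  rw [← commutator_def, h1, ← MonoidHom.range_eq_map, MonoidHom.range_eq_top.2 e.surjective] at h2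
  exact h2.symm

omit [Finite F] in
theorem card_quot (hB : NAlt B) {m : ℕ} (hm : finrank F V = 2 * m) :
    Nonempty ((Sp B ⧸ Subgroup.center (Sp B)) ≃* PSp m F) := by
  obtain ⟨e⟩ := exists_spE hB hm
  exact ⟨(Cfsg.Agent.LieClassical.FieldTransfer.centralQuotientCongr e).symm⟩

/-- `Sp_2 = SL_2` -/
def spTwo (F : Type u) [Field F] : Matrix.symplecticGroup (Fin 1) F ≃* Matrix.SpecialLinearGroup (Fin 2) F where
  toFun A := ⟨Matrix.reindex finSumFinEquiv finSumFinEquiv (A : Matrix (Fin 1 ⊕ Fin 1) (Fin 1 ⊕ Fin 1) F), by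
    rw [Matrix.det_reindex_self]
    exact (S0244.result _).1 A.2⟩
  invFun A := ⟨Matrix.reindex finSumFinEquiv.symm finSumFinEquiv.symm (A : Matrix (Fin 2) (Fin 2) F), by
    rw [S0244.result, Matrix.det_reindex_self]
    exact A.2⟩
  left_inv A := by
    apply Subtype.ext
    ext i j
    simp
  right_inv A := by
    apply Subtype.ext
    ext i j
    simp
  map_mul' A B := by
    apply Subtype.ext
    change Matrix.reindex finSumFinEquiv finSumFinEquiv (A.1 * B.1) =
      Matrix.reindex finSumFinEquiv finSumFinEquiv A.1 * Matrix.reindex finSumFinEquiv finSumFinEquiv B.1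
    rw [Matrix.reindex_apply, Matrix.reindex_apply, Matrix.reindex_apply, Matrix.submatrix_mul_equiv]

/-- `PSp_2 = PSL_2` -/
def pspOne (F : Type u) [Field F] : PSp 1 F ≃* Matrix.ProjectiveSpecialLinearGroup (Fin 2) F :=
  Cfsg.Agent.LieClassical.FieldTransfer.centralQuotientCongr (spTwo F)

/-- the central quotient is simple -/
theorem simple_Sp (hB : NAlt B)
    (h : 6 ≤ finrank F V ∨ (finrank F V = 4 ∧ 3 ≤ Nat.card F) ∨ (finrank F V ≠ 0 ∧ 4 ≤ Nat.card F)) :
    IsSimpleGroup (Sp B ⧸ Subgroup.center (Sp B)) := by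
  have : Fintype F := Fintype.ofFinite F
  obtain ⟨m, hm⟩ := exists_dim hB
  obtain ⟨e⟩ := card_quot hB hm
  have h0 := Nat.card_eq_fintype_card (α := F)
  by_cases h1 : m = 1
  · subst h1
    refine isSimple_cgr0 (e.trans (pspOne F)).symm ?_
    apply Matrix.ProjectiveSpecialLinearGroup.rank_two_simple
    omega
  · exact isSimple_cgr0 e.symm (S0270.result m (by omega) (by omega))

/-- ... not abelian ... -/
theorem ncomm_Sp (hB : NAlt B)
    (h : 6 ≤ finrank F V ∨ (finrank F V = 4 ∧ 3 ≤ Nat.card F) ∨ (finrank F V ≠ 0 ∧ 4 ≤ Nat.card F)) :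
    ¬ IsMulCommutative (Sp B ⧸ Subgroup.center (Sp B)) := by
  intro hc
  have hs := simple_Sp hB h
  have hp := perfect_Sp hB (by rcases h with h | h | h <;> tauto)
  have : Nontrivial (Sp B ⧸ Subgroup.center (Sp B)) := hs.toNontrivial
  have h1 : commutator (Sp B) ≤ Subgroup.center (Sp B) := by
    rw [commutator_def, Subgroup.commutator_le]
    intro a _ b _
    rw [← QuotientGroup.eq_one_iff]
    have h2 : (QuotientGroup.mk a : Sp B ⧸ Subgroup.center (Sp B)) * QuotientGroup.mk b =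
        QuotientGroup.mk b * QuotientGroup.mk a := hc.is_comm.comm _ _
    rw [commutatorElement_def, QuotientGroup.mk_mul, QuotientGroup.mk_mul, QuotientGroup.mk_mul, h2]
    simp only [_root_.QuotientGroup.mk_inv, _root_.mul_inv_cancel_right, _root_.mul_inv_cancel]
  rw [hp] at h1
  have h3 : (Subgroup.center (Sp B)) = ⊤ := top_le_iff.1 h1
  have h4 : Subsingleton (Sp B ⧸ Subgroup.center (Sp B)) := by
    rw [h3]
    exact QuotientGroup.subsingleton_quotient_top
  exact not_subsingleton _ h4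

/-- ... not exceptional ... -/
theorem not_exc_Sp (hB : NAlt B) (h : 6 ≤ finrank F V ∨ (finrank F V = 4 ∧ 3 ≤ Nat.card F)) :
    ¬ Exc (Sp B ⧸ Subgroup.center (Sp B)) := by
  have : Fintype F := Fintype.ofFinite F
  obtain ⟨m, hm⟩ := exists_dim hB
  obtain ⟨e⟩ := card_quot hB hm
  have h0 := Nat.card_eq_fintype_card (α := F)
  intro hx
  refine psp_not_exc (F := F) (m := m) (by omega) (by omega) ?_
  rcases hx with ⟨⟨f⟩⟩ | ⟨⟨f⟩⟩ | ⟨⟨f⟩⟩
  · exact Or.inl ⟨e.symm.trans f⟩
  · exact Or.inr (Or.inl ⟨e.symm.trans f⟩)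
  · exact Or.inr (Or.inr ⟨e.symm.trans f⟩)

theorem not_exc_Sp2 (hB : NAlt B) (h2 : finrank F V = 2) (h4 : Nat.card F ≠ 4) (h5 : Nat.card F ≠ 5)
    (h9 : Nat.card F ≠ 9) : ¬ Exc (Sp B ⧸ Subgroup.center (Sp B)) := by
  have : Fintype F := Fintype.ofFinite F
  obtain ⟨e⟩ := card_quot hB (m := 1) (by omega)
  have h0 := Nat.card_eq_fintype_card (α := F)
  intro hx
  have h1 := psl_exc (F := F) (n := 2) le_rfl (by
    rcases hx with ⟨⟨f⟩⟩ | ⟨⟨f⟩⟩ | ⟨⟨f⟩⟩
    · exact Or.inl ⟨(e.trans (pspOne F)).symm.trans f⟩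
    · exact Or.inr (Or.inl ⟨(e.trans (pspOne F)).symm.trans f⟩)
    · exact Or.inr (Or.inr ⟨(e.trans (pspOne F)).symm.trans f⟩))
  omega

end fin

/-- ... and classical -/
theorem cl_Sp {F V : Type} [Field F] [Finite F] [AddCommGroup V] [Module F V] [FiniteDimensional F V]
    {B : LinearMap.BilinForm F V} (hB : NAlt B)
    (h : 6 ≤ finrank F V ∨ (finrank F V = 4 ∧ 3 ≤ Nat.card F) ∨ (finrank F V ≠ 0 ∧ 4 ≤ Nat.card F)) :
    Cl (Sp B ⧸ Subgroup.center (Sp B)) := by
  have : Fintype F := Fintype.ofFinite F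
  obtain ⟨m, hm⟩ := exists_dim hB
  obtain ⟨e⟩ := card_quot hB hm
  have h0 := Nat.card_eq_fintype_card (α := F)
  by_cases h1 : m = 1
  · subst h1
    exact Or.inl ⟨F, inferInstance, inferInstance, 2, le_rfl, fun _ => by omega, ⟨e.trans (pspOne F)⟩⟩
  · exact Or.inr (Or.inl ⟨F, inferInstance, inferInstance, m, by omega, by omega, ⟨e⟩⟩)

section emb

variable [FiniteDimensional F V]

omit [FiniteDimensional F V] in
theorem sub_nd {A : Submodule F V} (hA : NAlt (B.restrict A)) :
    ∀ c ∈ A, (∀ c' ∈ A, B c c' = 0) → c = 0 := by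
  intro c hc h
  exact congrArg Subtype.val (hA.nd ⟨c, hc⟩ fun y => h y.1 y.2)

/-- the isometries of a nondegenerate subspace -/
noncomputable def emb (hB : NAlt B) {A : Submodule F V} (hA : NAlt (B.restrict A)) : Sp (B.restrict A) →* Sp B where
  toFun t := ⟨glue hB.alt A (sub_nd hA) t.1, glue_mem hB.alt A (sub_nd hA) t.2⟩
  map_one' := by
    apply Subtype.ext
    apply LinearEquiv.ext
    intro v
    obtain ⟨c, d, hd, rfl⟩ := exists_decomp hB.alt A (sub_nd hA) v
    exact glue_apply hB.alt A (sub_nd hA) _ c d hd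
  map_mul' s t := by
    apply Subtype.ext
    apply LinearEquiv.ext
    intro v
    obtain ⟨c, d, hd, rfl⟩ := exists_decomp hB.alt A (sub_nd hA) v
    show glue hB.alt A (sub_nd hA) (s.1 * t.1) (c + d) =
      glue hB.alt A (sub_nd hA) s.1 (glue hB.alt A (sub_nd hA) t.1 (c + d))
    rw [glue_apply hB.alt A (sub_nd hA) _ c d hd, glue_apply hB.alt A (sub_nd hA) _ c d hd,
      glue_apply hB.alt A (sub_nd hA) _ _ d hd]
    rfl

theorem emb_apply_mem (hB : NAlt B) {A : Submodule F V} (hA : NAlt (B.restrict A)) (t : Sp (B.restrict A)) (a : A) :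
    (emb hB hA t).1 (a : V) = t.1 a := by
  have h := glue_apply hB.alt A (sub_nd hA) t.1 a 0 (Submodule.zero_mem _)
  rw [add_zero, add_zero] at h
  exact h

theorem emb_apply_orth (hB : NAlt B) {A : Submodule F V} (hA : NAlt (B.restrict A)) (t : Sp (B.restrict A)) {d : V}
    (hd : d ∈ B.orthogonal A) : (emb hB hA t).1 d = d := by
  have h := glue_apply hB.alt A (sub_nd hA) t.1 0 d hd
  rw [Submodule.coe_zero, zero_add, map_zero, Submodule.coe_zero, zero_add] at h
  exact h

theorem emb_injective (hB : NAlt B) {A : Submodule F V} (hA : NAlt (B.restrict A)) :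
    Function.Injective (emb hB hA) := by
  intro s t h
  apply Subtype.ext
  apply LinearEquiv.ext
  intro a
  apply Subtype.ext
  rw [← emb_apply_mem hB hA, ← emb_apply_mem hB hA, h]

/-- two isometries are equal if they agree on `A` and on `A^⊥` -/
theorem ext_orth (hB : NAlt B) {A : Submodule F V} (hA : NAlt (B.restrict A)) {s t : Sp B}
    (h1 : ∀ a ∈ A, s.1 a = t.1 a) (h2 : ∀ d ∈ B.orthogonal A, s.1 d = t.1 d) : s = t := by
  apply Subtype.ext
  apply LinearEquiv.ext
  intro v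
  obtain ⟨c, d, hd, rfl⟩ := exists_decomp hB.alt A (sub_nd hA) v
  rw [map_add, map_add, h1 c c.2, h2 d hd]

theorem emb_tv (hB : NAlt B) {A : Submodule F V} (hA : NAlt (B.restrict A)) (a : A) (c : F) :
    emb hB hA (tv hA a c) = tv hB (a : V) c := by
  apply ext_orth hB hA
  · intro b hb
    rw [show b = ((⟨b, hb⟩ : A) : V) from rfl, emb_apply_mem, tv_apply, tv_apply]
    rfl
  · intro d hd
    rw [emb_apply_orth hB hA _ hd, tv_apply,
      hB.swap0 ((LinearMap.BilinForm.mem_orthogonal_iff.1 hd) a a.2), mul_zero, zero_smul, add_zero]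

end emb

/-- restriction of a semisimilitude to an invariant subspace -/
noncomputable def SS.res [Finite V] (M : SS B) (A : Submodule F V) (hA : ∀ v ∈ A, M v ∈ A) : SS (B.restrict A) where
  f := AddEquiv.ofBijective
    ({ toFun := fun a => ⟨M a, hA a a.2⟩
       map_zero' := Subtype.ext M.map_zero
       map_add' := fun a b => Subtype.ext (M.map_add a b) } : A →+ A) (by
      rw [← Finite.injective_iff_bijective]
      intro a b h
      exact Subtype.ext (M.injective (congrArg Subtype.val h)))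
  σ := M.σ
  l := M.l
  hl := M.hl
  smul' a v := Subtype.ext (M.map_smul a v)
  form' u v := M.form u v

theorem SS.res_apply [Finite V] (M : SS B) (A : Submodule F V) (hA : ∀ v ∈ A, M v ∈ A) (a : A) :
    ((M.res A hA a : A) : V) = M a := rfl

theorem SS.mem_of_mem [Finite V] (M : SS B) (A : Submodule F V) (hA : ∀ v ∈ A, M v ∈ A) {v : V} (hv : M v ∈ A) :
    v ∈ A := by
  obtain ⟨a, ha⟩ := (M.res A hA).surjective ⟨M v, hv⟩
  have h := congrArg Subtype.val ha
  rw [M.res_apply] at h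
  rw [← M.injective h]
  exact a.2

theorem SS.orth_mem [Finite V] (M : SS B) (A : Submodule F V) (hA : ∀ v ∈ A, M v ∈ A) {d : V}
    (hd : d ∈ B.orthogonal A) : M d ∈ B.orthogonal A := by
  rw [LinearMap.BilinForm.mem_orthogonal_iff] at hd ⊢
  intro a ha
  obtain ⟨a', rfl⟩ := M.surjective a
  have h1 := hd a' (M.mem_of_mem A hA ha)
  show B (M a') (M d) = 0
  rw [M.form, show B a' d = 0 from h1, _root_.map_zero, mul_zero]

theorem cj_emb [Finite V] [FiniteDimensional F V] (hB : NAlt B) {A : Submodule F V} (hA : NAlt (B.restrict A))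
    (M : SS B) (hM : ∀ v ∈ A, M v ∈ A) (t : Sp (B.restrict A)) :
    SS.cj M (emb hB hA t) = emb hB hA (SS.cj (M.res A hM) t) := by
  apply SS.cj_eq
  intro v
  obtain ⟨c, d, hd, rfl⟩ := exists_decomp hB.alt A (sub_nd hA) v
  rw [M.map_add, map_add, map_add, M.map_add, emb_apply_orth hB hA _ hd, emb_apply_orth hB hA _ (M.orth_mem A hM hd),
    ← M.res_apply A hM, emb_apply_mem, emb_apply_mem, SS.cj_apply]
  rfl

end ident

section cent

variable {F : Type u} {V : Type v} [Field F] [AddCommGroup V] [Module F V] {B : LinearMap.BilinForm F V}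
  {G : Type*} [Group G] {Ω : Type*} [MulAction G Ω] {N : Subgroup G} {ρ : ↥(Sp B) →* G}

/-- scalars are central in `Sp B` -/
theorem scal_central {t : Sp B} (h : ∃ a : F, ∀ v, t.1 v = a • v) (s : Sp B) : s * t = t * s := by
  obtain ⟨a, ha⟩ := h
  apply Subtype.ext
  apply LinearEquiv.ext
  intro v
  show s.1 (t.1 v) = t.1 (s.1 v)
  rw [ha, ha, map_smul]

/-- an element centralises the image of a perfect group iff its lift commutes with it -/
theorem SpEnv.cent_iff (E : SpEnv Ω N ρ) {x : G} {M : SS B} (h : Lf ρ x M) {X : Type*} [Group X]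
    (j : X →* Sp B) (hperf : commutator X = ⊤) :
    (∀ s, x * ρ (j s) = ρ (j s) * x) ↔ ∀ s v, M ((j s).1 v) = (j s).1 (M v) := by
  constructor
  · intro hx
    have h1 : ∀ s, SS.cj M (j s) * (j s)⁻¹ ∈ ρ.ker := by
      intro s
      rw [MonoidHom.mem_ker, map_mul, map_inv, ← h, hx, mul_inv_cancel_right, mul_inv_cancel]
    have h2 : ∀ s (u : Sp B), u * (SS.cj M (j s) * (j s)⁻¹) = (SS.cj M (j s) * (j s)⁻¹) * u := fun s u =>
      scal_central ((E.ker _).1 (h1 s)) u
    let φ : X →* Sp B :=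
      { toFun := fun s => SS.cj M (j s) * (j s)⁻¹
        map_one' := by simp only [_root_.map_one, _root_.inv_one, _root_.mul_one]
        map_mul' := fun s t => by
          have h3 := h2 t (SS.cj M (j s))
          calc SS.cj M (j (s * t)) * (j (s * t))⁻¹
              = (SS.cj M (j s) * (SS.cj M (j t) * (j t)⁻¹)) * (j s)⁻¹ := by
                rw [map_mul, map_mul, mul_inv_rev]; group
            _ = (SS.cj M (j t) * (j t)⁻¹) * (SS.cj M (j s) * (j s)⁻¹) := by rw [h3, mul_assoc]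
            _ = SS.cj M (j s) * (j s)⁻¹ * (SS.cj M (j t) * (j t)⁻¹) := by rw [h2 t] }
    have h3 : commutator X ≤ φ.ker := by
      rw [commutator_def, Subgroup.commutator_le]
      intro a _ b _
      rw [MonoidHom.mem_ker, map_commutatorElement, commutatorElement_eq_one_iff_mul_comm]
      exact (h2 b (φ a))
    intro s v
    have h4 : φ s = 1 := by
      have : s ∈ commutator X := by rw [hperf]; trivial
      exact h3 this
    have h5 : SS.cj M (j s) = j s := mul_inv_eq_one.1 h4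
    have h6 := SS.cj_apply M (j s) v
    rw [h5] at h6
    exact h6.symm
  · intro hM s
    have h1 : SS.cj M (j s) = j s := SS.cj_eq fun v => (hM s v).symm
    have h2 := h (j s)
    rw [h1] at h2
    exact mul_inv_eq_iff_eq_mul.1 h2

/-- the image of a proper subgroup is proper -/
theorem SpEnv.range_ne (E : SpEnv Ω N ρ) (hp : commutator (Sp B) = ⊤) {X : Type*} [Group X] (j : X →* Sp B)
    (hj : ¬ Function.Surjective j) : (ρ.comp j).range ≠ N := by
  intro hN
  apply hj
  rw [← MonoidHom.range_eq_top]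
  have h1 : ∀ t : Sp B, ∃ s, ∀ u : Sp B, u * (t * (j s)⁻¹) = (t * (j s)⁻¹) * u := by
    intro t
    have h2 : ρ t ∈ (ρ.comp j).range := by
      rw [hN, ← E.range]
      exact ⟨t, rfl⟩
    obtain ⟨s, hs⟩ := h2
    refine ⟨s, scal_central ((E.ker _).1 ?_)⟩
    have hs' : ρ (j s) = ρ t := hs
    rw [map_mul, map_inv, hs', mul_inv_cancel]
  rw [eq_top_iff, ← hp, commutator_def, Subgroup.commutator_le]
  intro a _ b _
  obtain ⟨s, hs⟩ := h1 a
  obtain ⟨t, ht⟩ := h1 b
  refine ⟨⁅s, t⁆, ?_⟩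
  rw [map_commutatorElement]
  set z := a * (j s)⁻¹ with hz
  set w := b * (j t)⁻¹ with hw
  have ha : a = z * j s := by rw [hz]; group
  have hb : b = w * j t := by rw [hw]; group
  have hzc : ∀ u, Commute u z := hs
  have hwc : ∀ u, Commute u w := ht
  rw [ha, hb, commutatorElement_def, commutatorElement_def]
  have e1 : z * j s * (w * j t) * (z * j s)⁻¹ * (w * j t)⁻¹ =
      z * (j s * w) * j t * (j s)⁻¹ * z⁻¹ * (j t)⁻¹ * w⁻¹ := by group
  rw [e1, (hwc (j s)).eq]
  have e2 : z * (w * j s) * j t * (j s)⁻¹ * z⁻¹ * (j t)⁻¹ * w⁻¹ =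
      z * (w * j s * j t * (j s)⁻¹) * z⁻¹ * (j t)⁻¹ * w⁻¹ := by group
  rw [e2, ← (hzc _).eq]
  have e3 : w * j s * j t * (j s)⁻¹ * z * z⁻¹ * (j t)⁻¹ * w⁻¹ =
      w * (j s * j t * (j s)⁻¹ * (j t)⁻¹) * w⁻¹ := by group
  rw [e3, ← (hwc _).eq, mul_inv_cancel_right]

end cent

section mrule

variable {F : Type u} {V : Type v} [Field F] [AddCommGroup V] [Module F V] {B : LinearMap.BilinForm F V}

/-- the M-rule for an injective homomorphism `j : X →* Sp B`; `X` perfect, `X / Z(X)` simple and either classical, not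
exceptional, or only one of the elements acts nontrivially -/
theorem SpEnv.mrule {G : Type} [Group G] [Finite G] {Ω : Type} [MulAction G Ω] {N : Subgroup G} {ρ : ↥(Sp B) →* G}
    (E : SpEnv Ω N ρ) (hIH : IH (Nat.card N)) {X : Type} [Group X] [Finite X] (j : X →* Sp B)
    (hj : Function.Injective j) (hne : (ρ.comp j).range ≠ N) (hperf : commutator X = ⊤)
    (h1 : IsSimpleGroup (X ⧸ Subgroup.center X)) (h2 : ¬ IsMulCommutative (X ⧸ Subgroup.center X))
    {ι : Type} [Finite ι] {x : ι → G} {r : ι → ℕ} {M : ι → SS B} (hl : ∀ i, Lf ρ (x i) (M i)) (hx : PF x r)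
    (hcov : Cov Ω x) (hnorm : ∀ i (s : X), ∃ s', SS.cj (M i) (j s) = j s')
    (hg : (Cl (X ⧸ Subgroup.center X) ∧ ¬ Exc (X ⧸ Subgroup.center X)) ∨
      ∃ i₀, ∀ i, i ≠ i₀ → ∀ s, x i * ρ (j s) = ρ (j s) * x i) (ω : Ω) :
    (∀ s, ρ (j s) • ω = ω) ∨ ∃ i, (∀ s, x i * ρ (j s) = ρ (j s) * x i) ∧ x i • ω = ω := by
  set f : X →* G := ρ.comp j with hf
  have hker : ∀ s, f s = 1 → s ∈ Subgroup.center X := by
    intro s hs
    rw [Subgroup.mem_center_iff]
    intro t
    apply hj
    rw [map_mul, map_mul]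
    exact scal_central ((E.ker _).1 hs) (j t)
  set K : Subgroup G := f.range with hK
  have hKperf : ⁅K, K⁆ = K := by
    have h3 := Subgroup.map_commutator (⊤ : Subgroup X) ⊤ f
    rw [← commutator_def, hperf, ← MonoidHom.range_eq_map] at h3
    exact h3.symm
  have hlift : ∀ m : K, ∃ s, f s = m := fun m => m.2
  let π : K →* X ⧸ Subgroup.center X :=
    { toFun := fun m => QuotientGroup.mk (hlift m).choose
      map_one' := by
        rw [QuotientGroup.eq_one_iff]
        exact hker _ (hlift 1).choose_spec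
      map_mul' := fun m n => by
        rw [← QuotientGroup.mk_mul, QuotientGroup.eq]
        apply hker
        rw [map_mul, map_inv, map_mul, (hlift _).choose_spec, (hlift _).choose_spec, (hlift _).choose_spec]
        rw [Subgroup.coe_mul]
        group }
  have hπ : ∀ s, π ⟨f s, s, rfl⟩ = QuotientGroup.mk s := by
    intro s
    show QuotientGroup.mk (hlift ⟨f s, s, rfl⟩).choose = _
    rw [QuotientGroup.eq]
    apply hker
    rw [map_mul, map_inv, (hlift _).choose_spec, inv_mul_cancel]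
  have hπs : Function.Surjective π := by
    intro y
    obtain ⟨s, rfl⟩ := QuotientGroup.mk_surjective y
    exact ⟨_, hπ s⟩
  have hπk : π.ker ≤ Subgroup.center K := by
    rintro ⟨_, s, rfl⟩ hs
    rw [MonoidHom.mem_ker] at hs
    rw [hπ, QuotientGroup.eq_one_iff] at hs
    rw [Subgroup.mem_center_iff]
    rintro ⟨_, t, rfl⟩
    apply Subtype.ext
    show f t * f s = f s * f t
    rw [← map_mul, ← map_mul, Subgroup.mem_center_iff.1 hs]
  have hKN : K ≤ N := by
    rintro _ ⟨s, rfl⟩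
    rw [← E.range]
    exact ⟨j s, rfl⟩
  have hnK : ∀ i, x i ∈ Subgroup.normalizer (K : Set G) := by
    intro i
    have h3 : ∀ m ∈ K, x i * m * (x i)⁻¹ ∈ K := by
      rintro _ ⟨s, rfl⟩
      obtain ⟨s', hs'⟩ := hnorm i s
      refine ⟨s', ?_⟩
      show ρ (j s') = x i * ρ (j s) * (x i)⁻¹
      rw [hl i, hs']
    rw [Subgroup.mem_normalizer_iff]
    intro m
    refine ⟨fun hm => h3 m hm, fun hm => ?_⟩
    have h4 : ∀ n : ℕ, x i ^ n * (x i * m * (x i)⁻¹) * (x i ^ n)⁻¹ ∈ K := by
      intro n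
      induction n with
      | zero => simpa only [_root_.pow_zero, _root_.one_mul, _root_.inv_one, _root_.mul_one] using hm
      | succ n ih =>
        have h5 := h3 _ ih
        have h6 : x i * (x i ^ n * (x i * m * (x i)⁻¹) * (x i ^ n)⁻¹) * (x i)⁻¹ =
            x i ^ (n + 1) * (x i * m * (x i)⁻¹) * (x i ^ (n + 1))⁻¹ := by
          rw [pow_succ']
          group
        rwa [h6] at h5
    obtain ⟨n, hn⟩ : ∃ n, r i = n + 1 := ⟨r i - 1, by have := (hx.prime i).pos; omega⟩
    have h4 := h4 n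
    have h5 : x i ^ n = (x i)⁻¹ := by
      rw [eq_inv_iff_mul_eq_one, ← pow_succ, ← hn]
      exact hx.pow i
    rw [h5] at h4
    have h6 : (x i)⁻¹ * (x i * m * (x i)⁻¹) * ((x i)⁻¹)⁻¹ = m := by group
    rwa [h6] at h4
  have hconv : (K ≤ stabilizer G ω ∨ ∃ i, (∀ m ∈ K, x i * m = m * x i) ∧ x i • ω = ω) →
      ((∀ s, ρ (j s) • ω = ω) ∨ ∃ i, (∀ s, x i * ρ (j s) = ρ (j s) * x i) ∧ x i • ω = ω) := by
    rintro (h3 | ⟨i, h3, h4⟩)
    · exact Or.inl fun s => h3 ⟨s, rfl⟩
    · exact Or.inr ⟨i, fun s => h3 _ ⟨s, rfl⟩, h4⟩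
  apply hconv
  rcases hg with ⟨hcl, hexc⟩ | ⟨i₀, hi₀⟩
  · exact mrule_IH (S := N) hIH (MulEquiv.refl N) hKN hne hKperf π hπs hπk h1 h2 hcl hexc hx hcov hnK ω
  · exact mrule_one h1 h2 x r hx.prime hx.inj hx.pow hx.comm K hKperf π hπs hπk i₀ (hnK i₀)
      (fun i hi m hm => by
        obtain ⟨s, rfl⟩ := hm
        exact hi₀ i hi s) ω (fun m _ => hcov _)

end mrule

end Cfsg.Agent.H520.RC
end
end

-- part: H194/RC/SpEx_mg
section
prune_inst 0x4400002210000000000002000000000000000000000000000200020000000000000000000000000008000000000000000000400000000a000000000000000000000000000000000000000000000000000000000000000000000000000000000000000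
set_option linter.all false
open scoped Cfsg.Agent.FastGrp

-- part: H194/RC/SpEx
section
/-!
# S3510, row D (symplectic groups): the environment exists (helper194)

* `exists_rho` : the homomorphism `Sp B →* G`, and the lifts of the elements induced by semisimilitudes;
* `exists_spEnv` : `PSp_{2m}(F)`, `m ≥ 3` or `F` of odd characteristic.
-/

set_option autoImplicit false
open Cfsg

namespace Cfsg.Agent.H194.RC

open MulAction Module Cfsg.Agent.H106.RC Cfsg.Agent.H520.RC
open Cfsg.Agent.ClassicalGeometry.SympAutSemi Cfsg.Agent.ClassicalGeometry.SympBasic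

theorem nalt_symp (m : ℕ) (F : Type*) [Field F] : NAlt (sympBilin m F) where
  alt := fun x => sympForm_self x
  nd := fun x h => by
    refine eq_zero_of_forall_sympForm_right fun y => ?_
    have h1 := h y
    change sympForm m F x y = 0 at h1
    exact h1

/-- the homomorphism `Sp B →* G` for `N ≅ PSp`, and the lifts of the elements of `G` induced by semisimilitudes -/
theorem exists_rho {m : ℕ} {F : Type*} [Field F] {G : Type*} [Group G] {N : Subgroup G} (e : N ≃* PSp m F) :
    ∃ ρ : ↥(Sp (sympBilin m F)) →* G, ρ.range = N ∧ (∀ t : ↥(Sp (sympBilin m F)), ρ t = 1 ↔ ∃ a : F, ∀ v, t.1 v = a • v) ∧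
      (∀ (A : Matrix.symplecticGroup (Fin m) F) (t : ↥(Sp (sympBilin m F))), (∀ v, t.1 v = rho m F A v) →
        ρ t = ((e.symm (QuotientGroup.mk A) : N) : G)) ∧
      ∀ (x : G) (g : semiSim m F), (∀ n : N, ((e.symm (Psi m F g (e n)) : N) : G) = x * n * x⁻¹) →
        ∃ M : SS (sympBilin m F), (∀ v, M v = g.1 v) ∧ Lf ρ x M := by
  have hob_ : ∃ s : Matrix.symplecticGroup (Fin m) F ≃* Sp (sympBilin m F), ∀ A v, (s A).1 v = rho m F A v :=
    ⟨MulEquiv.ofBijective (spHom (LinearEquiv.refl F _) fun _ _ => rfl) (spHom_bijective _ _), fun A v => rfl⟩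
  obtain ⟨s, hs1⟩ := hob_
  have hob_ : ∃ ρ : ↥(Sp (sympBilin m F)) →* G, ∀ A, ρ (s A) = ((e.symm (QuotientGroup.mk A) : N) : G) :=
    ⟨N.subtype.comp (e.symm.toMonoidHom.comp ((QuotientGroup.mk' _).comp s.symm.toMonoidHom)), fun A => by
      change ((e.symm (QuotientGroup.mk (s.symm (s A))) : N) : G) = _
      rw [s.symm_apply_apply]⟩
  obtain ⟨ρ, hρ⟩ := hob_
  refine ⟨ρ, ?_, ?_, ?_, ?_⟩
  · ext x
    constructor
    · rintro ⟨t, rfl⟩
      obtain ⟨A, rfl⟩ := s.surjective t
      rw [hρ]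
      exact (e.symm (QuotientGroup.mk A)).2
    · intro hx
      obtain ⟨A, hA⟩ := QuotientGroup.mk_surjective (e ⟨x, hx⟩)
      refine ⟨s A, ?_⟩
      rw [hρ, hA, e.symm_apply_apply]
  · intro t
    rw [← mem_center_Sp (nalt_symp m F)]
    obtain ⟨A, rfl⟩ := s.surjective t
    rw [hρ]
    have h1 : (((e.symm (QuotientGroup.mk A) : N) : G) = 1) ↔ A ∈ Subgroup.center (Matrix.symplecticGroup (Fin m) F) := by
      rw [← QuotientGroup.eq_one_iff]
      constructor
      · intro h
        have h2 : e.symm (QuotientGroup.mk A) = 1 := Subtype.ext h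
        have h3 := congrArg e h2
        rwa [e.apply_symm_apply, map_one] at h3
      · intro h
        rw [h, map_one]
        rfl
    rw [h1, Subgroup.mem_center_iff, Subgroup.mem_center_iff]
    constructor
    · intro h t
      have hob_ := s.surjective t
      obtain ⟨C, rfl⟩ := hob_
      rw [← map_mul, ← map_mul, h C]
    · intro h C
      apply s.injective
      rw [map_mul, map_mul, h]
  · intro A t h
    have h1 : t = s A := Subtype.ext (LinearEquiv.ext fun v => by rw [h, hs1])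
    rw [h1, hρ]
  · intro x g hα
    obtain ⟨σ, l, hl, hg⟩ := id g.2
    refine ⟨⟨⟨g.1, hg.1⟩, σ, l, hl, hg.2.1, hg.2.2⟩, fun v => rfl, fun t => ?_⟩
    have hob_ := s.surjective t
    obtain ⟨A, rfl⟩ := hob_
    ((conv => enter [@2, @5, @6]; rw [hρ]); (conv => enter [@2]; rw [← hα]); (conv => enter [@2, @3, @6, @6]; rw [e.apply_symm_apply]); (conv => enter [@2, @3, @6]; rw [Psi_mk]); (conv => enter [@2]; rw [← hρ]))
    congr 1
    symm
    apply SS.cj_eq
    intro v
    rw [hs1, hs1, rho_conjHom]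
    change g.1 (rho m F A (g.1.symm (g.1 v))) = g.1 (rho m F A v)
    rw [Equiv.symm_apply_apply]

theorem exists_spEnv_of {m : ℕ} (hm : 2 ≤ m) {F : Type} [Field F] [Finite F] {G Ω : Type} [Group G] [MulAction G Ω]
    {N : Subgroup G} (hE : Env G Ω N) (e : N ≃* PSp m F)
    (hs : ∀ x : MulAut (PSp m F), (∃ y : G, ∀ n : N, ((e.symm (x (e n)) : N) : G) = y * n * y⁻¹) →
      ∃ g : semiSim m F, Psi m F g = x) :
    ∃ ρ : ↥(Sp (sympBilin m F)) →* G, SpEnv Ω N ρ := by
  have hnorm := hE.norm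
  obtain ⟨ρ, h1, h2, -, h3⟩ := exists_rho e
  refine ⟨ρ, hE, nalt_symp m F, h1, h2, fun x => ?_, ?_⟩
  · obtain ⟨α, hα⟩ : ∃ α : MulAut (PSp m F), ∀ n : N, ((e.symm (α (e n)) : N) : G) = x * n * x⁻¹ :=
      ⟨MulAut.congr e (MulAut.conjNormal x), fun n => by
        have h1 : MulAut.congr e (MulAut.conjNormal x) (e n) = e (MulAut.conjNormal x n) := by
          simp [MulAut.congr]
        rw [h1, e.symm_apply_apply, MulAut.conjNormal_apply]⟩
    obtain ⟨g, rfl⟩ := hs α ⟨x, hα⟩
    obtain ⟨M, -, hM⟩ := h3 x g hα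
    exact ⟨M, hM⟩
  · rw [Module.finrank_fintype_fun_eq_card, Fintype.card_sum, Fintype.card_fin]
    omega

/-- **D11: the environment.** -/
theorem exists_spEnv {m : ℕ} (hm : 2 ≤ m) {F : Type} [Field F] [Fintype F] (h3 : m = 2 → 3 ≤ Fintype.card F)
    (hodd : 3 ≤ m ∨ (2 : F) ≠ 0) {G Ω : Type} [Group G] [Finite G] [MulAction G Ω] {N : Subgroup G}
    (hE : Env G Ω N) (e : N ≃* PSp m F) :
    ∃ (B : LinearMap.BilinForm F (Fin m ⊕ Fin m → F)) (ρ : ↥(Sp B) →* G), SpEnv Ω N ρ := by
  obtain ⟨ρ, h⟩ := exists_spEnv_of hm hE e fun x _ => Cfsg.Agent.H206.PspFix.mem_range_Psi hm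
    (by rwa [Nat.card_eq_fintype_card]) x (Or.inl hodd)
  exact ⟨_, ρ, h⟩

end Cfsg.Agent.H194.RC
end

-- part: H327/RC/Fix
section
/-!
# S3510, row D: semisimilitudes fixing a basis; the symplectic group over the fixed field (helper327)

`Y : SS B` with `Y (b i) = b i` for a basis `b`.
* `Fx Y.σ` : the fixed field; `V0 Y` : the fixed vectors; `b0` : the basis of `V0 Y`;
* `B0` : the form on `V0 Y`; `NAlt`;
* `ext : Sp (B0 ..) →* Sp B` injective, `(ext m).1 v = m.1 v` on `V0 Y`;
* `ext_fix`, `exists_ext` : the range of `ext` is `{t | cj Y t = t}`;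
* `ext_tv` : transvections.
-/

set_option autoImplicit false

namespace Cfsg.Agent.H327.RC

attribute [local instance 10000] Submodule.module Submodule.addCommGroup Submodule.addCommMonoid

open Module Cfsg.Agent.H520.RC

universe u v

variable {F : Type u} {V : Type v} [Field F] [AddCommGroup V] [Module F V] {B : LinearMap.BilinForm F V}

/-- the fixed field -/
abbrev Fx (σ : F ≃+* F) : Subfield F := FixedPoints.subfield (Subgroup.zpowers σ) F

theorem mem_Fx {σ : F ≃+* F} {a : F} : a ∈ Fx σ ↔ σ a = a := by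
  constructor
  · intro h
    exact h ⟨σ, Subgroup.mem_zpowers σ⟩
  · rintro h ⟨g, hg⟩
    obtain ⟨k, rfl⟩ := Subgroup.mem_zpowers_iff.1 hg
    show (σ ^ k) a = a
    have hst : σ ∈ MulAction.stabilizer (F ≃+* F) a := h
    exact (MulAction.stabilizer (F ≃+* F) a).zpow_mem hst k

/-- the fixed vectors -/
def V0 (Y : SS B) : Submodule (Fx Y.σ) V where
  carrier := {v | Y v = v}
  add_mem' := by
    intro u v hu hv
    show Y (u + v) = u + v
    rw [Y.map_add, show Y u = u from hu, show Y v = v from hv]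
  zero_mem' := Y.map_zero
  smul_mem' := by
    rintro ⟨a, ha⟩ v hv
    show Y (a • v) = a • v
    rw [Y.map_smul, mem_Fx.1 ha, show Y v = v from hv]

theorem mem_V0 {Y : SS B} {v : V} : v ∈ V0 Y ↔ Y v = v := Iff.rfl

theorem V0_fix {Y : SS B} (v : V0 Y) : Y (v : V) = v := v.2

section

variable {Y : SS B} {n : ℕ} {b : Basis (Fin n) F V} (hb : ∀ i, Y (b i) = b i)

include hb

theorem Y_sum (c : Fin n → F) : Y (∑ i, c i • b i) = ∑ i, Y.σ (c i) • b i := by
  rw [_root_.map_sum Y.f]
  refine Finset.sum_congr rfl fun i _ => ?_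
  rw [Y.map_smul, hb]

theorem repr_Y (v : V) (i : Fin n) : b.repr (Y v) i = Y.σ (b.repr v i) := by
  conv_lhs => rw [← b.sum_repr v, Y_sum hb]
  rw [b.repr_sum_self]

theorem mem_V0_iff {v : V} : v ∈ V0 Y ↔ ∀ i, b.repr v i ∈ Fx Y.σ := by
  constructor
  · intro h i
    rw [mem_Fx, ← repr_Y hb, mem_V0.1 h]
  · intro h
    rw [mem_V0]
    apply b.repr.injective
    ext i
    rw [repr_Y hb]
    exact mem_Fx.1 (h i)

/-- the basis of the fixed vectors -/
noncomputable def b0 : Basis (Fin n) (Fx Y.σ) (V0 Y) := Basis.ofEquivFun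
  { toFun := fun v i => ⟨b.repr (v : V) i, (mem_V0_iff hb).1 v.2 i⟩
    invFun := fun c => ⟨∑ i, (c i : F) • b i, by
      rw [mem_V0, Y_sum hb]
      exact Finset.sum_congr rfl fun i _ => by rw [mem_Fx.1 (c i).2]⟩
    left_inv := fun v => Subtype.ext (b.sum_repr (v : V))
    right_inv := fun c => by
      funext i
      apply Subtype.ext
      change b.repr (∑ i, (c i : F) • b i) i = c i
      rw [b.repr_sum_self]
    map_add' := fun u v => by
      funext i
      apply Subtype.ext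
      change b.repr ((u : V) + v) i = b.repr (u : V) i + b.repr (v : V) i
      rw [map_add]
      rfl
    map_smul' := fun a v => by
      funext i
      apply Subtype.ext
      change b.repr ((a : F) • (v : V)) i = (a : F) * b.repr (v : V) i
      rw [map_smul]
      rfl }

theorem b0_apply (i : Fin n) : ((b0 hb i : V0 Y) : V) = b i := by
  classical
  rw [b0, Basis.coe_ofEquivFun]
  change ∑ j, (((Pi.single i (1 : Fx Y.σ) : Fin n → Fx Y.σ) j : Fx Y.σ) : F) • b j = b i
  rw [Finset.sum_eq_single i]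
  · rw [Pi.single_eq_same]
    exact one_smul F (b i)
  · intro j _ hj
    rw [Pi.single_eq_of_ne hj]
    exact zero_smul F (b j)
  · intro h
    exact absurd (Finset.mem_univ i) h

theorem coe_sum_repr (v : V0 Y) : (v : V) = ∑ i, (((b0 hb).repr v i : Fx Y.σ) : F) • b i := by
  conv_lhs => rw [← (b0 hb).sum_repr v]
  rw [Submodule.coe_sum]
  refine Finset.sum_congr rfl fun i _ => ?_
  rw [Submodule.coe_smul, b0_apply]
  rfl

/-- extension of linear maps -/
noncomputable def extL (m : V0 Y →ₗ[Fx Y.σ] V0 Y) : V →ₗ[F] V := b.constr F (fun i => ((m (b0 hb i) : V0 Y) : V))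

theorem extL_basis (m : V0 Y →ₗ[Fx Y.σ] V0 Y) (i : Fin n) : extL hb m (b i) = m (b0 hb i) := by
  rw [extL, Basis.constr_basis]

theorem extL_apply (m : V0 Y →ₗ[Fx Y.σ] V0 Y) (v : V0 Y) : extL hb m (v : V) = m v := by
  rw [coe_sum_repr hb v, map_sum]
  conv_rhs => rw [← (b0 hb).sum_repr v, map_sum]
  rw [Submodule.coe_sum]
  refine Finset.sum_congr rfl fun i _ => ?_
  rw [map_smul, extL_basis, map_smul, Submodule.coe_smul]
  rfl

theorem extL_comp (m m' : V0 Y →ₗ[Fx Y.σ] V0 Y) : extL hb (m ∘ₗ m') = extL hb m ∘ₗ extL hb m' := by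
  refine b.ext fun i => ?_
  rw [extL_basis, LinearMap.comp_apply, LinearMap.comp_apply, extL_basis, extL_apply]

theorem extL_id : extL hb LinearMap.id = LinearMap.id := by
  refine b.ext fun i => ?_
  rw [extL_basis, LinearMap.id_apply, LinearMap.id_apply, b0_apply]

/-- two linear maps agreeing on the fixed vectors are equal -/
theorem eq_of_V0 {W : Type*} [AddCommGroup W] [Module F W] {f g : V →ₗ[F] W} (h : ∀ v : V0 Y, f (v : V) = g v) : f = g := by
  refine b.ext fun i => ?_
  rw [← b0_apply hb i]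
  exact h _

/-- extension of linear automorphisms -/
noncomputable def extE : (V0 Y ≃ₗ[Fx Y.σ] V0 Y) →* (V ≃ₗ[F] V) where
  toFun m := LinearEquiv.ofLinearMap (extL hb m) (extL hb m.symm)
    (by rw [← extL_comp, LinearEquiv.comp_symm, extL_id]) (by rw [← extL_comp, LinearEquiv.symm_comp, extL_id])
  map_one' := by
    ext v
    change extL hb LinearMap.id v = v
    rw [extL_id]
    rfl
  map_mul' m m' := by
    ext v
    change extL hb (m.toLinearMap ∘ₗ m'.toLinearMap) v = extL hb m (extL hb m' v)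
    rw [extL_comp]
    rfl

theorem extE_apply (m : V0 Y ≃ₗ[Fx Y.σ] V0 Y) (v : V0 Y) : extE hb m (v : V) = m v := extL_apply hb _ v

theorem extE_Y (m : V0 Y ≃ₗ[Fx Y.σ] V0 Y) (v : V) : extE hb m (Y v) = Y (extE hb m v) := by
  have h1 : ∀ i, extE hb m (b i) = ((m (b0 hb i) : V0 Y) : V) := fun i => by
    rw [← b0_apply hb i]
    exact extE_apply hb m _
  rw [← b.sum_repr v, Y_sum hb, map_sum, map_sum, _root_.map_sum Y.f]
  refine Finset.sum_congr rfl fun i _ => ?_
  rw [map_smul, map_smul, Y.map_smul, h1, V0_fix]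

end

/-! ### the form -/

section form

variable {Y : SS B} {t : F} (ht0 : t ≠ 0) (ht : Y.l * Y.σ t = t)

include ht0 ht

theorem B_mem {u v : V} (hu : u ∈ V0 Y) (hv : v ∈ V0 Y) : t⁻¹ * B u v ∈ Fx Y.σ := by
  rw [mem_Fx, map_mul, map_inv₀]
  have h1 := Y.form u v
  rw [mem_V0.1 hu, mem_V0.1 hv] at h1
  have h2 : Y.σ t ≠ 0 := (map_ne_zero Y.σ).2 ht0
  rw [inv_mul_eq_iff_eq_mul₀ h2]
  calc Y.σ (B u v) = (Y.l * Y.σ t) * t⁻¹ * Y.σ (B u v) := by rw [ht, mul_inv_cancel₀ ht0, one_mul]
    _ = Y.σ t * (t⁻¹ * (Y.l * Y.σ (B u v))) := by ring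
    _ = Y.σ t * (t⁻¹ * B u v) := by rw [← h1]

/-- the form on the fixed vectors -/
def B0 : LinearMap.BilinForm (Fx Y.σ) (V0 Y) :=
  LinearMap.mk₂ (Fx Y.σ) (fun u v => (⟨t⁻¹ * B (u : V) v, B_mem ht0 ht u.2 v.2⟩ : Fx Y.σ))
    (fun u u' v => Subtype.ext (by
      change t⁻¹ * B ((u : V) + u') v = t⁻¹ * B (u : V) v + t⁻¹ * B (u' : V) v
      rw [map_add, LinearMap.add_apply, mul_add]))
    (fun a u v => Subtype.ext (by
      change t⁻¹ * B ((a : F) • (u : V)) v = (a : F) * (t⁻¹ * B (u : V) v)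
      rw [map_smul, LinearMap.smul_apply, smul_eq_mul]
      ring))
    (fun u v v' => Subtype.ext (by
      change t⁻¹ * B (u : V) ((v : V) + v') = t⁻¹ * B (u : V) v + t⁻¹ * B (u : V) v'
      rw [map_add, mul_add]))
    (fun a u v => Subtype.ext (by
      change t⁻¹ * B (u : V) ((a : F) • (v : V)) = (a : F) * (t⁻¹ * B (u : V) v)
      rw [map_smul, smul_eq_mul]
      ring))

theorem B0_apply (u v : V0 Y) : ((B0 ht0 ht u v : Fx Y.σ) : F) = t⁻¹ * B (u : V) v := rfl

theorem B_eq (u v : V0 Y) : B (u : V) v = t * ((B0 ht0 ht u v : Fx Y.σ) : F) := by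
  rw [B0_apply, mul_inv_cancel_left₀ ht0]

variable {n : ℕ} {b : Basis (Fin n) F V} (hb : ∀ i, Y (b i) = b i)

include hb

theorem nalt_B0 (h : NAlt B) : NAlt (B0 (Y := Y) ht0 ht) where
  alt x := by
    apply Subtype.ext
    rw [B0_apply, h.alt, mul_zero]
    rfl
  nd x hx := by
    apply Subtype.ext
    apply h.nd
    have h1 : B (x : V) = 0 := by
      refine eq_of_V0 hb fun v => ?_
      rw [B_eq ht0 ht, hx v]
      change t * 0 = 0
      rw [mul_zero]
    intro y
    rw [h1]
    rfl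

theorem ext_isom (m : Sp (B0 (Y := Y) ht0 ht)) : extE hb m.1 ∈ Sp B := by
  intro u v
  have h1 : (B.compl₁₂ (extE hb m.1 : V →ₗ[F] V) (extE hb m.1 : V →ₗ[F] V)) = B := by
    refine eq_of_V0 hb fun u => eq_of_V0 hb fun v => ?_
    change B (extE hb m.1 (u : V)) (extE hb m.1 (v : V)) = B (u : V) v
    simp only [extE_apply, extE_apply, B_eq ht0 ht, B_eq ht0 ht, m.2 u v]
  exact congrArg (fun C : LinearMap.BilinForm F V => C u v) h1

/-- the symplectic group of the fixed vectors -/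
noncomputable def ext : Sp (B0 (Y := Y) ht0 ht) →* Sp B :=
  ((extE hb).comp (Sp (B0 (Y := Y) ht0 ht)).subtype).codRestrict (Sp B) (fun m => ext_isom ht0 ht hb m)

theorem ext_apply (m : Sp (B0 (Y := Y) ht0 ht)) (v : V0 Y) : (ext ht0 ht hb m).1 (v : V) = m.1 v := extE_apply hb m.1 v

theorem ext_fix (m : Sp (B0 (Y := Y) ht0 ht)) : SS.cj Y (ext ht0 ht hb m) = ext ht0 ht hb m :=
  SS.cj_eq fun v => extE_Y hb m.1 v

theorem ext_injective : Function.Injective (ext ht0 ht hb) := by
  intro m m' h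
  apply Subtype.ext
  ext v
  simp only [← ext_apply ht0 ht hb, ← ext_apply ht0 ht hb, h]

theorem exists_ext {s : Sp B} (hs : SS.cj Y s = s) : ∃ m, ext ht0 ht hb m = s := by
  have h1 : ∀ v, s.1 (Y v) = Y (s.1 v) := fun v => by
    rw [← SS.cj_apply, hs]
  have h1' : ∀ v, s.1.symm (Y v) = Y (s.1.symm v) := fun v => by
    apply s.1.injective
    rw [h1, LinearEquiv.apply_symm_apply, LinearEquiv.apply_symm_apply]
  let m : V0 Y ≃ₗ[Fx Y.σ] V0 Y :=
    { toFun := fun v => ⟨s.1 (v : V), by rw [mem_V0, ← h1, V0_fix]⟩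
      invFun := fun v => ⟨s.1.symm (v : V), by rw [mem_V0, ← h1', V0_fix]⟩
      left_inv := fun v => Subtype.ext (s.1.symm_apply_apply _)
      right_inv := fun v => Subtype.ext (s.1.apply_symm_apply _)
      map_add' := fun u v => Subtype.ext (s.1.map_add _ _)
      map_smul' := fun a v => Subtype.ext (s.1.map_smul (a : F) _) }
  refine ⟨⟨m, fun u v => Subtype.ext ?_⟩, ?_⟩
  · rw [B0_apply, B0_apply]
    change t⁻¹ * B (s.1 (u : V)) (s.1 (v : V)) = _
    rw [s.2]
  · apply Subtype.ext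
    apply LinearEquiv.toLinearMap_injective
    refine eq_of_V0 hb fun v => ?_
    exact ext_apply ht0 ht hb _ v

theorem ext_tv (h : NAlt B) (e : V0 Y) (c : Fx Y.σ) :
    ext ht0 ht hb (tv (nalt_B0 ht0 ht hb h) e c) = tv h (e : V) (c * t⁻¹) := by
  apply Subtype.ext
  apply LinearEquiv.toLinearMap_injective
  refine eq_of_V0 hb fun v => ?_
  change (ext ht0 ht hb (tv (nalt_B0 ht0 ht hb h) e c)).1 (v : V) = (tv h (e : V) (c * t⁻¹)).1 (v : V)
  (rewrite [ext_apply, tv_apply]; (conv => enter [@3]; rw [tv_apply]); simp only [mul_assoc]; simp only [← B0_apply ht0 ht])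
  rfl

end form

end Cfsg.Agent.H327.RC
end

-- part: H327/RC/Desc
section
/-!
# S3510, row D: field automorphisms (helper327)

* `exists_Y` : a semilinear element of prime order has a lift which fixes a basis;
* `exists_t` : the scalar for the form;
* `cent_lift` : an element centralising `Sp (V0)` is a power of the field automorphism;
* `norm_range` : an element commuting with the field automorphism normalises `Sp (V0)`;
* `sg` : the isometries `x ↦ x + B x e • w + B x w • e`; `lr_field` : the long root rule.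
-/

set_option autoImplicit false

namespace Cfsg.Agent.H327.RC

attribute [local instance 10000] Submodule.module Submodule.addCommGroup Submodule.addCommMonoid

open Module MulAction Cfsg.Agent.H520.RC Cfsg.Agent.H106.RC Cfsg.Agent.H380.RC

universe u v

variable {F : Type u} {V : Type v} [Field F] [AddCommGroup V] [Module F V] {B : LinearMap.BilinForm F V}

theorem pow_σ (M : SS B) (n : ℕ) : (M ^ n).σ = M.σ ^ n := by
  induction n with
  | zero => rfl
  | succ n ih => rw [pow_succ, pow_succ, SS.mul_σ, ih]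

section env

variable {G : Type*} [Group G] {ρ : ↥(Sp B) →* G} {Ω : Type*} [MulAction G Ω] {N : Subgroup G}

theorem SpEnv_nontrivial (E : SpEnv Ω N ρ) : Nontrivial V :=
  Module.nontrivial_of_finrank_pos (R := F) (by have := E.dim; omega)

/-- descent -/
theorem exists_Y [Finite F] [FiniteDimensional F V] (E : SpEnv Ω N ρ) {x : G} {M : SS B} (hM : Lf ρ x M) {r : ℕ}
    (hr : r.Prime) (hx : x ^ r = 1) (hσ : ¬ M.IsLin) :
    ∃ (Y : SS B) (b : Basis (Fin (finrank F V)) F V), Lf ρ x Y ∧ (∀ i, Y (b i) = b i) ∧ orderOf Y.σ = r := by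
  obtain ⟨a, ha, h1⟩ := E.pow_scal hM hx
  have hV := SpEnv_nontrivial E
  obtain ⟨v, hv⟩ := exists_ne (0 : V)
  have hfr := Fact.mk hr
  have hord : orderOf M.σ = r := by
    refine orderOf_eq_prime ?_ hσ
    ext c
    have h2 : (M ^ r) (c • v) = (M ^ r).σ c • (M ^ r) v := SS.map_smul _ _ _
    rw [SS.pow_apply, SS.pow_apply, h1, h1, pow_σ, smul_smul, smul_smul] at h2
    have h3 : ((M.σ ^ r) c * a - a * c) • v = 0 := by rw [sub_smul, ← h2, sub_self]
    have h4 := (smul_eq_zero.1 h3).resolve_right hv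
    have h5 : ((M.σ ^ r) c - c) * a = 0 := by linear_combination h4
    exact sub_eq_zero.1 ((mul_eq_zero.1 h5).resolve_right ha)
  obtain ⟨d, hd, b, hb⟩ := descent M.σ r hr.pos hord M.f M.map_smul a h1
  refine ⟨SS.sc B d hd * M, b, hM.of_scal ⟨d, hd, fun v => rfl⟩, fun i => ?_, ?_⟩
  · exact hb i
  · change orderOf ((SS.sc B d hd).σ * M.σ) = r
    change orderOf (1 * M.σ) = r
    rw [one_mul, hord]

/-- the scalar for the form -/
theorem exists_t (h : NAlt B) {Y : SS B} {n : ℕ} {b : Basis (Fin n) F V} (hb : ∀ i, Y (b i) = b i) [Nontrivial V] :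
    ∃ t : F, t ≠ 0 ∧ Y.l * Y.σ t = t := by
  by_contra hcon
  push Not at hcon
  obtain ⟨v, hv⟩ := exists_ne (0 : V)
  apply hv
  apply h.nd
  have h1 : B = 0 := by
    refine b.ext fun i => b.ext fun j => ?_
    by_contra h2
    have h3 := Y.form (b i) (b j)
    rw [hb, hb] at h3
    exact hcon _ h2 h3.symm
  intro y
  rw [h1]
  rfl

/-- the parameter of a transvection is determined -/
theorem tv_inj (E : SpEnv Ω N ρ) [FiniteDimensional F V] {e : V} (he : e ≠ 0) {c d : F}
    (h : ρ (tv E.form e c) = ρ (tv E.form e d)) : c = d := by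
  by_contra hcd
  have h1 : ρ (tv E.form e (c - d)) = 1 := by
    rw [sub_eq_add_neg, tv_add, map_mul, ← tv_inv, map_inv, h, mul_inv_cancel]
  obtain ⟨a, ha⟩ := (E.ker _).1 h1
  have h2 := ha e
  rw [tv_apply, E.form.alt, mul_zero, zero_smul, add_zero] at h2
  have ha1 : a = 1 := by
    have h3 : (a - 1) • e = 0 := by rw [sub_smul, one_smul, ← h2, sub_self]
    exact sub_eq_zero.1 ((smul_eq_zero.1 h3).resolve_right he)
  apply tv_ne_one E.form he (sub_ne_zero.2 hcd)
  apply Subtype.ext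
  apply LinearEquiv.ext
  intro v
  rw [ha v, ha1, one_smul]
  rfl

section cent

variable {Y : SS B} {n : ℕ} {b : Basis (Fin n) F V} (hb : ∀ i, Y (b i) = b i) {t : F} (ht0 : t ≠ 0)
  (ht : Y.l * Y.σ t = t)

/-- lines of the fixed vectors are invariant under the elements of the centraliser -/
theorem line_inv [FiniteDimensional F V] (E : SpEnv Ω N ρ) {y : G} {L : SS B} (hL : Lf ρ y L)
    (hc : ∀ m : Sp (B0 (Y := Y) ht0 ht), y * ρ (ext ht0 ht hb m) = ρ (ext ht0 ht hb m) * y) (e : V0 Y) :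
    ∃ a : F, L (e : V) = a • (e : V) := by
  have h1 := hc (tv (nalt_B0 ht0 ht hb E.form) e 1)
  rw [ext_tv ht0 ht hb E.form] at h1
  have h2 := hL (tv E.form (e : V) (((1 : Fx Y.σ) : F) * t⁻¹))
  rw [h1, mul_inv_cancel_right, cj_tv] at h2
  refine E.line_of_eq ?_ h2.symm
  have h3 : ((1 : Fx Y.σ) : F) * t⁻¹ ≠ 0 := by
    change (1 : F) * t⁻¹ ≠ 0
    rw [one_mul]
    exact inv_ne_zero ht0
  exact mul_ne_zero ((map_ne_zero L.σ).2 h3) (inv_ne_zero L.hl)

/-- **the centraliser of `Sp (V0)`** -/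
theorem cent_lift [Finite F] [FiniteDimensional F V] (E : SpEnv Ω N ρ) {x y : G} (hY : Lf ρ x Y) {L : SS B}
    (hL : Lf ρ y L) (hc : ∀ m : Sp (B0 (Y := Y) ht0 ht), y * ρ (ext ht0 ht hb m) = ρ (ext ht0 ht hb m) * y) :
    ∃ k : ℕ, y = x ^ k := by
  have hn : n = finrank F V := by rw [Module.finrank_eq_card_basis b, Fintype.card_fin]
  have hn4 : 4 ≤ n := by rw [hn]; exact E.dim
  have hbm : ∀ i, b i ∈ V0 Y := hb
  have hline := fun e : V0 Y => line_inv hb ht0 ht E hL hc e
  choose a ha using fun i => hline ⟨b i, hbm i⟩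
  have hli := b.linearIndependent
  -- `L (b i + c b j)` for `c` in the fixed field
  have key : ∀ i j : Fin n, i ≠ j → ∀ c : Fx Y.σ, L.σ (c : F) * a j = a i * c := by
    intro i j hij c
    obtain ⟨d, hd⟩ := hline ⟨b i + (c : F) • b j, (V0 Y).add_mem (hbm i) ((V0 Y).smul_mem c (hbm j))⟩
    change L (b i + (c : F) • b j) = d • (b i + (c : F) • b j) at hd
    have hi : L (b i) = a i • b i := ha i
    have hj : L (b j) = a j • b j := ha j
    rw [L.map_add, L.map_smul, hi, hj, smul_add, smul_smul, smul_smul] at hd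
    have h1 := congrArg (fun v => b.repr v i) hd
    have h2 := congrArg (fun v => b.repr v j) hd
    simp only [map_add, map_smul, b.repr_self, Finsupp.add_apply, Finsupp.smul_apply, Finsupp.single_apply,
      smul_eq_mul, if_neg hij.symm, if_neg hij, if_true, mul_one, mul_zero, add_zero, zero_add] at h1 h2
    rw [h2, h1]
  have hone : ∀ i j : Fin n, a i = a j := by
    intro i j
    by_cases hij : i = j
    · rw [hij]
    · have h1 := key i j hij 1
      have h2 : L.σ ((1 : Fx Y.σ) : F) = 1 := map_one L.σ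
      rw [h2, one_mul] at h1
      have h3 : a j = a i * 1 := h1
      rw [mul_one] at h3
      exact h3.symm
  have i0 : Fin n := ⟨0, by omega⟩
  obtain ⟨i1, hi1⟩ : ∃ i1 : Fin n, i0 ≠ i1 := by
    by_contra hno
    push Not at hno
    have h1 : (⟨0, by omega⟩ : Fin n) = ⟨1, by omega⟩ := (hno _).symm.trans (hno _)
    exact absurd (congrArg Fin.val h1) (by norm_num)
  have ha0 : a i0 ≠ 0 := by
    intro h0
    have h1 : L (b i0) = a i0 • b i0 := ha i0
    rw [h0, zero_smul, ← L.map_zero] at h1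
    exact b.ne_zero i0 (L.injective h1)
  -- `L.σ` fixes the fixed field
  have hfix : ∀ c : Fx Y.σ, L.σ (c : F) = c := by
    intro c
    have h1 := key i0 i1 hi1 c
    rw [← hone i0 i1, mul_comm] at h1
    exact mul_left_cancel₀ ha0 h1
  obtain ⟨k, hk⟩ : ∃ k : ℕ, Y.σ ^ k = L.σ := by
    have hfin : Finite (F ≃+* F) := Finite.of_injective (fun e : F ≃+* F => (e : F → F)) DFunLike.coe_injective
    let τ : F ≃ₐ[Fx Y.σ] F := AlgEquiv.ofRingEquiv (f := L.σ) hfix
    obtain ⟨g, hg⟩ := (FixedPoints.toAlgAut_bijective (Subgroup.zpowers Y.σ) F).2 τ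
    have h1 : (g : F ≃+* F) = L.σ := by
      ext c
      have := congrArg (fun f : F ≃ₐ[Fx Y.σ] F => f c) hg
      exact this
    have h2 : L.σ ∈ Subgroup.zpowers Y.σ := by rw [← h1]; exact g.2
    exact (isOfFinOrder_of_finite Y.σ).mem_powers_iff_mem_zpowers.2 h2
  refine ⟨k, ?_⟩
  -- `L = a Y ^ k`
  have hYk : ∀ i, (Y ^ k) (b i) = b i := by
    intro i
    rw [SS.pow_apply]
    exact Function.iterate_fixed (hb i) k
  have hmap : ∀ v, L v = a i0 • (Y ^ k) v := by
    intro v
    have h1 : L v = ∑ i, L.σ (b.repr v i) • L (b i) := by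
      conv_lhs => rw [← b.sum_repr v]
      rw [_root_.map_sum L.f]
      exact Finset.sum_congr rfl fun i _ => L.map_smul _ _
    have h2 : (Y ^ k) v = ∑ i, (Y ^ k).σ (b.repr v i) • (Y ^ k) (b i) := by
      conv_lhs => rw [← b.sum_repr v]
      rw [_root_.map_sum (Y ^ k).f]
      exact Finset.sum_congr rfl fun i _ => SS.map_smul _ _ _
    rw [h1, h2, Finset.smul_sum]
    refine Finset.sum_congr rfl fun i _ => ?_
    have h3 : L (b i) = a i • b i := ha i
    rw [h3, hYk, pow_σ, hk, hone i i0, smul_smul, smul_smul, mul_comm]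
  have h1 : Lf ρ (y * (x ^ k)⁻¹) (L * (Y ^ k)⁻¹) := hL.mul (hY.pow k).inv
  refine mul_inv_eq_one.1 ((E.eq_one_iff h1).2 ⟨a i0, ha0, fun v => ?_⟩)
  obtain ⟨v, rfl⟩ := (Y ^ k).surjective v
  rw [SS.mul_apply, SS.inv_apply_self, hmap]

/-- **elements commuting with the field automorphism normalise `Sp (V0)`** -/
theorem norm_cj [FiniteDimensional F V] (E : SpEnv Ω N ρ) {x y : G} (hY : Lf ρ x Y) {L : SS B}
    (hL : Lf ρ y L) (hxy : x * y = y * x) (m : Sp (B0 (Y := Y) ht0 ht)) :
    ∃ m' : Sp (B0 (Y := Y) ht0 ht), SS.cj L (ext ht0 ht hb m) = ext ht0 ht hb m' := by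
  have hob_ := E.lf_comm hY hL hxy
  obtain ⟨a, -, ha⟩ := hob_
  have h1 : SS.cj Y (SS.cj L (ext ht0 ht hb m)) = SS.cj L (ext ht0 ht hb m) := by
    refine SS.cj_eq fun v => ?_
    have hob_ := L.surjective v
    obtain ⟨w, rfl⟩ := hob_
    have h2 : ∀ w, (ext ht0 ht hb m).1 (Y w) = Y ((ext ht0 ht hb m).1 w) := fun w => by
      simp only [← SS.cj_apply, ext_fix]
    simp only [ha, map_smul, SS.cj_apply, SS.cj_apply, h2, ha]
  have hob_ := exists_ext ht0 ht hb h1
  obtain ⟨m', hm'⟩ := hob_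
  exact ⟨m', hm'.symm⟩

end cent

end env

/-! ### the isometries `x ↦ x + B x e • w + B x w • e` -/

section sg

/-- `x ↦ x + B x e • w + B x w • e` for `B e w = 0` -/
def sg (h : NAlt B) (e w : V) (hew : B e w = 0) : Sp B :=
  ⟨{ toFun := fun x => x + B x e • w + B x w • e
     invFun := fun x => x - B x e • w - B x w • e
     left_inv := fun x => by
      have hwe := h.swap0 hew
      simp only [map_add, LinearMap.add_apply, map_smul, LinearMap.smul_apply, smul_eq_mul, h.alt, hew, hwe,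
        mul_zero, add_zero]
      abel
     right_inv := fun x => by
      have hwe := h.swap0 hew
      simp only [map_sub, LinearMap.sub_apply, map_smul, LinearMap.smul_apply, smul_eq_mul, h.alt, hew, hwe,
        mul_zero, sub_zero]
      abel
     map_add' := fun x y => by
      simp only [map_add, LinearMap.add_apply, add_smul]
      abel
     map_smul' := fun a x => by
      simp only [map_smul, LinearMap.smul_apply, smul_eq_mul, RingHom.id_apply, smul_add, smul_smul] }, by
    intro x y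
    have hwe := h.swap0 hew
    show B (x + B x e • w + B x w • e) (y + B y e • w + B y w • e) = B x y
    simp only [map_add, LinearMap.add_apply, map_smul, LinearMap.smul_apply, smul_eq_mul, h.alt, hew, hwe, mul_zero,
      add_zero]
    rw [h.swap e y, h.swap w y]
    ring⟩

variable (h : NAlt B)

@[simp] theorem sg_apply (e w : V) (hew : B e w = 0) (x : V) :
    (sg h e w hew).1 x = x + B x e • w + B x w • e := rfl

theorem sp_mul_apply (s t : Sp B) (v : V) : (s * t).1 v = s.1 (t.1 v) := rfl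

theorem sp_ext {s t : Sp B} (h : ∀ v, s.1 v = t.1 v) : s = t := Subtype.ext (LinearEquiv.ext h)

theorem sg_tv (e w : V) (hew : B e w = 0) (c : F) : sg h e w hew * tv h e c = tv h e c * sg h e w hew := by
  have hwe := h.swap0 hew
  refine sp_ext fun x => ?_
  rw [sp_mul_apply, sp_mul_apply, sg_apply, tv_apply, tv_apply, sg_apply]
  simp only [map_add, LinearMap.add_apply, map_smul, LinearMap.smul_apply, smul_eq_mul, h.alt, hew, hwe, mul_zero,
    add_zero]
  abel

theorem sg_mul (e w w' : V) (hew : B e w = 0) (hew' : B e w' = 0) :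
    sg h e w hew * sg h e w' hew' =
      tv h e (B w' w) * sg h e (w + w') (by rw [map_add, hew, hew', add_zero]) := by
  have hwe := h.swap0 hew
  have hwe' := h.swap0 hew'
  refine sp_ext fun x => ?_
  rw [sp_mul_apply, sp_mul_apply, sg_apply, tv_apply, sg_apply, sg_apply]
  simp only [map_add, LinearMap.add_apply, map_smul, LinearMap.smul_apply, smul_eq_mul, h.alt, hew, hwe, hwe',
    mul_zero, add_zero, smul_add, add_smul]
  rw [mul_comm (B x e) (B w' w)]
  abel

theorem sg_inv (e w : V) (hew : B e w = 0) :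
    (sg h e w hew)⁻¹ = sg h e (-w) (by rw [map_neg, hew, neg_zero]) := by
  rw [inv_eq_iff_mul_eq_one]
  refine sp_ext fun x => ?_
  have hwe := h.swap0 hew
  rw [sp_mul_apply, sg_apply, sg_apply]
  simp only [map_add, map_neg, LinearMap.add_apply, LinearMap.neg_apply, map_smul, LinearMap.smul_apply, smul_eq_mul,
    h.alt, hew, hwe, mul_zero, add_zero, neg_zero, smul_neg, neg_smul]
  change _ = x
  abel

/-- the commutator -/
theorem sg_comm (e w w' : V) (hew : B e w = 0) (hew' : B e w' = 0) :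
    sg h e w hew * sg h e w' hew' = tv h e (2 * B w' w) * (sg h e w' hew' * sg h e w hew) := by
  rw [sg_mul, sg_mul, ← mul_assoc, ← tv_add]
  have h1 : 2 * B w' w + B w w' = B w' w := by
    rw [h.swap w w']
    ring
  rw [h1]
  congr 1
  refine sp_ext fun x => ?_
  rw [sg_apply, sg_apply, add_comm w w']

/-- conjugates -/
theorem cj_sg (Y : SS B) (e w : V) (he : Y e = e) (hew : B e w = 0) :
    SS.cj Y (sg h e w hew) = sg h e (Y.l⁻¹ • Y w) (by
      rw [map_smul]
      nth_rewrite 1 [← he]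
      rw [Y.form, hew, map_zero, mul_zero, smul_zero]) := by
  refine SS.cj_eq fun v => ?_
  rw [sg_apply, sg_apply, Y.map_add, Y.map_add, Y.map_smul, Y.map_smul, he, map_smul, Y.form, smul_smul]
  have h1 : B (Y v) e = Y.l * Y.σ (B v e) := by
    nth_rewrite 1 [← he]
    rw [Y.form]
  have hl := Y.hl
  rw [h1, smul_eq_mul, inv_mul_cancel_left₀ hl, mul_comm, inv_mul_cancel_left₀ hl]

end sg

/-! ### the long root rule -/

section lr

variable (h : NAlt B)

include h

theorem exists_perp [FiniteDimensional F V] (hd : 3 ≤ finrank F V) (e : V) :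
    ∃ w : V, B e w = 0 ∧ ∀ a : F, w ≠ a • e := by
  by_contra hno
  push Not at hno
  have h1 : LinearMap.ker (B e) ≤ Submodule.span F {e} := by
    intro w hw
    obtain ⟨a, rfl⟩ := hno w (LinearMap.mem_ker.1 hw)
    exact Submodule.smul_mem _ _ (Submodule.mem_span_singleton_self e)
  have h2 := Submodule.finrank_mono h1
  have h3 : finrank F (Submodule.span F {e}) ≤ 1 := by
    refine (finrank_span_le_card (R := F) {e}).trans ?_
    simp
  have h4 := LinearMap.finrank_range_add_finrank_ker (B e)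
  have h5 : finrank F (LinearMap.range (B e)) ≤ 1 := by
    calc finrank F (LinearMap.range (B e)) ≤ finrank F F := Submodule.finrank_le _
      _ = 1 := finrank_self F
  omega

theorem exists_sep {e d : V} (he : e ≠ 0) (hd : ∀ a : F, d ≠ a • e) {c : F} :
    ∃ v : V, B e v = 0 ∧ B d v = c := by
  have h1 : ∃ v : V, B e v = 0 ∧ B d v ≠ 0 := by
    by_contra hno
    push Not at hno
    obtain ⟨k, hk⟩ := h.exists_one he
    apply hd (B d k)
    rw [← sub_eq_zero]
    refine h.nd _ fun g => ?_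
    have h2 := hno (g - B e g • k) (by rw [map_sub, map_smul, hk, smul_eq_mul, mul_one, sub_self])
    rw [map_sub, map_smul, smul_eq_mul] at h2
    rw [map_sub, map_smul, LinearMap.sub_apply, LinearMap.smul_apply, smul_eq_mul]
    linear_combination h2
  obtain ⟨v, hv, hv'⟩ := h1
  exact ⟨(c * (B d v)⁻¹) • v, by rw [map_smul, hv, smul_zero],
    by rw [map_smul, smul_eq_mul, inv_mul_cancel_right₀ hv']⟩

theorem exists_move' [FiniteDimensional F V] (hd : 3 ≤ finrank F V) {Y : SS B} (hσ : Y.σ ≠ 1) (e : V) :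
    ∃ w : V, B e w = 0 ∧ ∀ a : F, w + -(Y.l⁻¹ • Y w) ≠ a • e := by
  obtain ⟨w, hw, hwe⟩ := exists_perp h hd e
  by_cases h1 : ∀ a : F, w + -(Y.l⁻¹ • Y w) ≠ a • e
  · exact ⟨w, hw, h1⟩
  push Not at h1
  obtain ⟨k, hk⟩ := h1
  obtain ⟨α, hα⟩ : ∃ α, Y.σ α ≠ α := by
    by_contra hno
    push Not at hno
    exact hσ (RingEquiv.ext hno)
  refine ⟨α • w, by rw [map_smul, hw, smul_zero], fun a ha => ?_⟩
  have h2 : Y.l⁻¹ • Y w = w - k • e := by rw [← hk]; abel
  rw [Y.map_smul, smul_comm, h2, smul_sub] at ha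
  have h3 : (α - Y.σ α) • w = (a - Y.σ α * k) • e := by
    rw [sub_smul, sub_smul, ← ha, mul_smul]
    abel
  apply hwe ((α - Y.σ α)⁻¹ * (a - Y.σ α * k))
  rw [mul_smul, ← h3, smul_smul, inv_mul_cancel₀ (sub_ne_zero.2 (Ne.symm hα)), one_smul]

end lr

section lr'

variable {G : Type*} [Group G] {ρ : ↥(Sp B) →* G} {Ω : Type*} [MulAction G Ω] {N : Subgroup G}

/-- **The long root rule for a field automorphism.** -/
theorem lr_field [FiniteDimensional F V] [Nonempty Ω] (E : SpEnv Ω N ρ) (h2 : (2 : F) ≠ 0) {x : G} {Y : SS B}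
    (hY : Lf ρ x Y) (hσ : Y.σ ≠ 1) {e : V} (he0 : e ≠ 0) (he : Y e = e) {c : F} (hc : c ≠ 0)
    (hcov : ∀ ω : Ω, ρ (tv E.form e c) • ω = ω ∨ x • ω = ω) : False := by
  obtain ⟨w, hw, hd⟩ := exists_move' E.form (by have := E.dim; omega) hσ e
  obtain ⟨v, hv, hdv⟩ := exists_sep E.form he0 hd (c := 2⁻¹ * c)
  have hdw : B e (Y.l⁻¹ • Y w) = 0 := by
    rw [map_smul]
    nth_rewrite 1 [← he]
    rw [Y.form, hw, map_zero, mul_zero, smul_zero]
  have hdd : B e (w + -(Y.l⁻¹ • Y w)) = 0 := by rw [map_add, map_neg, hw, hdw, neg_zero, add_zero]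
  have hcomm : ∀ (u : V) (hu : B e u = 0), ρ (sg E.form e u hu) ∈ Subgroup.centralizer ({ρ (tv E.form e c)} : Set G) := by
    intro u hu
    rw [Subgroup.mem_centralizer_singleton_iff, ← map_mul, ← map_mul, sg_tv]
  refine not_cov_one E.env (U := Subgroup.centralizer ({ρ (tv E.form e c)} : Set G)) hcov ?_ ?_ ?_
  · intro u hu
    exact Subgroup.mem_centralizer_singleton_iff.1 hu
  · intro h1
    apply hc
    refine tv_inj E he0 ?_
    rw [h1, tv_zero, map_one]
  · have h3 := mem_cmm (x := x) (hcomm w hw)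
    have h4 := cmm_comm (hcomm v hv) h3
    have h5 : ρ (sg E.form e w hw) * x * (ρ (sg E.form e w hw))⁻¹ * x⁻¹ =
        ρ (tv E.form e (B (-(Y.l⁻¹ • Y w)) w) * sg E.form e (w + -(Y.l⁻¹ • Y w)) hdd) := by
      have h6 : ρ (sg E.form e w hw) * x * (ρ (sg E.form e w hw))⁻¹ * x⁻¹ =
          ρ (sg E.form e w hw) * (x * ρ (sg E.form e w hw) * x⁻¹)⁻¹ := by group
      rw [h6, hY, cj_sg E.form Y e w he hw, ← map_inv, ← map_mul, sg_inv, sg_mul]
    rw [h5] at h4
    rw [← map_inv, ← map_mul, ← map_inv, ← map_mul, ← map_mul] at h4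
    have h7 : sg E.form e v hv * (tv E.form e (B (-(Y.l⁻¹ • Y w)) w) * sg E.form e (w + -(Y.l⁻¹ • Y w)) hdd) *
        (sg E.form e v hv)⁻¹ * (tv E.form e (B (-(Y.l⁻¹ • Y w)) w) * sg E.form e (w + -(Y.l⁻¹ • Y w)) hdd)⁻¹ =
        tv E.form e c := by
      have h8 := sg_tv E.form e v hv (B (-(Y.l⁻¹ • Y w)) w)
      have h9 := sg_comm E.form e v (w + -(Y.l⁻¹ • Y w)) hv hdd
      have h10 : (2 : F) * B (w + -(Y.l⁻¹ • Y w)) v = c := by rw [hdv, mul_inv_cancel_left₀ h2]
      rw [h10] at h9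
      have h11 : tv E.form e (B (-(Y.l⁻¹ • Y w)) w) * tv E.form e c =
          tv E.form e c * tv E.form e (B (-(Y.l⁻¹ • Y w)) w) := by rw [← tv_add, ← tv_add, add_comm]
      rw [← mul_assoc, h8, mul_assoc (tv E.form e (B (-(Y.l⁻¹ • Y w)) w)), h9, ← mul_assoc, h11]
      group
    rwa [h7] at h4

end lr'

end Cfsg.Agent.H327.RC
end

-- part: H327/RC/Semi
section
/-!
# S3510, row D: no member is a field automorphism (helper327)

* `mrule_field` (all `q`, not `|F_0| = 2`, `dim V = 4`) : if the member `x i0` lifts to `Y` with `Y (b i) = b i`, then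
  every point is fixed by `Sp (V0)` or by `x i0`;
* `dead_semi` : `q` odd.
-/

set_option autoImplicit false

namespace Cfsg.Agent.H327.RC

attribute [local instance 10000] Submodule.module Submodule.addCommGroup Submodule.addCommMonoid

open Module MulAction Cfsg.Agent.H520.RC Cfsg.Agent.H106.RC Cfsg.Agent.H380.RC

variable {F : Type} {V : Type} [Field F] [Finite F] [AddCommGroup V] [Module F V] [FiniteDimensional F V]
  {B : LinearMap.BilinForm F V} {G : Type} [Group G] {Ω : Type} [MulAction G Ω]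
  {N : Subgroup G} {ρ : ↥(Sp B) →* G} {ι : Type} {x : ι → G} {r : ι → ℕ} {M : ι → SS B}

omit [Finite F] in
/-- `Sp (V0)` is a proper subgroup -/
theorem ext_not_surj (E : SpEnv Ω N ρ) {Y : SS B} {n : ℕ} {b : Basis (Fin n) F V} (hb : ∀ i, Y (b i) = b i)
    {t : F} (ht0 : t ≠ 0) (ht : Y.l * Y.σ t = t) (hσ : Y.σ ≠ 1) :
    ¬ Function.Surjective (ext ht0 ht hb) := by
  intro hs
  have hn : n = finrank F V := by rw [Module.finrank_eq_card_basis b, Fintype.card_fin]
  have hn4 : 4 ≤ n := by rw [hn]; exact E.dim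
  apply hσ
  ext c
  set! e : V := b ⟨0, by omega⟩ with he
  have hYe : Y e = e := hb _
  have he0 : e ≠ 0 := b.ne_zero _
  obtain ⟨m, hm⟩ := hs (tv E.form e (c * t⁻¹))
  have h1 := ext_fix ht0 ht hb m
  rw [hm, cj_tv, hYe] at h1
  have h2 := tv_inj E he0 (congrArg ρ h1)
  have hσt : Y.σ t ≠ 0 := (map_ne_zero Y.σ).2 ht0
  have hl := Y.hl
  rw [map_mul, map_inv₀] at h2
  have h3 : (Y.σ t)⁻¹ * Y.l⁻¹ = t⁻¹ := by
    rw [← mul_inv, mul_comm, ht]
  rw [mul_assoc, h3] at h2
  exact mul_right_cancel₀ (inv_ne_zero ht0) h2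

/-- a power of a member is another member only if they coincide -/
theorem PF.eq_of_pow (hx : PF x r) {i i0 : ι} {k : ℕ} (h : x i = x i0 ^ k) : i = i0 := by
  by_contra hne
  have h1 : r i ≠ r i0 := fun h => hne (hx.inj h)
  have hco : (r i).Coprime (r i0) := (Nat.coprime_primes (hx.prime i) (hx.prime i0)).2 h1
  have h2 : x i ^ r i0 = 1 := by rw [h, ← pow_mul, mul_comm, pow_mul, hx.pow, one_pow]
  have h3 : orderOf (x i) ∣ r i := orderOf_dvd_of_pow_eq_one (hx.pow i)
  have h4 : orderOf (x i) ∣ r i0 := orderOf_dvd_of_pow_eq_one h2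
  exact hx.ne i (orderOf_eq_one_iff.1 (Nat.eq_one_of_dvd_coprimes hco h3 h4))

/-- **M-rule for the group over the fixed field** -/
theorem mrule_field [Finite G] [Finite ι] (E : SpEnv Ω N ρ) (hIH : IH (Nat.card N)) (hx : PF x r) (hcov : Cov Ω x)
    (hM : ∀ i, Lf ρ (x i) (M i)) (i0 : ι) {Y : SS B} {n : ℕ} {b : Basis (Fin n) F V} (hY : Lf ρ (x i0) Y)
    (hb : ∀ i, Y (b i) = b i) (hσ : Y.σ ≠ 1) {t : F} (ht0 : t ≠ 0) (ht : Y.l * Y.σ t = t)
    (h6 : 6 ≤ finrank F V ∨ 3 ≤ Nat.card (Fx Y.σ)) (ω : Ω) :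
    (∀ m, ρ (ext ht0 ht hb m) • ω = ω) ∨ x i0 • ω = ω := by
  have hn : n = finrank F V := by rw [Module.finrank_eq_card_basis b, Fintype.card_fin]
  have hV0 : finrank (Fx Y.σ) (V0 Y) = n := by
    rw [Module.finrank_eq_card_basis (b0 hb), Fintype.card_fin]
  have hfd : FiniteDimensional (Fx Y.σ) (V0 Y) := Module.Finite.of_basis (b0 hb)
  have hB0 := nalt_B0 ht0 ht hb E.form
  have hdim := E.dim
  have hob_ := exists_dim E.form
  obtain ⟨m, hm⟩ := hob_
  have hc : 6 ≤ finrank (Fx Y.σ) (V0 Y) ∨ (finrank (Fx Y.σ) (V0 Y) = 4 ∧ 3 ≤ Nat.card (Fx Y.σ)) := by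
    rw [hV0, hn]
    rcases h6 with h6 | h6
    · exact Or.inl h6
    · by_cases h7 : 6 ≤ finrank F V
      · exact Or.inl h7
      · exact Or.inr ⟨by omega, h6⟩
  have hc3 : 6 ≤ finrank (Fx Y.σ) (V0 Y) ∨ (finrank (Fx Y.σ) (V0 Y) = 4 ∧ 3 ≤ Nat.card (Fx Y.σ)) ∨
      (finrank (Fx Y.σ) (V0 Y) ≠ 0 ∧ 4 ≤ Nat.card (Fx Y.σ)) := by
    rcases hc with h | h
    · exact Or.inl h
    · exact Or.inr (Or.inl h)
  have hc3' : 6 ≤ finrank (Fx Y.σ) (V0 Y) ∨ (finrank (Fx Y.σ) (V0 Y) = 4 ∧ 3 ≤ Nat.card (Fx Y.σ)) ∨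
      4 ≤ Nat.card (Fx Y.σ) := by
    rcases hc with h | h
    · exact Or.inl h
    · exact Or.inr (Or.inl h)
  have hF3 : 6 ≤ finrank F V ∨ (finrank F V = 4 ∧ 3 ≤ Nat.card F) ∨ 4 ≤ Nat.card F := by
    by_cases h7 : 6 ≤ finrank F V
    · exact Or.inl h7
    · right; left
      refine ⟨by omega, ?_⟩
      have h8 := h6.resolve_left h7
      exact h8.trans (Nat.card_le_card_of_injective _ (Fx Y.σ).subtype_injective)
  have hfin : Finite V := Module.finite_of_finite F
  have hfinS : Finite (Sp (B0 (Y := Y) ht0 ht)) := Finite.of_injective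
    (fun s : Sp (B0 (Y := Y) ht0 ht) => (fun v : V0 Y => s.1 v)) (fun s s' h => by
      apply Subtype.ext
      apply LinearEquiv.ext
      intro v
      exact congrFun h v)
  have hob_ := E.mrule hIH (ext ht0 ht hb) (ext_injective ht0 ht hb)
    (E.range_ne (perfect_Sp E.form hF3) _ (ext_not_surj E hb ht0 ht hσ)) (perfect_Sp hB0 hc3')
    (simple_Sp hB0 hc3) (ncomm_Sp hB0 hc3) hM hx hcov
    (fun i s => norm_cj hb ht0 ht E hY (hM i) (hx.comm i0 i) s)
    (Or.inl ⟨cl_Sp hB0 hc3, not_exc_Sp hB0 hc⟩) ω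
  rcases hob_ with h | ⟨i, h1, h2⟩
  · exact Or.inl h
  · have hob_ := cent_lift hb ht0 ht E hY (hM i) h1
    obtain ⟨k, hk⟩ := hob_
    rw [PF.eq_of_pow hx hk] at h2
    exact Or.inr h2

/-- **no member is semilinear (`q` odd)** -/
theorem dead_semi [Finite G] [Nonempty Ω] [Finite ι] (E : SpEnv Ω N ρ) (hIH : IH (Nat.card N)) (h2 : (2 : F) ≠ 0)
    (hx : PF x r) (hcov : Cov Ω x) (hM : ∀ i, Lf ρ (x i) (M i)) (i0 : ι) (hi0 : ¬ (M i0).IsLin) : False := by
  obtain ⟨Y, b, hY, hb, hord⟩ := exists_Y E (hM i0) (hx.prime i0) (hx.pow i0) hi0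
  have hV := SpEnv_nontrivial E
  obtain ⟨t, ht0, ht⟩ := exists_t E.form hb
  have hσ : Y.σ ≠ 1 := by
    intro h
    rw [h, orderOf_one] at hord
    exact (hx.prime i0).ne_one hord.symm
  have hdim := E.dim
  have h3 : 3 ≤ Nat.card (Fx Y.σ) := by
    have h1 : Nat.card (Fx Y.σ) ≠ 0 := Nat.card_ne_zero.2 ⟨inferInstance, inferInstance⟩
    have h4 : 2 ≤ Nat.card (Fx Y.σ) := Finite.one_lt_card
    by_contra h5
    have h6 : Nat.card (Fx Y.σ) = 2 := by omega
    apply h2
    have h7 : ((Nat.card (Fx Y.σ) : ℕ) : Fx Y.σ) = 0 := by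
      have := card_nsmul_eq_zero' (G := Fx Y.σ) (x := 1)
      rwa [nsmul_one] at this
    rw [h6] at h7
    have h8 := map_natCast (Fx Y.σ).subtype 2
    rw [h7, map_zero] at h8
    exact_mod_cast h8.symm
  set e : V := b ⟨0, by omega⟩ with he
  refine lr_field E h2 hY hσ (e := e) (b.ne_zero _) (hb _) (c := t⁻¹) (inv_ne_zero ht0) fun ω => ?_
  rcases mrule_field E hIH hx hcov hM i0 hY hb hσ ht0 ht (Or.inr h3) ω with h | h
  · left
    have h5 := h (tv (nalt_B0 ht0 ht hb E.form) ⟨e, hb _⟩ 1)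
    rw [ext_tv ht0 ht hb E.form] at h5
    have h6 : (((1 : Fx Y.σ) : F) * t⁻¹) = t⁻¹ := one_mul _
    rwa [h6] at h5
  · exact Or.inr h

end Cfsg.Agent.H327.RC
end

-- part: H520/RC/SpLR
section
/-!
# S3510, row D, box D1: transvections and elements fixing their centre (helper520)

* `Qe hB e` : the unipotent radical of the stabiliser of `⟨e⟩`, `ph hB hw c ∈ Qe` : `x ↦ x + B x e w + (B x w + c B x e) e`;
* `lr_pprime` : no cover `{ρ (tv e c)} ∪ {x j}`, `M j e ∈ ⟨e⟩`, `r j ≠ p`;
* `lr_single` : no cover `{ρ (tv e c), x}`, `M e ∈ ⟨e⟩`, `x` not of the form `ρ (tv e c')`.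
-/

set_option autoImplicit false
open Cfsg

namespace Cfsg.Agent.H520.RC

open MulAction Module Cfsg.Agent.H106.RC Cfsg.Agent.H727.GW Cfsg.Agent.H380.RC

universe u v

section qe

variable {F : Type u} {V : Type v} [Field F] [AddCommGroup V] [Module F V] {B : LinearMap.BilinForm F V}

/-- elements of the unipotent radical of the stabiliser of `⟨e⟩` -/
def ph (hB : NAlt B) {e w : V} (hw : B w e = 0) (c : F) : Sp B :=
  ⟨{ toFun := fun x => x + B x e • w + (B x w + c * B x e) • e
     invFun := fun x => x - B x e • w - (B x w + c * B x e) • e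
     left_inv := fun x => by
      show (x + B x e • w + (B x w + c * B x e) • e) - B (x + B x e • w + (B x w + c * B x e) • e) e • w -
        (B (x + B x e • w + (B x w + c * B x e) • e) w + c * B (x + B x e • w + (B x w + c * B x e) • e) e) • e = x
      simp only [map_add, LinearMap.add_apply, map_smul, LinearMap.smul_apply, smul_eq_mul, hB.alt, hw, hB.swap0 hw,
        mul_zero, add_zero]
      abel
     right_inv := fun x => by
      show (x - B x e • w - (B x w + c * B x e) • e) + B (x - B x e • w - (B x w + c * B x e) • e) e • w +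
        (B (x - B x e • w - (B x w + c * B x e) • e) w + c * B (x - B x e • w - (B x w + c * B x e) • e) e) • e = x
      simp only [map_sub, LinearMap.sub_apply, map_smul, LinearMap.smul_apply, smul_eq_mul, hB.alt, hw, hB.swap0 hw,
        mul_zero, sub_zero]
      abel
     map_add' := fun x y => by
      simp only [map_add, LinearMap.add_apply, add_smul, mul_add]
      abel
     map_smul' := fun a x => by
      simp only [map_smul, LinearMap.smul_apply, smul_eq_mul, RingHom.id_apply, smul_add, smul_smul, mul_add]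
      congr 2
      ring }, by
    intro x y
    show B (x + B x e • w + (B x w + c * B x e) • e) (y + B y e • w + (B y w + c * B y e) • e) = B x y
    simp only [map_add, LinearMap.add_apply, map_smul, LinearMap.smul_apply, smul_eq_mul, hB.alt, hw, hB.swap0 hw,
      mul_zero, add_zero]
    rw [hB.swap w y, hB.swap e y]
    ring⟩

theorem ph_apply (hB : NAlt B) {e w : V} (hw : B w e = 0) (c : F) (x : V) :
    (ph hB hw c).1 x = x + B x e • w + (B x w + c * B x e) • e := rfl

theorem pa {e w w' : V} (hw : B w e = 0) (hw' : B w' e = 0) : B (w + w') e = 0 := by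
  rw [map_add, LinearMap.add_apply, hw, hw', add_zero]

theorem pn {e w : V} (hw : B w e = 0) : B (-w) e = 0 := by
  rw [map_neg, LinearMap.neg_apply, hw, neg_zero]

theorem ph_mul (hB : NAlt B) {e w w' : V} (hw : B w e = 0) (hw' : B w' e = 0) (c c' : F) :
    ph hB hw c * ph hB hw' c' = ph hB (pa hw hw') (c + c' + B w' w) := by
  apply Subtype.ext
  apply LinearEquiv.ext
  intro x
  show (ph hB hw c).1 ((ph hB hw' c').1 x) = _
  rw [ph_apply, ph_apply, ph_apply]
  simp only [map_add, LinearMap.add_apply, map_smul, LinearMap.smul_apply, smul_eq_mul, hB.alt, hw', hB.swap0 hw,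
    mul_zero, add_zero]
  module

theorem ph_zero (hB : NAlt B) {e : V} (hw : B 0 e = 0) (c : F) : ph hB hw c = tv hB e c := by
  apply Subtype.ext
  apply LinearEquiv.ext
  intro x
  rw [ph_apply, tv_apply, smul_zero, add_zero, map_zero, zero_add]

theorem ph_congr (hB : NAlt B) {e w w' : V} (hw : B w e = 0) (hw' : B w' e = 0) {c c' : F} (h : w = w') (hc : c = c') :
    ph hB hw c = ph hB hw' c' := by
  subst h; subst hc; rfl

theorem ph_inv (hB : NAlt B) {e w : V} (hw : B w e = 0) (c : F) :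
    (ph hB hw c)⁻¹ = ph hB (pn hw) (-c) := by
  rw [inv_eq_iff_mul_eq_one, ph_mul]
  have h0 : B 0 e = 0 := by rw [map_zero, LinearMap.zero_apply]
  rw [ph_congr hB _ h0 (c' := 0) (by rw [add_neg_cancel]) (by
    rw [map_neg, LinearMap.neg_apply, hB.alt]; ring), ph_zero, tv_zero]

theorem ph_comm (hB : NAlt B) {e w w' : V} (hw : B w e = 0) (hw' : B w' e = 0) (c c' : F) :
    ph hB hw c * ph hB hw' c' * (ph hB hw c)⁻¹ * (ph hB hw' c')⁻¹ = tv hB e (2 * B w' w) := by
  have h0 : B 0 e = 0 := by rw [map_zero, LinearMap.zero_apply]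
  rw [ph_inv, ph_inv, ph_mul, ph_mul, ph_mul, ph_congr hB _ h0 (c' := 2 * B w' w) (by abel) ?_, ph_zero]
  simp only [map_add, map_neg, LinearMap.add_apply, LinearMap.neg_apply, hB.alt]
  rw [hB.swap w w']
  ring

/-- the unipotent radical of the stabiliser of `⟨e⟩` -/
def Qe (hB : NAlt B) (e : V) : Subgroup (Sp B) where
  carrier := {g | g.1 e = e ∧ ∀ x, B x e = 0 → ∃ c : F, g.1 x = x + c • e}
  one_mem' := ⟨rfl, fun x _ => ⟨0, by rw [zero_smul, add_zero]; rfl⟩⟩
  mul_mem' := by
    rintro g h ⟨hg, hg'⟩ ⟨hh, hh'⟩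
    refine ⟨?_, fun x hx => ?_⟩
    · show g.1 (h.1 e) = e
      rw [hh, hg]
    · obtain ⟨c, hc⟩ := hh' x hx
      obtain ⟨d, hd⟩ := hg' x hx
      refine ⟨c + d, ?_⟩
      show g.1 (h.1 x) = _
      rw [hc, map_add, map_smul, hg, hd, add_smul]
      abel
  inv_mem' := by
    rintro g ⟨hg, hg'⟩
    refine ⟨?_, fun x hx => ?_⟩
    · show g.1.symm e = e
      rw [LinearEquiv.symm_apply_eq, hg]
    · obtain ⟨c, hc⟩ := hg' x hx
      refine ⟨-c, ?_⟩
      show g.1.symm x = _
      rw [LinearEquiv.symm_apply_eq, map_add, map_smul, hg, hc, neg_smul, add_neg_cancel_right]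

theorem ph_mem (hB : NAlt B) {e w : V} (hw : B w e = 0) (c : F) : ph hB hw c ∈ Qe hB e := by
  refine ⟨?_, fun x hx => ⟨B x w, ?_⟩⟩
  · rw [ph_apply, hB.alt, hB.swap0 hw]
    simp
  · rw [ph_apply, hx, zero_smul, add_zero, mul_zero, add_zero]

/-- the transvections with centre `⟨e⟩` are central in `Qe` -/
theorem Qe_comm (hB : NAlt B) {e : V} {g : Sp B} (hg : g ∈ Qe hB e) (c : F) : g * tv hB e c = tv hB e c * g := by
  have h1 := SS.cj_tg g (tv hB e c)
  rw [cj_tv] at h1
  have h2 : tv hB (SS.tg g e) ((SS.tg g).σ c * (SS.tg g).l⁻¹) = tv hB e c := by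
    have h3 : SS.tg g e = e := hg.1
    rw [h3]
    congr 1
    show c * (1 : F)⁻¹ = c
    rw [inv_one, mul_one]
  rw [h2] at h1
  exact (eq_mul_inv_iff_mul_eq.1 h1).symm

/-- powers of elements of `Qe` -/
theorem Qe_pow (hB : NAlt B) {e : V} {g : Sp B} (hg : g ∈ Qe hB e) (v : V) :
    ∃ d₁ d₂ : V, ∀ k : ℕ, (g ^ k).1 v = v + (k : F) • d₁ + (k.choose 2 : F) • d₂ := by
  have h1 : B (g.1 v - v) e = 0 := by
    rw [map_sub, LinearMap.sub_apply]
    have h2 := g.2 v e
    rw [hg.1] at h2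
    rw [h2, sub_self]
  obtain ⟨c, hc⟩ := hg.2 _ h1
  refine ⟨g.1 v - v, c • e, fun k => ?_⟩
  induction k with
  | zero => simp
  | succ k ih =>
    have h3 : (g ^ (k + 1)).1 v = g.1 ((g ^ k).1 v) := by
      rw [pow_succ']; rfl
    have h4 : g.1 (g.1 v) = g.1 v + (g.1 v - v) + c • e := by
      have h5 : g.1 (g.1 v - v) = g.1 (g.1 v) - g.1 v := map_sub _ _ _
      rw [h5] at hc
      rw [sub_eq_iff_eq_add] at hc
      rw [hc]; abel
    rw [h3, ih, map_add, map_add, map_smul, map_smul, map_smul, map_sub, hg.1, h4, Nat.choose_succ_succ' k 1,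
      Nat.choose_one_right]
    push_cast
    module

/-- `Qe` is a `p`-group -/
theorem Qe_pgroup (hB : NAlt B) (e : V) (p : ℕ) [hp : Fact p.Prime] [CharP F p] : IsPGroup p (Qe hB e) := by
  rintro ⟨g, hg⟩
  refine ⟨2, Subtype.ext (Subtype.ext (LinearEquiv.ext fun v => ?_))⟩
  have hob_ := Qe_pow hB hg v
  obtain ⟨d₁, d₂, h⟩ := hob_
  show (g ^ p ^ 2).1 v = v
  rw [h]
  have h1 : ((p ^ 2 : ℕ) : F) = 0 := by
    rw [Nat.cast_pow, CharP.cast_eq_zero, zero_pow two_ne_zero]
  have h2 : (((p ^ 2).choose 2 : ℕ) : F) = 0 := by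
    rw [CharP.cast_eq_zero_iff F p]
    exact hp.out.dvd_choose_pow (by norm_num) (by
      intro h3
      have h4 := hp.out.two_le
      have h5 : p * p = 2 := by rw [← pow_two]; exact h3.symm
      nlinarith)
  rw [h1, h2, zero_smul, zero_smul, add_zero, add_zero]

/-- conjugation of `ph` by a semisimilitude fixing `⟨e⟩` -/
theorem cj_ph (hB : NAlt B) {e w : V} (hw : B w e = 0) (c : F) (M : SS B) {μ : F} (hμ : μ ≠ 0) (he : M e = μ • e)
    (hw' : B ((M.l⁻¹ * μ) • M w) e = 0) :
    SS.cj M (ph hB hw c) = ph hB hw' (M.σ c * M.l⁻¹ * μ * μ) := by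
  apply SS.cj_eq
  intro x
  have h1 : B (M x) e = μ⁻¹ * (M.l * M.σ (B x e)) := by
    rw [← M.form, he, map_smul, smul_eq_mul, inv_mul_cancel_left₀ hμ]
  have h2 : B (M x) ((M.l⁻¹ * μ) • M w) = μ * M.σ (B x w) := by
    rw [map_smul, M.form, smul_eq_mul]
    field_simp [M.hl]
  rw [ph_apply, ph_apply, h1, h2, M.map_add, M.map_add, M.map_smul, M.map_smul, he, smul_smul, smul_smul, map_add,
    map_mul]
  have hl := M.hl
  congr 2
  · congr 1
    field_simp
  · congr 1
    field_simp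

/-- a semisimilitude fixing `⟨e⟩` normalises `Qe` -/
theorem cj_Qe (hB : NAlt B) {e : V} (M : SS B) {μ : F} (he : M e = μ • e) {g : Sp B}
    (hg : g ∈ Qe hB e) : SS.cj M g ∈ Qe hB e := by
  by_cases he0 : e = 0
  · subst he0
    refine ⟨map_zero _, fun x _ => ?_⟩
    obtain ⟨x, rfl⟩ := M.surjective x
    obtain ⟨c, hc⟩ := hg.2 x (map_zero _)
    exact ⟨0, by rw [SS.cj_apply, hc, smul_zero, smul_zero, add_zero, add_zero]⟩
  have hμ : μ ≠ 0 := by
    rintro rfl
    rw [zero_smul] at he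
    exact he0 (M.injective (he.trans M.map_zero.symm))
  refine ⟨?_, fun x hx => ?_⟩
  · have h1 : e = M (M.σ.symm μ⁻¹ • e) := by
      rw [M.map_smul, RingEquiv.apply_symm_apply, he, smul_smul, inv_mul_cancel₀ hμ, one_smul]
    conv_lhs => rw [h1]
    rw [SS.cj_apply, map_smul, hg.1, ← h1]
  · obtain ⟨x, rfl⟩ := M.surjective x
    have h1 : B x e = 0 := by
      have h2 : B (M x) (M e) = 0 := by rw [he, map_smul, hx, smul_zero]
      rw [M.form] at h2
      exact (map_eq_zero M.σ).1 ((mul_eq_zero.1 h2).resolve_left M.hl)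
    obtain ⟨c, hc⟩ := hg.2 x h1
    refine ⟨M.σ c * μ, ?_⟩
    rw [SS.cj_apply, hc, M.map_add, M.map_smul, he, smul_smul]

/-- `(e^⊥)^⊥ = ⟨e⟩` -/
theorem perp_perp [FiniteDimensional F V] (hB : NAlt B) {e z : V} (h : ∀ w, B w e = 0 → B w z = 0) :
    ∃ c : F, z = c • e := by
  by_cases he : e = 0
  · refine ⟨0, ?_⟩
    rw [zero_smul]
    refine hB.nd' z fun y => h y ?_
    rw [he, map_zero]
  obtain ⟨f, hf⟩ := hB.exists_one he
  have hf' : B f e ≠ 0 := by
    rw [hB.swap, hf]
    exact neg_ne_zero.2 one_ne_zero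
  refine ⟨(B f e)⁻¹ * B f z, ?_⟩
  rw [← sub_eq_zero]
  apply hB.nd'
  intro y
  -- y = (B y e / B f e) f + w
  have h1 : B (y - (B y e * (B f e)⁻¹) • f) e = 0 := by
    rw [map_sub, LinearMap.sub_apply, map_smul, LinearMap.smul_apply, smul_eq_mul, inv_mul_cancel_right₀ hf', sub_self]
  have h2 := h _ h1
  rw [map_sub, LinearMap.sub_apply, map_smul, LinearMap.smul_apply, smul_eq_mul, sub_eq_zero] at h2
  rw [map_sub, map_smul, smul_eq_mul, h2]
  ring

end qe

section rule

variable {F : Type u} {V : Type v} [Field F] [AddCommGroup V] [Module F V] {B : LinearMap.BilinForm F V}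
  {G : Type*} [Group G] {Ω : Type*} [MulAction G Ω] {N : Subgroup G} {ρ : ↥(Sp B) →* G}

/-- a vector of `e^⊥` outside `⟨e⟩` -/
theorem exists_perp_ne [FiniteDimensional F V] (hd : 4 ≤ finrank F V) (e : V) :
    ∃ w, B w e = 0 ∧ ∀ c : F, w ≠ c • e := by
  by_contra hno
  push Not at hno
  have h1 : LinearMap.ker (B.flip e) ≤ Submodule.span F {e} := by
    intro w hw
    obtain ⟨c, hc⟩ := hno w hw
    rw [hc]
    exact Submodule.smul_mem _ _ (Submodule.mem_span_singleton_self e)
  have h2 := Submodule.finrank_mono h1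
  have h3 : finrank F (Submodule.span F {e}) ≤ 1 := by
    by_cases he : e = 0
    · rw [he, Submodule.span_zero_singleton, finrank_bot]; omega
    · rw [finrank_span_singleton he]
  have h4 := LinearMap.finrank_range_add_finrank_ker (B.flip e)
  have h5 : finrank F (LinearMap.range (B.flip e)) ≤ 1 := by
    calc finrank F (LinearMap.range (B.flip e)) ≤ finrank F F := Submodule.finrank_le _
      _ = 1 := finrank_self F
  omega

/-- **Dichotomy**: an element fixing `⟨e⟩` is in `ρ(Qe)` or `[ρ(Qe), x]` contains the transvections. -/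
theorem SpEnv.dich [FiniteDimensional F V] (E : SpEnv Ω N ρ) (h2 : (2 : F) ≠ 0) {e : V} (he0 : e ≠ 0) {x : G} {M : SS B}
    (h : Lf ρ x M) {μ : F} (he : M e = μ • e) :
    (∃ t ∈ Qe E.form e, x = ρ t) ∨ ∀ c, ρ (tv E.form e c) ∈ cmm ((Qe E.form e).map ρ) x := by
  have hμ : μ ≠ 0 := by
    rintro rfl
    rw [zero_smul] at he
    exact he0 (M.injective (he.trans M.map_zero.symm))
  have hl := M.hl
  set k := M.l⁻¹ * μ with hk
  have hk0 : k ≠ 0 := mul_ne_zero (inv_ne_zero hl) hμ
  have hMw : ∀ w, B w e = 0 → B (M w) e = 0 := by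
    intro w hw
    have h3 : B (M w) (M e) = 0 := by rw [M.form, hw, map_zero, mul_zero]
    rw [he, map_smul, smul_eq_mul] at h3
    exact (mul_eq_zero.1 h3).resolve_left hμ
  by_cases hcase : ∀ w, B w e = 0 → ∃ c : F, w - k • M w = c • e
  · left
    -- `M w ≡ k⁻¹ w` modulo `e`
    have hM1 : ∀ w, B w e = 0 → ∃ c : F, M w = k⁻¹ • w + c • e := by
      intro w hw
      obtain ⟨c, hc⟩ := hcase w hw
      refine ⟨-(k⁻¹ * c), ?_⟩
      have h3 : k • M w = w - c • e := by rw [← hc]; abel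
      have h4 : M w = k⁻¹ • (k • M w) := by rw [smul_smul, inv_mul_cancel₀ hk0, one_smul]
      rw [h4, h3, smul_sub, smul_smul, neg_smul, sub_eq_add_neg]
    obtain ⟨w, hw, hwe⟩ := exists_perp_ne (B := B) E.dim e
    have hσ : ∀ a, M.σ a = a := by
      intro a
      obtain ⟨c, hc⟩ := hM1 w hw
      obtain ⟨c', hc'⟩ := hM1 (a • w) (by rw [map_smul, LinearMap.smul_apply, hw, smul_zero])
      rw [M.map_smul, hc, smul_add, smul_smul, smul_smul, smul_smul] at hc'
      by_contra hne
      apply hwe ((((M.σ a - a) * k⁻¹))⁻¹ * (c' - M.σ a * c))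
      have h3 : ((M.σ a - a) * k⁻¹) • w = (c' - M.σ a * c) • e := by
        have h4 := sub_eq_zero.2 hc'
        rw [← sub_eq_zero, ← h4]
        module
      rw [mul_smul, ← h3, smul_smul, inv_mul_cancel₀ (mul_ne_zero (sub_ne_zero.2 hne) (inv_ne_zero hk0)), one_smul]
    obtain ⟨w', hw', hww⟩ : ∃ w', B w' e = 0 ∧ B w' w ≠ 0 := by
      by_contra hno
      push Not at hno
      obtain ⟨c, hc⟩ := perp_perp E.form hno
      exact hwe c hc
    have hlk : M.l = k⁻¹ * k⁻¹ := by
      obtain ⟨c, hc⟩ := hM1 w hw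
      obtain ⟨c', hc'⟩ := hM1 w' hw'
      have h3 := M.form w' w
      rw [hc, hc', hσ] at h3
      simp only [map_add, LinearMap.add_apply, map_smul, LinearMap.smul_apply, smul_eq_mul, E.form.alt, hw',
        E.form.swap0 hw, mul_zero, add_zero] at h3
      have h4 : (M.l - k⁻¹ * k⁻¹) * B w' w = 0 := by linear_combination -h3
      exact sub_eq_zero.1 ((mul_eq_zero.1 h4).resolve_right hww)
    have hμk : μ = k⁻¹ := by
      have h3 : μ = M.l * k := by rw [hk]; field_simp
      rw [h3, hlk, mul_assoc, inv_mul_cancel₀ hk0, mul_one]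
    -- the isometry `k M`
    let t : Sp B := ⟨{ toFun := fun v => k • M v
                       invFun := fun v => M⁻¹ (k⁻¹ • v)
                       left_inv := fun v => by
                        show M⁻¹ (k⁻¹ • k • M v) = v
                        rw [smul_smul, inv_mul_cancel₀ hk0, one_smul, SS.inv_apply_self]
                       right_inv := fun v => by
                        show k • M (M⁻¹ (k⁻¹ • v)) = v
                        rw [SS.apply_inv_self, smul_smul, mul_inv_cancel₀ hk0, one_smul]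
                       map_add' := fun u v => by rw [M.map_add, smul_add]
                       map_smul' := fun a v => by
                        rw [M.map_smul, hσ, smul_comm, RingHom.id_apply] }, by
      intro u v
      show B (k • M u) (k • M v) = B u v
      rw [map_smul, LinearMap.map_smul₂, M.form, hσ, hlk, smul_eq_mul, smul_eq_mul]
      field_simp⟩
    have ht : ∀ v, t.1 v = k • M v := fun v => rfl
    refine ⟨t, ⟨?_, fun w hw => ?_⟩, E.eq_of_lf h (a := k⁻¹) (inv_ne_zero hk0) fun v => ?_⟩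
    · rw [ht, he, hμk, smul_smul, mul_inv_cancel₀ hk0, one_smul]
    · obtain ⟨c, hc⟩ := hM1 w hw
      exact ⟨k * c, by rw [ht, hc, smul_add, smul_smul, smul_smul, mul_inv_cancel₀ hk0, one_smul]⟩
    · rw [ht, smul_smul, inv_mul_cancel₀ hk0, one_smul]
  · right
    push Not at hcase
    obtain ⟨w, hw, hw1⟩ := hcase
    intro c
    have hkw : B (k • M w) e = 0 := by rw [map_smul, LinearMap.smul_apply, hMw w hw, smul_zero]
    have hnkw : B (-(k • M w)) e = 0 := by rw [map_neg, LinearMap.neg_apply, hkw, neg_zero]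
    -- first commutator
    have h3 : ρ (ph E.form hw (0 : F) * (SS.cj M (ph E.form hw (0 : F)))⁻¹) ∈ cmm ((Qe E.form e).map ρ) x := by
      have h4 := mem_cmm (x := x) (U := (Qe E.form e).map ρ) ⟨_, ph_mem E.form hw 0, rfl⟩
      have h5 : ρ (ph E.form hw 0) * x * (ρ (ph E.form hw 0))⁻¹ * x⁻¹ =
          ρ (ph E.form hw 0 * (SS.cj M (ph E.form hw 0))⁻¹) := by
        rw [map_mul, map_inv, ← h]
        group
      rw [h5] at h4
      exact h4
    rw [cj_ph E.form hw 0 M hμ he hkw, ph_inv, ph_mul] at h3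
    -- second commutator
    set w1 := w + -((M.l⁻¹ * μ) • M w) with hw1def
    obtain ⟨z, hz, hzw⟩ : ∃ z, B z e = 0 ∧ B z w1 ≠ 0 := by
      by_contra hno
      push Not at hno
      obtain ⟨c, hc⟩ := perp_perp E.form hno
      exact hw1 c (by rw [sub_eq_add_neg]; exact hc)
    have hw1e : B w1 e = 0 := by
      rw [hw1def, map_add, LinearMap.add_apply, hw, zero_add]
      exact hnkw
    set d := c * (2 * B w1 z)⁻¹ with hd
    have hz' : B (d • z) e = 0 := by rw [map_smul, LinearMap.smul_apply, hz, smul_zero]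
    have h6 := cmm_comm (U := (Qe E.form e).map ρ) (v := ρ (ph E.form hz' 0)) ⟨_, ph_mem E.form hz' 0, rfl⟩ h3
    rw [← map_inv, ← map_inv, ← map_mul, ← map_mul, ← map_mul, ph_comm] at h6
    have hB1 : B w1 z ≠ 0 := fun h0 => hzw (E.form.swap0 h0)
    have h7 : 2 * B w1 (d • z) = c := by
      rw [map_smul, smul_eq_mul, hd]
      field_simp
    rw [h7] at h6
    exact h6

/-- images of transvections are not trivial -/
theorem SpEnv.tv_ne [FiniteDimensional F V] (E : SpEnv Ω N ρ) {e : V} (he0 : e ≠ 0) {c : F} (hc : c ≠ 0) :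
    ρ (tv E.form e c) ≠ 1 := by
  intro h
  obtain ⟨a, ha⟩ := (E.ker _).1 h
  obtain ⟨w, hw, hwe⟩ := exists_perp_ne (B := B) E.dim e
  have h1 := ha w
  rw [tv_apply, hw, mul_zero, zero_smul, add_zero] at h1
  have ha1 : a = 1 := by
    have h2 : (a - 1) • w = 0 := by rw [sub_smul, one_smul, ← h1, sub_self]
    rcases smul_eq_zero.1 h2 with h3 | h3
    · exact sub_eq_zero.1 h3
    · exact absurd (by rw [h3, zero_smul]) (hwe 0)
  apply tv_ne_one E.form he0 hc
  apply Subtype.ext
  apply LinearEquiv.ext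
  intro v
  rw [ha, ha1, one_smul]
  rfl

theorem SpEnv.Qe_map_pgroup [Finite G] [FiniteDimensional F V] (E : SpEnv Ω N ρ) (e : V) (p : ℕ) [Fact p.Prime]
    [CharP F p] : IsPGroup p ((Qe E.form e).map ρ) :=
  (Qe_pgroup E.form e p).map ρ

theorem SpEnv.Qe_norm (E : SpEnv Ω N ρ) {e : V} {x : G} {M : SS B} (h : Lf ρ x M) {μ : F} (he : M e = μ • e) {u : G}
    (hu : u ∈ (Qe E.form e).map ρ) : x * u * x⁻¹ ∈ (Qe E.form e).map ρ := by
  obtain ⟨t, ht, rfl⟩ := hu
  exact ⟨SS.cj M t, cj_Qe E.form M he ht, (h t).symm⟩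

theorem SpEnv.Qe_tv (E : SpEnv Ω N ρ) {e : V} {c : F} {u : G} (hu : u ∈ (Qe E.form e).map ρ) :
    u * ρ (tv E.form e c) = ρ (tv E.form e c) * u := by
  obtain ⟨t, ht, rfl⟩ := hu
  rw [← map_mul, ← map_mul, Qe_comm E.form ht]

/-- **Box D1 for `p'`-elements.** -/
theorem SpEnv.lr_pprime [Finite G] [Nonempty Ω] [FiniteDimensional F V] (E : SpEnv Ω N ρ) {p : ℕ} [hp : Fact p.Prime]
    [CharP F p] (h2 : (2 : F) ≠ 0) {ι : Type*} [Finite ι] {x : ι → G} {r : ι → ℕ} {M : ι → SS B}
    (hl : ∀ i, Lf ρ (x i) (M i)) (hr : ∀ i, (r i).Prime) (hrp : ∀ i, r i ≠ p) (hx : ∀ i, x i ^ r i = 1)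
    (hx1 : ∀ i, x i ≠ 1) (hc : ∀ i j, x i * x j = x j * x i) {e : V} (he0 : e ≠ 0) {c : F} (hc0 : c ≠ 0)
    (he : ∀ i, ∃ μ : F, M i e = μ • e) (hcov : ∀ ω : Ω, ρ (tv E.form e c) • ω = ω ∨ ∃ i, x i • ω = ω) : False := by
  have hpg := E.Qe_map_pgroup e p
  have hco : ∀ i, (r i).Coprime (Nat.card ((Qe E.form e).map ρ)) := by
    intro i
    obtain ⟨k, hk⟩ := IsPGroup.iff_card.1 hpg
    rw [hk]
    exact Nat.Coprime.pow_right _ ((Nat.coprime_primes (hr i) hp.out).2 (hrp i))
  refine not_cov_lr E.env hr hx hc (U := (Qe E.form e).map ρ) hcov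
    (fun i u hu => ?_) (IsPGroup.isNilpotent hpg) hco (fun u hu => E.Qe_tv hu) (E.tv_ne he0 hc0) (fun i => ?_)
  · obtain ⟨μ, hμ⟩ := he i
    exact E.Qe_norm (hl i) hμ hu
  · obtain ⟨μ, hμ⟩ := he i
    rcases E.dich h2 he0 (hl i) hμ with ⟨t, ht, hxt⟩ | h
    · exfalso
      have h3 : orderOf (x i) ∣ Nat.card ((Qe E.form e).map ρ) := by
        have h4 : x i ∈ (Qe E.form e).map ρ := ⟨t, ht, hxt.symm⟩
        have h5 := orderOf_dvd_natCard (⟨x i, h4⟩ : (Qe E.form e).map ρ)
        rwa [Subgroup.orderOf_mk] at h5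
      have h4 : orderOf (x i) ∣ r i := orderOf_dvd_of_pow_eq_one (hx i)
      have h5 := Nat.eq_one_of_dvd_coprimes (hco i) h4 h3
      exact hx1 i (orderOf_eq_one_iff.1 h5)
    · exact h c

/-- box D1, form of the stubs -/
theorem lr_tv [Finite G] [Nonempty Ω] [Finite F] [FiniteDimensional F V] {ι : Type*} [Finite ι] {x : ι → G} {r : ι → ℕ}
    {M : ι → SS B} (E : SpEnv Ω N ρ) (h2 : (2 : F) ≠ 0) (hr : ∀ i, (r i).Prime) (hx : ∀ i, x i ^ r i = 1)
    (hc : ∀ i j, x i * x j = x j * x i) (hne : ∀ i, x i ≠ 1) (hM : ∀ i, Lf ρ (x i) (M i))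
    {e : V} (he : e ≠ 0) {c : F} (hc0 : c ≠ 0) (hcov : ∀ ω : Ω, ρ (tv E.form e c) • ω = ω ∨ ∃ i, x i • ω = ω)
    (hfix : ∀ i, ∃ a : F, M i e = a • e) (hrp : ∀ i, (r i).Coprime (Nat.card F)) : False := by
  obtain ⟨p, hp⟩ := CharP.exists F
  have : Fintype F := Fintype.ofFinite F
  have hpp : p.Prime := CharP.char_is_prime F p
  have : Fact p.Prime := ⟨hpp⟩
  refine E.lr_pprime (p := p) h2 hM hr (fun i h => ?_) hx hne hc he hc0 hfix hcov
  have h1 : p ∣ Nat.card F := by
    rw [Nat.card_eq_fintype_card]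
    obtain ⟨n, -, hn⟩ := FiniteField.card F p
    rw [hn]
    exact dvd_pow_self p n.2.ne'
  have h3 := hrp i
  rw [h] at h3
  exact hpp.one_lt.ne' (Nat.eq_one_of_dvd_coprimes h3 dvd_rfl h1)

end rule

end Cfsg.Agent.H520.RC
end

private theorem dce_b76c49368c78 : _root_.True := by
  try have : _root_.True := by simp only [_root_.Cfsg.Agent.H520.RC.tv.congr_simp]
  try have : _root_.True := by simp only [_root_.Cfsg.Agent.H327.RC.sg.congr_simp]
  try have : _root_.True := by simp only [_root_.Cfsg.Agent.H520.RC.ph.congr_simp]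
  try have : _root_.True := by simp only [_root_.Cfsg.Agent.H327.RC.b0.eq_1]
  try have : _root_.True := by simp only [_root_.Cfsg.Agent.H327.RC.extL.eq_1]
  exact _root_.True.intro
end
end

-- part: H202/RC/Point_mg
section
set_option linter.all false
open scoped Cfsg.Agent.FastGrp

-- part: H359/RC/Crit
section
/-!
# Regular cycles: the character criterion and the commuting criterion

`G` acts on a set `Ω`.  `Reg Ω h` is the set of points on which `⟨h⟩` is regular.
`Occ Ω Q μ` : the linear character `μ` of the subgroup `Q` occurs in the permutation module,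
i.e. `Q_ω ≤ ker μ` for some `ω`.
-/

set_option autoImplicit false

namespace Cfsg.Agent.H359.RC

open scoped Classical

variable {G : Type*} [Group G]

/-- The points on which the cyclic group `⟨h⟩` acts regularly. -/
def Reg (Ω : Type*) [MulAction G Ω] (h : G) : Set Ω := {ω | ∀ k : ℕ, h ^ k • ω = ω → h ^ k = 1}

/-- `μ` occurs in the permutation module of `Q` on `Ω`. -/
def Occ (Ω : Type*) [MulAction G Ω] (Q : Subgroup G) (μ : Q →* ℂˣ) : Prop :=
  ∃ ω : Ω, ∀ q : Q, (q : G) • ω = ω → μ q = 1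

/-- `x` fixes the linear character `μ` of `Q`. -/
def FixC (Q : Subgroup G) (μ : Q →* ℂˣ) (x : G) : Prop :=
  ∀ q q' : Q, (q' : G) = x * q * x⁻¹ → μ q' = μ q

theorem fixC_one (Q : Subgroup G) (μ : Q →* ℂˣ) : FixC Q μ 1 := by
  intro q q' h
  have : q' = q := Subtype.ext (by simpa using h)
  rw [this]

theorem fixC_mul {Q : Subgroup G} {μ : Q →* ℂˣ} {x y : G} (hy : ∀ q ∈ Q, y * q * y⁻¹ ∈ Q)
    (hx : FixC Q μ x) (h : FixC Q μ y) : FixC Q μ (x * y) := by
  intro q q' e
  have h1 := h q ⟨y * q * y⁻¹, hy _ q.2⟩ rfl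
  rw [← h1]
  apply hx
  rw [e]
  simp only [mul_assoc, _root_.mul_inv_rev]

theorem fixC_pow {Q : Subgroup G} {μ : Q →* ℂˣ} {x : G} (hx : ∀ q ∈ Q, x * q * x⁻¹ ∈ Q)
    (h : FixC Q μ x) (n : ℕ) : FixC Q μ (x ^ n) := by
  induction n with
  | zero => simpa using fixC_one Q μ
  | succ n ih => rw [pow_succ]; exact fixC_mul hx ih h

/-- The conjugate character `q ↦ μ (x⁻¹ q x)`. -/
def conjC (Q : Subgroup G) (μ : Q →* ℂˣ) (x : G) (hx : ∀ q ∈ Q, x⁻¹ * q * x ∈ Q) : Q →* ℂˣ where
  toFun q := μ ⟨x⁻¹ * q * x, hx _ q.2⟩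
  map_one' := by
    have : (⟨x⁻¹ * ((1 : Q) : G) * x, hx _ (1 : Q).2⟩ : Q) = 1 := Subtype.ext (by simp)
    rw [this, map_one]
  map_mul' a b := by
    rw [← map_mul]
    congr 1
    exact Subtype.ext (by simp only [mul_assoc, _root_.Subgroup.coe_mul, _root_.MulMemClass.mk_mul_mk, _root_.mul_inv_cancel_left])

theorem pow_conj_mem {Q : Subgroup G} {g : G} (hg : ∀ q ∈ Q, g⁻¹ * q * g ∈ Q) (i : ℕ) :
    ∀ q ∈ Q, (g ^ i)⁻¹ * q * (g ^ i) ∈ Q := by
  induction i with
  | zero => intro q hq; simpa using hq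
  | succ n ih =>
    intro q hq
    have := hg _ (ih q hq)
    have e : (g ^ (n + 1))⁻¹ * q * g ^ (n + 1) = g⁻¹ * ((g ^ n)⁻¹ * q * g ^ n) * g := by
      rw [pow_succ]; group
    rw [e]; exact this

theorem pow_conj_mem' {Q : Subgroup G} {g : G} (hg : ∀ q ∈ Q, g * q * g⁻¹ ∈ Q) (i : ℕ) :
    ∀ q ∈ Q, g ^ i * q * (g ^ i)⁻¹ ∈ Q := by
  induction i with
  | zero => intro q hq; simpa using hq
  | succ n ih =>
    intro q hq
    have := hg _ (ih q hq)
    have e : g ^ (n + 1) * q * (g ^ (n + 1))⁻¹ = g * (g ^ n * q * (g ^ n)⁻¹) * g⁻¹ := by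
      rw [pow_succ']; group
    rw [e]; exact this

/-- In a finite group the two forms of normalising coincide. -/
theorem inv_conj_mem [Finite G] {Q : Subgroup G} {g : G} (hg : ∀ q ∈ Q, g * q * g⁻¹ ∈ Q) :
    ∀ q ∈ Q, g⁻¹ * q * g ∈ Q := by
  intro q hq
  have h := pow_conj_mem' hg (orderOf g - 1) q hq
  have e : g ^ (orderOf g - 1) = g⁻¹ := by
    have h1 : g ^ (orderOf g - 1) * g = 1 := by
      rw [← pow_succ, Nat.sub_add_cancel (orderOf_pos g), pow_orderOf_eq_one]
    exact eq_inv_of_mul_eq_one_left h1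
  rw [e, inv_inv] at h
  exact h

variable {Ω : Type*} [MulAction G Ω]

/-- The function on `Ω` attached to the character `μ` on the orbit `Qω`. -/
noncomputable def fn (Q : Subgroup G) (μ : Q →* ℂˣ) (ω : Ω) (x : Ω) : ℂ :=
  if h : ∃ q : Q, (q : G) • ω = x then ((μ h.choose : ℂˣ) : ℂ) else 0

theorem fn_smul {Q : Subgroup G} {μ : Q →* ℂˣ} {ω : Ω}
    (hω : ∀ q : Q, (q : G) • ω = ω → μ q = 1) (q : Q) :
    fn Q μ ω ((q : G) • ω) = ((μ q : ℂˣ) : ℂ) := by
  have h : ∃ q' : Q, (q' : G) • ω = (q : G) • ω := ⟨q, rfl⟩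
  rw [fn, dif_pos h]
  have h2 := h.choose_spec
  have h3 : ((q⁻¹ * h.choose : Q) : G) • ω = ω := by
    rw [Subgroup.coe_mul, mul_smul, h2, ← mul_smul]
    simp
  have h4 := hω _ h3
  rw [map_mul, map_inv] at h4
  have h5 : μ h.choose = μ q := by
    have := congrArg (fun z => μ q * z) h4
    simpa only [_root_.mul_inv_cancel_left, _root_.mul_one] using this
  rw [h5]

theorem fn_zero {Q : Subgroup G} {μ : Q →* ℂˣ} {ω x : Ω} (h : ¬ ∃ q : Q, (q : G) • ω = x) :
    fn Q μ ω x = 0 := dif_neg h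

theorem fn_eq {Q : Subgroup G} {μ : Q →* ℂˣ} {ω : Ω}
    (hω : ∀ q : Q, (q : G) • ω = ω → μ q = 1) (q : Q) (x : Ω) :
    fn Q μ ω ((q : G) • x) = ((μ q : ℂˣ) : ℂ) * fn Q μ ω x := by
  by_cases h : ∃ q' : Q, (q' : G) • ω = x
  · obtain ⟨q', rfl⟩ := h
    rw [fn_smul hω q', ← mul_smul]
    have := fn_smul hω (q * q')
    rw [Subgroup.coe_mul] at this
    rw [this, map_mul, Units.val_mul]
  · rw [fn_zero h, mul_zero]
    apply fn_zero
    rintro ⟨q', e⟩
    apply h
    refine ⟨q⁻¹ * q', ?_⟩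
    rw [Subgroup.coe_mul, mul_smul, e, ← mul_smul]
    simp

/-- Main computation: a point of the orbit `Qω` outside the zeros of the `ζ`-projection. -/
theorem core [Finite G] {Q : Subgroup G} {g : G} (hg : ∀ q ∈ Q, g * q * g⁻¹ ∈ Q)
    (μ : Q →* ℂˣ) (ω : Ω) (hω : ∀ q : Q, (q : G) • ω = ω → μ q = 1)
    (hst : ∀ k : ℕ, FixC Q μ (g ^ k) → g ^ k = 1) :
    ∃ (F : Ω → ℂ) (q : Q), F ((q : G) • ω) ≠ 0 ∧ (∀ x, x ∉ Reg Ω g → F x = 0) ∧
      ∀ c : Q, (c : G) * g = g * c → ∀ x, F ((c : G) • x) = ((μ c : ℂˣ) : ℂ) * F x := by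
  have hg' := inv_conj_mem hg
  have hn0 : orderOf g ≠ 0 := (orderOf_pos g).ne'
  set n := orderOf g with hn
  obtain ⟨ζ, hζ⟩ : ∃ ζ : ℂ, IsPrimitiveRoot ζ n := ⟨_, Complex.isPrimitiveRoot_exp n hn0⟩
  let F : Ω → ℂ := fun x => ∑ i ∈ Finset.range n, ζ ^ i * fn Q μ ω ((g ^ i)⁻¹ • x)
  have hFg : ∀ x, F (g • x) = ζ * F x := by
    intro x
    have h1 : ∀ i, ζ ^ (i + 1) * fn Q μ ω ((g ^ (i + 1))⁻¹ • g • x) =
        ζ * (ζ ^ i * fn Q μ ω ((g ^ i)⁻¹ • x)) := by
      intro i
      have : (g ^ (i + 1))⁻¹ • g • x = (g ^ i)⁻¹ • x := by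
        rw [← mul_smul]; congr 1; rw [pow_succ']; group
      rw [this, pow_succ]; ring
    have h2 : F (g • x) = ∑ i ∈ Finset.range n,
        ζ ^ (i + 1) * fn Q μ ω ((g ^ (i + 1))⁻¹ • g • x) := by
      have e1 := Finset.sum_range_succ' (fun i => ζ ^ i * fn Q μ ω ((g ^ i)⁻¹ • g • x)) n
      have e2 := Finset.sum_range_succ (fun i => ζ ^ i * fn Q μ ω ((g ^ i)⁻¹ • g • x)) n
      rw [e2] at e1
      have e3 : ζ ^ n * fn Q μ ω ((g ^ n)⁻¹ • g • x) = ζ ^ 0 * fn Q μ ω ((g ^ 0)⁻¹ • g • x) := by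
        rw [hζ.pow_eq_one, hn, pow_orderOf_eq_one]; simp
      rw [e3] at e1
      exact add_right_cancel e1
    rw [h2]
    simp_rw [h1]
    rw [← Finset.mul_sum]
  have hFk : ∀ (k : ℕ) x, F (g ^ k • x) = ζ ^ k * F x := by
    intro k
    induction k with
    | zero => intro x; simp
    | succ k ih => intro x; rw [pow_succ', mul_smul, hFg, ih, pow_succ']; ring
  have hFQ : ∀ (i : ℕ) (q : Q) (x : Ω), fn Q μ ω ((g ^ i)⁻¹ • (q : G) • x) =
      ((conjC Q μ (g ^ i) (pow_conj_mem hg' i) q : ℂˣ) : ℂ) * fn Q μ ω ((g ^ i)⁻¹ • x) := by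
    intro i q x
    have e : (g ^ i)⁻¹ • (q : G) • x =
        ((⟨(g ^ i)⁻¹ * q * g ^ i, pow_conj_mem hg' i _ q.2⟩ : Q) : G) • ((g ^ i)⁻¹ • x) := by
      rw [← mul_smul, ← mul_smul]; congr 1; simp only [mul_assoc, _root_.mul_inv_cancel, _root_.mul_one]
    rw [e, fn_eq hω]
    rfl
  refine ⟨F, ?_⟩
  have hex : ∃ q : Q, F ((q : G) • ω) ≠ 0 := by
    by_contra hcon
    push Not at hcon
    have : Fintype Q := Fintype.ofFinite Q
    have h0 : ∑ q : Q, (((μ q)⁻¹ : ℂˣ) : ℂ) * F ((q : G) • ω) = 0 :=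
      Finset.sum_eq_zero fun q _ => by rw [hcon q, mul_zero]
    have h1 : ∑ q : Q, (((μ q)⁻¹ : ℂˣ) : ℂ) * F ((q : G) • ω) =
        ∑ i ∈ Finset.range n, ζ ^ i * fn Q μ ω ((g ^ i)⁻¹ • ω) *
          ∑ q : Q, ((((μ q)⁻¹ * conjC Q μ (g ^ i) (pow_conj_mem hg' i) q : ℂˣ)) : ℂ) := by
      simp only [F, Finset.mul_sum]
      rw [Finset.sum_comm]
      refine Finset.sum_congr rfl fun i _ => Finset.sum_congr rfl fun q _ => ?_
      rw [hFQ, Units.val_mul]
      ring
    have h2 : ∀ i ∈ Finset.range n, i ≠ 0 →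
        ζ ^ i * fn Q μ ω ((g ^ i)⁻¹ • ω) *
          ∑ q : Q, ((((μ q)⁻¹ * conjC Q μ (g ^ i) (pow_conj_mem hg' i) q : ℂˣ)) : ℂ) = 0 := by
      intro i hi hi0
      have hne : g ^ i ≠ 1 := by
        intro h
        have := Nat.le_of_dvd (Nat.pos_of_ne_zero hi0) (orderOf_dvd_of_pow_eq_one h)
        exact absurd (Finset.mem_range.1 hi) (by omega)
      let ν : Q →* ℂ := (Units.coeHom ℂ).comp (μ⁻¹ * conjC Q μ (g ^ i) (pow_conj_mem hg' i))
      have hν : ν ≠ 1 := by
        intro h
        apply hne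
        apply hst
        intro q q' e
        have h3 := DFunLike.congr_fun h q'
        have h4 : (μ q')⁻¹ * conjC Q μ (g ^ i) (pow_conj_mem hg' i) q' = 1 := by
          apply Units.ext
          simpa only [ν, _root_.Units.val_mul, _root_.Units.val_inv_eq_inv_val, _root_.Units.val_one, _root_.MonoidHom.coe_comp, _root_.Function.comp_apply, _root_.MonoidHom.mul_apply, _root_.MonoidHom.inv_apply, _root_.Units.coeHom_apply, _root_.MonoidHom.one_apply] using h3
        have h5 : conjC Q μ (g ^ i) (pow_conj_mem hg' i) q' = μ q' := by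
          have := congrArg (fun z => μ q' * z) h4
          simpa using this
        rw [← h5]
        change μ _ = μ q
        congr 1
        apply Subtype.ext
        change (g ^ i)⁻¹ * (q' : G) * g ^ i = q
        rw [e]; group
      have h6 := sum_hom_units_eq_zero (G := Q) (R := ℂ) ν hν
      have h7 : ∑ q : Q, ((((μ q)⁻¹ * conjC Q μ (g ^ i) (pow_conj_mem hg' i) q : ℂˣ)) : ℂ) = 0 := by
        rw [← h6]
        rfl
      rw [h7, mul_zero]
    rw [h1, Finset.sum_eq_single_of_mem 0 (Finset.mem_range.2 (Nat.pos_of_ne_zero hn0)) h2] at h0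
    have h8 : fn Q μ ω ((g ^ 0)⁻¹ • ω) = 1 := by
      have := fn_smul hω (1 : Q)
      simpa only [_root_.pow_zero, _root_.inv_one, _root_.one_smul, _root_.OneMemClass.coe_one, _root_.map_one, _root_.Units.val_one] using this
    have h9 : ∀ q : Q, ((((μ q)⁻¹ * conjC Q μ (g ^ 0) (pow_conj_mem hg' 0) q : ℂˣ)) : ℂ) = 1 := by
      intro q
      have : conjC Q μ (g ^ 0) (pow_conj_mem hg' 0) q = μ q := by
        change μ _ = μ q
        congr 1
        apply Subtype.ext
        change (g ^ 0)⁻¹ * (q : G) * g ^ 0 = q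
        simp
      rw [this]; simp
    rw [h8] at h0
    simp only [h9] at h0
    simp only [_root_.pow_zero, _root_.mul_one, _root_.Finset.sum_const, _root_.Finset.card_univ, _root_.nsmul_eq_mul, _root_.one_mul, _root_.Nat.cast_eq_zero, _root_.Fintype.card_ne_zero] at h0
  obtain ⟨q, hq⟩ := hex
  refine ⟨q, hq, ?_, ?_⟩
  · intro x hx
    have hx' : ¬ ∀ k : ℕ, g ^ k • x = x → g ^ k = 1 := hx
    push Not at hx'
    obtain ⟨k, hk, hk1⟩ := hx'
    have h1 := hFk k x
    rw [hk] at h1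
    have h2 : ζ ^ k ≠ 1 := by
      intro h
      apply hk1
      have := hζ.dvd_of_pow_eq_one k h
      rw [hn] at this
      exact orderOf_dvd_iff_pow_eq_one.1 this
    have h3 : (ζ ^ k - 1) * F x = 0 := by rw [sub_mul, ← h1]; ring
    rcases mul_eq_zero.1 h3 with h | h
    · exact absurd (sub_eq_zero.1 h) h2
    · exact h
  · intro c hc x
    have hcomm : ∀ i : ℕ, (g ^ i)⁻¹ * (c : G) * g ^ i = c := by
      intro i
      have : Commute (c : G) (g ^ i) := Commute.pow_right hc i
      rw [mul_assoc, this.eq]; group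
    simp only [F, Finset.mul_sum]
    refine Finset.sum_congr rfl fun i _ => ?_
    rw [hFQ]
    have : conjC Q μ (g ^ i) (pow_conj_mem hg' i) c = μ c := by
      change μ _ = μ c
      congr 1
      exact Subtype.ext (hcomm i)
    rw [this]; ring

/-- **Character criterion.**  If `μ` is a linear character of the `g`-invariant subgroup `Q` with
`Q_ω ≤ ker μ` and no nontrivial power of `g` fixes `μ`, then `g` has a regular point in `Qω`. -/
theorem exists_regular [Finite G] {Q : Subgroup G} {g : G} (hg : ∀ q ∈ Q, g * q * g⁻¹ ∈ Q)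
    (μ : Q →* ℂˣ) (ω : Ω) (hω : ∀ q : Q, (q : G) • ω = ω → μ q = 1)
    (hst : ∀ k : ℕ, FixC Q μ (g ^ k) → g ^ k = 1) :
    ∃ q : Q, (q : G) • ω ∈ Reg Ω g := by
  obtain ⟨F, q, hq, h0, -⟩ := core hg μ ω hω hst
  exact ⟨q, by by_contra h; exact hq (h0 _ h)⟩

/-- **Commuting criterion.**  If moreover `c ∈ Q` commutes with `g` and fixes all regular points
of `g`, then `μ c = 1`. -/
theorem eq_one_of_fix [Finite G] {Q : Subgroup G} {g : G} (hg : ∀ q ∈ Q, g * q * g⁻¹ ∈ Q)
    (μ : Q →* ℂˣ) (ω : Ω) (hω : ∀ q : Q, (q : G) • ω = ω → μ q = 1)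
    (hst : ∀ k : ℕ, FixC Q μ (g ^ k) → g ^ k = 1)
    (c : Q) (hc : (c : G) * g = g * c) (hfix : ∀ x ∈ Reg Ω g, (c : G) • x = x) : μ c = 1 := by
  obtain ⟨F, q, hq, h0, h1⟩ := core hg μ ω hω hst
  have hr : (q : G) • ω ∈ Reg Ω g := by by_contra h; exact hq (h0 _ h)
  have h2 := h1 c hc ((q : G) • ω)
  rw [hfix _ hr] at h2
  apply Units.ext
  have h3 : (((μ c : ℂˣ) : ℂ) - 1) * F ((q : G) • ω) = 0 := by rw [sub_mul, ← h2]; ring
  rcases mul_eq_zero.1 h3 with h | h
  · simpa using sub_eq_zero.1 h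
  · exact absurd h hq

/-- The element of order `r` of `⟨g⟩` is a power of every power of `g` of order divisible by `r`. -/
theorem exists_pow_eq_of_prime [Finite G] {g : G} {k r : ℕ} (hr : r.Prime)
    (hd : r ∣ orderOf (g ^ k)) : ∃ m : ℕ, (g ^ k) ^ m = g ^ (orderOf g / r) := by
  have hn := orderOf_pos g
  have hdn : r ∣ orderOf g := hd.trans (orderOf_pow_dvd k)
  obtain ⟨a, ha⟩ := hdn
  have ha0 : 0 < a := Nat.pos_of_ne_zero (by rintro rfl; rw [Nat.mul_zero] at ha; omega)
  have hdiv : orderOf g / r = a := by rw [ha]; exact Nat.mul_div_cancel_left a hr.pos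
  -- `gcd (n, k) ∣ a`
  have h1 : orderOf (g ^ k) = orderOf g / (orderOf g).gcd k := orderOf_pow g
  have h2 : (orderOf g).gcd k ∣ a := by
    have h3 : (orderOf g).gcd k ∣ orderOf g := Nat.gcd_dvd_left _ _
    obtain ⟨b, hb⟩ := h3
    have hg0 : 0 < (orderOf g).gcd k := Nat.gcd_pos_of_pos_left _ hn
    have h4 : orderOf (g ^ k) = b := by
      rw [h1]
      exact Nat.div_eq_of_eq_mul_right hg0 hb
    rw [h4] at hd
    obtain ⟨c, hc⟩ := hd
    refine ⟨c, ?_⟩
    have h5 : r * a = r * ((orderOf g).gcd k * c) := by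
      rw [← ha]
      calc orderOf g = (orderOf g).gcd k * b := hb
        _ = r * ((orderOf g).gcd k * c) := by rw [hc]; ring
    exact Nat.eq_of_mul_eq_mul_left hr.pos h5
  obtain ⟨c, hc⟩ := h2
  -- Bezout
  have h6 : ∃ m : ℕ, (g ^ k) ^ m = g ^ ((orderOf g).gcd k) := by
    have h7 : g ^ ((orderOf g).gcd k) ∈ Subgroup.zpowers (g ^ k) := by
      rw [Subgroup.mem_zpowers_iff]
      refine ⟨Nat.gcdB (orderOf g) k, ?_⟩
      have h8 := Nat.gcd_eq_gcd_ab (orderOf g) k
      have h9 : g ^ (((orderOf g).gcd k : ℕ) : ℤ) =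
          g ^ ((orderOf g : ℤ) * Nat.gcdA (orderOf g) k) * g ^ ((k : ℤ) * Nat.gcdB (orderOf g) k) := by
        rw [← zpow_add, h8]
      rw [zpow_mul g (orderOf g : ℤ), zpow_natCast g (orderOf g), pow_orderOf_eq_one, one_zpow,
        one_mul, zpow_mul, zpow_natCast g k, zpow_natCast] at h9
      exact h9.symm
    rw [← mem_powers_iff_mem_zpowers] at h7
    obtain ⟨m, hm⟩ := h7
    exact ⟨m, hm⟩
  obtain ⟨m, hm⟩ := h6
  refine ⟨m * c, ?_⟩
  rw [hdiv, pow_mul, hm, ← pow_mul]
  congr 1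
  exact hc.symm


/-! ## Regular points, powers, minimal covers -/

/-- The set of occurring characters is invariant under the normaliser. -/
theorem occ_conjC {Q : Subgroup G} {μ : Q →* ℂˣ} (h : Occ Ω Q μ) (n : G)
    (hn : ∀ q ∈ Q, n⁻¹ * q * n ∈ Q) : Occ Ω Q (conjC Q μ n hn) := by
  obtain ⟨ω, hω⟩ := h
  refine ⟨n • ω, fun q hq => ?_⟩
  apply hω ⟨n⁻¹ * q * n, hn _ q.2⟩
  change (n⁻¹ * (q : G) * n) • ω = ω
  rw [mul_smul, mul_smul, hq, ← mul_smul]
  simp

/-- A `p`-subgroup which moves a point has an occurring character of order `p`. -/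
theorem exists_occ [Finite G] {p : ℕ} [hp : Fact p.Prime] {Q : Subgroup G} (hQ : IsPGroup p Q)
    {ω : Ω} (hmove : ∃ q ∈ Q, q • ω ≠ ω) :
    ∃ μ : Q →* ℂˣ, μ ≠ 1 ∧ (∀ q, μ q ^ p = 1) ∧ ∀ q : Q, (q : G) • ω = ω → μ q = 1 := by
  classical
  let S : Subgroup Q := MulAction.stabilizer Q ω
  have hS : S ≠ ⊤ := by
    intro h
    obtain ⟨q, hq, hne⟩ := hmove
    have : (⟨q, hq⟩ : Q) ∈ S := by rw [h]; trivial
    exact hne this
  obtain ⟨M, hM, hSM⟩ := (eq_top_or_exists_le_coatom S).resolve_left hS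
  have hN : M.Normal := Lib.FrattiniBasic.normal_of_isCoatom hQ hM
  have hcomm := Lib.FrattiniBasic.commutator_le_of_isCoatom hQ hM
  obtain ⟨x, hx⟩ : ∃ x, x ∉ M := by
    by_contra h
    push Not at h
    exact hM.1 (eq_top_iff.2 fun x _ => h x)
  let cg : CommGroup (Q ⧸ M) :=
    { (inferInstance : Group (Q ⧸ M)) with
      mul_comm := fun a b => by
        induction a using QuotientGroup.induction_on with | _ a
        induction b using QuotientGroup.induction_on with | _ b
        rw [← QuotientGroup.mk_mul, ← QuotientGroup.mk_mul, QuotientGroup.eq]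
        apply hcomm
        have : (a * b)⁻¹ * (b * a) = b⁻¹ * a⁻¹ * b⁻¹⁻¹ * a⁻¹⁻¹ := by group
        rw [this, ← commutatorElement_def]
        exact Subgroup.commutator_mem_commutator (Subgroup.mem_top b⁻¹) (Subgroup.mem_top a⁻¹) }
  have hne : (QuotientGroup.mk x : Q ⧸ M) ≠ 1 := by
    rw [Ne, QuotientGroup.eq_one_iff]; exact hx
  obtain ⟨φ, hφ⟩ := CommGroup.exists_apply_ne_one_of_hasEnoughRootsOfUnity (Q ⧸ M) ℂ hne
  refine ⟨φ.comp (QuotientGroup.mk' M), ?_, ?_, ?_⟩
  · intro h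
    apply hφ
    exact DFunLike.congr_fun h x
  · intro q
    rw [← map_pow]
    change φ (QuotientGroup.mk (q ^ p)) = 1
    have h1 : (QuotientGroup.mk (q ^ p) : Q ⧸ M) = 1 :=
      (QuotientGroup.eq_one_iff _).2 (Lib.FrattiniBasic.pow_mem_of_isCoatom hQ hM q)
    rw [h1, map_one]
  · intro q hq
    change φ (QuotientGroup.mk q) = 1
    have h1 : (QuotientGroup.mk q : Q ⧸ M) = 1 := (QuotientGroup.eq_one_iff _).2 (hSM hq)
    rw [h1, map_one]

end Cfsg.Agent.H359.RC
end

-- part: H202/RC/TRules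
section
/-!
# Character rules for families

`T1` : a linear character of `Q` occurring at `ω` and fixed by no `x i` gives a point of `Q ω` fixed by no `x i`.
`T2` : if moreover `c ∈ Q` commutes with all `x i` and fixes every point fixed by no `x i`, then `μ c = 1`.
`no_radical` : contradiction for a cover normalising an elementary abelian `Q` with transitive action on the characters.
-/

set_option autoImplicit false
open Cfsg

namespace Cfsg.Agent.H202.RC

open MulAction Cfsg.Agent.H106.RC Cfsg.Agent.H359.RC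

section fam

variable {G Ω ι : Type*} [Group G] [Finite G] [MulAction G Ω] [Finite ι] {x : ι → G} {r : ι → ℕ}

omit [Finite G] [Finite ι] in
theorem pf_order (hx : PF x r) (i : ι) : orderOf (x i) = r i := by
  have := Fact.mk (hx.prime i)
  exact orderOf_eq_prime (hx.pow i) (hx.ne i)

/-- every nontrivial power of the generator has some `x i` among its powers -/
theorem pf_pow (hx : PF x r) {g : G} (hg : g ∈ Subgroup.closure (Set.range x))
    (hxg : ∀ i, x i ∈ Subgroup.zpowers g) (k : ℕ) (hk : g ^ k ≠ 1) : ∃ (i : ι) (m : ℕ), (g ^ k) ^ m = x i := by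
  classical
  cases nonempty_fintype ι
  -- `g ^ (∏ r) = 1`
  have hpow : g ^ (∏ i, r i) = 1 := by
    have h1 : ∀ z ∈ Subgroup.closure (Set.range x), z ^ (∏ i, r i) = 1 ∧ ∀ j, z * x j = x j * z := by
      intro z hz
      have hcomm : ∀ u ∈ Subgroup.closure (Set.range x), ∀ j, u * x j = x j * u := by
        intro u hu j
        have : Subgroup.closure (Set.range x) ≤ Subgroup.centralizer {x j} := by
          rw [Subgroup.closure_le]
          rintro _ ⟨i, rfl⟩
          rw [SetLike.mem_coe, Subgroup.mem_centralizer_singleton_iff]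
          exact hx.comm i j
        exact Subgroup.mem_centralizer_singleton_iff.1 (this hu)
      have hcomm2 : ∀ u ∈ Subgroup.closure (Set.range x), ∀ v ∈ Subgroup.closure (Set.range x), u * v = v * u := by
        intro u hu v hv
        have : Subgroup.closure (Set.range x) ≤ Subgroup.centralizer {u} := by
          rw [Subgroup.closure_le]
          rintro _ ⟨i, rfl⟩
          rw [SetLike.mem_coe, Subgroup.mem_centralizer_singleton_iff]
          exact (hcomm u hu i).symm
        exact (Subgroup.mem_centralizer_singleton_iff.1 (this hv)).symm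
      refine ⟨?_, hcomm z hz⟩
      induction hz using Subgroup.closure_induction with
      | mem y hy =>
        obtain ⟨i, rfl⟩ := hy
        obtain ⟨t, ht⟩ := Finset.dvd_prod_of_mem r (Finset.mem_univ i)
        rw [ht, pow_mul, hx.pow, one_pow]
      | one => exact one_pow _
      | mul u v hu hv ihu ihv =>
        rw [(show Commute u v from hcomm2 u hu v hv).mul_pow, ihu, ihv, one_mul]
      | inv u _ ih => rw [inv_pow, ih, inv_one]
    exact (h1 g hg).1
  obtain ⟨s, hs, hd⟩ := Nat.exists_prime_and_dvd (n := orderOf (g ^ k)) (fun e => hk (orderOf_eq_one_iff.1 e))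
  have hsg : s ∣ orderOf g := hd.trans (orderOf_pow_dvd k)
  have h2 : s ∣ ∏ i, r i := hsg.trans (orderOf_dvd_of_pow_eq_one hpow)
  obtain ⟨i, -, hi⟩ := (hs.prime.dvd_finsetProd_iff _).1 h2
  have hsi : s = r i := (Nat.prime_dvd_prime_iff_eq hs (hx.prime i)).1 hi
  subst hsi
  obtain ⟨m, hm⟩ := exists_pow_eq_of_prime hs hd
  -- `x i` is a power of `g ^ (orderOf g / r i)`
  obtain ⟨l, hl⟩ : ∃ l : ℕ, g ^ l = x i := (isOfFinOrder_of_finite g).mem_powers_iff_mem_zpowers.2 (hxg i)
  have h3 : orderOf g ∣ l * r i := by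
    apply orderOf_dvd_of_pow_eq_one
    rw [pow_mul, hl, hx.pow]
  obtain ⟨b, hb⟩ := hsg
  have hri : 0 < r i := (hx.prime i).pos
  have h4 : orderOf g / r i = b := by rw [hb]; exact Nat.mul_div_cancel_left b hri
  have h5 : b ∣ l := by
    rw [hb, mul_comm l] at h3
    exact Nat.dvd_of_mul_dvd_mul_left hri h3
  obtain ⟨t, rfl⟩ := h5
  refine ⟨i, m * t, ?_⟩
  rw [pow_mul, hm, h4, ← pow_mul, hl]

theorem pf_reg (hx : PF x r) {g : G} (hg : g ∈ Subgroup.closure (Set.range x))
    (hxg : ∀ i, x i ∈ Subgroup.zpowers g) (ω : Ω) : ω ∈ Reg Ω g ↔ ∀ i, x i • ω ≠ ω := by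
  constructor
  · intro h i hi
    obtain ⟨l, hl⟩ : ∃ l : ℕ, g ^ l = x i := (isOfFinOrder_of_finite g).mem_powers_iff_mem_zpowers.2 (hxg i)
    have := h l (by rw [hl]; exact hi)
    exact hx.ne i (hl.symm.trans this)
  · intro h k hk
    by_contra hne
    obtain ⟨i, m, hm⟩ := pf_pow hx hg hxg k hne
    apply h i
    rw [← hm]
    clear hm
    induction m with
    | zero => simp
    | succ m ih => rw [pow_succ, mul_smul, hk, ih]

theorem pf_fixC (hx : PF x r) {g : G} (hg : g ∈ Subgroup.closure (Set.range x))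
    (hxg : ∀ i, x i ∈ Subgroup.zpowers g) {Q : Subgroup G} (hQ : ∀ q ∈ Q, g * q * g⁻¹ ∈ Q) {μ : Q →* ℂˣ}
    (hμ : ∀ i, ¬ FixC Q μ (x i)) (k : ℕ) (hk : FixC Q μ (g ^ k)) : g ^ k = 1 := by
  by_contra hne
  obtain ⟨i, m, hm⟩ := pf_pow hx hg hxg k hne
  apply hμ i
  rw [← hm]
  exact fixC_pow (pow_conj_mem' hQ k) hk m

omit [Finite ι] in
theorem gen_norm {Q : Subgroup G} (hQ : ∀ i, ∀ q ∈ Q, x i * q * (x i)⁻¹ ∈ Q) {g : G}
    (hg : g ∈ Subgroup.closure (Set.range x)) : ∀ q ∈ Q, g * q * g⁻¹ ∈ Q := by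
  have h1 : Subgroup.closure (Set.range x) ≤ Subgroup.normalizer (Q : Set G) := by
    rw [Subgroup.closure_le]
    rintro _ ⟨i, rfl⟩
    rw [SetLike.mem_coe, Subgroup.mem_normalizer_iff]
    intro q
    refine ⟨fun h => hQ i q h, fun h => ?_⟩
    have h2 := inv_conj_mem (hQ i) _ h
    have h3 : (x i)⁻¹ * (x i * q * (x i)⁻¹) * x i = q := by group
    rwa [h3] at h2
  intro q hq
  exact (Subgroup.mem_normalizer_iff.1 (h1 hg) q).1 hq

/-- **T1 for families.** -/
theorem T1 (hx : PF x r) {Q : Subgroup G} (hQ : ∀ i, ∀ q ∈ Q, x i * q * (x i)⁻¹ ∈ Q) (μ : Q →* ℂˣ) (ω : Ω)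
    (hω : ∀ q : Q, (q : G) • ω = ω → μ q = 1) (hμ : ∀ i, ¬ FixC Q μ (x i)) :
    ∃ q ∈ Q, ∀ i, x i • q • ω ≠ q • ω := by
  obtain ⟨g, hg, hxg⟩ := exists_gen x r hx.prime hx.inj hx.pow hx.comm
  obtain ⟨q, hq⟩ := exists_regular (gen_norm hQ hg) μ ω hω (pf_fixC hx hg hxg (gen_norm hQ hg) hμ)
  exact ⟨q, q.2, (pf_reg hx hg hxg _).1 hq⟩

/-- **T2 for families.** -/
theorem T2 (hx : PF x r) {Q : Subgroup G} (hQ : ∀ i, ∀ q ∈ Q, x i * q * (x i)⁻¹ ∈ Q) (μ : Q →* ℂˣ) (ω : Ω)
    (hω : ∀ q : Q, (q : G) • ω = ω → μ q = 1) (hμ : ∀ i, ¬ FixC Q μ (x i)) (c : Q)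
    (hc : ∀ i, (c : G) * x i = x i * c) (hfix : ∀ ω : Ω, (∀ i, x i • ω ≠ ω) → (c : G) • ω = ω) : μ c = 1 := by
  obtain ⟨g, hg, hxg⟩ := exists_gen x r hx.prime hx.inj hx.pow hx.comm
  refine eq_one_of_fix (gen_norm hQ hg) μ ω hω (pf_fixC hx hg hxg (gen_norm hQ hg) hμ) c ?_
    fun ω hω => hfix ω ((pf_reg hx hg hxg ω).1 hω)
  have h1 : Subgroup.closure (Set.range x) ≤ Subgroup.centralizer {(c : G)} := by
    rw [Subgroup.closure_le]
    rintro _ ⟨i, rfl⟩
    rw [SetLike.mem_coe, Subgroup.mem_centralizer_singleton_iff]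
    exact (hc i).symm
  exact (Subgroup.mem_centralizer_singleton_iff.1 (h1 hg)).symm

/-! ### characters of abelian `Q` moved by all `x i` -/

/-- conjugation action on the characters of `Q` -/
noncomputable def chC {Q : Subgroup G} (g : G) (h : ∀ q ∈ Q, g⁻¹ * q * g ∈ Q) (h' : ∀ q ∈ Q, g * q * g⁻¹ ∈ Q) :
    MulAut (Q →* ℂˣ) where
  toFun μ := conjC Q μ g h
  invFun μ := conjC Q μ g⁻¹ (by simpa only [_root_.inv_inv] using h')
  left_inv μ := by
    ext q
    change ((μ ⟨g⁻¹ * (g⁻¹⁻¹ * (q : G) * g⁻¹) * g, _⟩ : ℂˣ) : ℂ) = _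
    congr 2
    apply Subtype.ext
    change g⁻¹ * (g⁻¹⁻¹ * (q : G) * g⁻¹) * g = q
    group
  right_inv μ := by
    ext q
    change ((μ ⟨g⁻¹⁻¹ * (g⁻¹ * (q : G) * g) * g⁻¹, _⟩ : ℂˣ) : ℂ) = _
    congr 2
    apply Subtype.ext
    change g⁻¹⁻¹ * (g⁻¹ * (q : G) * g) * g⁻¹ = q
    group
  map_mul' μ ν := by ext q; rfl

omit [Finite G] in
theorem chC_apply {Q : Subgroup G} (g : G) (h : ∀ q ∈ Q, g⁻¹ * q * g ∈ Q) (h' : ∀ q ∈ Q, g * q * g⁻¹ ∈ Q)
    (μ : Q →* ℂˣ) (q : Q) : chC g h h' μ q = μ ⟨g⁻¹ * q * g, h _ q.2⟩ := rfl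

omit [Finite G] in
theorem chC_fix {Q : Subgroup G} (g : G) (h : ∀ q ∈ Q, g⁻¹ * q * g ∈ Q) (h' : ∀ q ∈ Q, g * q * g⁻¹ ∈ Q)
    (μ : Q →* ℂˣ) : chC g h h' μ = μ ↔ FixC Q μ g := by
  constructor
  · intro e q q' hq
    have h1 := DFunLike.congr_fun e q'
    rw [chC_apply] at h1
    rw [← h1]
    congr 1
    apply Subtype.ext
    change g⁻¹ * (q' : G) * g = q
    rw [hq]; group
  · intro e
    ext q
    rw [chC_apply]
    rw [e ⟨g⁻¹ * q * g, h _ q.2⟩ q (by group)]

omit [Finite G] in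
theorem chC_pow {Q : Subgroup G} (g : G) (h : ∀ q ∈ Q, g⁻¹ * q * g ∈ Q) (h' : ∀ q ∈ Q, g * q * g⁻¹ ∈ Q)
    {n : ℕ} (hn : g ^ n = 1) : chC g h h' ^ n = 1 := by
  have key : ∀ k : ℕ, ∀ (μ : Q →* ℂˣ) (q q' : Q), (q' : G) = (g ^ k)⁻¹ * q * g ^ k → (chC g h h' ^ k) μ q = μ q' := by
    intro k
    induction k with
    | zero =>
      intro μ q q' e
      have : q' = q := Subtype.ext (by simpa using e)
      rw [this]; rfl
    | succ k ih =>
      intro μ q q' e
      rw [pow_succ, MulAut.mul_apply]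
      have hk : (g ^ k)⁻¹ * (q : G) * g ^ k ∈ Q := pow_conj_mem h k q q.2
      rw [ih _ q ⟨_, hk⟩ rfl, chC_apply]
      congr 1
      apply Subtype.ext
      rw [e, pow_succ]
      simp only [mul_inv_rev, mul_assoc]
  ext μ q
  rw [key n μ q q (by rw [hn]; simp)]
  rfl

/-- **Existence of a character moved by all `x i`** with prescribed value at `c` -/
theorem exists_char (hx : PF x r) {p : ℕ} (hp : p.Prime) {Q : Subgroup G} (hQc : ∀ q ∈ Q, ∀ q' ∈ Q, q * q' = q' * q)
    (hQp : ∀ q ∈ Q, q ^ p = 1) (hQ : ∀ i, ∀ q ∈ Q, x i * q * (x i)⁻¹ ∈ Q) (c : Q)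
    (hc : ∀ i, (c : G) * x i = x i * c) (hrc : ∀ i, r i ≠ p ∨ c = 1)
    (hne : ∀ i, ∃ q ∈ Q, x i * q ≠ q * x i) (ν₀ : Q →* ℂˣ) :
    ∃ ν : Q →* ℂˣ, ν c = ν₀ c ∧ ∀ i, ¬ FixC Q ν (x i) := by
  classical
  have := Fact.mk hp
  have hQ' : ∀ i, ∀ q ∈ Q, (x i)⁻¹ * q * x i ∈ Q := fun i => inv_conj_mem (hQ i)
  let cg : CommGroup Q := { (inferInstance : Group Q) with
    mul_comm := fun a b => Subtype.ext (hQc a a.2 b b.2) }
  obtain ⟨eA⟩ := CommGroup.monoidHom_mulEquiv_of_hasEnoughRootsOfUnity Q ℂ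
  have hfin : Finite (Q →* ℂˣ) := Finite.of_equiv _ eA.symm.toEquiv
  have hcard : Nat.card (Q →* ℂˣ) = Nat.card Q := Nat.card_congr eA.toEquiv
  have hpg : IsPGroup p Q := fun q => ⟨1, by rw [pow_one]; exact Subtype.ext (hQp q q.2)⟩
  obtain ⟨n, hn⟩ := IsPGroup.iff_card.1 hpg
  -- the acting group and the points
  let U : Subgroup (Q →* ℂˣ) :=
    { carrier := {ν | ν c = 1}
      one_mem' := rfl
      mul_mem' := by
        intro a b ha hb
        change (a * b) c = 1
        rw [MonoidHom.mul_apply, show a c = 1 from ha, show b c = 1 from hb, one_mul]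
      inv_mem' := by
        intro a ha
        change (a⁻¹) c = 1
        rw [MonoidHom.inv_apply, show a c = 1 from ha, inv_one] }
  have hU : ∀ ν : Q →* ℂˣ, ν ∈ U ↔ ν c = 1 := fun ν => Iff.rfl
  let D := {ν : Q →* ℂˣ // ν c = ν₀ c}
  let act : MulAction U D :=
    { smul := fun u d => ⟨u.1 * d.1, by rw [MonoidHom.mul_apply, (hU _).1 u.2, one_mul, d.2]⟩
      one_smul := fun d => Subtype.ext (one_mul _)
      mul_smul := fun u v d => Subtype.ext (mul_assoc _ _ _) }
  have hact : ∀ (u : U) (d : D), ((u • d : D) : Q →* ℂˣ) = u.1 * d.1 := fun _ _ => rfl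
  have hD : Nonempty D := ⟨⟨ν₀, rfl⟩⟩
  have hcc : ∀ i, (⟨(x i)⁻¹ * c * x i, hQ' i _ c.2⟩ : Q) = c := fun i => Subtype.ext (by
    change (x i)⁻¹ * (c : G) * x i = c
    rw [mul_assoc, hc i, inv_mul_cancel_left])
  let β : ι → MulAut (Q →* ℂˣ) := fun i => chC (x i) (hQ' i) (hQ i)
  have hβc : ∀ i (ν : Q →* ℂˣ), β i ν c = ν c := fun i ν => by
    change ν ⟨(x i)⁻¹ * c * x i, _⟩ = ν c
    rw [hcc i]
  have hβs : ∀ i (ν : Q →* ℂˣ), (β i).symm ν c = ν c := fun i ν => by
    conv_rhs => rw [← (β i).apply_symm_apply ν]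
    rw [hβc]
  let y : ι → Equiv.Perm D := fun i =>
    { toFun := fun d => ⟨β i d.1, by rw [hβc, d.2]⟩
      invFun := fun d => ⟨(β i).symm d.1, by rw [hβs, d.2]⟩
      left_inv := fun d => Subtype.ext ((β i).symm_apply_apply _)
      right_inv := fun d => Subtype.ext ((β i).apply_symm_apply _) }
  have hy : ∀ i d, ((y i d : D) : Q →* ℂˣ) = β i d.1 := fun _ _ => rfl
  let α : ι → MulAut U := fun i =>
    { toFun := fun u => ⟨β i u.1, by rw [hU, hβc]; exact u.2⟩
      invFun := fun u => ⟨(β i).symm u.1, by rw [hU, hβs]; exact u.2⟩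
      left_inv := fun u => Subtype.ext ((β i).symm_apply_apply _)
      right_inv := fun u => Subtype.ext ((β i).apply_symm_apply _)
      map_mul' := fun u v => Subtype.ext (map_mul (β i) _ _) }
  have hα : ∀ i u, ((α i u : U) : Q →* ℂˣ) = β i u.1 := fun _ _ => rfl
  have hβcomm : ∀ i j ν, β i (β j ν) = β j (β i ν) := by
    intro i j ν
    ext q
    change ((ν ⟨(x j)⁻¹ * ((x i)⁻¹ * q * x i) * x j, _⟩ : ℂˣ) : ℂ) = ((ν ⟨(x i)⁻¹ * ((x j)⁻¹ * q * x j) * x i, _⟩ : ℂˣ) : ℂ)
    congr 2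
    apply Subtype.ext
    change (x j)⁻¹ * ((x i)⁻¹ * (q : G) * x i) * x j = (x i)⁻¹ * ((x j)⁻¹ * (q : G) * x j) * x i
    have h1 : (x j)⁻¹ * ((x i)⁻¹ * (q : G) * x i) * x j = (x i * x j)⁻¹ * q * (x i * x j) := by group
    rw [h1, hx.comm i j]
    group
  have hypow : ∀ i (m : ℕ) (d : D), (((y i ^ m) d : D) : Q →* ℂˣ) = (β i ^ m) d.1 := by
    intro i m
    induction m with
    | zero => intro d; rfl
    | succ m ih => intro d; rw [pow_succ, Equiv.Perm.mul_apply, ih, hy, pow_succ, MulAut.mul_apply]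
  have hαpow : ∀ i (m : ℕ) (u : U), (((α i ^ m) u : U) : Q →* ℂˣ) = (β i ^ m) u.1 := by
    intro i m
    induction m with
    | zero => intro u; rfl
    | succ m ih => intro u; rw [pow_succ, MulAut.mul_apply, ih, hα, pow_succ, MulAut.mul_apply]
  have hβpow : ∀ i, β i ^ r i = 1 := fun i => chC_pow _ _ _ (hx.pow i)
  have hN : Nrm y α r := by
    refine ⟨hx.prime, ?_, ?_, ?_, ?_, ?_⟩
    · intro i j d
      apply Subtype.ext
      rw [hy, hy, hy, hy, hβcomm]
    · intro i j u
      apply Subtype.ext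
      rw [hα, hα, hα, hα, hβcomm]
    · intro i u d
      apply Subtype.ext
      rw [hy, hact, hact, hα, hy, map_mul]
    · intro i
      ext d
      rw [hypow, hβpow]
      rfl
    · intro i
      ext u
      rw [hαpow, hβpow]
      rfl
  have htr : ∀ d d' : D, ∃ u : U, u • d = d' := by
    intro d d'
    refine ⟨⟨d'.1 * (d.1)⁻¹, ?_⟩, ?_⟩
    · rw [hU, MonoidHom.mul_apply, MonoidHom.inv_apply, d.2, d'.2, mul_inv_cancel]
    · apply Subtype.ext
      rw [hact]
      exact inv_mul_cancel_right (d'.1 : Q →* ℂˣ) d.1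
  have hUcard : ∀ i, ¬ (r i).Coprime (Nat.card U) → r i = p := by
    intro i hi
    by_contra hne
    apply hi
    have h1 : Nat.card U ∣ p ^ n := by
      rw [← hn, ← hcard]
      exact Subgroup.card_subgroup_dvd_card U
    exact Nat.Coprime.coprime_dvd_right h1 (Nat.Coprime.pow_right _ ((Nat.coprime_primes (hx.prime i) hp).2 hne))
  -- duality
  have hdual : ∀ z : Q, (∀ ν : Q →* ℂˣ, ν c = 1 → ν z = 1) → z ∈ Subgroup.zpowers c := by
    intro z hz
    by_contra hzc
    have h1 : (QuotientGroup.mk z : Q ⧸ Subgroup.zpowers c) ≠ 1 := by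
      rw [Ne, QuotientGroup.eq_one_iff]; exact hzc
    obtain ⟨φ, hφ⟩ := CommGroup.exists_apply_ne_one_of_hasEnoughRootsOfUnity (Q ⧸ Subgroup.zpowers c) ℂ h1
    apply hφ
    refine hz (φ.comp (QuotientGroup.mk' _)) ?_
    change φ (QuotientGroup.mk c) = 1
    rw [(QuotientGroup.eq_one_iff c).2 (Subgroup.mem_zpowers c), map_one]
  have hmv : ∀ i, ∃ d, y i d ≠ d := by
    intro i
    by_contra hcon
    push Not at hcon
    obtain ⟨q, hq, hqx⟩ := hne i
    -- all of `U` is fixed
    have h1 : ∀ ν ∈ U, β i ν = ν := by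
      intro ν hν
      have h2 := congrArg Subtype.val (hcon ⟨ν₀, rfl⟩)
      have h3 := congrArg Subtype.val (hcon ⟨ν * ν₀, by rw [MonoidHom.mul_apply, (hU _).1 hν, one_mul]⟩)
      rw [hy] at h2 h3
      rw [map_mul, h2] at h3
      exact mul_right_cancel h3
    set z : Q := ⟨q, hq⟩⁻¹ * ⟨(x i)⁻¹ * q * x i, hQ' i _ hq⟩ with hz
    have hzG : (z : G) = q⁻¹ * ((x i)⁻¹ * q * x i) := rfl
    have h2 : z ∈ Subgroup.zpowers c := by
      apply hdual
      intro ν hν
      have h3 := DFunLike.congr_fun (h1 ν hν) ⟨q, hq⟩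
      change ν ⟨(x i)⁻¹ * q * x i, _⟩ = ν ⟨q, hq⟩ at h3
      rw [hz, map_mul, map_inv, h3, inv_mul_cancel]
    have hz1 : (z : G) = 1 := by
      rcases hrc i with hri | hc1
      · have hzx : (x i)⁻¹ * (z : G) * x i = z := by
          obtain ⟨m, hm⟩ := Subgroup.mem_zpowers_iff.1 h2
          have h4 : (z : G) = (c : G) ^ m := by rw [← hm]; rfl
          have h5 : Commute ((c : G) ^ m) (x i) := (show Commute (c : G) (x i) from hc i).zpow_left m
          rw [h4, mul_assoc, h5.eq, inv_mul_cancel_left]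
        have key : ∀ m : ℕ, ((x i) ^ m)⁻¹ * q * (x i) ^ m = q * (z : G) ^ m := by
          intro m
          induction m with
          | zero => simp
          | succ m ih =>
            have h6 : ((x i) ^ (m + 1))⁻¹ * q * (x i) ^ (m + 1) = (x i)⁻¹ * (((x i) ^ m)⁻¹ * q * (x i) ^ m) * x i := by
              rw [pow_succ]; group
            rw [h6, ih]
            have h7 : (x i)⁻¹ * (q * (z : G) ^ m) * x i = ((x i)⁻¹ * q * x i) * ((x i)⁻¹ * z * x i) ^ m := by
              have : ((x i)⁻¹ * z * x i) ^ m = (x i)⁻¹ * (z : G) ^ m * x i := by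
                have := conj_pow (i := m) (a := (x i)⁻¹) (b := (z : G))
                rw [inv_inv] at this
                exact this
              rw [this]; group
            have h8 : (x i)⁻¹ * q * x i = q * z := by rw [hzG]; group
            rw [h7, hzx, h8, pow_succ', mul_assoc]
        have h9 := key (r i)
        rw [hx.pow, inv_one, one_mul, mul_one] at h9
        have h10 : (z : G) ^ r i = 1 := by
          have := h9.symm
          exact mul_eq_left.1 this
        have h11 : (z : G) ^ p = 1 := hQp _ z.2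
        have h12 := Nat.dvd_gcd (orderOf_dvd_of_pow_eq_one h10) (orderOf_dvd_of_pow_eq_one h11)
        rw [(Nat.coprime_primes (hx.prime i) hp).2 hri, Nat.dvd_one] at h12
        exact orderOf_eq_one_iff.1 h12
      · obtain ⟨m, hm⟩ := Subgroup.mem_zpowers_iff.1 h2
        rw [hc1, one_zpow] at hm
        rw [← hm]; rfl
    apply hqx
    rw [hzG] at hz1
    have h13 : (x i)⁻¹ * q * x i = q := by
      have := inv_mul_eq_one.1 hz1
      exact this.symm
    calc x i * q = x i * ((x i)⁻¹ * q * x i) := by rw [h13]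
      _ = q * x i := by group
  obtain ⟨d, hd⟩ := exists_moved hN htr (fun i j hi hj => hx.inj ((hUcard i hi).trans (hUcard j hj).symm)) hmv
  refine ⟨d.1, d.2, fun i hfix => ?_⟩
  apply hd i
  apply Subtype.ext
  rw [hy]
  exact (chC_fix _ _ _ _).2 hfix

end fam

/-- **Radical rule.** No cover normalises an elementary abelian `Q` which contains its centraliser in the family and
on whose nontrivial characters the normaliser is transitive. -/
theorem no_radical {G Ω ι : Type*} [Group G] [Finite G] [MulAction G Ω] [Nonempty Ω] [Finite ι] {N : Subgroup G}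
    (hE : Env G Ω N) {x : ι → G} {r : ι → ℕ} (hx : PF x r) (hcov : Cov Ω x) {p : ℕ} (hp : p.Prime) {Q : Subgroup G}
    (hQc : ∀ q ∈ Q, ∀ q' ∈ Q, q * q' = q' * q) (hQp : ∀ q ∈ Q, q ^ p = 1) (hQ1 : Q ≠ ⊥)
    (hQ : ∀ i, ∀ q ∈ Q, x i * q * (x i)⁻¹ ∈ Q) (hcent : ∀ i, (∀ q ∈ Q, x i * q = q * x i) → x i ∈ Q)
    (htrans : ∀ μ ν : Q →* ℂˣ, μ ≠ 1 → ν ≠ 1 → ∃ (n : G) (hn : ∀ q ∈ Q, n⁻¹ * q * n ∈ Q), conjC Q μ n hn = ν) :
    False := by
  classical
  have := Fact.mk hp
  obtain ⟨⟨q₀, hq₀⟩, hq₁⟩ := Subgroup.ne_bot_iff_exists_ne_one.1 hQ1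
  have hq₂ : q₀ ≠ 1 := fun h => hq₁ (Subtype.ext h)
  obtain ⟨ω, hω⟩ := hE.exists_move hq₂
  have hpg : IsPGroup p Q := fun q => ⟨1, by rw [pow_one]; exact Subtype.ext (hQp q q.2)⟩
  obtain ⟨μ, hμ1, -, hμω⟩ := exists_occ hpg ⟨q₀, hq₀, hω⟩
  have hι : Nonempty ι := by
    obtain ⟨i, -⟩ := hcov ω
    exact ⟨i⟩
  by_cases hin : ∃ i, x i ∈ Q
  · -- one of the `x i` is in `Q`
    obtain ⟨i₀, hi₀⟩ := hin
    have hri : r i₀ = p := by
      have h1 := orderOf_dvd_of_pow_eq_one (hQp _ hi₀)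
      rw [pf_order hx] at h1
      exact (Nat.prime_dvd_prime_iff_eq (hx.prime i₀) hp).1 h1
    have hout : ∀ j, j ≠ i₀ → x j ∉ Q := by
      intro j hj hjQ
      have h1 := orderOf_dvd_of_pow_eq_one (hQp _ hjQ)
      rw [pf_order hx] at h1
      exact hj (hx.inj (((Nat.prime_dvd_prime_iff_eq (hx.prime j) hp).1 h1).trans hri.symm))
    let κ := {j : ι // j ≠ i₀}
    let y : κ → G := fun j => x j.1
    have hy : PF y (fun j : κ => r j.1) :=
      ⟨fun j => hx.prime _, fun a b h => Subtype.ext (hx.inj h), fun j => hx.pow _, fun j => hx.ne _,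
        fun a b => hx.comm _ _⟩
    let c : Q := ⟨x i₀, hi₀⟩
    -- a character nontrivial on `c`
    let cg : CommGroup Q := { (inferInstance : Group Q) with
      mul_comm := fun a b => Subtype.ext (hQc a a.2 b b.2) }
    have hc1 : c ≠ 1 := fun h => hx.ne i₀ (congrArg Subtype.val h)
    obtain ⟨ν₀, hν₀⟩ := CommGroup.exists_apply_ne_one_of_hasEnoughRootsOfUnity Q ℂ hc1
    obtain ⟨ν, hνc, hν⟩ := exists_char hy hp hQc hQp (fun j => hQ _) c (fun j => hx.comm _ _)
      (fun j => Or.inl fun h => j.2 (hx.inj (h.trans hri.symm)))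
      (fun j => by
        by_contra hno
        push Not at hno
        exact hout j.1 j.2 (hcent _ hno)) ν₀
    have hν1 : ν ≠ 1 := by
      rintro rfl
      exact hν₀ hνc.symm
    obtain ⟨n, hn, e⟩ := htrans μ ν hμ1 hν1
    obtain ⟨ω', hω'⟩ := occ_conjC ⟨ω, hμω⟩ n hn
    rw [e] at hω'
    have h2 := T2 hy (fun j => hQ _) ν ω' hω' hν c (fun j => hx.comm _ _) (fun ω h => by
      obtain ⟨k, hk⟩ := hcov ω
      by_cases hki : k = i₀
      · rw [hki] at hk; exact hk
      · exact (h ⟨k, hki⟩ hk).elim)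
    exact hν₀ (hνc.symm.trans h2)
  · push Not at hin
    obtain ⟨ν, -, hν⟩ := exists_char hx hp hQc hQp hQ 1 (fun i => by simp) (fun i => Or.inr rfl)
      (fun j => by
        by_contra hno
        push Not at hno
        exact hin j (hcent _ hno)) 1
    have hν1 : ν ≠ 1 := by
      rintro rfl
      exact hν (Classical.arbitrary ι) (fun q q' _ => by rfl)
    obtain ⟨n, hn, e⟩ := htrans μ ν hμ1 hν1
    obtain ⟨ω', hω'⟩ := occ_conjC ⟨ω, hμω⟩ n hn
    rw [e] at hω'
    obtain ⟨q, -, hq⟩ := T1 hx hQ ν ω' hω' hν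
    obtain ⟨i, hi⟩ := hcov (q • ω')
    exact hq i hi

end Cfsg.Agent.H202.RC
end

-- part: H202/RC/Duality
section
/-!
# Characters of vector spaces over finite fields; transitivity of `SL(V)` on pairs of independent vectors
-/

set_option autoImplicit false
open Cfsg

namespace Cfsg.Agent.H202.RC

open Module

section dual

variable {F X : Type*} [Field F] [Finite F] [AddCommGroup X] [Module F X] [Module.Finite F X]

/-- a nontrivial additive character of a finite field -/
theorem exists_psi (F : Type*) [Field F] [Finite F] : ∃ ψ : AddChar F ℂ, ψ ≠ 1 := by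
  classical
  cases nonempty_fintype F
  have h1 : Fintype.card (AddChar F ℂ) = Fintype.card F := AddChar.card_eq
  have h2 : 1 < Fintype.card (AddChar F ℂ) := by rw [h1]; exact Fintype.one_lt_card
  have := Fintype.one_lt_card_iff_nontrivial.1 h2
  exact exists_ne 1

/-- every additive character of `X` is `ψ ∘ ℓ` -/
theorem exists_dual {ψ : AddChar F ℂ} (hψ : ψ ≠ 1) (χ : AddChar X ℂ) : ∃ ℓ : Dual F X, ∀ x, χ x = ψ (ℓ x) := by
  classical
  have hfX : Finite X := Module.finite_of_finite F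
  have hfD : Finite (Dual F X) := Module.finite_of_finite F
  cases nonempty_fintype X
  cases nonempty_fintype (Dual F X)
  let f : Dual F X → AddChar X ℂ := fun ℓ => ψ.compAddMonoidHom ℓ.toAddMonoidHom
  have hf : ∀ ℓ x, f ℓ x = ψ (ℓ x) := fun _ _ => rfl
  have hinj : Function.Injective f := by
    intro ℓ ℓ' h
    by_contra hne
    obtain ⟨x, hx⟩ : ∃ x, (ℓ - ℓ') x ≠ 0 := by
      by_contra hno
      push Not at hno
      exact hne (sub_eq_zero.1 (LinearMap.ext hno))
    apply hψ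
    ext c
    have h1 := DFunLike.congr_fun h ((c / (ℓ - ℓ') x) • x)
    rw [hf, hf] at h1
    have h2 : ψ ((ℓ - ℓ') ((c / (ℓ - ℓ') x) • x)) = 1 := by
      rw [LinearMap.sub_apply, AddChar.map_sub_eq_div, h1, div_self]
      exact (ψ.val_isUnit _).ne_zero
    rw [map_smul, smul_eq_mul, div_mul_cancel₀ _ hx] at h2
    rw [h2]
    rfl
  cases nonempty_fintype F
  have hcard : Fintype.card (Dual F X) = Fintype.card (AddChar X ℂ) := by
    rw [AddChar.card_eq, Module.card_eq_pow_finrank (K := F) (V := Dual F X), Module.card_eq_pow_finrank (K := F) (V := X),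
      Subspace.dual_finrank_eq]
  obtain ⟨ℓ, hℓ⟩ := ((Fintype.bijective_iff_injective_and_card f).2 ⟨hinj, hcard⟩).2 χ
  exact ⟨ℓ, fun x => by rw [← hℓ, hf]⟩

end dual

section trans

variable {F V : Type*} [Field F] [AddCommGroup V] [Module F V]

theorem exists_notMem_pair (hn : 3 ≤ finrank F V) (v u : V) : ∃ w, w ∉ Submodule.span F {v, u} := by
  by_contra hno
  push Not at hno
  have h1 : Submodule.span F ({v, u} : Set V) = ⊤ := by
    rw [eq_top_iff]; exact fun w _ => hno w
  have h2 : finrank F (Submodule.span F ({v, u} : Set V)) ≤ 2 := by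
    classical
    have := finrank_span_finset_le_card (R := F) ({v, u} : Finset V)
    rw [Finset.coe_pair] at this
    exact this.trans Finset.card_le_two
  rw [h1, finrank_top] at h2
  omega

/-- one transvection -/
theorem tv_step {v u u' : V} (hu : u ∉ Submodule.span F {v, u' - u}) :
    ∃ s : SLV F V, (s : V ≃ₗ[F] V) v = v ∧ (s : V ≃ₗ[F] V) u = u' := by
  obtain ⟨f, hf1, hf2⟩ := Submodule.exists_le_ker_of_notMem hu
  have h1 : f v = 0 := hf2 (Submodule.subset_span (by simp))
  have h2 : f (u' - u) = 0 := hf2 (Submodule.subset_span (by simp))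
  have h3 : ((f u)⁻¹ • f : Dual F V) (u' - u) = 0 := by
    rw [LinearMap.smul_apply, h2, smul_zero]
  refine ⟨tv ((f u)⁻¹ • f) (u' - u) h3, ?_, ?_⟩
  · rw [tv_apply, LinearMap.smul_apply, h1, smul_zero, zero_smul, add_zero]
  · rw [tv_apply, LinearMap.smul_apply, smul_eq_mul, inv_mul_cancel₀ hf1, one_smul, add_sub_cancel]

theorem exists_sl (hn : 3 ≤ finrank F V) {v u u' : V} (hu : u ∉ Submodule.span F {v})
    (hu' : u' ∉ Submodule.span F {v}) : ∃ s : SLV F V, (s : V ≃ₗ[F] V) v = v ∧ (s : V ≃ₗ[F] V) u = u' := by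
  by_cases h : u ∈ Submodule.span F {v, u' - u}
  · obtain ⟨w, hw⟩ := exists_notMem_pair hn v u
    have hv0 : ∀ α : F, α • v ∈ Submodule.span F {v} := fun α =>
      Submodule.smul_mem _ _ (Submodule.mem_span_singleton_self v)
    -- `u' ∈ ⟨v, u⟩`
    obtain ⟨α, β, h1⟩ := Submodule.mem_span_pair.1 h
    have hβ : β ≠ 0 := by
      rintro rfl
      apply hu
      rw [← h1, zero_smul, add_zero]
      exact hv0 α
    have h3 : u' - u = β⁻¹ • (u - α • v) := by
      rw [eq_inv_smul_iff₀ hβ]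
      exact eq_sub_of_add_eq' h1
    have h2 : u' = (-(β⁻¹ * α)) • v + (β⁻¹ + 1) • u := by
      have : u' = u + β⁻¹ • (u - α • v) := by rw [← h3]; abel
      rw [this]; module
    have hwv : ∀ γ δ : F, γ • v + δ • u ≠ w := fun γ δ e => hw (Submodule.mem_span_pair.2 ⟨γ, δ, e⟩)
    have a1 : u ∉ Submodule.span F {v, w - u} := by
      intro hm
      obtain ⟨γ, δ, e⟩ := Submodule.mem_span_pair.1 hm
      have hδ : δ ≠ 0 := by
        rintro rfl
        apply hu
        rw [← e, zero_smul, add_zero]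
        exact hv0 γ
      apply hwv (-(δ⁻¹ * γ)) (δ⁻¹ + 1)
      have e1 : w - u = δ⁻¹ • (u - γ • v) := by
        rw [eq_inv_smul_iff₀ hδ]
        exact eq_sub_of_add_eq' e
      have : w = u + δ⁻¹ • (u - γ • v) := by rw [← e1]; abel
      rw [this]; module
    have a2 : w ∉ Submodule.span F {v, u' - w} := by
      intro hm
      obtain ⟨γ, δ, e⟩ := Submodule.mem_span_pair.1 hm
      by_cases hδ : 1 + δ = 0
      · apply hu'
        have hδ' : δ = -1 := by linear_combination hδ
        rw [hδ'] at e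
        have : u' = γ • v := by
          have e2 : γ • v + (-1 : F) • (u' - w) - w = 0 := by rw [e, sub_self]
          have e3 : γ • v - u' = 0 := by rw [← e2]; module
          exact (sub_eq_zero.1 e3).symm
        rw [this]
        exact hv0 γ
      · have e2 : (1 + δ) • w = γ • v + δ • u' := by
          have : γ • v + δ • (u' - w) + δ • w = (1 + δ) • w := by rw [e]; module
          rw [← this]; module
        have e3 : w = (1 + δ)⁻¹ • (γ • v + δ • u') := by
          rw [eq_inv_smul_iff₀ hδ]; exact e2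
        apply hwv ((1 + δ)⁻¹ * (γ + δ * (-(β⁻¹ * α)))) ((1 + δ)⁻¹ * (δ * (β⁻¹ + 1)))
        rw [e3, h2]
        module
    obtain ⟨s, hs1, hs2⟩ := tv_step a1
    obtain ⟨t, ht1, ht2⟩ := tv_step a2
    exact ⟨t * s, by rw [coe_mul_apply, hs1, ht1], by rw [coe_mul_apply, hs2, ht2]⟩
  · exact tv_step h

end trans

end Cfsg.Agent.H202.RC
end

-- part: H202/RC/Point
section
/-!
# No cover has a common invariant point or hyperplane
-/

set_option autoImplicit false
open Cfsg

namespace Cfsg.Agent.H202.RC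

open MulAction Cfsg.Agent.H106.RC Module Cfsg.Agent.H359.RC

section frame

variable {F V G Ω : Type} [Field F] [AddCommGroup V] [Module F V] [Group G] [MulAction G Ω] {N : Subgroup G}
  {κ : SLV F V →* G}

/-- `κ` is injective on `Hom(V/W, W)` -/
theorem Frame.inj_QW (h : Frame Ω N κ) {W : Submodule F V} (hW : W ≠ ⊥) {s t : SLV F V} (hs : s ∈ QW W)
    (ht : t ∈ QW W) (e : κ s = κ t) : s = t := by
  have h1 : κ (s * t⁻¹) = 1 := by rw [map_mul, map_inv, e, mul_inv_cancel]
  obtain ⟨c, hc⟩ := (h.ker _).1 h1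
  obtain ⟨w, hw, hw0⟩ := Submodule.exists_mem_ne_zero_of_ne_bot hW
  have h2 := ((QW W).mul_mem hs ((QW W).inv_mem ht)).2 w hw
  rw [hc w] at h2
  have hc1 : c = 1 := by
    have h3 : (c - 1) • w = 0 := by rw [sub_smul, one_smul, h2, sub_self]
    rcases smul_eq_zero.1 h3 with h | h
    · exact sub_eq_zero.1 h
    · exact absurd h hw0
  have h3 : s * t⁻¹ = 1 := by
    apply SLV.ext
    intro v
    rw [hc v, hc1, one_smul, coe_one_apply]
  exact mul_inv_eq_one.1 h3

/-- an element acting on `N` like `κ b` is `κ b` -/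
theorem Frame.eq_of_act (h : Frame Ω N κ) {x : G} {b : SLV F V}
    (hx : ∀ s, x * κ s * x⁻¹ = κ (cj (b : V ≃ₗ[F] V) s)) : x = κ b := by
  have h1 : (κ b)⁻¹ * x ∈ Subgroup.centralizer (N : Set G) := by
    rw [Subgroup.mem_centralizer_iff]
    intro n hn
    rw [← h.range] at hn
    obtain ⟨s, rfl⟩ := hn
    have h2 := hx s
    rw [cj_sl, map_mul, map_mul, map_inv] at h2
    have h3 : x * κ s = κ b * κ s * (κ b)⁻¹ * x := by rw [← h2]; group
    calc κ s * ((κ b)⁻¹ * x) = (κ b)⁻¹ * (κ b * κ s * (κ b)⁻¹ * x) := by group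
      _ = (κ b)⁻¹ * (x * κ s) := by rw [h3]
      _ = (κ b)⁻¹ * x * κ s := by group
  rw [h.env.cent, Subgroup.mem_bot] at h1
  exact (inv_mul_eq_one.1 h1).symm

end frame

/-- elements of `QW ⟨v⟩` are transvections -/
theorem exists_tv {F V : Type*} [Field F] [AddCommGroup V] [Module F V] {v : V} (hv : v ≠ 0) {s : SLV F V}
    (hs : s ∈ QW (Submodule.span F {v})) : ∃ (φ : Dual F V) (h : φ v = 0), s = tv φ v h := by
  obtain ⟨k, -, k1, k2, rfl⟩ := exists_uh hs
  let φ : Dual F V := (LinearEquiv.toSpanNonzeroSingleton F V v hv).symm.toLinearMap ∘ₗ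
    (k.codRestrict (Submodule.span F {v}) k1)
  have hφ : ∀ x, φ x • v = k x := by
    intro x
    have h1 := (LinearEquiv.toSpanNonzeroSingleton F V v hv).apply_symm_apply ⟨k x, k1 x⟩
    have h2 := congrArg Subtype.val h1
    rw [LinearEquiv.toSpanNonzeroSingleton_apply] at h2
    exact h2
  have h0 : φ v = 0 := by
    have h1 := hφ v
    rw [k2 v (Submodule.mem_span_singleton_self v)] at h1
    exact (smul_eq_zero.1 h1).resolve_right hv
  refine ⟨φ, h0, ?_⟩
  apply SLV.ext
  intro x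
  rw [uh_apply, tv_apply, hφ]

theorem tv_mem_QW {F V : Type*} [Field F] [AddCommGroup V] [Module F V] {v : V} {φ : Dual F V} (h : φ v = 0) :
    tv φ v h ∈ QW (Submodule.span F {v}) := by
  refine ⟨fun x => ?_, fun w hw => ?_⟩
  · rw [tv_apply, add_sub_cancel_left]
    exact Submodule.smul_mem _ _ (Submodule.mem_span_singleton_self v)
  · obtain ⟨c, rfl⟩ := Submodule.mem_span_singleton.1 hw
    rw [tv_apply, map_smul, h, smul_zero, zero_smul, add_zero]

section main

variable {F V G Ω ι : Type} [Field F] [Finite F] [AddCommGroup V] [Module F V] [Module.Finite F V] [Group G] [Finite G]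
  [Nonempty Ω] [MulAction G Ω] [Finite ι] {N : Subgroup G} {κ : SLV F V →* G} {x : ι → G} {r : ι → ℕ}
  {a : ι → V ≃ₗ[F] V}

/-- **No common invariant point.** -/
theorem no_point (h : LinCov Ω N κ x r a) (hn : 3 ≤ finrank F V) (v : V) (hv : v ≠ 0)
    (hinv : ∀ i, ∃ c : F, a i v = c • v) : False := by
  classical
  obtain ⟨p, hp, hF⟩ : ∃ p : ℕ, p.Prime ∧ CharP F p :=
    ⟨ringChar F, CharP.char_is_prime F _, inferInstance⟩
  set P := Submodule.span F {v} with hP
  have hPne : P ≠ ⊥ := by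
    rw [hP, Ne, Submodule.span_singleton_eq_bot]; exact hv
  have hvP : v ∈ P := Submodule.mem_span_singleton_self v
  have hai : ∀ i, ∀ w ∈ P, a i w ∈ P := by
    intro i w hw
    obtain ⟨c, rfl⟩ := Submodule.mem_span_singleton.1 hw
    obtain ⟨d, hd⟩ := hinv i
    rw [map_smul, hd]
    exact Submodule.smul_mem _ _ (Submodule.smul_mem _ _ hvP)
  have hne0 : ∀ i (c : F), a i v = c • v → c ≠ 0 := by
    rintro i c hc rfl
    rw [zero_smul] at hc
    exact hv ((a i).map_eq_zero_iff.1 hc)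
  have hai' : ∀ i, ∀ w ∈ P, (a i).symm w ∈ P := by
    intro i w hw
    obtain ⟨c, rfl⟩ := Submodule.mem_span_singleton.1 hw
    obtain ⟨d, hd⟩ := hinv i
    have hd0 := hne0 i d hd
    have : (a i).symm v = d⁻¹ • v := by
      rw [LinearEquiv.symm_apply_eq, map_smul, hd, smul_smul, inv_mul_cancel₀ hd0, one_smul]
    rw [map_smul, this]
    exact Submodule.smul_mem _ _ (Submodule.smul_mem _ _ hvP)
  have hcjQ : ∀ i, ∀ s ∈ QW P, cj (a i) s ∈ QW P := by
    intro i s hs
    refine ⟨fun y => ?_, fun w hw => ?_⟩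
    · obtain ⟨y, rfl⟩ := (a i).surjective y
      rw [cj_apply, ← map_sub]
      exact hai i _ (hs.1 y)
    · obtain ⟨w, rfl⟩ := (a i).surjective w
      have h1 := hai' i _ hw
      rw [LinearEquiv.symm_apply_apply] at h1
      rw [cj_apply, hs.2 w h1]
  refine no_radical h.fr.env h.pf h.cov hp (Q := (QW P).map κ) ?_ ?_ ?_ ?_ ?_ ?_
  · rintro _ ⟨s, hs, rfl⟩ _ ⟨t, ht, rfl⟩
    rw [← map_mul, QW_comm hs ht, map_mul]
  · rintro _ ⟨s, hs, rfl⟩
    rw [← map_pow, QW_pow hs, map_one]
  · -- nontrivial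
    intro hbot
    obtain ⟨w, hw⟩ := exists_notMem_pair hn v v
    have hw' : w ∉ P := by
      intro hwP; apply hw
      rw [Set.pair_eq_singleton]; exact hwP
    obtain ⟨f, hf1, hf2⟩ := Submodule.exists_le_ker_of_notMem hw'
    have hfv : f v = 0 := hf2 hvP
    have h1 : κ (tv f v hfv) ∈ (QW P).map κ := ⟨_, tv_mem_QW hfv, rfl⟩
    rw [hbot, Subgroup.mem_bot] at h1
    have h2 := h.fr.inj_QW hPne (tv_mem_QW hfv) (QW P).one_mem (by rw [h1, map_one])
    have h3 := congrArg (fun s : SLV F V => (s : V ≃ₗ[F] V) w) h2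
    simp only [tv_apply, coe_one_apply] at h3
    have h4 : f w • v = 0 := by rwa [add_eq_left] at h3
    rcases smul_eq_zero.1 h4 with h | h
    · exact hf1 h
    · exact hv h
  · rintro i _ ⟨s, hs, rfl⟩
    rw [h.lift]
    exact ⟨_, hcjQ i s hs, rfl⟩
  · -- centralizer
    intro i hi
    have hfix : ∀ s ∈ QW P, cj (a i) s = s := by
      intro s hs
      apply h.fr.inj_QW hPne (hcjQ i s hs) hs
      rw [← h.lift]
      have h1 := hi (κ s) ⟨s, hs, rfl⟩
      rw [h1, mul_inv_cancel_right]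
    obtain ⟨c, hc⟩ := hinv i
    have hc0 := hne0 i c hc
    -- `φ ∘ a i = c φ` for `φ v = 0`
    have h1 : ∀ (φ : Dual F V), φ v = 0 → ∀ y, φ (a i y) = c * φ y := by
      intro φ hφ y
      have h2 := hfix _ (tv_mem_QW hφ)
      have h3 := congrArg (fun s : SLV F V => (s : V ≃ₗ[F] V) (a i y)) h2
      simp only [cj_apply, tv_apply] at h3
      rw [map_add, map_smul, hc, add_right_inj, smul_smul] at h3
      have h4 : (φ (a i y) - φ y * c) • v = 0 := by rw [sub_smul, h3, sub_self]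
      rcases smul_eq_zero.1 h4 with h | h
      · rw [sub_eq_zero.1 h, mul_comm]
      · exact absurd h hv
    let b0 : V ≃ₗ[F] V := (LinearEquiv.smulOfNeZero F V c⁻¹ (inv_ne_zero hc0)) * a i
    have hb0 : ∀ y, b0 y = c⁻¹ • a i y := fun y => rfl
    have hb1 : ∀ y, b0 y - y ∈ P := by
      intro y
      by_contra hno
      obtain ⟨f, hf1, hf2⟩ := Submodule.exists_le_ker_of_notMem hno
      have hfv : f v = 0 := hf2 hvP
      apply hf1
      rw [map_sub, hb0, map_smul, h1 f hfv, smul_eq_mul, inv_mul_cancel_left₀ hc0, sub_self]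
    have hb2 : ∀ w ∈ P, b0 w = w := by
      intro w hw
      obtain ⟨d, rfl⟩ := Submodule.mem_span_singleton.1 hw
      rw [hb0, map_smul, hc, smul_smul, smul_smul]
      congr 1
      field_simp
    -- `b0` as an element of `SL(V)`
    let k : V →ₗ[F] V := (b0 : V →ₗ[F] V) - LinearMap.id
    have hk : ∀ y, k y = b0 y - y := fun _ => rfl
    have hkk : ∀ y, k (k y) = 0 := fun y => by rw [hk (k y), hk y, hb2 _ (hb1 y), sub_self]
    have hb3 : ∀ y, (uh k hkk : V ≃ₗ[F] V) y = b0 y := fun y => by rw [uh_apply, hk, add_sub_cancel]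
    have hbQ : uh k hkk ∈ QW P := by
      refine ⟨fun y => ?_, fun w hw => ?_⟩
      · rw [hb3]; exact hb1 y
      · rw [hb3]; exact hb2 w hw
    have hx : x i = κ (uh k hkk) := by
      apply h.fr.eq_of_act
      intro s
      rw [h.lift]
      congr 1
      apply cj_eq
      intro y
      have h5 : a i y = c • (uh k hkk : V ≃ₗ[F] V) y := by
        rw [hb3, hb0, smul_smul, mul_inv_cancel₀ hc0, one_smul]
      have h6 : a i ((s : V ≃ₗ[F] V) y) = c • (uh k hkk : V ≃ₗ[F] V) ((s : V ≃ₗ[F] V) y) := by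
        rw [hb3, hb0, smul_smul, mul_inv_cancel₀ hc0, one_smul]
      rw [h5, h6, map_smul, cj_apply]
    rw [hx]
    exact ⟨_, hbQ, rfl⟩
  · -- transitivity on characters
    obtain ⟨ψ, hψ⟩ := exists_psi F
    have key : ∀ μ : (QW P).map κ →* ℂˣ, μ ≠ 1 → ∃ u : V, u ∉ P ∧ ∀ (φ : Dual F V) (hφ : φ v = 0),
        ((μ ⟨κ (tv φ v hφ), _, tv_mem_QW hφ, rfl⟩ : ℂˣ) : ℂ) = ψ (φ u) := by
      intro μ hμ
      -- a functional with value one at `v`
      obtain ⟨f0, hf0⟩ : ∃ f0 : Dual F V, f0 v = 1 := by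
        obtain ⟨f, hf1, -⟩ := Submodule.exists_le_ker_of_notMem (p := (⊥ : Submodule F V)) (v := v)
          (by rw [Submodule.mem_bot]; exact hv)
        exact ⟨(f v)⁻¹ • f, by rw [LinearMap.smul_apply, smul_eq_mul, inv_mul_cancel₀ hf1]⟩
      let pr : Dual F V → Dual F V := fun φ => φ - φ v • f0
      have hpr : ∀ φ, pr φ v = 0 := fun φ => by
        change φ v - φ v • f0 v = 0
        rw [hf0, smul_eq_mul, mul_one, sub_self]
      have hpradd : ∀ φ φ', pr (φ + φ') = pr φ + pr φ' := fun φ φ' => by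
        change (φ + φ') - (φ + φ') v • f0 = _
        rw [LinearMap.add_apply]
        change _ = (φ - φ v • f0) + (φ' - φ' v • f0)
        module
      let χ : AddChar (Dual F V) ℂ :=
        { toFun := fun φ => ((μ ⟨κ (tv (pr φ) v (hpr φ)), _, tv_mem_QW (hpr φ), rfl⟩ : ℂˣ) : ℂ)
          map_zero_eq_one' := by
            have h0 : (⟨κ (tv (pr 0) v (hpr 0)), _, tv_mem_QW (hpr 0), rfl⟩ : (QW P).map κ) = 1 := by
              apply Subtype.ext
              change κ _ = 1
              rw [← map_one κ]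
              congr 1
              apply SLV.ext
              intro y
              have : pr 0 = 0 := by change (0 : Dual F V) - (0 : Dual F V) v • f0 = 0; simp
              rw [tv_apply, this, coe_one_apply]
              simp
            rw [h0, map_one]; rfl
          map_add_eq_mul' := fun φ φ' => by
            rw [← Units.val_mul, ← map_mul]
            congr 2
            apply Subtype.ext
            change κ _ = κ _ * κ _
            rw [← map_mul]
            congr 1
            rw [tv_mul_left]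
            apply SLV.ext
            intro y
            rw [tv_apply, tv_apply, hpradd] }
      obtain ⟨ℓ, hℓ⟩ := exists_dual hψ χ
      let u : V := (Module.evalEquiv F V).symm ℓ
      have hu : ∀ φ : Dual F V, ℓ φ = φ u := by
        intro φ
        have h1 : ℓ = Module.evalEquiv F V u := ((Module.evalEquiv F V).apply_symm_apply ℓ).symm
        rw [h1]; rfl
      have hval : ∀ (φ : Dual F V) (hφ : φ v = 0),
          ((μ ⟨κ (tv φ v hφ), _, tv_mem_QW hφ, rfl⟩ : ℂˣ) : ℂ) = ψ (φ u) := by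
        intro φ hφ
        rw [← hu, ← hℓ]
        change _ = ((μ ⟨κ (tv (pr φ) v (hpr φ)), _, tv_mem_QW (hpr φ), rfl⟩ : ℂˣ) : ℂ)
        congr 2
        apply Subtype.ext
        change κ _ = κ _
        congr 1
        apply SLV.ext
        intro y
        have : pr φ = φ := by change φ - φ v • f0 = φ; rw [hφ, zero_smul, sub_zero]
        rw [tv_apply, tv_apply, this]
      refine ⟨u, ?_, hval⟩
      intro huP
      apply hμ
      obtain ⟨d, hd⟩ := Submodule.mem_span_singleton.1 huP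
      ext ⟨q, s, hs, rfl⟩
      obtain ⟨φ, hφ, rfl⟩ := exists_tv hv hs
      change ((μ ⟨κ (tv φ v hφ), _⟩ : ℂˣ) : ℂ) = 1
      rw [hval φ hφ, ← hd, map_smul, hφ, smul_zero, AddChar.map_zero_eq_one]
    intro μ ν hμ hν
    obtain ⟨u, hu, hμu⟩ := key μ hμ
    obtain ⟨u', hu', hνu⟩ := key ν hν
    obtain ⟨s, hs1, hs2⟩ := exists_sl hn (v := v) (u := u) (u' := u') hu hu'
    have hs1' : ((s⁻¹ : SLV F V) : V ≃ₗ[F] V) v = v := by
      conv_lhs => rw [← hs1]
      rw [coe_inv_apply]
    have hsQ : ∀ t ∈ QW P, s⁻¹ * t * s ∈ QW P := by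
      intro t ht
      obtain ⟨φ, hφ, rfl⟩ := exists_tv hv ht
      have e1 : s⁻¹ * tv φ v hφ * s = tv (φ ∘ₗ ((s : V ≃ₗ[F] V) : V →ₗ[F] V)) v (by
          rw [LinearMap.comp_apply, LinearEquiv.coe_coe, hs1, hφ]) := by
        apply SLV.ext
        intro y
        rw [coe_mul_apply, coe_mul_apply, tv_apply, map_add, map_smul, hs1', coe_inv_apply, tv_apply]
        rfl
      rw [e1]
      exact tv_mem_QW _
    refine ⟨κ s, ?_, ?_⟩
    · rintro _ ⟨t, ht, rfl⟩
      rw [← map_inv, ← map_mul, ← map_mul]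
      exact ⟨_, hsQ t ht, rfl⟩
    · ext ⟨q, t, ht, rfl⟩
      obtain ⟨φ, hφ, rfl⟩ := exists_tv hv ht
      have hφs : (φ ∘ₗ ((s : V ≃ₗ[F] V) : V →ₗ[F] V)) v = 0 := by
        rw [LinearMap.comp_apply, LinearEquiv.coe_coe, hs1, hφ]
      change ((μ ⟨(κ s)⁻¹ * κ (tv φ v hφ) * κ s, _⟩ : ℂˣ) : ℂ) = ((ν ⟨κ (tv φ v hφ), _⟩ : ℂˣ) : ℂ)
      have e2 : (⟨(κ s)⁻¹ * κ (tv φ v hφ) * κ s, by
          rw [← map_inv, ← map_mul, ← map_mul]; exact ⟨_, hsQ _ (tv_mem_QW hφ), rfl⟩⟩ : (QW P).map κ) =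
          ⟨κ (tv (φ ∘ₗ ((s : V ≃ₗ[F] V) : V →ₗ[F] V)) v hφs), _, tv_mem_QW hφs, rfl⟩ := by
        apply Subtype.ext
        change (κ s)⁻¹ * κ (tv φ v hφ) * κ s = κ _
        rw [← map_inv, ← map_mul, ← map_mul]
        congr 1
        apply SLV.ext
        intro y
        rw [coe_mul_apply, coe_mul_apply, tv_apply, map_add, map_smul, hs1', coe_inv_apply, tv_apply]
        rfl
      rw [e2, hμu _ hφs, hνu φ hφ, LinearMap.comp_apply, LinearEquiv.coe_coe, hs2]

end main

/-! ### duality -/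

section dual

variable {F V : Type} [Field F] [AddCommGroup V] [Module F V] [Module.Finite F V]

variable {G Ω ι : Type} [Group G] [MulAction G Ω] {N : Subgroup G} {κ : SLV F V →* G} {x : ι → G} {r : ι → ℕ}
  {a : ι → V ≃ₗ[F] V}

end dual

end Cfsg.Agent.H202.RC
end

-- part: H338/RC/Cover2
section
/-!
# Covers of an orbit of an abelian group by elements of arbitrary order (helper338, S3510)

`cover_gen` : the `x i` commute, have finite orders, normalise the finite abelian group `U`, at most one of the orders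
is not prime to `|U|`, every point of the orbit `U ω` is fixed by some `x i`; then some `x i` fixes all the points of
`U ω`.
-/

set_option autoImplicit false

namespace Cfsg.Agent.H338.RC

open MulAction

theorem cover_gen {G Ω ι : Type*} [Group G] [MulAction G Ω] [Finite ι] {x : ι → G} {N : ι → ℕ} (hN : ∀ i, N i ≠ 0)
    (hx : ∀ i, x i ^ N i = 1) (hc : ∀ i j, x i * x j = x j * x i) {U : Subgroup G} [Finite U]
    (hU : ∀ i, ∀ u ∈ U, x i * u * (x i)⁻¹ ∈ U) (hab : ∀ u ∈ U, ∀ v ∈ U, u * v = v * u)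
    (hcop : ∀ i j, ¬ (N i).Coprime (Nat.card U) → ¬ (N j).Coprime (Nat.card U) → i = j) (ω : Ω)
    (hcov : ∀ u ∈ U, ∃ i, x i • u • ω = u • ω) : ∃ i, ∀ u ∈ U, x i • u • ω = u • ω := by
  classical
  by_contra hcon
  push Not at hcon
  have hpow : ∀ (i : ι) (n : ℕ), ∀ u ∈ U, x i ^ n * u * (x i ^ n)⁻¹ ∈ U := by
    intro i n
    induction n with
    | zero => intro u hu; simpa using hu
    | succ n ih =>
      intro u hu
      have h2 := hU i _ (ih u hu)
      have h3 : x i * (x i ^ n * u * (x i ^ n)⁻¹) * (x i)⁻¹ = x i ^ (n + 1) * u * (x i ^ (n + 1))⁻¹ := by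
        rw [pow_succ']
        group
      rwa [h3] at h2
  have hinv : ∀ (i : ι), ∀ u ∈ U, (x i)⁻¹ * u * x i ∈ U := by
    intro i u hu
    obtain ⟨n, hn⟩ : ∃ n, N i = n + 1 := ⟨N i - 1, by have := hN i; omega⟩
    have h5 : x i ^ n = (x i)⁻¹ := by
      rw [eq_inv_iff_mul_eq_one, ← pow_succ, ← hn]
      exact hx i
    have h6 := hpow i n u hu
    rwa [h5, inv_inv] at h6
  -- the `x i` with a fixed point in the orbit
  let I := {i : ι // ∃ u ∈ U, x i • u • ω = u • ω}
  have hpres : ∀ (i : I) (y : Ω), y ∈ orbit U ω ↔ x i.1 • y ∈ orbit U ω := by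
    rintro ⟨i, u, hu, hi⟩ y
    constructor
    · rintro ⟨v, rfl⟩
      refine ⟨⟨x i * (v * u⁻¹) * (x i)⁻¹ * u, U.mul_mem (hU i _ (U.mul_mem v.2 (U.inv_mem hu))) hu⟩, ?_⟩
      change (x i * (v * u⁻¹) * (x i)⁻¹ * u) • ω = x i • (v : G) • ω
      have h1 : (x i)⁻¹ • u • ω = u • ω := by rw [inv_smul_eq_iff, hi]
      rw [mul_smul, mul_smul, h1, mul_smul, mul_smul, inv_smul_smul]
    · rintro ⟨v, hv⟩
      change (v : G) • ω = x i • y at hv
      have h1 : (x i)⁻¹ * (v * u⁻¹) * x i ∈ U := hinv i _ (U.mul_mem v.2 (U.inv_mem hu))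
      refine ⟨⟨(x i)⁻¹ * (v * u⁻¹) * x i * u, U.mul_mem h1 hu⟩, ?_⟩
      change ((x i)⁻¹ * (v * u⁻¹) * x i * u) • ω = y
      rw [mul_smul, mul_smul, hi, mul_smul, mul_smul, inv_smul_smul, hv, inv_smul_smul]
  let y : I → Equiv.Perm (orbit U ω) := fun i =>
    { toFun := fun d => ⟨x i.1 • (d : Ω), (hpres i d).1 d.2⟩
      invFun := fun d => ⟨(x i.1)⁻¹ • (d : Ω), (hpres i _).2 (by rw [smul_inv_smul]; exact d.2)⟩
      left_inv := fun d => Subtype.ext (inv_smul_smul _ _)
      right_inv := fun d => Subtype.ext (smul_inv_smul _ _) }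
  have hy : ∀ (i : I) (d : orbit U ω), ((y i d : _) : Ω) = x i.1 • (d : Ω) := fun i d => rfl
  have hypow : ∀ (i : I) (m : ℕ) (d : orbit U ω), (((y i ^ m) d : _) : Ω) = x i.1 ^ m • (d : Ω) := by
    intro i m
    induction m with
    | zero => intro d; simp only [_root_.pow_zero, _root_.Equiv.Perm.coe_one, _root_.id_eq, _root_.one_smul]
    | succ m ih => intro d; rw [pow_succ, Equiv.Perm.mul_apply, ih, hy, pow_succ, mul_smul]
  have hyN : ∀ i : I, y i ^ N i.1 = 1 := by
    intro i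
    ext d
    rw [hypow, hx, one_smul]
    rfl
  have hy1 : ∀ i : I, y i ≠ 1 := by
    intro i h0
    obtain ⟨u, hu, h1⟩ := hcon i.1
    apply h1
    have h2 := hy i ⟨u • ω, ⟨⟨u, hu⟩, rfl⟩⟩
    rw [h0] at h2
    exact h2.symm
  -- powers of prime order
  have hz : ∀ i : I, ∃ (r m : ℕ), r.Prime ∧ r ∣ N i.1 ∧ (y i ^ m) ^ r = 1 ∧ y i ^ m ≠ 1 := by
    intro i
    have ho : orderOf (y i) ≠ 1 := fun h => hy1 i (orderOf_eq_one_iff.1 h)
    obtain ⟨r, hr, hrd⟩ := Nat.exists_prime_and_dvd ho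
    have hod : orderOf (y i) ∣ N i.1 := orderOf_dvd_of_pow_eq_one (hyN i)
    have hopos : 0 < orderOf (y i) := Nat.pos_of_dvd_of_pos hod (Nat.pos_of_ne_zero (hN i.1))
    refine ⟨r, orderOf (y i) / r, hr, hrd.trans hod, ?_, ?_⟩
    · rw [← pow_mul, Nat.div_mul_cancel hrd, pow_orderOf_eq_one]
    · intro h0
      have h1 := orderOf_dvd_of_pow_eq_one h0
      have h2 := Nat.le_of_dvd (Nat.div_pos (Nat.le_of_dvd hopos hrd) hr.pos) h1
      exact absurd h2 (not_le_of_gt (Nat.div_lt_self hopos hr.one_lt))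
  choose r m hr hrN hyr hyne using hz
  let π : U →* Equiv.Perm (orbit U ω) := MulAction.toPermHom U (orbit U ω)
  have hπ : ∀ (u : U) (d : orbit U ω), ((π u d : _) : Ω) = (u : G) • (d : Ω) := fun u d => rfl
  have hconj : ∀ (i : I) (n : ℕ) (u : U), y i ^ n * π u * (y i ^ n)⁻¹ =
      π ⟨x i.1 ^ n * u * (x i.1 ^ n)⁻¹, hpow i.1 n u u.2⟩ := by
    intro i n u
    rw [mul_inv_eq_iff_eq_mul]
    ext d
    rw [Equiv.Perm.mul_apply, Equiv.Perm.mul_apply, hypow, hπ, hπ, hypow, ← mul_smul, ← mul_smul]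
    change _ = ((x i.1 ^ n * u * (x i.1 ^ n)⁻¹) * x i.1 ^ n) • (d : Ω)
    congr 1
    group
  have hfin : Finite π.range := Set.finite_range π
  have hcard : Nat.card π.range ∣ Nat.card U := by
    have h1 := Subgroup.card_mul_index π.ker
    rw [Subgroup.index_ker] at h1
    exact Dvd.intro_left _ h1
  obtain ⟨i, hi⟩ := Cfsg.Agent.H202.RC.cover (G := Equiv.Perm (orbit U ω)) (Ω := orbit U ω) (x := fun i : I => y i ^ m i)
    (r := r) hr hyr (fun i j => by
      have h1 : Commute (y i) (y j) := by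
        ext d
        rw [Equiv.Perm.mul_apply, Equiv.Perm.mul_apply, hy, hy, hy, hy, ← mul_smul, ← mul_smul, hc]
      exact h1.pow_pow _ _) (fun d => by
      obtain ⟨v, hv⟩ := d.2
      obtain ⟨i, hi⟩ := hcov v v.2
      have hv' : (v : G) • ω = (d : Ω) := hv
      rw [hv'] at hi
      refine ⟨⟨i, v, v.2, by rw [hv']; exact hi⟩, ?_⟩
      have h2 : ∀ k : ℕ, x i ^ k • (d : Ω) = d := by
        intro k
        induction k with
        | zero => simp
        | succ k ih => rw [pow_succ, mul_smul, hi, ih]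
      apply Subtype.ext
      change (((y _ ^ m _) d : _) : Ω) = d
      rw [hypow]
      exact h2 _) (U := π.range) (fun i u' hu' => by
      obtain ⟨u, rfl⟩ := hu'
      rw [hconj]
      exact ⟨_, rfl⟩) (Or.inl ⟨by
      rintro _ ⟨u, rfl⟩ _ ⟨v, rfl⟩
      rw [← map_mul, ← map_mul]
      congr 1
      exact Subtype.ext (hab u u.2 v v.2), fun i j h1 h2 => by
        apply Subtype.ext
        refine hcop i.1 j.1 (fun h => h1 ?_) (fun h => h2 ?_)
        · exact (Nat.Coprime.coprime_dvd_left (hrN i) h).coprime_dvd_right hcard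
        · exact (Nat.Coprime.coprime_dvd_left (hrN j) h).coprime_dvd_right hcard⟩) ⟨ω, mem_orbit_self ω⟩
  apply hyne i
  ext d
  obtain ⟨v, hv⟩ := d.2
  have h1 := hi (π v) ⟨v, rfl⟩
  have h2 : (π v) • (⟨ω, mem_orbit_self ω⟩ : orbit U ω) = d := Subtype.ext hv
  rw [h2] at h1
  exact congrArg Subtype.val h1

end Cfsg.Agent.H338.RC
end

-- part: H338/RC/ExtGen
section
/-!
# Extension fields: generation of the transvections (helper338, S3510, row A3)

`V` is a vector space over `K ≥ F`.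

* `gen` : a subgroup of `GL_F(V)` containing the transvections `t_{w,f}` with `f (K w) = 0` contains all transvections,
  if `dim_K V ≥ 2`.
-/

set_option autoImplicit false

namespace Cfsg.Agent.H338.RC

open Module

variable {F K V : Type*} [Field F] [Field K] [Algebra F K] [AddCommGroup V] [Module F V] [Module K V]
  [IsScalarTower F K V]

/-- the `F`-linear map `v ↦ (a ↦ f (a v))` -/
def ext1 (K : Type*) [Field K] [Algebra F K] [Module K V] [IsScalarTower F K V] (f : Dual F V) : V →ₗ[F] (K →ₗ[F] F) where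
  toFun v :=
    { toFun := fun a => f (a • v)
      map_add' := fun a b => by rw [add_smul, map_add]
      map_smul' := fun c a => by rw [smul_assoc, map_smul, RingHom.id_apply] }
  map_add' v w := by
    ext a
    change f (a • (v + w)) = f (a • v) + f (a • w)
    rw [smul_add, map_add]
  map_smul' c v := by
    ext a
    change f (a • c • v) = c • f (a • v)
    rw [smul_algebra_smul_comm, map_smul]

theorem ext1_apply (f : Dual F V) (v : V) (a : K) : ext1 K f v a = f (a • v) := rfl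

/-- a hyperplane contains a nonzero `K`-subspace -/
theorem exists_line [FiniteDimensional F K] [FiniteDimensional F V] [FiniteDimensional K V] (h2 : 2 ≤ finrank K V)
    (f : Dual F V) : ∃ u : V, u ≠ 0 ∧ ∀ a : K, f (a • u) = 0 := by
  have h1 : finrank F (K →ₗ[F] F) < finrank F V := by
    rw [Module.finrank_linearMap, finrank_self, mul_one, ← Module.finrank_mul_finrank F K V]
    have h0 : 0 < finrank F K := Module.finrank_pos
    nlinarith
  have h3 := LinearMap.ker_ne_bot_of_finrank_lt (f := ext1 K f) h1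
  obtain ⟨u, hu, hu0⟩ := Submodule.exists_mem_ne_zero_of_ne_bot h3
  refine ⟨u, hu0, fun a => ?_⟩
  have h4 : ext1 K f u = 0 := hu
  rw [← ext1_apply, h4]
  rfl

theorem gen [FiniteDimensional F K] [FiniteDimensional F V] [FiniteDimensional K V] (h2 : 2 ≤ finrank K V)
    {S : Subgroup (V ≃ₗ[F] V)}
    (hS : ∀ (w : V) (f : Dual F V) (h : f w = 0), (∀ a : K, f (a • w) = 0) → LinearEquiv.transvection h ∈ S)
    (w : V) (f : Dual F V) (h : f w = 0) : LinearEquiv.transvection h ∈ S := by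
  by_cases hf : ∀ a : K, f (a • w) = 0
  · exact hS w f h hf
  obtain ⟨u, hu0, hu⟩ := exists_line (K := K) h2 f
  have huw : u ∉ (Submodule.span K {w}).restrictScalars F := by
    intro h0
    rw [Submodule.restrictScalars_mem, Submodule.mem_span_singleton] at h0
    obtain ⟨c, rfl⟩ := h0
    apply hf
    intro a
    have hc : c ≠ 0 := by
      rintro rfl
      exact hu0 (zero_smul _ _)
    have h1 := hu (a * c⁻¹)
    rwa [smul_smul, mul_assoc, inv_mul_cancel₀ hc, mul_one] at h1
  obtain ⟨g, hg1, hg2⟩ := Submodule.exists_le_ker_of_notMem huw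
  set c := g u with hc
  have hgw : ∀ a : K, g (a • w) = 0 := fun a => hg2 (by
    change a • w ∈ Submodule.span K {w}
    exact Submodule.smul_mem _ _ (Submodule.mem_span_singleton_self w))
  -- `t_{c⁻¹ w, g}`
  have hgw' : g (c⁻¹ • w) = 0 := by
    rw [map_smul, show g w = 0 by simpa using hgw 1, smul_zero]
  have h3 : LinearEquiv.transvection hgw' ∈ S := hS _ _ _ (fun a => by
    rw [smul_algebra_smul_comm, map_smul, hgw, smul_zero])
  have hfu : f u = 0 := by simpa only [_root_.one_smul] using hu 1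
  have h4 : LinearEquiv.transvection hfu ∈ S := hS _ _ _ hu
  have h5 : LinearEquiv.transvection h =
      LinearEquiv.transvection hgw' * LinearEquiv.transvection hfu * (LinearEquiv.transvection hgw')⁻¹ *
        (LinearEquiv.transvection hfu)⁻¹ := by
    rw [eq_mul_inv_iff_mul_eq, eq_mul_inv_iff_mul_eq]
    ext x
    have hfw : f w = 0 := h
    simp only [LinearEquiv.mul_apply, LinearEquiv.transvection.apply, map_add, map_smul, hfw, hfu, smul_add]
    simp only [← hc, mul_zero, smul_smul]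
    have hc0 : c ≠ 0 := hg1
    rw [mul_inv_cancel₀ hc0, mul_one]
    simp only [zero_smul]
    abel
  rw [h5]
  exact mul_mem (mul_mem (mul_mem h3 h4) (inv_mem h3)) (inv_mem h4)

end Cfsg.Agent.H338.RC
end

-- part: H338/RC/ExtM
section
/-!
# Extension fields: the M-rule for `SL_L(V) ≤ SL_F(V)` (helper338, S3510, row A, box B)
-/

set_option autoImplicit false
open Cfsg

namespace Cfsg.Agent.H338.RC

open MulAction Cfsg.Agent.H106.RC Cfsg.Agent.H202.RC Module
open scoped commutatorElement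

section res

variable {F L V : Type*} [Field F] [Field L] [Algebra F L] [AddCommGroup V] [Module F V] [Module L V]
  [IsScalarTower F L V]

/-- restriction of scalars `SL_L(V) → SL_F(V)` -/
noncomputable def res (F : Type*) {L V : Type*} [Field F] [Field L] [Algebra F L] [AddCommGroup V] [Module F V]
    [Module L V] [IsScalarTower F L V] : SLV L V →* SLV F V where
  toFun s := ⟨(s : V ≃ₗ[L] V).restrictScalars F, by
    rw [mem_SLV]
    have h1 : LinearMap.det (((s : V ≃ₗ[L] V).restrictScalars F : V ≃ₗ[F] V) : V →ₗ[F] V) =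
        Algebra.norm F (LinearMap.det ((s : V ≃ₗ[L] V) : V →ₗ[L] V)) := LinearMap.det_restrictScalars
    rw [h1, mem_SLV.1 s.2, map_one]⟩
  map_one' := rfl
  map_mul' _ _ := rfl

@[simp] theorem res_apply (s : SLV L V) (v : V) :
    ((res F s : SLV F V) : V ≃ₗ[F] V) v = (s : V ≃ₗ[L] V) v := rfl

/-- an `F`-linear automorphism commuting with `L` as an `L`-linear automorphism -/
def toL (a : V ≃ₗ[F] V) (ha : ∀ (c : L) (v : V), a (c • v) = c • a v) : V ≃ₗ[L] V :=
  { a.toAddEquiv with map_smul' := ha }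

omit [Algebra F L] [IsScalarTower F L V] in
@[simp] theorem toL_apply (a : V ≃ₗ[F] V) (ha : ∀ (c : L) (v : V), a (c • v) = c • a v) (v : V) :
    toL a ha v = a v := rfl

theorem cj_res (a : V ≃ₗ[F] V) (ha : ∀ (c : L) (v : V), a (c • v) = c • a v) (s : SLV L V) :
    cj a (res F s) = res F (cj (toL a ha) s) := by
  apply cj_eq
  intro v
  rw [res_apply, res_apply, ← toL_apply a ha, cj_apply, toL_apply]

/-- an element of finite order conjugating `M` into `M` normalises `M` -/
theorem mem_norm_pow {G : Type*} [Group G] {M : Subgroup G} {x : G} {k : ℕ} (hk : 0 < k) (hx : x ^ k = 1)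
    (h : ∀ m ∈ M, x * m * x⁻¹ ∈ M) : x ∈ Subgroup.normalizer (M : Set G) := by
  have h1 : ∀ (j : ℕ), ∀ m ∈ M, x ^ j * m * (x ^ j)⁻¹ ∈ M := by
    intro j
    induction j with
    | zero => intro m hm; simpa using hm
    | succ j ih =>
      intro m hm
      have h2 := h _ (ih m hm)
      have h3 : x * (x ^ j * m * (x ^ j)⁻¹) * x⁻¹ = x ^ (j + 1) * m * (x ^ (j + 1))⁻¹ := by
        rw [pow_succ']
        group
      rwa [h3] at h2
  rw [Subgroup.mem_normalizer_iff]
  intro m
  refine ⟨fun hm => h m hm, fun hm => ?_⟩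
  have h2 := h1 (k - 1) _ hm
  have h3 : x ^ (k - 1) = x⁻¹ := by
    rw [eq_inv_iff_mul_eq_one, ← pow_succ, Nat.sub_add_cancel hk]
    exact hx
  rw [h3] at h2
  have h4 : x⁻¹ * (x * m * x⁻¹) * x⁻¹⁻¹ = m := by group
  rwa [h4] at h2

/-- a perfect group has no commutative simple quotient -/
theorem not_comm_of_perf {M S : Type*} [Group M] [Group S] (hM : commutator M = ⊤) (f : M →* S)
    (hf : Function.Surjective f) (hS : IsSimpleGroup S) : ¬ IsMulCommutative S := by
  intro hc
  have h1 : ∀ m : M, f m = 1 := by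
    intro m
    have h2 : commutator M ≤ f.ker := by
      rw [commutator_def, Subgroup.commutator_le]
      intro a _ b _
      rw [MonoidHom.mem_ker, map_commutatorElement, commutatorElement_eq_one_iff_mul_comm]
      exact hc.is_comm.comm _ _
    rw [hM] at h2
    exact h2 (Subgroup.mem_top m)
  obtain ⟨s, hs⟩ := exists_ne (1 : S)
  obtain ⟨m, rfl⟩ := hf s
  exact hs (h1 m)

end res

section mrule

variable {F L V : Type} [Field F] [Field L] [Algebra F L] [AddCommGroup V] [Module F V] [Module L V]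
  [IsScalarTower F L V] {G Ω : Type} [Group G] [MulAction G Ω] {N : Subgroup G} {κ : SLV F V →* G}

/-- the image of `SL_L(V)` -/
noncomputable def ML (L : Type) {F V G : Type} [Field F] [Field L] [Algebra F L] [AddCommGroup V] [Module F V] [Module L V]
    [IsScalarTower F L V] [Group G] (κ : SLV F V →* G) : Subgroup G :=
  (κ.comp (res F (L := L) (V := V))).range

variable {ι : Type} {x : ι → G} {r : ι → ℕ} {a : ι → V ≃ₗ[F] V}

/-- equality of images -/
theorem eq_iff_smul (h : Frame Ω N κ) {s t : SLV F V} :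
    κ s = κ t ↔ ∃ c : F, ∀ v : V, (s : V ≃ₗ[F] V) v = c • (t : V ≃ₗ[F] V) v := by
  rw [← mul_inv_eq_one, ← map_inv, ← map_mul, h.ker]
  constructor
  · rintro ⟨c, hc⟩
    refine ⟨c, fun v => ?_⟩
    have := hc ((t : V ≃ₗ[F] V) v)
    rwa [coe_mul_apply, coe_inv_apply] at this
  · rintro ⟨c, hc⟩
    refine ⟨c, fun v => ?_⟩
    have := hc (((t⁻¹ : SLV F V) : V ≃ₗ[F] V) v)
    rwa [coe_apply_inv] at this

/-- `x j` centralises `M` iff `a j` is an `L`-scalar -/
theorem cent_of_scalar (h : LinCov Ω N κ x r a) {i : ι} {c : L} (hc : ∀ v, a i v = c • v) :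
    ∀ m ∈ ML L κ, x i * m = m * x i := by
  rintro _ ⟨s, rfl⟩
  change x i * κ (res F s) = κ (res F s) * x i
  have h1 := h.lift i (res F s)
  have h2 : cj (a i) (res F s) = res F s := by
    apply cj_eq
    intro v
    rw [hc, hc, res_apply, res_apply, map_smul]
  rw [h2, mul_inv_eq_iff_eq_mul] at h1
  exact h1

theorem scalar_of_comm (fr : Frame Ω N κ) (hm : 2 ≤ finrank L V) {y : G} {f : V ≃ₗ[F] V}
    (hy : ∀ s : SLV F V, y * κ s * y⁻¹ = κ (cj f s))
    (hlin : ∀ (c : L) (v : V), f (c • v) = c • f v) (hc : ∀ m ∈ ML L κ, y * m = m * y) :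
    ∃ c : L, ∀ v, f v = c • v := by
  have hfin : Module.Finite L V := Module.finite_of_finrank_pos (by omega)
  have key : ∀ v : V, ∃ c : L, f v = c • v := by
    intro v
    by_cases hv : v = 0
    · exact ⟨1, by rw [hv, map_zero, smul_zero]⟩
    -- a functional vanishing at `v`
    obtain ⟨φ, hφ, hφv⟩ : ∃ φ : Dual L V, φ ≠ 0 ∧ φ v = 0 := by
      have h1 : Submodule.span L {v} ≠ ⊤ := by
        intro h2
        have h3 := finrank_span_singleton (K := L) hv
        rw [h2, finrank_top] at h3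
        omega
      obtain ⟨u, hu⟩ : ∃ u, u ∉ Submodule.span L {v} := by
        by_contra hcon
        push Not at hcon
        exact h1 (eq_top_iff.2 fun u _ => hcon u)
      obtain ⟨g, hg1, hg2⟩ := Submodule.exists_le_ker_of_notMem hu
      refine ⟨g, ?_, hg2 (Submodule.mem_span_singleton_self v)⟩
      rintro rfl
      exact hg1 rfl
    obtain ⟨u, hu⟩ : ∃ u, φ u ≠ 0 := by
      by_contra hcon
      push Not at hcon
      exact hφ (LinearMap.ext hcon)
    have h1 := hc _ ⟨tv φ v hφv, rfl⟩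
    change y * κ (res F (tv φ v hφv)) = κ (res F (tv φ v hφv)) * y at h1
    have h2 := hy (res F (tv φ v hφv))
    rw [h1, mul_inv_cancel_right, eq_iff_smul fr] at h2
    obtain ⟨c, hc⟩ := h2
    -- `c = 1`
    have h3 : ∀ w, (tv φ v hφv : V ≃ₗ[L] V) (f w) = c • f ((tv φ v hφv : V ≃ₗ[L] V) w) := by
      intro w
      have := hc (f w)
      rwa [cj_apply, res_apply, res_apply] at this
    have hav : f v ≠ 0 := by
      intro h0
      exact hv (f.map_eq_zero_iff.1 h0)
    have h4 : c = 1 := by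
      have h5 := h3 v
      rw [tv_apply, tv_apply, hφv, zero_smul, add_zero] at h5
      -- `a v + φ (a v) v = c a v`; apply φ
      have h6 := congrArg φ h5
      rw [map_add, map_smul, hφv, smul_zero, add_zero, ← algebraMap_smul L c, map_smul] at h6
      by_cases h7 : φ (f v) = 0
      · rw [h7, zero_smul, add_zero, ← sub_eq_zero] at h5
        have h8 : ((1 : F) - c) • f v = 0 := by rw [sub_smul, one_smul, h5]
        rcases smul_eq_zero.1 h8 with h9 | h9
        · exact (sub_eq_zero.1 h9).symm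
        · exact (hav h9).elim
      · have h8 : (algebraMap F L c) = 1 := by
          have : (algebraMap F L c) * φ (f v) = 1 * φ (f v) := by
            rw [one_mul]
            exact h6.symm
          exact mul_right_cancel₀ h7 this
        exact (algebraMap F L).injective (by rw [h8, map_one])
    subst h4
    have h5 := h3 u
    rw [one_smul, tv_apply, tv_apply, map_add, hlin, add_right_inj] at h5
    refine ⟨(φ u)⁻¹ * φ (f u), ?_⟩
    rw [mul_smul, h5, inv_smul_smul₀ hu]
  obtain ⟨c, hc⟩ := LinearMap.exists_eq_smul_id_of_forall_notLinearIndependent (R := L) (V := V)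
    (f := (toL f hlin : V →ₗ[L] V)) (by
      intro v hv
      obtain ⟨c, hc⟩ := key v
      rw [LinearIndependent.pair_iff] at hv
      have := hv c (-1) (by
        change c • v + (-1 : L) • f v = 0
        rw [hc, neg_smul, one_smul, add_neg_cancel])
      exact neg_ne_zero.2 one_ne_zero this.2)
  refine ⟨c, fun v => ?_⟩
  have := congrArg (fun f : V →ₗ[L] V => f v) hc
  exact this

theorem scalar_of_cent (h : LinCov Ω N κ x r a) (hm : 2 ≤ finrank L V) {i : ι}
    (hlin : ∀ (c : L) (v : V), a i (c • v) = c • a i v) (hc : ∀ m ∈ ML L κ, x i * m = m * x i) :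
    ∃ c : L, ∀ v, a i v = c • v :=
  scalar_of_comm h.fr hm (h.lift i) hlin hc

/-- a power of a lift is a scalar -/
theorem pow_scalar (h : LinCov Ω N κ x r a) (hn : 2 ≤ finrank F V) (i : ι) :
    ∃ c : F, ∀ v, (a i ^ r i) v = c • v := by
  have h1 : ∀ (k : ℕ) (s : SLV F V), x i ^ k * κ s * (x i ^ k)⁻¹ = κ (cj (a i ^ k) s) := by
    intro k
    induction k with
    | zero => intro s; simp
    | succ k ih =>
      intro s
      rw [pow_succ' (a i), cj_mul, ← h.lift, ← ih, pow_succ' (x i)]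
      group
  refine scalar_of_comm (L := F) h.fr hn (y := 1) (f := a i ^ r i) ?_ (fun c v => map_smul _ c v) fun m _ => by simp
  intro s
  rw [← h1, h.pf.pow]

/-- structure of the image of `SL_L(V)` -/
theorem exists_pi [Finite L] (fr : Frame Ω N κ) (hm : 2 ≤ finrank L V) (h4 : 4 ≤ Nat.card L) :
    IsSimpleGroup (Matrix.ProjectiveSpecialLinearGroup (Fin (finrank L V)) L) ∧
      ¬ IsMulCommutative (Matrix.ProjectiveSpecialLinearGroup (Fin (finrank L V)) L) ∧
      ⁅ML L κ, ML L κ⁆ = ML L κ ∧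
      ∃ π : ML L κ →* Matrix.ProjectiveSpecialLinearGroup (Fin (finrank L V)) L,
        Function.Surjective π ∧ π.ker ≤ Subgroup.center (ML L κ) := by
  classical
  have : Fintype L := Fintype.ofFinite L
  rw [Nat.card_eq_fintype_card] at h4
  have hfin : Module.Finite L V := Module.finite_of_finrank_pos (by omega)
  set m := finrank L V with hmdef
  let b : Basis (Fin m) L V := Module.finBasis L V
  let μ : Matrix.SpecialLinearGroup (Fin m) L →* G := (κ.comp (res F)).comp (slE b).toMonoidHom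
  have hμ : μ.range = ML L κ := by
    change ((κ.comp (res F)).comp (slE b).toMonoidHom).range = _
    rw [MonoidHom.range_comp, MonoidHom.range_eq_top.2 (slE b).surjective, ← MonoidHom.range_eq_map]
    rfl
  have hperf : commutator (Matrix.SpecialLinearGroup (Fin m) L) = ⊤ := H982.TWModel.perfect_sl hm fun _ => h4
  have : Nontrivial (Fin m) := Fin.nontrivial_iff_two_le.2 hm
  have hS : IsSimpleGroup (Matrix.ProjectiveSpecialLinearGroup (Fin m) L) :=
    LieClassical.SLGen.psl_isSimpleGroup_of_perfect hperf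
  have hSn : ¬ IsMulCommutative (Matrix.ProjectiveSpecialLinearGroup (Fin m) L) :=
    not_comm_of_perf hperf (QuotientGroup.mk' _) (QuotientGroup.mk'_surjective _) hS
  have hker : μ.ker ≤ Subgroup.center (Matrix.SpecialLinearGroup (Fin m) L) := by
    intro s hs
    rw [MonoidHom.mem_ker] at hs
    obtain ⟨c, hc⟩ := (fr.ker _).1 hs
    rw [Subgroup.mem_center_iff]
    intro t
    apply (slE b).injective
    rw [map_mul, map_mul]
    apply SLV.ext
    intro v
    have h1 : ∀ v, (slE b s : V ≃ₗ[L] V) v = c • v := hc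
    rw [coe_mul_apply, coe_mul_apply, h1, h1, ← algebraMap_smul L c, map_smul, algebraMap_smul]
  have hMperf : ⁅μ.range, μ.range⁆ = μ.range := by
    rw [MonoidHom.range_eq_map, ← Subgroup.map_commutator, ← commutator_def, hperf]
  let e1 : Matrix.SpecialLinearGroup (Fin m) L ⧸ μ.ker ≃* μ.range := QuotientGroup.quotientKerEquivRange μ
  let q : Matrix.SpecialLinearGroup (Fin m) L ⧸ μ.ker →* Matrix.ProjectiveSpecialLinearGroup (Fin m) L :=
    QuotientGroup.map μ.ker (Subgroup.center _) (MonoidHom.id _) hker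
  have hqs : Function.Surjective q := by
    intro y
    obtain ⟨s, rfl⟩ := QuotientGroup.mk_surjective y
    exact ⟨QuotientGroup.mk s, rfl⟩
  let π : μ.range →* Matrix.ProjectiveSpecialLinearGroup (Fin m) L := q.comp e1.symm.toMonoidHom
  have hπ : Function.Surjective π := hqs.comp e1.symm.surjective
  have hπk : π.ker ≤ Subgroup.center μ.range := by
    intro y hy
    obtain ⟨s', hs'⟩ := e1.surjective y
    obtain ⟨s, rfl⟩ := QuotientGroup.mk_surjective s'
    have h1 : q (QuotientGroup.mk s) = 1 := by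
      have h2 : q (e1.symm y) = 1 := hy
      rwa [← hs', MulEquiv.symm_apply_apply] at h2
    have h2 : s ∈ Subgroup.center (Matrix.SpecialLinearGroup (Fin m) L) := by
      have h3 : (QuotientGroup.mk s : Matrix.SpecialLinearGroup (Fin m) L ⧸
        Subgroup.center (Matrix.SpecialLinearGroup (Fin m) L)) = 1 := h1
      exact (QuotientGroup.eq_one_iff s).1 h3
    rw [Subgroup.mem_center_iff] at h2 ⊢
    rintro ⟨_, ⟨t, rfl⟩⟩
    have h4 : (y : G) = μ s := by rw [← hs']; rfl
    apply Subtype.ext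
    change μ t * (y : G) = (y : G) * μ t
    rw [h4, ← map_mul, ← map_mul, h2 t]
  rw [← hμ]
  exact ⟨hS, hSn, hMperf, π, hπ, hπk⟩

/-- `L` has at least four elements -/
theorem four_le [Finite L] (hl : 2 ≤ finrank F L) : 4 ≤ Nat.card L := by
  have hFL : Module.Finite F L := Module.finite_of_finrank_pos (by omega)
  have hF : Finite F := Finite.of_injective _ (algebraMap F L).injective
  have h1 := Module.natCard_eq_pow_finrank (K := F) (V := L)
  have h2 : 2 ≤ Nat.card F := Finite.one_lt_card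
  calc 4 = 2 ^ 2 := by norm_num
    _ ≤ Nat.card F ^ 2 := Nat.pow_le_pow_left h2 2
    _ ≤ Nat.card F ^ finrank F L := Nat.pow_le_pow_right (by omega) hl
    _ = Nat.card L := h1.symm

theorem ML_le (fr : Frame Ω N κ) : ML L κ ≤ N := by
  rw [← fr.range]
  rintro _ ⟨s, rfl⟩
  exact ⟨_, rfl⟩

/-- the image of `SL_L(V)` is a proper subgroup -/
theorem ML_ne (fr : Frame Ω N κ) (hl : 2 ≤ finrank F L) (hn : 2 ≤ finrank F V) : ML L κ ≠ N := by
  intro h
  have hfin : Module.Finite F V := Module.finite_of_finrank_pos (by omega)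
  -- a transvection
  obtain ⟨v, hv⟩ : ∃ v : V, v ≠ 0 := by
    by_contra hcon
    push Not at hcon
    have : Subsingleton V := ⟨fun a b => by rw [hcon a, hcon b]⟩
    rw [finrank_zero_of_subsingleton] at hn
    omega
  obtain ⟨u, hu⟩ : ∃ u, u ∉ Submodule.span F {v} := by
    by_contra hcon
    push Not at hcon
    have h2 : Submodule.span F {v} = ⊤ := eq_top_iff.2 fun u _ => hcon u
    have h3 := finrank_span_singleton (K := F) hv
    rw [h2, finrank_top] at h3
    omega
  obtain ⟨φ, hφu, hφ⟩ := Submodule.exists_le_ker_of_notMem hu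
  have hφv : φ v = 0 := hφ (Submodule.mem_span_singleton_self v)
  have h1 : κ (tv φ v hφv) ∈ ML L κ := by
    rw [h, ← fr.range]
    exact ⟨_, rfl⟩
  obtain ⟨t, ht⟩ := h1
  change κ (res F t) = _ at ht
  obtain ⟨c, hc⟩ := (eq_iff_smul fr).1 ht
  have hc' : ∀ w, (t : V ≃ₗ[L] V) w = c • (w + φ w • v) := by
    intro w
    have := hc w
    rwa [tv_apply, res_apply] at this
  have hc0 : c ≠ 0 := by
    rintro rfl
    have h2 := hc' v
    rw [zero_smul] at h2
    exact hv ((t : V ≃ₗ[L] V).map_eq_zero_iff.1 h2)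
  have hall : ∀ k : L, ∃ d : F, algebraMap F L d = k := by
    intro k
    have h2 := hc' (k • u)
    rw [map_smul, hc', smul_algebra_smul_comm] at h2
    have h3 : k • (u + φ u • v) = k • u + φ (k • u) • v := by
      have := congrArg (fun w => c⁻¹ • w) h2
      simpa only [inv_smul_smul₀ hc0] using this
    rw [smul_add, add_right_inj, smul_algebra_smul_comm] at h3
    have h4 : φ u ≠ 0 := hφu
    refine ⟨(φ u)⁻¹ * φ (k • u), ?_⟩
    have h5 : k • v = ((φ u)⁻¹ * φ (k • u)) • v := by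
      rw [mul_smul, ← h3, inv_smul_smul₀ h4]
    rw [← algebraMap_smul L ((φ u)⁻¹ * φ (k • u)) v, ← sub_eq_zero, ← sub_smul] at h5
    rcases smul_eq_zero.1 h5 with h6 | h6
    · exact (sub_eq_zero.1 h6).symm
    · exact (hv h6).elim
  have h5 : finrank F L = 1 := by
    rw [finrank_eq_one_iff_of_nonzero' (1 : L) one_ne_zero]
    intro w
    obtain ⟨d, hd⟩ := hall w
    exact ⟨d, by rw [← Algebra.algebraMap_eq_smul_one, hd]⟩
  omega

variable [Finite L] [Finite ι]

/-- the M-rule for `SL_L(V)` -/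
theorem mrule_ext (h : LinCov Ω N κ x r a) (hl : 2 ≤ finrank F L) (hm : 2 ≤ finrank L V)
    (hlin : ∀ (i : ι) (c : L) (v : V), a i (c • v) = c • a i v)
    (hRC : RC (Matrix.ProjectiveSpecialLinearGroup (Fin (finrank L V)) L) ∨
      ∃ i₀, ∀ i, i ≠ i₀ → ∃ c : L, ∀ v, a i v = c • v) (ω : Ω) :
    ML L κ ≤ stabilizer G ω ∨ ∃ j, (∀ m ∈ ML L κ, x j * m = m * x j) ∧ x j • ω = ω := by
  obtain ⟨hS, hSn, hMperf, π, hπ, hπk⟩ := exists_pi (L := L) h.fr hm (four_le hl)
  have hnorm : ∀ i, x i ∈ Subgroup.normalizer (ML L κ : Set G) := by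
    intro i
    refine mem_norm_pow (h.pf.prime i).pos (h.pf.pow i) ?_
    rintro _ ⟨s, rfl⟩
    change x i * κ (res F s) * (x i)⁻¹ ∈ _
    rw [h.lift, cj_res (a i) (hlin i)]
    exact ⟨_, rfl⟩
  rcases hRC with hRC | ⟨i₀, hi₀⟩
  · exact mrule_RC hS hSn x r h.pf.prime h.pf.inj h.pf.pow h.pf.comm _ hMperf π hπ hπk hnorm hRC ω
      fun m _ => h.cov _
  · refine mrule_one hS hSn x r h.pf.prime h.pf.inj h.pf.pow h.pf.comm _ hMperf π hπ hπk i₀ (hnorm i₀) ?_ ω
      fun m _ => h.cov _
    intro i hi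
    obtain ⟨c, hc⟩ := hi₀ i hi
    exact cent_of_scalar h hc

end mrule

end Cfsg.Agent.H338.RC
end

-- part: H338/RC/ExtY
section
/-!
# Extension fields: elimination (helper338, S3510, row A, box B)

* `no_ext` : no minimal cover by linear elements commuting with a proper extension field `L` of `F`
  with `2 ≤ dim_L V` which are not all `L`-scalars.
-/

set_option autoImplicit false
open Cfsg

namespace Cfsg.Agent.H338.RC

open MulAction Cfsg.Agent.H106.RC Cfsg.Agent.H202.RC Module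
open scoped commutatorElement

section alg

variable {F L V : Type*} [Field F] [Field L] [Algebra F L] [AddCommGroup V] [Module F V] [Module L V]
  [IsScalarTower F L V]

/-- the map `v ↦ g (φ v) w` -/
def hg (g : L →ₗ[F] L) (φ : Dual L V) (w : V) : V →ₗ[F] V where
  toFun v := g (φ v) • w
  map_add' u v := by rw [map_add, map_add, add_smul]
  map_smul' c v := by
    rw [← algebraMap_smul L c v, map_smul, algebraMap_smul, map_smul, RingHom.id_apply, smul_assoc]

@[simp] theorem hg_apply (g : L →ₗ[F] L) (φ : Dual L V) (w v : V) : hg g φ w v = g (φ v) • w := rfl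

theorem hg_sq (g : L →ₗ[F] L) (φ : Dual L V) {w : V} (hw : φ w = 0) (v : V) : hg g φ w (hg g φ w v) = 0 := by
  rw [hg_apply, hg_apply, map_smul, hw, smul_zero, map_zero, zero_smul]

/-- the map `g ↦ α g(β ·) - g` -/
def TT (F : Type*) {L : Type*} [Field F] [Field L] [Algebra F L] (α β : L) (g : L →ₗ[F] L) : L →ₗ[F] L :=
  Algebra.lmul F L α ∘ₗ g ∘ₗ Algebra.lmul F L β - g

theorem TT_apply (α β : L) (g : L →ₗ[F] L) (c : L) : TT F α β g c = α * g (β * c) - g c := rfl

theorem TT_surj [Finite L] {α β : L} (h : ∀ g : L →ₗ[F] L, (∀ c, α * g (β * c) = g c) → g = 0) :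
    Function.Surjective (TT F α β) := by
  have : Finite (L →ₗ[F] L) := DFunLike.finite _
  rw [← Finite.injective_iff_surjective]
  intro g g' hgg
  have h1 : g - g' = 0 := by
    apply h
    intro c
    have h2 := congrArg (fun f : L →ₗ[F] L => f c) hgg
    simp only [TT_apply] at h2
    rw [LinearMap.sub_apply, LinearMap.sub_apply, mul_sub]
    linear_combination h2
  exact sub_eq_zero.1 h1

theorem TT_surj_three [Finite L] {α : L} (hα : α ≠ 1) : Function.Surjective (TT F α 1) := by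
  apply TT_surj
  intro g hg
  refine LinearMap.ext fun c => ?_
  have h1 := hg c
  rw [one_mul] at h1
  have h2 : (α - 1) * g c = 0 := by rw [sub_mul, one_mul, h1, sub_self]
  rcases mul_eq_zero.1 h2 with h3 | h3
  · exact (hα (sub_eq_zero.1 h3)).elim
  · exact h3

omit [Field L] in
theorem exists_notMem [Finite L] {s : Finset L} (h : s.card < Nat.card L) : ∃ t, t ∉ s := by
  by_contra hcon
  push Not at hcon
  have : Fintype L := Fintype.ofFinite L
  have h1 : s = Finset.univ := Finset.eq_univ_iff_forall.2 hcon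
  rw [h1, Finset.card_univ, Nat.card_eq_fintype_card] at h
  exact lt_irrefl _ h

theorem TT_surj_two [Finite L] (h4 : 4 < Nat.card L) {β : Lˣ} (hβ : ∀ t : Lˣ, t ∈ Subgroup.zpowers β) :
    Function.Surjective (TT F (β : L) (β : L)) := by
  classical
  apply TT_surj
  intro g hg
  have key : ∀ t : Lˣ, ∀ c : L, (t : L) * g (t * c) = g c := by
    let H : Subgroup Lˣ :=
      { carrier := {t | ∀ c : L, (t : L) * g (t * c) = g c}
        one_mem' := fun c => by rw [Units.val_one, one_mul, one_mul]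
        mul_mem' := by
          intro s t hs ht c
          rw [Units.val_mul, mul_comm (s : L) t, mul_assoc, mul_comm (t : L) s, mul_assoc, hs, ht]
        inv_mem' := by
          intro t ht c
          have h1 := ht (((t⁻¹ : Lˣ) : L) * c)
          rw [← mul_assoc, Units.mul_inv, one_mul] at h1
          rw [← h1, ← mul_assoc, Units.inv_mul, one_mul] }
    intro t
    have h1 : Subgroup.zpowers β ≤ H := by
      rw [Subgroup.zpowers_le]
      exact hg
    exact h1 (hβ t)
  have h1 : ∀ t : L, t ≠ 0 → t * g t = g 1 := fun t ht => by simpa only [_root_.Units.val_mk0, _root_.mul_one] using key (Units.mk0 t ht) 1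
  by_cases h0 : g 1 = 0
  · refine LinearMap.ext fun c => ?_
    by_cases hc : c = 0
    · rw [hc, map_zero]
      rfl
    · have h2 := h1 c hc
      rw [h0] at h2
      exact (mul_eq_zero.1 h2).resolve_left hc
  exfalso
  have h2 : ∀ t : L, t ≠ 0 → t ≠ -1 → t ^ 2 + t + 1 = 0 := by
    intro t ht ht1
    have h3 := h1 t ht
    have h4 := h1 (t + 1) (fun h => ht1 (eq_neg_of_add_eq_zero_left h))
    rw [map_add] at h4
    have h5 : (t ^ 2 + t + 1) * g 1 = 0 := by
      linear_combination t * h4 - (t + 1) * h3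
    exact (mul_eq_zero.1 h5).resolve_right h0
  obtain ⟨t, ht⟩ := exists_notMem (L := L) (s := {0, -1}) (lt_of_le_of_lt Finset.card_le_two (by omega))
  obtain ⟨s, hs⟩ := exists_notMem (L := L) (s := {0, -1, t, -1 - t}) (lt_of_le_of_lt Finset.card_le_four h4)
  simp only [Finset.mem_insert, Finset.mem_singleton, not_or] at ht hs
  have h5 := h2 t ht.1 ht.2
  have h6 := h2 s hs.1 hs.2.1
  have h7 : (s - t) * (s + t + 1) = 0 := by linear_combination h6 - h5
  rcases mul_eq_zero.1 h7 with h8 | h8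
  · exact hs.2.2.1 (sub_eq_zero.1 h8)
  · exact hs.2.2.2 (by linear_combination h8)

end alg

section diag

variable {F L V : Type*} [Field F] [Field L] [Algebra F L] [AddCommGroup V] [Module F V] [Module L V]
  [IsScalarTower F L V] {κ' : Type*} [Fintype κ'] [DecidableEq κ']

/-- the entries -/
def dgf {κ' L : Type*} [DecidableEq κ'] [Field L] (i j : κ') (β : Lˣ) (k : κ') : L :=
  if k = i then (β : L) else if k = j then ((β⁻¹ : Lˣ) : L) else 1

omit [Fintype κ'] in
theorem dgf_ne_zero (i j : κ') (β : Lˣ) (k : κ') : dgf i j β k ≠ 0 := by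
  unfold dgf
  split_ifs
  · exact β.ne_zero
  · exact (β⁻¹).ne_zero
  · exact one_ne_zero

/-- `diag(β, β⁻¹, 1, …)` as a matrix -/
def dgm {i j : κ'} (hij : i ≠ j) (β : Lˣ) : Matrix.SpecialLinearGroup κ' L :=
  ⟨Matrix.diagonal (dgf i j β), by
    rw [Matrix.det_diagonal, Fintype.prod_eq_mul i j hij (by
      intro k hk
      unfold dgf
      rw [if_neg hk.1, if_neg hk.2])]
    unfold dgf
    rw [if_pos rfl, if_neg hij.symm, if_pos rfl, Units.mul_inv]⟩

/-- `diag(β, β⁻¹, 1, …)` -/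
noncomputable def dg (b : Basis κ' L V) {i j : κ'} (hij : i ≠ j) (β : Lˣ) : SLV L V :=
  slE b (dgm hij β)

theorem coord_dg (b : Basis κ' L V) {i j : κ'} (hij : i ≠ j) (β : Lˣ) (k : κ') (v : V) :
    b.coord k ((dg b hij β : V ≃ₗ[L] V) v) = dgf i j β k * b.coord k v := by
  unfold dg
  rw [slE_apply, Basis.coord_apply, Matrix.repr_toLin]
  change (Matrix.diagonal (dgf i j β)).mulVec (b.repr v) k = _
  rw [Matrix.mulVec_diagonal]
  rfl

theorem dg_basis (b : Basis κ' L V) {i j : κ'} (hij : i ≠ j) (β : Lˣ) (k : κ') :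
    (dg b hij β : V ≃ₗ[L] V) (b k) = dgf i j β k • b k := by
  refine b.ext_elem fun l => ?_
  rw [← Basis.coord_apply, coord_dg, map_smul, Basis.coord_apply, Basis.repr_self, Finsupp.smul_apply, smul_eq_mul]
  by_cases h : k = l
  · rw [h]
  · rw [Finsupp.single_eq_of_ne (by simpa [eq_comm] using h), mul_zero, mul_zero]

theorem dg_pow [Finite L] (b : Basis κ' L V) {i j : κ'} (hij : i ≠ j) (β : Lˣ) :
    dg b hij β ^ (Nat.card L - 1) = 1 := by
  have : Fintype L := Fintype.ofFinite L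
  unfold dg
  rw [← map_pow]
  have h1 : dgm hij β ^ (Nat.card L - 1) = (1 : Matrix.SpecialLinearGroup κ' L) := by
    apply Subtype.ext
    rw [Matrix.SpecialLinearGroup.coe_pow, Matrix.SpecialLinearGroup.coe_one]
    change Matrix.diagonal (dgf i j β) ^ (Nat.card L - 1) = 1
    rw [Matrix.diagonal_pow, ← Matrix.diagonal_one]
    congr 1
    funext k
    rw [Pi.pow_apply, Nat.card_eq_fintype_card]
    exact FiniteField.pow_card_sub_one_eq_one _ (dgf_ne_zero i j β k)
  rw [h1, map_one]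

omit [Fintype κ'] [DecidableEq κ'] in
/-- conjugation of `1 + h_g` by a diagonal element -/
theorem cj_uh_hg {b : Basis κ' L V} {i j : κ'} {t : SLV L V} {α β δ : L}
    (h1 : (t : V ≃ₗ[L] V) (b i) = α • b i) (h2 : ∀ v, b.coord j ((t : V ≃ₗ[L] V) v) = δ * b.coord j v)
    (h3 : β * δ = 1) (g g' : L →ₗ[F] L) (hg' : g' = TT F α β g) (h0 : b.coord j (b i) = 0) :
    (uh (hg g (b.coord j) (b i)) (hg_sq _ _ h0) : SLV F V)⁻¹ *
      cj (res F t) (uh (hg g (b.coord j) (b i)) (hg_sq _ _ h0)) = uh (hg g' (b.coord j) (b i)) (hg_sq _ _ h0) := by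
  rw [inv_mul_eq_iff_eq_mul]
  apply cj_eq
  intro v
  rw [coe_mul_apply]
  simp only [uh_apply, hg_apply, res_apply, map_add, map_smul, h0, h1, h2, hg', TT_apply, smul_zero, add_zero,
    ← mul_assoc, h3, one_mul, map_zero, zero_smul]
  rw [add_assoc, ← add_smul, add_sub_cancel, smul_smul, mul_comm]

end diag

section gen

variable {F L V : Type*} [Field F] [Field L] [Algebra F L] [AddCommGroup V] [Module F V] [Module L V]
  [IsScalarTower F L V]

theorem mem_one {κ' : Type*} [Fintype κ'] [DecidableEq κ'] [Finite L] (b : Basis κ' L V) {S : Subgroup (SLV F V)}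
    (hS : ∀ (W : Submodule L V) (t : SLV L V), t ^ (Nat.card L - 1) = 1 → (∀ w ∈ W, (t : V ≃ₗ[L] V) w ∈ W) →
      ∀ u ∈ QW (W.restrictScalars F), u⁻¹ * cj (res F t) u ∈ S)
    (h3 : 4 < Nat.card L ∨ (3 ≤ Fintype.card κ' ∧ 2 < Nat.card L)) {i j : κ'} (hij : i ≠ j) (g : L →ₗ[F] L) :
    uh (hg g (b.coord j) (b i)) (hg_sq _ _ (by simp [Basis.coord_apply, hij])) ∈ S := by
  have h0 : b.coord j (b i) = 0 := by simp [Basis.coord_apply, hij]
  -- general case
  have key : ∀ (t : SLV L V) (α β δ : L), t ^ (Nat.card L - 1) = 1 → (t : V ≃ₗ[L] V) (b i) = α • b i →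
      (∀ v, b.coord j ((t : V ≃ₗ[L] V) v) = δ * b.coord j v) → β * δ = 1 → Function.Surjective (TT F α β) →
      uh (hg g (b.coord j) (b i)) (hg_sq _ _ h0) ∈ S := by
    intro t α β δ ht h1 h2 h4 h5
    obtain ⟨g', hg'⟩ := h5 g
    rw [← cj_uh_hg h1 h2 h4 g' g hg'.symm h0]
    apply hS (Submodule.span L {b i}) t ht
    · intro w hw
      rw [Submodule.mem_span_singleton] at hw ⊢
      obtain ⟨c, rfl⟩ := hw
      exact ⟨c * α, by rw [map_smul, h1, mul_smul]⟩
    · apply uh_mem_QW
      · intro v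
        rw [Submodule.restrictScalars_mem, hg_apply]
        exact Submodule.smul_mem _ _ (Submodule.mem_span_singleton_self _)
      · intro w hw
        rw [Submodule.restrictScalars_mem, Submodule.mem_span_singleton] at hw
        obtain ⟨c, rfl⟩ := hw
        rw [hg_apply, map_smul, h0, smul_zero, map_zero, zero_smul]
  rcases h3 with h3 | ⟨h3, h4⟩
  · obtain ⟨β, hβ⟩ := IsCyclic.exists_generator (α := Lˣ)
    refine key (dg b hij β) β β ((β⁻¹ : Lˣ) : L) (dg_pow b hij β) ?_ ?_ (Units.mul_inv β) (TT_surj_two h3 hβ)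
    · rw [dg_basis]
      unfold dgf
      rw [if_pos rfl]
    · intro v
      rw [coord_dg]
      unfold dgf
      rw [if_neg hij.symm, if_pos rfl]
  · classical
    obtain ⟨k, hk⟩ : ∃ k : κ', k ∉ ({i, j} : Finset κ') := by
      by_contra hcon
      push Not at hcon
      have h5 : ({i, j} : Finset κ') = Finset.univ := Finset.eq_univ_iff_forall.2 hcon
      have h6 := Finset.card_le_two (a := i) (b := j)
      rw [h5, Finset.card_univ] at h6
      omega
    simp only [Finset.mem_insert, Finset.mem_singleton, not_or] at hk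
    obtain ⟨β, hβ⟩ := exists_notMem (L := L) (s := {0, 1}) (lt_of_le_of_lt Finset.card_le_two h4)
    simp only [Finset.mem_insert, Finset.mem_singleton, not_or] at hβ
    refine key (dg b (Ne.symm hk.1) (Units.mk0 β hβ.1)) β 1 1 (dg_pow b _ _) ?_ ?_ (mul_one 1) (TT_surj_three hβ.2)
    · rw [dg_basis]
      unfold dgf
      rw [if_pos rfl, Units.val_mk0]
    · intro v
      rw [coord_dg]
      unfold dgf
      rw [if_neg hij.symm, if_neg (Ne.symm hk.2)]

/-- a basis containing a given vector -/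
theorem exists_basis_with {L V : Type*} [Field L] [AddCommGroup V] [Module L V] [Module.Finite L V] {w : V} (hw : w ≠ 0) :
    ∃ (b : Basis (Fin (finrank L V)) L V) (i : Fin (finrank L V)), b i = w := by
  have hli : LinearIndepOn L id ({w} : Set V) := by
    rw [linearIndepOn_singleton_iff]
    exact hw
  let b := Basis.extend hli
  have : Fintype (hli.extend (Set.subset_univ _)) := FiniteDimensional.fintypeBasisIndex b
  have hwm : w ∈ hli.extend (Set.subset_univ _) := hli.subset_extend _ (Set.mem_singleton w)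
  have hcard : Fintype.card (hli.extend (Set.subset_univ ({w} : Set V))) = finrank L V := (finrank_eq_card_basis b).symm
  let e := Fintype.equivFinOfCardEq hcard
  refine ⟨b.reindex e, e ⟨w, hwm⟩, ?_⟩
  rw [Basis.reindex_apply, Equiv.symm_apply_apply]
  exact Basis.extend_apply_self hli _

theorem mem_two {κ' : Type*} [Fintype κ'] [DecidableEq κ'] [Finite L] (b : Basis κ' L V) {S : Subgroup (SLV F V)}
    (hS : ∀ (W : Submodule L V) (t : SLV L V), t ^ (Nat.card L - 1) = 1 → (∀ w ∈ W, (t : V ≃ₗ[L] V) w ∈ W) →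
      ∀ u ∈ QW (W.restrictScalars F), u⁻¹ * cj (res F t) u ∈ S)
    (h3 : 4 < Nat.card L ∨ (3 ≤ Fintype.card κ' ∧ 2 < Nat.card L)) (i : κ') (φ : Dual F V)
    (hφ : ∀ c : L, φ (c • b i) = 0) (h : φ (b i) = 0) : tv φ (b i) h ∈ S := by
  let ψ : κ' → Dual F V := fun j => φ ∘ₗ ((b.coord j).smulRight (b j)).restrictScalars F
  have hψ : ∀ j v, ψ j v = φ (b.coord j v • b j) := fun j v => rfl
  have hsum : φ = ∑ j, ψ j := by
    refine LinearMap.ext fun v => ?_
    rw [LinearMap.sum_apply]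
    simp only [hψ]
    rw [← map_sum]
    congr 1
    exact (b.sum_repr v).symm
  have hfinal : ∃ h' : (∑ j, ψ j) (b i) = 0, tv (∑ j, ψ j) (b i) h' ∈ S := by
    refine Finset.sum_induction ψ (fun ψ => ∃ h' : ψ (b i) = 0, tv ψ (b i) h' ∈ S) ?_ ?_ ?_
    · rintro ψ1 ψ2 ⟨h1, h1'⟩ ⟨h2, h2'⟩
      refine ⟨by rw [LinearMap.add_apply, h1, h2, add_zero], ?_⟩
      rw [← tv_mul_left _ _ _ h1 h2]
      exact S.mul_mem h1' h2'
    · refine ⟨rfl, ?_⟩
      rw [tv_zero_left]
      exact S.one_mem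
    · intro j _
      by_cases hij : j = i
      · have h1 : ψ j = 0 := by
          refine LinearMap.ext fun v => ?_
          rw [hψ, hij, hφ]
          rfl
        rw [h1]
        refine ⟨rfl, ?_⟩
        rw [tv_zero_left]
        exact S.one_mem
      · have h0 : b.coord j (b i) = 0 := by simp [Basis.coord_apply, Ne.symm hij]
        have h1 : ψ j (b i) = 0 := by rw [hψ, h0, zero_smul, map_zero]
        refine ⟨h1, ?_⟩
        let g : L →ₗ[F] L := (Algebra.linearMap F L) ∘ₗ φ ∘ₗ ((LinearMap.id : L →ₗ[L] L).smulRight (b j)).restrictScalars F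
        have hgd : ∀ c, g c = algebraMap F L (φ (c • b j)) := fun c => rfl
        have h2 := mem_one b hS h3 (Ne.symm hij) g
        have h3 : tv (ψ j) (b i) h1 = uh (hg g (b.coord j) (b i)) (hg_sq _ _ h0) := by
          apply SLV.ext
          intro v
          rw [tv_apply, uh_apply, hg_apply, hgd, hψ, algebraMap_smul]
        rw [h3]
        exact h2
  rw [← hsum] at hfinal
  exact hfinal.2

theorem eq_top_of [FiniteDimensional F V] [Finite L] {S : Subgroup (SLV F V)} (h2 : 2 ≤ finrank L V)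
    (hS : ∀ (W : Submodule L V) (t : SLV L V), t ^ (Nat.card L - 1) = 1 → (∀ w ∈ W, (t : V ≃ₗ[L] V) w ∈ W) →
      ∀ u ∈ QW (W.restrictScalars F), u⁻¹ * cj (res F t) u ∈ S)
    (h3 : 4 < Nat.card L ∨ (3 ≤ finrank L V ∧ 2 < Nat.card L)) : S = ⊤ := by
  classical
  have hfin : Module.Finite L V := Module.finite_of_finrank_pos (by omega)
  have hF : Finite F := Finite.of_injective _ (algebraMap F L).injective
  have hFL : FiniteDimensional F L := Module.Finite.of_finite
  -- the transvections with `φ (L w) = 0`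
  have hone : ∀ (w : V) (φ : Dual F V) (h : φ w = 0), (∀ c : L, φ (c • w) = 0) → tv φ w h ∈ S := by
    intro w φ h hφ
    by_cases hw : w = 0
    · subst hw
      rw [tv_zero_right]
      exact S.one_mem
    obtain ⟨b, i, rfl⟩ := exists_basis_with (L := L) hw
    exact mem_two b hS (by rwa [Fintype.card_fin]) i φ hφ h
  have hgen := gen (F := F) (K := L) (V := V) h2 (S := S.map (SLV F V).subtype) (by
    intro w f hf hfw
    exact ⟨tv f w hf, hone w f hf hfw, rfl⟩)
  rw [eq_top_iff, ← closure_tv, Subgroup.closure_le]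
  rintro _ ⟨φ, v, h, rfl⟩
  obtain ⟨s, hs, hs'⟩ := hgen v φ h
  have h4 : s = tv φ v h := Subtype.ext hs'
  rw [← h4]
  exact hs

end gen

section qw

variable {F V : Type*} [Field F] [AddCommGroup V] [Module F V]

theorem cj_mem_QW [FiniteDimensional F V] {W : Submodule F V} {a : V ≃ₗ[F] V} (ha : ∀ w ∈ W, a w ∈ W) {s : SLV F V}
    (hs : s ∈ QW W) : cj a s ∈ QW W := by
  have hmap : W.map (a : V →ₗ[F] V) = W := by
    apply Submodule.eq_of_le_of_finrank_eq
    · rintro _ ⟨w, hw, rfl⟩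
      exact ha w hw
    · exact LinearEquiv.finrank_map_eq a W
  constructor
  · intro v
    obtain ⟨v', rfl⟩ := a.surjective v
    rw [cj_apply, ← map_sub]
    exact ha _ (hs.1 v')
  · intro w hw
    rw [← hmap] at hw
    obtain ⟨w', hw', rfl⟩ := hw
    change (cj a s : V ≃ₗ[F] V) (a w') = a w'
    rw [cj_apply, hs.2 w' hw']

end qw

section main

variable {F L V : Type} [Field F] [Field L] [Algebra F L] [AddCommGroup V] [Module F V] [Module L V]
  [IsScalarTower F L V] {G Ω : Type} [Group G] [MulAction G Ω] {N : Subgroup G} {κ : SLV F V →* G}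
  {ι : Type} {x : ι → G} {r : ι → ℕ} {a : ι → V ≃ₗ[F] V} [Finite L] [Finite ι] [Finite G]

/-- box B (S3510, row A) : no proper extension field -/
theorem no_ext (h : LinCov Ω N κ x r a) (hl : 2 ≤ finrank F L) (hm : 2 ≤ finrank L V)
    (hex : ¬ (Nat.card F = 2 ∧ finrank F V = 4)) (hlin : ∀ (i : ι) (c : L) (v : V), a i (c • v) = c • a i v)
    (hns : ∃ i, ¬ ∃ c : L, ∀ v, a i v = c • v)
    (hRC : RC (Matrix.ProjectiveSpecialLinearGroup (Fin (finrank L V)) L) ∨
      ∃ i₀, ∀ i, i ≠ i₀ → ∃ c : L, ∀ v, a i v = c • v) : False := by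
  classical
  have hfin : Module.Finite L V := Module.finite_of_finrank_pos (by omega)
  have hF : Finite F := Finite.of_injective _ (algebraMap F L).injective
  have hFL : FiniteDimensional F L := Module.Finite.of_finite
  have hFV : FiniteDimensional F V := Module.Finite.trans L V
  have hcardL : Nat.card L = Nat.card F ^ finrank F L := Module.natCard_eq_pow_finrank
  have hcF : 2 ≤ Nat.card F := Finite.one_lt_card
  have hmul : finrank F L * finrank L V = finrank F V := Module.finrank_mul_finrank F L V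
  -- size of `L`
  have h4 : 4 ≤ Nat.card L := by
    rw [hcardL]
    calc 4 = 2 ^ 2 := by norm_num
      _ ≤ Nat.card F ^ 2 := Nat.pow_le_pow_left hcF 2
      _ ≤ Nat.card F ^ finrank F L := Nat.pow_le_pow_right (by omega) hl
  have h3 : 4 < Nat.card L ∨ (3 ≤ finrank L V ∧ 2 < Nat.card L) := by
    by_contra hcon
    push Not at hcon
    have h5 : Nat.card L = 4 := by omega
    have h6 : finrank L V = 2 := by
      by_contra h7
      have := hcon.2 (by omega)
      omega
    have h7 : Nat.card F = 2 := by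
      by_contra h8
      have h9 : 3 ^ 2 ≤ Nat.card L := by
        rw [hcardL]
        calc 3 ^ 2 ≤ Nat.card F ^ 2 := Nat.pow_le_pow_left (by omega) 2
          _ ≤ Nat.card F ^ finrank F L := Nat.pow_le_pow_right (by omega) hl
      omega
    have h8 : finrank F L = 2 := by
      by_contra h8
      have h9 : 2 ^ 3 ≤ Nat.card L := by
        rw [hcardL, h7]
        exact Nat.pow_le_pow_right (by omega) (by omega)
      omega
    exact hex ⟨h7, by rw [← hmul, h6, h8]⟩
  obtain ⟨i₁, hi₁⟩ := hns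
  obtain ⟨ω, hω1, hω2⟩ := h.min i₁
  -- the M-rule
  have hM := mrule_ext h hl hm hlin hRC
  have hcen : ∀ j, (∀ m ∈ ML L κ, x j * m = m * x j) → j ≠ i₁ := by
    rintro j hj rfl
    exact hi₁ (scalar_of_cent h hm (hlin j) hj)
  have hMω : ML L κ ≤ stabilizer G ω := by
    rcases hM ω with h1 | ⟨j, hj, hjω⟩
    · exact h1
    · exact (hω2 j (hcen j hj) hjω).elim
  -- characteristic
  obtain ⟨p, hp⟩ := CharP.exists F
  have hpp : p.Prime := CharP.char_is_prime F p
  have : Fact p.Prime := ⟨hpp⟩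
  have hpL : CharP L p := charP_of_injective_algebraMap (algebraMap F L).injective p
  have hpcard : p ∣ Nat.card L := by
    have : Fintype L := Fintype.ofFinite L
    obtain ⟨k, -, hk⟩ := FiniteField.card L p
    rw [Nat.card_eq_fintype_card, hk]
    exact dvd_pow_self p k.ne_zero
  have hcop1 : (Nat.card L - 1).Coprime p := by
    rw [Nat.coprime_comm, Nat.Prime.coprime_iff_not_dvd hpp]
    intro h5
    have h6 := Nat.dvd_sub hpcard h5
    have h7 : Nat.card L - (Nat.card L - 1) = 1 := by omega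
    rw [h7] at h6
    exact hpp.one_lt.ne' (Nat.dvd_one.1 h6)
  -- the main step
  have key : ∀ (W : Submodule L V) (t : SLV L V), t ^ (Nat.card L - 1) = 1 →
      (∀ w ∈ W, (t : V ≃ₗ[L] V) w ∈ W) →
      ∀ u ∈ QW (W.restrictScalars F), u⁻¹ * cj (res F t) u ∈ (stabilizer G ω).comap κ := by
    intro W t ht htW
    set U : Subgroup G := (QW (W.restrictScalars F)).map κ with hU
    have hyM : κ (res F t) ∈ ML L κ := ⟨t, rfl⟩
    let J := {j : ι // ∀ m ∈ ML L κ, x j * m = m * x j}
    let X : Option J → G := fun o => o.elim (κ (res F t)) (fun j => x j.1)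
    let E : Option J → ℕ := fun o => o.elim (Nat.card L - 1) (fun j => r j.1)
    have hUp : IsPGroup p U := by
      rintro ⟨_, ⟨u, hu, rfl⟩⟩
      refine ⟨1, Subtype.ext ?_⟩
      change κ u ^ p ^ 1 = 1
      rw [pow_one, ← map_pow, QW_pow hu, map_one]
    obtain ⟨k, hk⟩ := IsPGroup.iff_card.1 hUp
    obtain ⟨o, ho⟩ := cover_gen (x := X) (N := E) (U := U) (by
      rintro (_ | j)
      · change Nat.card L - 1 ≠ 0
        omega
      · exact (h.pf.prime j.1).ne_zero) (by
      rintro (_ | j)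
      · change κ (res F t) ^ (Nat.card L - 1) = 1
        rw [← map_pow, ← map_pow, ht, map_one, map_one]
      · exact h.pf.pow j.1) (by
      rintro (_ | i) (_ | j)
      · rfl
      · exact (j.2 _ hyM).symm
      · exact i.2 _ hyM
      · exact h.pf.comm i.1 j.1) (by
      rintro (_ | j) _ ⟨u, hu, rfl⟩
      · change κ (res F t) * κ u * (κ (res F t))⁻¹ ∈ U
        rw [← map_mul, ← map_inv, ← map_mul]
        exact ⟨_, cj_mem_QW (a := ((res F t : SLV F V) : V ≃ₗ[F] V)) (fun w hw => htW w hw) hu, rfl⟩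
      · change x j.1 * κ u * (x j.1)⁻¹ ∈ U
        rw [h.lift]
        obtain ⟨c, hc⟩ := scalar_of_cent h hm (hlin j.1) j.2
        refine ⟨_, cj_mem_QW (a := a j.1) (fun w hw => ?_) hu, rfl⟩
        rw [hc]
        exact W.smul_mem c hw) (by
      rintro _ ⟨u, hu, rfl⟩ _ ⟨v, hv, rfl⟩
      rw [← map_mul, ← map_mul, QW_comm hu hv]) (by
      rw [hk]
      rintro (_ | i) (_ | j) hi hj
      · rfl
      · exact (hi (Nat.Coprime.pow_right k hcop1)).elim
      · exact (hj (Nat.Coprime.pow_right k hcop1)).elim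
      · have h5 : ∀ i : J, ¬ (r i.1).Coprime (p ^ k) → r i.1 = p := by
          intro i hi
          by_contra h6
          exact hi (Nat.Coprime.pow_right k ((Nat.coprime_primes (h.pf.prime i.1) hpp).2 h6))
        have h6 : i.1 = j.1 := h.pf.inj ((h5 i hi).trans (h5 j hj).symm)
        rw [Subtype.ext h6]) ω (by
      intro u _
      rcases hM (u • ω) with h5 | ⟨j, hj, hjω⟩
      · exact ⟨none, h5 hyM⟩
      · exact ⟨some ⟨j, hj⟩, hjω⟩)
    rcases o with _ | j
    · intro u hu
      rw [Subgroup.mem_comap, map_mul, map_inv, mem_stabilizer_iff]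
      have h5 : κ (res F t) • κ u • ω = κ u • ω := ho _ ⟨u, hu, rfl⟩
      have h6 : κ (cj (res F t) u) = κ (res F t) * κ u * (κ (res F t))⁻¹ := by
        rw [← map_mul, ← map_inv, ← map_mul]
        rfl
      have h7 : (κ (res F t))⁻¹ • ω = ω := (stabilizer G ω).inv_mem (hMω hyM)
      rw [h6, mul_smul, mul_smul, mul_smul, h7, h5, inv_smul_smul]
    · exfalso
      have h5 : x j.1 • (1 : G) • ω = (1 : G) • ω := ho 1 U.one_mem
      rw [one_smul] at h5
      exact hω2 j.1 (hcen j.1 j.2) h5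
  have htop := eq_top_of hm key h3
  apply h.fr.env.nofix ω
  rw [← h.fr.range]
  rintro _ ⟨s, rfl⟩
  have h5 : s ∈ (stabilizer G ω).comap κ := by
    rw [htop]
    trivial
  exact h5

end main

end Cfsg.Agent.H338.RC
end

-- part: H338/RC/IrrComp
section
/-!
# Irreducible covers in composite dimension (helper338, S3510, row A, box B)

* `no_irr_comp` : no minimal cover by commuting linear elements which act irreducibly on `V`, if `dim V` is composite
  (induction hypothesis included).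
-/

set_option autoImplicit false
open Cfsg

namespace Cfsg.Agent.H338.RC

open MulAction Cfsg.Agent.H106.RC Cfsg.Agent.H202.RC Module
open scoped commutatorElement

/-- intermediate fields of a finite field -/
theorem exists_sub {F E : Type*} [Field F] [Field E] [Algebra F E] [Finite E] {d m : ℕ} (hd : 0 < d)
    (h : finrank F E = d * m) : ∃ K : IntermediateField F E, finrank F K = d ∧ finrank K E = m ∧
      ∀ b : E, b ∈ K ↔ b ^ (Nat.card F ^ d) = b := by
  have hF : Finite F := Finite.of_injective _ (algebraMap F E).injective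
  have : Fintype F := Fintype.ofFinite F
  have hfin : FiniteDimensional F E := Module.Finite.of_finite
  let σ : Gal(E/F) := FiniteField.frobeniusAlgEquivOfAlgebraic F E ^ d
  have h0 : 0 < finrank F E := finrank_pos
  have hm : 0 < m := Nat.pos_of_ne_zero (by rintro rfl; simp at h; omega)
  let H := Subgroup.zpowers σ
  have hH : Nat.card H = m := by
    change Nat.card (Subgroup.zpowers σ) = m
    rw [Nat.card_zpowers, orderOf_pow' _ hd.ne', FiniteField.orderOf_frobeniusAlgEquivOfAlgebraic, h,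
      Nat.gcd_eq_right (Dvd.intro _ rfl), Nat.mul_div_cancel_left _ hd]
  have hK : finrank (IntermediateField.fixedField H) E = m := by
    rw [IntermediateField.finrank_fixedField_eq_card, hH]
  refine ⟨IntermediateField.fixedField H, ?_, hK, ?_⟩
  · have h1 := Module.finrank_mul_finrank F (IntermediateField.fixedField H) E
    rw [hK, h] at h1
    exact Nat.eq_of_mul_eq_mul_right hm h1
  · intro b
    have hσ : ∀ b : E, σ b = b ^ (Nat.card F ^ d) := by
      intro b
      change (FiniteField.frobeniusAlgEquivOfAlgebraic F E ^ d) b = _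
      rw [AlgEquiv.coe_pow, FiniteField.coe_frobeniusAlgEquivOfAlgebraic_iterate, Nat.card_eq_fintype_card]
    rw [IntermediateField.mem_fixedField_iff, ← hσ]
    constructor
    · intro h1
      exact h1 σ (Subgroup.mem_zpowers σ)
    · intro h1 f hf
      have h2 : Subgroup.zpowers σ ≤ MulAction.stabilizer Gal(E/F) b := by
        rw [Subgroup.zpowers_le]
        exact h1
      exact h2 hf

section main

variable {F E V : Type} [Field F] [Field E] [Algebra F E] [AddCommGroup V] [Module F V] [Module E V]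
  [IsScalarTower F E V] {G Ω : Type} [Group G] [MulAction G Ω] {N : Subgroup G} {κ : SLV F V →* G}
  {ι : Type} {x : ι → G} {r : ι → ℕ} {a : ι → V ≃ₗ[F] V} [Finite E] [Finite ι] [Finite G]

theorem no_irr_field (h : LinCov Ω N κ x r a) (hE : finrank E V = 1) (e : ι → E)
    (he : ∀ i v, a i v = e i • v) (hn : 3 ≤ finrank F V) (hne : ¬ (Nat.card F = 2 ∧ finrank F V = 4))
    (hc : ¬ (finrank F V).Prime) (hIH : IH (Nat.card N))
    (hirr : ∀ W : Submodule F V, (∀ i, ∀ w ∈ W, a i w ∈ W) → W = ⊥ ∨ W = ⊤) : False := by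
  classical
  have hF : Finite F := Finite.of_injective _ (algebraMap F E).injective
  have hFE : FiniteDimensional F E := Module.Finite.of_finite
  have hEV : Module.Finite E V := Module.finite_of_finrank_pos (by omega)
  have hFV : FiniteDimensional F V := Module.Finite.trans E V
  have hnE : finrank F E = finrank F V := by rw [← Module.finrank_mul_finrank F E V, hE, mul_one]
  obtain ⟨d, ⟨m, hdm⟩, hd2, hdn⟩ := Nat.exists_dvd_of_not_prime2 (by omega : 2 ≤ finrank F V) hc
  have hm2 : 2 ≤ m := by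
    by_contra hcon
    have : m = 0 ∨ m = 1 := by omega
    rcases this with rfl | rfl <;> omega
  obtain ⟨K, hK1, hK2, hK3⟩ := exists_sub (F := F) (E := E) (d := d) (m := m) (by omega) (by rw [hnE, hdm])
  have hKfin : Finite K := Finite.of_injective _ K.val.injective
  have : Fintype K := Fintype.ofFinite K
  have hT : IsScalarTower F K V := ⟨fun c k v => by
    change ((c • (k : E)) : E) • v = c • (k : E) • v
    exact smul_assoc _ _ _⟩
  have hKV : finrank K V = m := by
    rw [← Module.finrank_mul_finrank K E V, hK2, hE, mul_one]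
  have hlin : ∀ (i : ι) (c : K) (v : V), a i (c • v) = c • a i v := by
    intro i c v
    rw [he, he]
    change e i • (c : E) • v = (c : E) • e i • v
    rw [smul_smul, smul_smul, mul_comm]
  obtain ⟨v₀, hv₀⟩ : ∃ v : V, v ≠ 0 := by
    by_contra hcon
    push Not at hcon
    have : Subsingleton V := ⟨fun a b => by rw [hcon a, hcon b]⟩
    rw [finrank_zero_of_subsingleton] at hn
    omega
  -- some `a i` is not a `K`-scalar
  have hns : ∃ i, ¬ ∃ c : K, ∀ v, a i v = c • v := by
    by_contra hcon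
    push Not at hcon
    let W : Submodule F V := (Submodule.span K {v₀}).restrictScalars F
    have hW : ∀ i, ∀ w ∈ W, a i w ∈ W := by
      intro i w hw
      obtain ⟨c, hc⟩ := hcon i
      rw [hc]
      exact (Submodule.span K {v₀}).smul_mem c hw
    have hdim : finrank F W = d := by
      have h1 := Module.finrank_mul_finrank F K (Submodule.span K {v₀})
      rw [hK1, finrank_span_singleton hv₀, mul_one] at h1
      exact h1.symm
    rcases hirr W hW with h1 | h1
    · rw [h1, finrank_bot] at hdim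
      omega
    · rw [h1, finrank_top] at hdim
      omega
  have hcardK : Nat.card K = Nat.card F ^ d := by
    rw [Module.natCard_eq_pow_finrank (K := F) (V := K), hK1]
  have hq2 : 2 ≤ Nat.card F := Finite.one_lt_card
  obtain ⟨hS, hSn, hMperf, π, hπ, hπk⟩ := exists_pi (L := K) h.fr (by omega) (four_le (F := F) (by omega))
  refine no_ext (L := K) h (by omega) (by omega) hne hlin hns ?_
  by_cases hexc : Exc (Matrix.ProjectiveSpecialLinearGroup (Fin (finrank K V)) K)
  · right
    have h1 := psl_exc (by omega) hexc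
    rw [hKV, ← Nat.card_eq_fintype_card, hcardK] at h1
    set q := Nat.card F with hq
    have hq3 : q ≤ 3 := by
      by_contra hcon
      have h2 : 4 ^ 2 ≤ q ^ d :=
        (Nat.pow_le_pow_left (by omega : 4 ≤ q) 2).trans (Nat.pow_le_pow_right (by omega) hd2)
      omega
    have h2d : d ≤ 3 := by
      by_contra hcon
      have h2 : 2 ^ 4 ≤ q ^ d :=
        (Nat.pow_le_pow_left hq2 4).trans (Nat.pow_le_pow_right (by omega) (by omega))
      omega
    have h3 : q = 3 ∧ d = 2 ∧ m = 2 := by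
      have hne' : ¬ (q = 2 ∧ d * m = 4) := by rwa [← hdm]
      interval_cases q <;> interval_cases d <;> simp at h1 hne' ⊢ <;> omega
    obtain ⟨hq3, hd, hm⟩ := h3
    rw [hm, hd] at hdm
    -- the order of `e i` divides `2 r i` and `80`
    have hcardE : Nat.card E = 81 := by
      rw [Module.natCard_eq_pow_finrank (K := F) (V := E), hnE, hdm, ← hq, hq3]
      norm_num
    have hcardF : ∀ c : F, c ≠ 0 → c ^ 2 = 1 := by
      intro c hc
      have : Fintype F := Fintype.ofFinite F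
      have h4 := FiniteField.pow_card_sub_one_eq_one c hc
      rwa [← Nat.card_eq_fintype_card, ← hq, hq3] at h4
    have hei0 : ∀ i, e i ≠ 0 := by
      intro i h0
      have h4 := he i v₀
      rw [h0, zero_smul] at h4
      exact hv₀ ((a i).map_eq_zero_iff.1 h4)
    have hei : ∀ i, e i ^ (2 * r i) = 1 := by
      intro i
      obtain ⟨c, hc⟩ := pow_scalar h (by omega) i
      have h4 : ∀ (k : ℕ) (v : V), (a i ^ k) v = e i ^ k • v := by
        intro k
        induction k with
        | zero => intro v; simp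
        | succ k ih =>
          intro v
          rw [pow_succ', LinearEquiv.mul_apply, ih, he, smul_smul, pow_succ']
      have h5 : e i ^ r i = algebraMap F E c := by
        have h6 := hc v₀
        rw [h4, ← algebraMap_smul E c, ← sub_eq_zero, ← sub_smul] at h6
        rcases smul_eq_zero.1 h6 with h7 | h7
        · exact sub_eq_zero.1 h7
        · exact (hv₀ h7).elim
      have hc0 : c ≠ 0 := by
        rintro rfl
        rw [map_zero] at h5
        exact pow_ne_zero _ (hei0 i) h5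
      rw [mul_comm, pow_mul, h5, ← map_pow, hcardF c hc0, map_one]
    have h80 : ∀ i, e i ^ 80 = 1 := by
      intro i
      have : Fintype E := Fintype.ofFinite E
      have h4 := FiniteField.pow_card_sub_one_eq_one _ (hei0 i)
      rwa [← Nat.card_eq_fintype_card, hcardE] at h4
    have hK5 : ∀ i, r i ≠ 5 → ∃ c : K, ∀ v, a i v = c • v := by
      intro i hi
      have h4 : e i ∈ K := by
        rw [hK3, hq3, hd]
        have h5 : e i ^ 8 = 1 := by
          have h6 : orderOf (e i) ∣ 2 * r i := orderOf_dvd_of_pow_eq_one (hei i)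
          have h7 : orderOf (e i) ∣ 80 := orderOf_dvd_of_pow_eq_one (h80 i)
          apply orderOf_dvd_iff_pow_eq_one.1
          have h8 : Nat.gcd (2 * r i) 80 ∣ 8 := by
            by_cases h2 : r i = 2
            · rw [h2]
              decide
            · have h9 : Nat.Coprime (r i) 40 := by
                have h10 : (r i).Coprime 8 :=
                  Nat.Coprime.pow_right 3 ((Nat.coprime_primes (h.pf.prime i) Nat.prime_two).2 h2)
                have h11 : (r i).Coprime 5 := (Nat.coprime_primes (h.pf.prime i) Nat.prime_five).2 hi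
                exact Nat.Coprime.mul_right h10 h11
              have h10 : Nat.gcd (2 * r i) (2 * 40) = 2 * Nat.gcd (r i) 40 := Nat.gcd_mul_left 2 (r i) 40
              rw [h9] at h10
              rw [show (80 : ℕ) = 2 * 40 from rfl, h10]
              decide
          exact (Nat.dvd_gcd h6 h7).trans h8
        calc e i ^ 3 ^ 2 = e i ^ 8 * e i := by rw [← pow_succ]; norm_num
          _ = e i := by rw [h5, one_mul]
      exact ⟨⟨e i, h4⟩, fun v => he i v⟩
    obtain ⟨i₀, hi₀⟩ := hns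
    have hr0 : r i₀ = 5 := by
      by_contra hcon
      exact hi₀ (hK5 i₀ hcon)
    refine ⟨i₀, fun i hi => hK5 i fun h5 => hi ?_⟩
    exact h.pf.inj (h5.trans hr0.symm)
  · left
    refine hIH.use (S := N) (MulEquiv.refl N) (ML_le (L := K) h.fr) (ML_ne h.fr (by omega) (by omega)) π hπ hS hSn ?_ hexc
    left
    refine ⟨K, inferInstance, inferInstance, finrank K V, by omega, fun _ => ?_, ⟨MulEquiv.refl _⟩⟩
    rw [← Nat.card_eq_fintype_card]
    exact four_le (F := F) (by omega)

end main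

/-- the field generated by an irreducible commuting family -/
theorem exists_field {F V ι : Type} [Field F] [Finite F] [AddCommGroup V] [Module F V] [FiniteDimensional F V]
    {a : ι → V ≃ₗ[F] V} (hcomm : ∀ i j, a i * a j = a j * a i) {v₀ : V} (hv₀ : v₀ ≠ 0)
    (hirr : ∀ W : Submodule F V, (∀ i, ∀ w ∈ W, a i w ∈ W) → W = ⊥ ∨ W = ⊤) :
    ∃ (E : Type) (_ : Field E) (_ : Finite E) (_ : Algebra F E) (_ : Module E V) (_ : IsScalarTower F E V)
      (e : ι → E), finrank E V = 1 ∧ ∀ i v, a i v = e i • v := by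
  classical
  let s : Set (Module.End F V) := Set.range fun i => (a i : V →ₗ[F] V)
  let A : Subalgebra F (Module.End F V) := Algebra.adjoin F s
  have hs : ∀ x ∈ s, ∀ y ∈ s, x * y = y * x := by
    rintro _ ⟨i, rfl⟩ _ ⟨j, rfl⟩
    have := congrArg (fun f : V ≃ₗ[F] V => (f : V →ₗ[F] V)) (hcomm i j)
    exact this
  let cr : CommRing A := Algebra.adjoinCommRingOfComm F hs
  have hcommA : ∀ x y : A, x * y = y * x := fun x y => cr.mul_comm x y
  have hmem : ∀ i, (a i : V →ₗ[F] V) ∈ A := fun i => Algebra.subset_adjoin ⟨i, rfl⟩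
  have hfinV : Finite V := Module.finite_of_finite F
  have hfinE : Finite (Module.End F V) := DFunLike.finite _
  have hfinA : Finite A := Subtype.finite
  -- no zero divisors
  have hker : ∀ b : A, (b : Module.End F V) ≠ 0 → ∀ v, (b : Module.End F V) v = 0 → v = 0 := by
    intro b hb v hv
    rcases hirr (LinearMap.ker (b : Module.End F V)) (by
      intro i w hw
      rw [LinearMap.mem_ker] at hw ⊢
      have h1 := congrArg (fun f : A => (f : Module.End F V) w) (hcommA b ⟨_, hmem i⟩)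
      have h2 : (b : Module.End F V) (a i w) = a i ((b : Module.End F V) w) := h1
      rw [h2, hw, map_zero]) with h1 | h1
    · have : v ∈ LinearMap.ker (b : Module.End F V) := hv
      rw [h1] at this
      exact this
    · exact (hb (LinearMap.ker_eq_top.1 h1)).elim
  have hnt : Nontrivial A := ⟨⟨0, 1, fun h => by
    have h1 := congrArg (fun f : A => (f : Module.End F V) v₀) h
    exact hv₀ h1.symm⟩⟩
  have hnz : NoZeroDivisors A := ⟨by
    intro b c hbc
    by_cases hb : (b : Module.End F V) = 0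
    · left
      exact Subtype.ext hb
    · right
      apply Subtype.ext
      refine LinearMap.ext fun v => ?_
      apply hker b hb
      have h1 := congrArg (fun f : A => (f : Module.End F V) v) hbc
      exact h1⟩
  have hdom : IsDomain A := NoZeroDivisors.to_isDomain A
  have : Fintype A := Fintype.ofFinite A
  let fld : Field A := Fintype.fieldOfDomain A
  refine ⟨A, fld, hfinA, Subalgebra.algebra A, Subalgebra.moduleLeft A, ⟨fun c b v => ?_⟩, fun i => ⟨_, hmem i⟩, ?_,
    fun i v => rfl⟩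
  · rfl
  · rw [finrank_eq_one_iff_of_nonzero' v₀ hv₀]
    intro w
    let W : Submodule F V := (Subalgebra.toSubmodule A).map (LinearMap.applyₗ v₀)
    have hW : W = ⊥ ∨ W = ⊤ := by
      apply hirr
      rintro i _ ⟨b, hb, rfl⟩
      exact ⟨_, A.mul_mem (hmem i) hb, rfl⟩
    rcases hW with hW | hW
    · exfalso
      apply hv₀
      have : v₀ ∈ W := ⟨1, A.one_mem, rfl⟩
      rw [hW] at this
      exact this
    · have : w ∈ W := by
        rw [hW]
        trivial
      obtain ⟨b, hb, hbw⟩ := this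
      exact ⟨⟨b, hb⟩, hbw⟩

/-- irreducible covers in composite dimension -/
theorem no_irr_comp {F V : Type} [Field F] [Finite F] [AddCommGroup V] [Module F V]
    {G Ω : Type} [Group G] [MulAction G Ω] {N : Subgroup G} {κ : SLV F V →* G}
    {ι : Type} {x : ι → G} {r : ι → ℕ} {a : ι → V ≃ₗ[F] V} [Finite ι] [Finite G]
    (h : LinCov Ω N κ x r a) (hn : 3 ≤ finrank F V) (hne : ¬ (Nat.card F = 2 ∧ finrank F V = 4))
    (hc : ¬ (finrank F V).Prime) (hIH : IH (Nat.card N))
    (hirr : ∀ W : Submodule F V, (∀ i, ∀ w ∈ W, a i w ∈ W) → W = ⊥ ∨ W = ⊤) : False := by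
  have hfin : FiniteDimensional F V := Module.finite_of_finrank_pos (by omega)
  obtain ⟨v₀, hv₀⟩ : ∃ v : V, v ≠ 0 := by
    by_contra hcon
    push Not at hcon
    have : Subsingleton V := ⟨fun a b => by rw [hcon a, hcon b]⟩
    rw [finrank_zero_of_subsingleton] at hn
    omega
  obtain ⟨E, _, _, _, _, _, e, hE, he⟩ := exists_field h.comm hv₀ hirr
  exact no_irr_field h hE e he hn hne hc hIH hirr

end Cfsg.Agent.H338.RC
end

private theorem dce_724cc88fb0b8 : _root_.True := by
  try have : _root_.True := by simp only [_root_.Cfsg.Agent.H359.RC.conjC.congr_simp]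
  try have : _root_.True := by simp only [_root_.Cfsg.Agent.H338.RC.hg.congr_simp]
  try have : _root_.True := by simp only [_root_.Cfsg.Agent.H338.RC.res.congr_simp]
  try have : _root_.True := by simp only [_root_.Cfsg.Agent.H359.RC.fn.eq_1]
  exact _root_.True.intro
end

section
prune_inst 0xbdb8fbbbf861dedfff7e7fa69ccffc3b911fffa6dff94bbfe021ef0bdf03000dc52b8d8de010fe1ee2621410b87853fbfffeffe26bf87ffffd1df41ffbee0fe5f7b508119488340f3c0ff603f0778e7f000000000300000000000000000000000204010000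

-- part: H332/RC/GrFix_mg
section
prune_inst 0x42410440021e210000018059233001c42a200049200480400cca103020e81ec222d020020ba301411d0888cc46030004000000180402000000a200c00011d018000800604a048a008000096000000000000000000000000000000000000000004000000000
set_option linter.all false
open scoped Cfsg.Agent.FastGrp

-- part: H319/FC/Iota
section
/-!
# S5764, SP4G: the subgroup `SL_2(F) × SL_2(F)` of `Sp_4(F)`
-/

set_option autoImplicit false

namespace Cfsg.Agent.H319.FC

open Cfsg
open Cfsg.Agent.ClassicalGeometry.SympBasic Cfsg.Agent.ClassicalGeometry.SympAutSemi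
open Cfsg.Agent.ClassicalGeometry.Sp4Graph Cfsg.Agent.ClassicalGeometry.Sp4GraphAut
open scoped Matrix

universe u

variable {F : Type u} [Field F]

/-- `SL_2(F)` -/
abbrev SL2 (F : Type u) [Field F] := Matrix.SpecialLinearGroup (Fin 2) F

/-- the block matrix on `⟨e₁, f₁⟩ ⊥ ⟨e₂, f₂⟩` -/
def blk (a b : Matrix (Fin 2) (Fin 2) F) : Matrix I4 I4 F :=
  Matrix.fromBlocks (Matrix.diagonal ![a 0 0, b 0 0]) (Matrix.diagonal ![a 0 1, b 0 1])
    (Matrix.diagonal ![a 1 0, b 1 0]) (Matrix.diagonal ![a 1 1, b 1 1])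

theorem blk_mul (a b a' b' : Matrix (Fin 2) (Fin 2) F) : blk a b * blk a' b' = blk (a * a') (b * b') := by
  ext i j
  rcases i with i | i <;> rcases j with j | j <;> (revert i j; simp only [blk, Matrix.mul_apply, Fintype.sum_sum_type, Fin.sum_univ_two, _root_.Fin.forall_fin_succ, Fin.isValue, _root_.Matrix.fromBlocks_apply₁₁, _root_.Matrix.fromBlocks_apply₁₂, _root_.Matrix.fromBlocks_apply₂₁, _root_.Matrix.diagonal_apply_eq, _root_.Matrix.cons_val_zero, _root_.ne_eq, _root_.one_ne_zero, _root_.not_false_eq_true, _root_.Matrix.diagonal_apply_ne, _root_.MulZeroClass.mul_zero, _root_.add_zero, _root_.Fin.succ_zero_eq_one, _root_.zero_ne_one, _root_.Matrix.cons_val_one, _root_.Matrix.cons_val_fin_one, _root_.zero_add, _root_.IsEmpty.forall_iff, _root_.and_true, _root_.MulZeroClass.zero_mul, _root_.and_self, _root_.Fin.succ_ne_zero, _root_.true_and, _root_.Matrix.fromBlocks_apply₂₂])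

theorem blk_one : blk (1 : Matrix (Fin 2) (Fin 2) F) 1 = 1 := by
  ext i j
  rcases i with i | i <;> rcases j with j | j <;> (revert i j; simp only [blk, _root_.Fin.forall_fin_succ, _root_.Matrix.one_apply_eq, Fin.isValue, _root_.ne_eq, _root_.zero_ne_one, _root_.not_false_eq_true, _root_.Matrix.one_apply_ne, _root_.one_ne_zero, _root_.Matrix.fromBlocks_apply₁₁, _root_.Fin.succ_zero_eq_one, _root_.IsEmpty.forall_iff, _root_.and_true, _root_.Matrix.diagonal_apply_eq, _root_.Matrix.cons_val_zero, _root_.Matrix.diagonal_apply_ne, _root_.Sum.inl.injEq, _root_.and_self, _root_.Fin.succ_ne_zero, _root_.true_and, _root_.Matrix.cons_val_one, _root_.Matrix.cons_val_fin_one, _root_.Matrix.fromBlocks_apply₁₂, reduceCtorEq, _root_.Matrix.fromBlocks_apply₂₁, _root_.Matrix.fromBlocks_apply₂₂, _root_.Sum.inr.injEq])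

theorem blk_mulVec (a b : Matrix (Fin 2) (Fin 2) F) (x : I4 → F) : blk a b *ᵥ x =
    (a 0 0 * x (.inl 0) + a 0 1 * x (.inr 0)) • e1 F + (b 0 0 * x (.inl 1) + b 0 1 * x (.inr 1)) • e2 F +
    (a 1 0 * x (.inl 0) + a 1 1 * x (.inr 0)) • f1 F + (b 1 0 * x (.inl 1) + b 1 1 * x (.inr 1)) • f2 F := by
  ext i
  rcases i with i | i <;> (revert i; simp only [blk, Matrix.mulVec, dotProduct, Fintype.sum_sum_type, Fin.sum_univ_two, e1, e2, f1, f2, _root_.Fin.forall_fin_succ, Fin.isValue, _root_.Matrix.fromBlocks_apply₁₁, _root_.Matrix.fromBlocks_apply₁₂, _root_.Pi.add_apply, _root_.Pi.smul_apply, _root_.smul_eq_mul, _root_.ne_eq, reduceCtorEq, _root_.not_false_eq_true, _root_.Pi.single_eq_of_ne, _root_.MulZeroClass.mul_zero, _root_.add_zero, _root_.Matrix.diagonal_apply_eq, _root_.Matrix.cons_val_zero, _root_.zero_ne_one, _root_.Matrix.diagonal_apply_ne, _root_.MulZeroClass.zero_mul, _root_.Pi.single_eq_same, _root_.mul_one, _root_.Sum.inl.injEq, _root_.Fin.succ_ne_zero,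 _root_.zero_add, _root_.Fin.succ_zero_eq_one, _root_.Matrix.cons_val_one, _root_.Matrix.cons_val_fin_one, _root_.IsEmpty.forall_iff, _root_.and_self, _root_.Matrix.fromBlocks_apply₂₁, _root_.Matrix.fromBlocks_apply₂₂, _root_.Sum.inr.injEq])

theorem blk_mem [CharP F 2] {a b : Matrix (Fin 2) (Fin 2) F} (ha : a.det = 1) (hb : b.det = 1) :
    blk a b ∈ Matrix.symplecticGroup (Fin 2) F := by
  have hn : ∀ y : F, -y = y := fun y => CharTwo.neg_eq y
  rw [Matrix.det_fin_two] at ha hb
  rw [mem_symplecticGroup_iff]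
  intro u v
  rw [sympForm_eq, sympForm_eq, blk_mulVec, blk_mulVec]
  simp only [e1, e2, f1, f2, _root_.Fin.isValue, _root_.Pi.add_apply, _root_.Pi.smul_apply, _root_.Pi.single_eq_same, _root_.smul_eq_mul, _root_.mul_one, _root_.ne_eq, _root_.Sum.inl.injEq, _root_.zero_ne_one, _root_.not_false_eq_true, _root_.Pi.single_eq_of_ne, _root_.MulZeroClass.mul_zero, _root_.add_zero, _root_.reduceCtorEq, _root_.zero_add, _root_.Sum.inr.injEq, _root_.one_ne_zero]
  rw [sub_eq_add_neg, hn] at ha hb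
  have h2 : (2 : F) = 0 := CharTwo.two_eq_zero
  linear_combination (u (.inl 0) * v (.inr 0) + u (.inr 0) * v (.inl 0)) * ha +
    (u (.inl 1) * v (.inr 1) + u (.inr 1) * v (.inl 1)) * hb +
    (a 0 0 * a 1 0 * u (.inl 0) * v (.inl 0) + a 0 1 * a 1 1 * u (.inr 0) * v (.inr 0) +
    b 0 0 * b 1 0 * u (.inl 1) * v (.inl 1) + b 0 1 * b 1 1 * u (.inr 1) * v (.inr 1)) * h2

/-- **The embedding `SL_2(F) × SL_2(F) → Sp_4(F)`.** -/
def iota [CharP F 2] : SL2 F × SL2 F →* Sp4 F where
  toFun p := ⟨blk p.1.1 p.2.1, blk_mem p.1.2 p.2.2⟩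
  map_one' := Subtype.ext blk_one
  map_mul' p q := Subtype.ext (by
    change blk (p.1 * q.1 : SL2 F).1 (p.2 * q.2 : SL2 F).1 = blk p.1.1 p.2.1 * blk q.1.1 q.2.1
    rw [blk_mul, Matrix.SpecialLinearGroup.coe_mul, Matrix.SpecialLinearGroup.coe_mul])

theorem iota_coe [CharP F 2] (p : SL2 F × SL2 F) : (iota p : Matrix I4 I4 F) = blk p.1.1 p.2.1 := rfl

theorem iota_injective [CharP F 2] : Function.Injective (iota (F := F)) := by
  intro p q h
  have h1 : blk p.1.1 p.2.1 = blk q.1.1 q.2.1 := congrArg Subtype.val h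
  have h2 : ∀ i j, blk p.1.1 p.2.1 i j = blk q.1.1 q.2.1 i j := fun i j => by rw [h1]
  refine Prod.ext (Subtype.ext ?_) (Subtype.ext ?_)
  · ext i j
    fin_cases i <;> fin_cases j
    · simpa only [blk, _root_.Fin.zero_eta, _root_.Fin.isValue, _root_.Matrix.fromBlocks_apply₁₁, _root_.Matrix.diagonal_apply_eq, _root_.Matrix.cons_val_zero] using h2 (.inl 0) (.inl 0)
    · simpa only [blk, _root_.Fin.zero_eta, _root_.Fin.isValue, _root_.Fin.mk_one, _root_.Matrix.fromBlocks_apply₁₂, _root_.Matrix.diagonal_apply_eq, _root_.Matrix.cons_val_zero] using h2 (.inl 0) (.inr 0)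
    · simpa only [blk, _root_.Fin.mk_one, _root_.Fin.isValue, _root_.Fin.zero_eta, _root_.Matrix.fromBlocks_apply₂₁, _root_.Matrix.diagonal_apply_eq, _root_.Matrix.cons_val_zero] using h2 (.inr 0) (.inl 0)
    · simpa only [blk, _root_.Fin.mk_one, _root_.Fin.isValue, _root_.Matrix.fromBlocks_apply₂₂, _root_.Matrix.diagonal_apply_eq, _root_.Matrix.cons_val_zero] using h2 (.inr 0) (.inr 0)
  · ext i j
    fin_cases i <;> fin_cases j
    · simpa only [blk, _root_.Fin.zero_eta, _root_.Fin.isValue, _root_.Matrix.fromBlocks_apply₁₁, _root_.Matrix.diagonal_apply_eq, _root_.Matrix.cons_val_one, _root_.Matrix.cons_val_fin_one] using h2 (.inl 1) (.inl 1)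
    · simpa only [blk, _root_.Fin.zero_eta, _root_.Fin.isValue, _root_.Fin.mk_one, _root_.Matrix.fromBlocks_apply₁₂, _root_.Matrix.diagonal_apply_eq, _root_.Matrix.cons_val_one, _root_.Matrix.cons_val_fin_one] using h2 (.inl 1) (.inr 1)
    · simpa only [blk, _root_.Fin.mk_one, _root_.Fin.isValue, _root_.Fin.zero_eta, _root_.Matrix.fromBlocks_apply₂₁, _root_.Matrix.diagonal_apply_eq, _root_.Matrix.cons_val_one, _root_.Matrix.cons_val_fin_one] using h2 (.inr 1) (.inl 1)
    · simpa only [blk, _root_.Fin.mk_one, _root_.Fin.isValue, _root_.Matrix.fromBlocks_apply₂₂, _root_.Matrix.diagonal_apply_eq, _root_.Matrix.cons_val_one, _root_.Matrix.cons_val_fin_one] using h2 (.inr 1) (.inr 1)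

theorem trace_iota [CharP F 2] (p : SL2 F × SL2 F) :
    Matrix.trace (iota p : Matrix I4 I4 F) = Matrix.trace p.1.1 + Matrix.trace p.2.1 := by
  rw [iota_coe]
  simp only [Matrix.trace, blk, Fintype.sum_sum_type, Fin.sum_univ_two, _root_.Fin.isValue, _root_.Matrix.diag_apply, _root_.Matrix.fromBlocks_apply₁₁, _root_.Matrix.diagonal_apply_eq, _root_.Matrix.cons_val_zero, _root_.Matrix.cons_val_one, _root_.Matrix.cons_val_fin_one, _root_.Matrix.fromBlocks_apply₂₂]
  ring

end Cfsg.Agent.H319.FC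
end

-- part: H193/FC/GraphFix
section
/-!
# S5764, task SP4G-F4: elements with `z² + s z + 1 = 0`, and the graph automorphism
-/

set_option autoImplicit false

namespace Cfsg.Agent.H193.FC

open Cfsg Matrix
open Cfsg.Agent.ClassicalGeometry.SympBasic Cfsg.Agent.ClassicalGeometry.SympAutSemi
open Cfsg.Agent.ClassicalGeometry.Sp4Graph
open Cfsg.Agent.H319.FC

universe u

variable {F : Type u} [Field F]

theorem wedge_add_right (x y y' : V4 F) : wedge x (y + y') = wedge x y + wedge x y' := by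
  funext i
  simp only [wedge_apply, Pi.add_apply]
  ring

theorem wedge_smul_left (a : F) (x y : V4 F) : wedge (a • x) y = a • wedge x y := by
  funext i
  simp only [wedge_apply, Pi.smul_apply, smul_eq_mul]
  ring

theorem wedge_smul_right (a : F) (x y : V4 F) : wedge x (a • y) = a • wedge x y := by
  funext i
  simp only [wedge_apply, Pi.smul_apply, smul_eq_mul]
  ring

theorem wedge_comm (x y : V4 F) : wedge x y = wedge y x := by
  funext i
  simp only [wedge_apply]
  ring

theorem wedge_self [CharP F 2] (x : V4 F) : wedge x x = 0 := by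
  funext i
  simp only [wedge_apply, Pi.zero_apply]
  rw [mul_comm (x (pb i))]
  exact CharTwo.add_self_eq_zero _

/-- a totally isotropic plane has a non-zero image -/
theorem wedge_ne_zero [CharP F 2] {x y : V4 F} (hx : x ≠ 0) (hxy : sympForm 2 F x y = 0)
    (hy : ∀ c : F, y ≠ c • x) : wedge x y ≠ 0 := by
  intro h
  have h0 := congrFun h (.inl 0)
  have h1 := congrFun h (.inl 1)
  have h2 := congrFun h (.inr 0)
  have h3 := congrFun h (.inr 1)
  simp only [wedge_apply, pa_inl, pa_inr, pb_inl0, pb_inl1, pb_inr0, pb_inr1, Pi.zero_apply] at h0 h1 h2 h3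
  rw [sympForm_eq] at hxy
  have h22 : (2 : F) = 0 := CharTwo.two_eq_zero
  have hneg : ∀ z : F, -z = z := fun z => CharTwo.neg_eq z
  have hm : x (.inl 0) * y (.inr 0) + x (.inr 0) * y (.inl 0) = 0 := by
    have h5 : (x (.inl 0) * y (.inr 0) + x (.inr 0) * y (.inl 0)) ^ 2 = 0 := by
      have e : (x (.inl 0) * y (.inr 0) + x (.inr 0) * y (.inl 0))
          = (x (.inl 1) * y (.inr 1) + x (.inr 1) * y (.inl 1)) := by
        linear_combination hxy - (x (.inl 1) * y (.inr 1) + x (.inr 1) * y (.inl 1)) * h22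
      rw [sq]
      nth_rw 2 [e]
      linear_combination (x (.inr 0) * y (.inr 1) + x (.inr 1) * y (.inr 0)) * h0
        + (x (.inr 0) * y (.inl 1) + x (.inl 1) * y (.inr 0)) * h1
        - (x (.inl 0) * y (.inl 1) * x (.inr 0) * y (.inr 1)
          + x (.inl 1) * y (.inl 0) * x (.inr 1) * y (.inr 0)) * h22
    exact pow_eq_zero_iff (two_ne_zero) |>.1 h5
  have hm' : x (.inl 1) * y (.inr 1) + x (.inr 1) * y (.inl 1) = 0 := by
    linear_combination hxy - hm
  -- all minors vanish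
  have key : ∀ i j : I4, x i * y j = x j * y i := by
    have e : ∀ a b : F, a + b = 0 → a = b := fun a b hab => by
      rw [← hneg b]; exact eq_neg_of_add_eq_zero_left hab
    intro i j
    rcases i with i | i <;> rcases j with j | j <;> fin_cases i <;> fin_cases j <;>
      simp only [Fin.zero_eta, Fin.mk_one, Fin.isValue, Fin.reduceFinMk]
    map_tacs [(exact e _ _ h0); (exact (e _ _ h0).symm); (exact e _ _ hm); (exact e _ _ h1); (exact (e _ _ h3).symm); (exact e _ _ hm'); (exact (e _ _ hm).symm);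
     (exact e _ _ h3); (exact (e _ _ h1).symm); (exact (e _ _ hm').symm); (exact e _ _ h2); (exact (e _ _ h2).symm)]
  obtain ⟨k, hk⟩ : ∃ k, x k ≠ 0 := by
    by_contra hc
    push Not at hc
    exact hx (funext hc)
  apply hy (y k / x k)
  funext i
  rw [Pi.smul_apply, smul_eq_mul, div_mul_eq_mul_div, eq_div_iff hk]
  linear_combination key k i

/-- the action of the graph automorphism on totally isotropic planes -/
theorem rho_graph_wedge [Finite F] [CharP F 2] (z : Sp4 F) {x y : V4 F} (hxy : sympForm 2 F x y = 0) :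
    rho 2 F (graphEquiv F z) (wedge x y) = wedge (rho 2 F z x) (rho 2 F z y) := by
  rw [rho_apply, graphEquiv_apply, graphHom_coe, mn_mulVec_wedge z.2 hxy]
  rfl

theorem exists_sqrt [Finite F] [CharP F 2] (a : F) : ∃ b, b ^ 2 = a := by
  have : Function.Surjective (fun b : F => b ^ 2) :=
    Finite.injective_iff_surjective.1 (fun a b h => CharTwo.sq_injective h)
  exact this a

theorem form_symm [CharP F 2] (x y : V4 F) : sympForm 2 F x y = sympForm 2 F y x := by
  rw [sympForm_swap]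
  exact CharTwo.neg_eq _

/-- **F4.** -/
theorem stF4 (F : Type u) [Field F] [Finite F] [CharP F 2] : StF4 F := by
  intro z s hz
  have hneg : ∀ z : F, -z = z := fun z => CharTwo.neg_eq z
  have h22 : (2 : F) = 0 := CharTwo.two_eq_zero
  have hvv : ∀ v : V4 F, v + v = 0 := fun v => by
    funext i; exact CharTwo.add_self_eq_zero _
  obtain ⟨T, hT⟩ : ∃ T : V4 F →ₗ[F] V4 F, ∀ v, T v = rho 2 F z v :=
    ⟨Matrix.mulVecLin z.1, fun v => rfl⟩
  have hTT : ∀ v, T (T v) = s • T v + v := by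
    intro v
    have h := hz v
    rw [← hT, ← hT] at h
    calc T (T v) = (T (T v) + s • T v + v) + (s • T v + v) := by
          have := hvv (s • T v + v)
          rw [add_assoc (T (T v)), add_assoc, this, add_zero]
      _ = s • T v + v := by rw [h, zero_add]
  have hiso : ∀ u v, sympForm 2 F (T u) (T v) = sympForm 2 F u v := fun u v => by
    rw [hT, hT, sympForm_rho]
  -- adjoint
  have hadj : ∀ u v, sympForm 2 F u (T v) = sympForm 2 F (T u) v + s * sympForm 2 F u v := by
    intro u v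
    have h1 : T (T u + s • u) = u := by
      rw [map_add, map_smul, hTT]
      have := hvv (s • T u)
      calc s • T u + u + s • T u = (s • T u + s • T u) + u := by abel
        _ = u := by rw [this, zero_add]
    have h2 := hiso (T u + s • u) v
    rw [h1, sympForm_add_left, sympForm_smul_left] at h2
    exact h2
  have hfin : ∀ x y : V4 F, x ≠ 0 → sympForm 2 F x y = 0 → (∀ c : F, y ≠ c • x) →
      wedge (T x) (T y) = wedge x y → ∃ v, v ≠ 0 ∧ rho 2 F (graphEquiv F z) v = v := by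
    intro x y hx hxy hy h
    refine ⟨wedge x y, wedge_ne_zero hx hxy hy, ?_⟩
    rw [rho_graph_wedge z hxy, ← hT, ← hT, h]
  -- a vector with `Q = 0`
  obtain ⟨x, hx0, hxQ⟩ : ∃ x : V4 F, x ≠ 0 ∧ sympForm 2 F x (T x) = 0 := by
    set e : V4 F := Pi.single (.inl 0) 1 with he
    set e' : V4 F := Pi.single (.inl 1) 1 with he'
    have hee : sympForm 2 F e e' = 0 := by
      rw [sympForm_eq]; simp [he, he']
    have hcross : sympForm 2 F e (T e') + sympForm 2 F e' (T e) = 0 := by
      rw [hadj, form_symm e' (T e), hee, mul_zero, add_zero]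
      exact CharTwo.add_self_eq_zero _
    have hQ : ∀ a b : F, sympForm 2 F (a • e + b • e') (T (a • e + b • e'))
        = a ^ 2 * sympForm 2 F e (T e) + b ^ 2 * sympForm 2 F e' (T e') := by
      intro a b
      simp only [map_add, map_smul, sympForm_add_left, sympForm_add_right, sympForm_smul_left,
        sympForm_smul_right]
      linear_combination a * b * hcross
    have hne : ∀ a b : F, (a ≠ 0 ∨ b ≠ 0) → a • e + b • e' ≠ 0 := by
      intro a b hab h
      have h1 := congrFun h (.inl 0)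
      have h2 := congrFun h (.inl 1)
      simp [he, he'] at h1 h2
      rcases hab with h | h
      · exact h h1
      · exact h h2
    by_cases h0 : sympForm 2 F e (T e) = 0
    · refine ⟨(1 : F) • e + (0 : F) • e', hne _ _ (Or.inl one_ne_zero), ?_⟩
      rw [hQ, h0]; ring
    · obtain ⟨a, ha⟩ := exists_sqrt (sympForm 2 F e' (T e'))
      obtain ⟨b, hb⟩ := exists_sqrt (sympForm 2 F e (T e))
      refine ⟨a • e + b • e', hne _ _ (Or.inr ?_), ?_⟩
      · rintro rfl
        apply h0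
        rw [← hb]; ring
      · rw [hQ, ha, hb]
        linear_combination (sympForm 2 F e' (T e') * sympForm 2 F e (T e)) * h22
  by_cases hpar : ∀ c : F, T x ≠ c • x
  · apply hfin x (T x) hx0 hxQ hpar
    rw [hTT, wedge_add_right, wedge_smul_right, wedge_self, smul_zero, zero_add, wedge_comm]
  push Not at hpar
  obtain ⟨a, ha⟩ := hpar
  have haa : a ^ 2 = s * a + 1 := by
    have h1 := hTT x
    rw [ha, map_smul, ha, smul_smul, smul_smul] at h1
    have h2 : (a * a - (s * a + 1)) • x = 0 := by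
      rw [sub_smul, h1, add_smul, one_smul, sub_self]
    have h3 := (smul_eq_zero.1 h2).resolve_right hx0
    linear_combination h3
  have ha0 : a ≠ 0 := by
    rintro rfl
    simp at haa
  have hs : s = a + a⁻¹ := by
    field_simp
    linear_combination (-1 : F) * haa - h22
  obtain ⟨x', hx'⟩ : ∃ v, sympForm 2 F x v = 1 := by
    obtain ⟨b, hb⟩ : ∃ b, sympForm 2 F x b ≠ 0 := by
      by_contra h
      push Not at h
      exact hx0 (eq_zero_of_forall_sympForm_right h)
    exact ⟨(sympForm 2 F x b)⁻¹ • b, by rw [sympForm_smul_right, inv_mul_cancel₀ hb]⟩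
  -- a hyperbolic pair orthogonal to `x`
  obtain ⟨u, hu0, hux, hux'⟩ : ∃ u : V4 F, u ≠ 0 ∧ sympForm 2 F x u = 0 ∧ sympForm 2 F x' u = 0 := by
    let φ : V4 F →ₗ[F] (F × F) := (sympBilin 2 F x).prod (sympBilin 2 F x')
    have hφ : LinearMap.ker φ ≠ ⊥ := by
      apply LinearMap.ker_ne_bot_of_finrank_lt
      simp
    obtain ⟨u, hu, hu0⟩ := (Submodule.ne_bot_iff _).1 hφ
    rw [LinearMap.mem_ker] at hu
    refine ⟨u, hu0, ?_, ?_⟩
    · exact congrArg Prod.fst hu
    · exact congrArg Prod.snd hu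
  obtain ⟨w, hwx, huw⟩ : ∃ w : V4 F, sympForm 2 F x w = 0 ∧ sympForm 2 F u w = 1 := by
    obtain ⟨b, hb⟩ : ∃ b, sympForm 2 F u b ≠ 0 := by
      by_contra h
      push Not at h
      exact hu0 (eq_zero_of_forall_sympForm_right h)
    obtain ⟨w', hw1⟩ : ∃ w', sympForm 2 F u w' = 1 :=
      ⟨(sympForm 2 F u b)⁻¹ • b, by rw [sympForm_smul_right, inv_mul_cancel₀ hb]⟩
    refine ⟨w' + sympForm 2 F x w' • x', ?_, ?_⟩
    · rw [sympForm_add_right, sympForm_smul_right, hx', mul_one]
      exact CharTwo.add_self_eq_zero _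
    · rw [sympForm_add_right, sympForm_smul_right, hw1, form_symm u x', hux', mul_zero, add_zero]
  have hperp : ∀ v, sympForm 2 F x v = 0 → sympForm 2 F x (T v) = 0 := by
    intro v hv
    rw [hadj, ha, sympForm_smul_left, hv]; ring
  -- `(T + a) v` is an eigenvector for `a⁻¹`
  have heig : ∀ v, T (T v + a • v) = a⁻¹ • (T v + a • v) := by
    intro v
    rw [map_add, map_smul, hTT, hs, add_smul, smul_add, smul_smul, inv_mul_cancel₀ ha0, one_smul]
    have := hvv (a • T v)
    calc a • T v + a⁻¹ • T v + v + a • T v = (a • T v + a • T v) + (a⁻¹ • T v + v) := by abel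
      _ = a⁻¹ • T v + v := by rw [this, zero_add]
  have hcase : ∀ v, sympForm 2 F x v = 0 → (∀ c : F, T v + a • v ≠ c • x) →
      ∃ v, v ≠ 0 ∧ rho 2 F (graphEquiv F z) v = v := by
    intro v hv hc
    apply hfin x (T v + a • v) hx0 ?_ hc
    · rw [heig, ha, wedge_smul_left, wedge_smul_right, smul_smul, mul_inv_cancel₀ ha0, one_smul]
    · rw [sympForm_add_right, sympForm_smul_right, hperp v hv, hv]; ring
  by_cases hcu : ∀ c : F, T u + a • u ≠ c • x
  · exact hcase u hux hcu
  by_cases hcw : ∀ c : F, T w + a • w ≠ c • x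
  · exact hcase w hwx hcw
  push Not at hcu hcw
  obtain ⟨α, hα⟩ := hcu
  obtain ⟨β, hβ⟩ := hcw
  have hTu : T u = a • u + α • x := by
    have := hvv (a • u)
    calc T u = (T u + a • u) + a • u := by rw [add_assoc, this, add_zero]
      _ = a • u + α • x := by rw [hα, add_comm]
  have hTw : T w = a • w + β • x := by
    have := hvv (a • w)
    calc T w = (T w + a • w) + a • w := by rw [add_assoc, this, add_zero]
      _ = a • w + β • x := by rw [hβ, add_comm]
  have ha1 : a ^ 2 = 1 := by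
    have h1 := hiso u w
    rw [hTu, hTw] at h1
    simp only [sympForm_add_left, sympForm_add_right, sympForm_smul_left, sympForm_smul_right] at h1
    rw [huw, hwx, sympForm_self, form_symm u x, hux] at h1
    linear_combination h1
  apply hfin x u hx0 hux ?_ ?_
  · rintro c rfl
    rw [sympForm_smul_left, hwx, mul_zero] at huw
    exact zero_ne_one huw
  · rw [hTu, ha, wedge_add_right, wedge_smul_left, wedge_smul_left, wedge_smul_right, wedge_smul_right,
      wedge_self, smul_zero, smul_zero, add_zero, smul_smul, ← sq, ha1, one_smul]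

end Cfsg.Agent.H193.FC
end

-- part: H332/RC/GrFix
section
/-!
# S3510, row D, box GR: elements of odd order fixed by a graph automorphism of `Sp_4(q)`, `q` even (helper332)

* `no_fix` : a nontrivial element of odd order fixed by an automorphism outside `PΓSp_4` has no fixed vector
* `no_quad` : it does not satisfy `z² + s z + 1 = 0`
-/

set_option autoImplicit false
set_option linter.unusedSectionVars false

namespace Cfsg.Agent.H332.RC

open Cfsg
open Cfsg.Agent.H319.FC Cfsg.Agent.H193.FC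
open Cfsg.Agent.ClassicalGeometry.SympBasic Cfsg.Agent.ClassicalGeometry.SympAutSemi
open Cfsg.Agent.ClassicalGeometry.Sp4Graph Cfsg.Agent.ClassicalGeometry.Sp4GraphAut

universe u

variable {F : Type u} [Field F]

theorem rho_mul_apply (a b : Sp4 F) (v : V4 F) : rho 2 F (a * b) v = rho 2 F a (rho 2 F b v) := by
  rw [map_mul, Equiv.Perm.mul_apply]

theorem rho_one_apply (v : V4 F) : rho 2 F (1 : Sp4 F) v = v := by
  rw [map_one, Equiv.Perm.one_apply]

theorem rho_zero_vec (a : Sp4 F) : rho 2 F a 0 = 0 := semi_zero (isSemi_rho a)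

/-- the average -/
def avg (z : Sp4 F) (n : ℕ) (u : V4 F) : V4 F := ∑ i ∈ Finset.range n, rho 2 F (z ^ i) u

theorem rho_avg (z : Sp4 F) (n : ℕ) (u : V4 F) :
    rho 2 F z (avg z n u) = ∑ i ∈ Finset.range n, rho 2 F (z ^ (i + 1)) u := by
  induction n with
  | zero => exact rho_zero_vec z
  | succ n ih =>
    have h1 : avg z (n + 1) u = avg z n u + rho 2 F (z ^ n) u := Finset.sum_range_succ _ n
    rw [h1, rho_add, ih, Finset.sum_range_succ _ n, ← rho_mul_apply, ← pow_succ']

theorem avg_fix {z : Sp4 F} {n : ℕ} (hn : z ^ n = 1) (u : V4 F) : rho 2 F z (avg z n u) = avg z n u := by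
  rw [rho_avg]
  have h1 := Finset.sum_range_succ (fun i => rho 2 F (z ^ i) u) n
  have h2 := Finset.sum_range_succ' (fun i => rho 2 F (z ^ i) u) n
  rw [h1] at h2
  have h3 : rho 2 F (z ^ n) u = rho 2 F (z ^ 0) u := by rw [hn, pow_zero]
  rw [h3] at h2
  exact (add_right_cancel h2).symm

theorem rho_pow_fix {z : Sp4 F} {v : V4 F} (hv : rho 2 F z v = v) (i : ℕ) : rho 2 F (z ^ i) v = v := by
  induction i with
  | zero => rw [pow_zero, rho_one_apply]
  | succ i ih => rw [pow_succ, rho_mul_apply, hv, ih]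

theorem form_avg {z : Sp4 F} {v : V4 F} (hv : rho 2 F z v = v) (n : ℕ) (u : V4 F) :
    sympForm 2 F v (avg z n u) = n * sympForm 2 F v u := by
  induction n with
  | zero =>
    have h0 : avg z 0 u = 0 := rfl
    rw [h0, sympForm_zero_right, Nat.cast_zero, zero_mul]
  | succ n ih =>
    have h1 : avg z (n + 1) u = avg z n u + rho 2 F (z ^ n) u := Finset.sum_range_succ _ n
    have h2 : sympForm 2 F v (rho 2 F (z ^ n) u) = sympForm 2 F v u := by
      have h3 := sympForm_rho (z ^ n) v u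
      rwa [rho_pow_fix hv] at h3
    rw [h1, sympForm_add_right, ih, h2]
    push_cast
    ring

section char2

variable [CharP F 2]

theorem cast_odd {n : ℕ} (hn : Odd n) : (n : F) = 1 := by
  obtain ⟨k, rfl⟩ := hn
  push_cast
  rw [CharTwo.two_eq_zero (R := F), zero_mul, zero_add]

/-- a fixed vector of an element of odd order has a fixed partner -/
theorem exists_partner {z : Sp4 F} (ho : Odd (orderOf z)) {v u : V4 F} (hv : rho 2 F z v = v)
    (hu : sympForm 2 F v u = 1) :
    ∃ v', rho 2 F z v' = v' ∧ sympForm 2 F v v' = 1 ∧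
      ∀ w, rho 2 F z w = w → sympForm 2 F w u = 0 → sympForm 2 F w v' = 0 := by
  refine ⟨avg z (orderOf z) u, avg_fix (pow_orderOf_eq_one z) u, ?_, ?_⟩
  · rw [form_avg hv, hu, cast_odd ho, one_mul]
  · intro w hw h0
    rw [form_avg hw, h0, mul_zero]

/-- a plane on which `y w ∈ ⟨w⟩`: `y` is trivial on it -/
theorem fix_pair {y : Sp4 F} (hy : ∀ w, sympForm 2 F (rho 2 F y w + w) w = 0) {v v' : V4 F}
    (hvv : sympForm 2 F v v' = 1) {a b c d : F} (h1 : rho 2 F y v = a • v + b • v')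
    (h2 : rho 2 F y v' = c • v + d • v') : rho 2 F y v = v ∧ rho 2 F y v' = v' := by
  have hs : sympForm 2 F v' v = 1 := by rw [form_symm, hvv]
  have hb : b = 0 := by
    have := hy v
    rw [h1, sympForm_add_left, sympForm_add_left, sympForm_smul_left, sympForm_smul_left, sympForm_self, hs] at this
    simpa using this
  have hc : c = 0 := by
    have := hy v'
    rw [h2, sympForm_add_left, sympForm_add_left, sympForm_smul_left, sympForm_smul_left, sympForm_self, hvv] at this
    simpa using this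
  rw [hb, zero_smul, add_zero] at h1
  rw [hc, zero_smul, zero_add] at h2
  have had : a + d = 0 := by
    have := hy (v + v')
    rw [rho_add, h1, h2] at this
    simp only [sympForm_add_left, sympForm_add_right, sympForm_smul_left, sympForm_self, hs, hvv] at this
    have h22 : (2 : F) = 0 := CharTwo.two_eq_zero
    linear_combination this - h22
  have hmul : a * d = 1 := by
    have := sympForm_rho y v v'
    rw [h1, h2, sympForm_smul_left, sympForm_smul_right, hvv, mul_one] at this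
    exact this
  have hda : d = a := by
    have h22 : (2 : F) = 0 := CharTwo.two_eq_zero
    linear_combination had - a * h22
  rw [hda] at hmul
  have ha : a = 1 := by
    have h22 : (2 : F) = 0 := CharTwo.two_eq_zero
    have h3 : (a - 1) ^ 2 = 0 := by linear_combination hmul - (a - 1) * h22
    exact sub_eq_zero.1 (pow_eq_zero_iff two_ne_zero |>.1 h3)
  rw [h1, h2, hda, ha, one_smul, one_smul]
  exact ⟨rfl, rfl⟩

/-- two elements which agree on a symplectic basis are equal -/
theorem sp_ext4 {y y' : Sp4 F} {v w v' w' : V4 F} (h12 : sympForm 2 F v w = 0) (h13 : sympForm 2 F v v' = 1)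
    (h14 : sympForm 2 F v w' = 0) (h23 : sympForm 2 F w v' = 0) (h24 : sympForm 2 F w w' = 1)
    (h34 : sympForm 2 F v' w' = 0) (e1' : rho 2 F y v = rho 2 F y' v) (e2' : rho 2 F y w = rho 2 F y' w)
    (e3' : rho 2 F y v' = rho 2 F y' v') (e4' : rho 2 F y w' = rho 2 F y' w') : y = y' := by
  obtain ⟨A, hA⟩ := exists_sp h12 h13 h14 h23 h24 h34
  have h : ∀ x, rho 2 F y (rho 2 F A x) = rho 2 F y' (rho 2 F A x) := by
    intro x
    rw [hA]
    simp only [rho_add, rho_smul, e1', e2', e3', e4']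
  apply rho_injective
  ext1 x
  obtain ⟨x, rfl⟩ := (rho 2 F A).surjective x
  exact h x

/-- a symplectic basis containing a given hyperbolic pair -/
theorem exists_rest {v v' : V4 F} (hvv : sympForm 2 F v v' = 1) :
    ∃ w w' : V4 F, sympForm 2 F v w = 0 ∧ sympForm 2 F v' w = 0 ∧ sympForm 2 F v w' = 0 ∧
      sympForm 2 F v' w' = 0 ∧ sympForm 2 F w w' = 1 := by
  have hv : v ≠ 0 := by
    rintro rfl
    rw [sympForm_zero_left] at hvv
    exact zero_ne_one hvv
  have he : e1 F ≠ 0 := e1_ne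
  obtain ⟨g, -, hg⟩ := exists_transvGroup_mulVec_eq he hv
  have hg' : rho 2 F g (e1 F) = v := hg
  obtain ⟨b, hb⟩ : ∃ b, b = rho 2 F g (e2 F) := ⟨_, rfl⟩
  obtain ⟨c, hc⟩ : ∃ c, c = rho 2 F g (f2 F) := ⟨_, rfl⟩
  have h1 : sympForm 2 F v b = 0 := by rw [← hg', hb, sympForm_rho, form_e1_e2]
  have h2 : sympForm 2 F v c = 0 := by rw [← hg', hc, sympForm_rho, form_e1_f2]
  have h3 : sympForm 2 F b c = 1 := by rw [hb, hc, sympForm_rho, form_e2_f2]
  have hs : sympForm 2 F v' v = 1 := by rw [form_symm, hvv]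
  refine ⟨b + sympForm 2 F v' b • v, c + sympForm 2 F v' c • v, ?_, ?_, ?_, ?_, ?_⟩
  · rw [sympForm_add_right, sympForm_smul_right, sympForm_self, h1, mul_zero, add_zero]
  · rw [sympForm_add_right, sympForm_smul_right, hs, mul_one]
    exact CharTwo.add_self_eq_zero _
  · rw [sympForm_add_right, sympForm_smul_right, sympForm_self, h2, mul_zero, add_zero]
  · rw [sympForm_add_right, sympForm_smul_right, hs, mul_one]
    exact CharTwo.add_self_eq_zero _
  · have h4 : sympForm 2 F b v = 0 := by rw [form_symm, h1]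
    simp only [sympForm_add_left, sympForm_add_right, sympForm_smul_left, sympForm_smul_right, sympForm_self, h2, h3, h4]
    ring

/-- coordinates in a symplectic basis -/
theorem coord {v v' w w' : V4 F} (hvv : sympForm 2 F v v' = 1) (h1 : sympForm 2 F v w = 0)
    (h2 : sympForm 2 F v' w = 0) (h3 : sympForm 2 F v w' = 0) (h4 : sympForm 2 F v' w' = 0)
    (h5 : sympForm 2 F w w' = 1) (x : V4 F) :
    x = sympForm 2 F v' x • v + sympForm 2 F v x • v' + sympForm 2 F w' x • w + sympForm 2 F w x • w' := by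
  obtain ⟨A, hA⟩ := exists_sp (a := v) (b := w) (c := v') (d := w') h1 hvv h3 (by rw [form_symm, h2]) h5 h4
  obtain ⟨x, rfl⟩ := (rho 2 F A).surjective x
  rw [hA]
  have e1' : sympForm 2 F v' v = 1 := by rw [form_symm, hvv]
  have e2' : sympForm 2 F w' v = 0 := by rw [form_symm, h3]
  have e3' : sympForm 2 F w v = 0 := by rw [form_symm, h1]
  have e4' : sympForm 2 F w' v' = 0 := by rw [form_symm, h4]
  have e5' : sympForm 2 F w v' = 0 := by rw [form_symm, h2]
  have e6' : sympForm 2 F w' w = 1 := by rw [form_symm, h5]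
  simp only [sympForm_add_right, sympForm_smul_right, sympForm_self, e1', e2', e3', e4', e5', e6', hvv, h1, h2, h3,
    h4, h5, mul_one, mul_zero, add_zero, zero_add]
  abel

/-- **Key**: an isometry `y` with `B (y w + w, w) = 0` commuting with an element `z ≠ 1` of odd order which fixes a
vector is trivial. -/
theorem key {z y : Sp4 F} (hz1 : z ≠ 1) (ho : Odd (orderOf z)) (hzy : z * y = y * z)
    (hy : ∀ w, sympForm 2 F (rho 2 F y w + w) w = 0) {v : V4 F} (hv : v ≠ 0) (hzv : rho 2 F z v = v) : y = 1 := by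
  -- a hyperbolic pair fixed by `z`
  obtain ⟨u, hu⟩ : ∃ u, sympForm 2 F v u = 1 := by
    by_contra hno
    push Not at hno
    apply hv
    apply eq_zero_of_forall_sympForm_right
    intro x
    by_contra hx
    apply hno ((sympForm 2 F v x)⁻¹ • x)
    rw [sympForm_smul_right]
    exact inv_mul_cancel₀ hx
  obtain ⟨v', hzv', hvv, -⟩ := exists_partner ho hzv hu
  obtain ⟨w, w', h1, h2, h3, h4, h5⟩ := exists_rest hvv
  have hsv : sympForm 2 F v' v = 1 := by rw [form_symm, hvv]
  -- the fixed vectors of `z`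
  have hfix : ∀ x, rho 2 F z x = x → sympForm 2 F v x = 0 → sympForm 2 F v' x = 0 → x = 0 := by
    intro x hx hx1 hx2
    by_contra hx0
    obtain ⟨u₂, hu₂⟩ : ∃ u, sympForm 2 F x u = 1 := by
      by_contra hno
      push Not at hno
      apply hx0
      apply eq_zero_of_forall_sympForm_right
      intro t
      by_contra ht
      apply hno ((sympForm 2 F x t)⁻¹ • t)
      rw [sympForm_smul_right]
      exact inv_mul_cancel₀ ht
    obtain ⟨u₃, hu₃⟩ : ∃ u₃, u₃ = u₂ + sympForm 2 F v' u₂ • v + sympForm 2 F v u₂ • v' := ⟨_, rfl⟩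
    have hxv : sympForm 2 F x v = 0 := by rw [form_symm, hx1]
    have hxv' : sympForm 2 F x v' = 0 := by rw [form_symm, hx2]
    have a1 : sympForm 2 F x u₃ = 1 := by
      rw [hu₃]
      simp only [sympForm_add_right, sympForm_smul_right, hu₂, hxv, hxv', mul_zero, add_zero]
    have a2 : sympForm 2 F v u₃ = 0 := by
      rw [hu₃]
      simp only [sympForm_add_right, sympForm_smul_right, sympForm_self, hvv, mul_zero, add_zero, mul_one]
      exact CharTwo.add_self_eq_zero _
    have a3 : sympForm 2 F v' u₃ = 0 := by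
      rw [hu₃]
      simp only [sympForm_add_right, sympForm_smul_right, sympForm_self, hsv, mul_zero, add_zero, mul_one]
      exact CharTwo.add_self_eq_zero _
    obtain ⟨x', hx', hxx, hperp⟩ := exists_partner ho hx a1
    have b1 := hperp v hzv a2
    have b2 := hperp v' hzv' a3
    apply hz1
    refine sp_ext4 (y := z) (y' := 1) (v := v) (w := x) (v' := v') (w' := x') hx1 hvv b1 hxv' hxx b2 ?_ ?_ ?_ ?_
    · rw [hzv, rho_one_apply]
    · rw [hx, rho_one_apply]
    · rw [hzv', rho_one_apply]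
    · rw [hx', rho_one_apply]
  -- `y` preserves the plane
  have hyz : ∀ x, rho 2 F z x = x → rho 2 F z (rho 2 F y x) = rho 2 F y x := by
    intro x hx
    rw [← rho_mul_apply, hzy, rho_mul_apply, hx]
  have hin : ∀ x, rho 2 F z x = x → x = sympForm 2 F v' x • v + sympForm 2 F v x • v' := by
    intro x hx
    obtain ⟨t, ht⟩ : ∃ t, t = x + (sympForm 2 F v' x • v + sympForm 2 F v x • v') := ⟨_, rfl⟩
    have h6 : t = 0 := by
      apply hfix
      · rw [ht, rho_add, rho_add, rho_smul, rho_smul, hx, hzv, hzv']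
      · rw [ht]
        simp only [sympForm_add_right, sympForm_smul_right, sympForm_self, hvv, mul_zero, zero_add, mul_one]
        exact CharTwo.add_self_eq_zero _
      · rw [ht]
        simp only [sympForm_add_right, sympForm_smul_right, sympForm_self, hsv, mul_zero, add_zero, mul_one]
        exact CharTwo.add_self_eq_zero _
    rw [h6] at ht
    funext i
    have h7 := congrFun ht i
    rw [Pi.zero_apply, Pi.add_apply] at h7
    exact CharTwo.add_eq_zero.1 h7.symm
  obtain ⟨f1', f2'⟩ := fix_pair hy hvv (hin _ (hyz v hzv)) (hin _ (hyz v' hzv'))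
  -- and its orthogonal complement
  have hpv : ∀ x, sympForm 2 F v (rho 2 F y x) = sympForm 2 F v x := by
    intro x
    have := sympForm_rho y v x
    rwa [f1'] at this
  have hpv' : ∀ x, sympForm 2 F v' (rho 2 F y x) = sympForm 2 F v' x := by
    intro x
    have := sympForm_rho y v' x
    rwa [f2'] at this
  have hc1 := coord hvv h1 h2 h3 h4 h5 (rho 2 F y w)
  have hc2 := coord hvv h1 h2 h3 h4 h5 (rho 2 F y w')
  rw [hpv, hpv', h1, h2, zero_smul, zero_smul, zero_add, zero_add] at hc1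
  rw [hpv, hpv', h3, h4, zero_smul, zero_smul, zero_add, zero_add] at hc2
  obtain ⟨f3', f4'⟩ := fix_pair hy h5 hc1 hc2
  refine sp_ext4 (y := y) (y' := 1) (v := v) (w := w) (v' := v') (w' := w') h1 hvv h3 (by rw [form_symm, h2]) h5 h4
    ?_ ?_ ?_ ?_
  · rw [f1', rho_one_apply]
  · rw [f3', rho_one_apply]
  · rw [f2', rho_one_apply]
  · rw [f4', rho_one_apply]

/-- images of transvections under an automorphism outside `PΓSp` -/
theorem graph_image [Finite F] (hq : 4 ≤ Nat.card F) {δ : MulAut (Sp4 F)} (hδ : δ ∉ (conjHom 2 F).range) {v : V4 F}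
    (hv : v ≠ 0) (w : V4 F) : sympForm 2 F (rho 2 F (δ (transv v 1)) w + w) w = 0 := by
  obtain ⟨g, rfl⟩ := exists_graph hq hδ
  obtain ⟨φ, l, hl, hs⟩ := g.2
  obtain ⟨k, -, hk⟩ := exists_transvGroup_mulVec_eq (e1_ne (F := F)) hv
  have hk' : rho 2 F k (e1 F) = v := hk
  have h1 : transv v 1 = k * transv (e1 F) 1 * k⁻¹ := by rw [conj_transv', hk']
  have h2 : ∀ x, sympForm 2 F (rho 2 F (S (1 : F)) x + x) x = 0 := by
    intro x
    rw [rho_S]
    have h3 : x + ((1 : F) * x (.inr 1)) • e1 F + ((1 : F) * x (.inr 0)) • e2 F + x =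
        (x (.inr 1)) • e1 F + (x (.inr 0)) • e2 F := by
      funext i
      simp only [Pi.add_apply, Pi.smul_apply, smul_eq_mul, one_mul]
      have h22 : (2 : F) = 0 := CharTwo.two_eq_zero
      linear_combination (x i) * h22
    rw [h3, sympForm_add_left, sympForm_smul_left, sympForm_smul_left, sympForm_eq, sympForm_eq]
    simp only [e1, e2, _root_.Fin.isValue, _root_.Pi.single_eq_same, _root_.one_mul, _root_.ne_eq, _root_.reduceCtorEq, _root_.not_false_eq_true, _root_.Pi.single_eq_of_ne, _root_.MulZeroClass.zero_mul, _root_.add_zero, _root_.Sum.inl.injEq, _root_.one_ne_zero, _root_.zero_ne_one, _root_.zero_add]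
    have h22 : (2 : F) = 0 := CharTwo.two_eq_zero
    linear_combination (x (.inr 0) * x (.inr 1)) * h22
  have h4 : ∀ x, sympForm 2 F (rho 2 F (graphEquiv F (transv v 1)) x + x) x = 0 := by
    intro x
    have h5 : graphEquiv F (transv v 1) = graphEquiv F k * S 1 * (graphEquiv F k)⁻¹ := by
      rw [h1, map_mul (graphEquiv F), map_mul (graphEquiv F), map_inv (graphEquiv F), graph_transv]
    rw [h5]
    obtain ⟨x, rfl⟩ := (rho 2 F (graphEquiv F k)).surjective x
    rw [rho_mul_apply, rho_mul_apply, ← rho_mul_apply (graphEquiv F k)⁻¹, inv_mul_cancel, rho_one_apply, ← rho_add,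
      sympForm_rho, h2]
  obtain ⟨w, rfl⟩ := g.1.surjective w
  have h5 : rho 2 F ((conjHom 2 F g * graphEquiv F) (transv v 1)) (g.1 w) =
      g.1 (rho 2 F (graphEquiv F (transv v 1)) w) := by
    rw [MulAut.mul_apply]
    exact (rho_conj_apply rfl w).symm
  rw [h5, ← hs.1, hs.2.2, h4, map_zero, mul_zero]

/-- **No fixed vectors.** -/
theorem no_fix [Finite F] (hq : 4 ≤ Nat.card F) {δ : MulAut (Sp4 F)} (hδ : δ ∉ (conjHom 2 F).range) {z : Sp4 F}
    (hz : δ z = z) (hz1 : z ≠ 1) (ho : Odd (orderOf z)) {v : V4 F} (hzv : rho 2 F z v = v) : v = 0 := by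
  by_contra hv
  have h1 : z * transv v 1 * z⁻¹ = transv v 1 := by rw [conj_transv', hzv]
  have h2 : z * δ (transv v 1) = δ (transv v 1) * z := by
    have h3 := congrArg δ h1
    rw [map_mul, map_mul, map_inv, hz] at h3
    exact mul_inv_eq_iff_eq_mul.1 h3
  have h3 := key hz1 ho h2 (graph_image hq hδ hv) hv hzv
  rw [map_eq_one_iff δ δ.injective] at h3
  exact Cfsg.Agent.ClassicalGeometry.SympAutExists.transv_ne_one hv one_ne_zero h3

/-- **No quadratic elements.** -/
theorem no_quad [Finite F] (hq : 4 ≤ Nat.card F) {δ : MulAut (Sp4 F)} (hδ : δ ∉ (conjHom 2 F).range) {z : Sp4 F}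
    (hz : δ z = z) (hz1 : z ≠ 1) (ho : Odd (orderOf z)) :
    ¬ ∃ s : F, ∀ v, rho 2 F z (rho 2 F z v) + s • rho 2 F z v + v = 0 := by
  rintro ⟨s, hs⟩
  obtain ⟨v, hv, hv1⟩ := stF4 F z s hs
  obtain ⟨g, rfl⟩ := exists_graph hq hδ
  obtain ⟨φ, l, hl, hg⟩ := g.2
  have h1 : rho 2 F z (g.1 v) = g.1 v := by
    have h2 := rho_conj_apply (g := g) (n := graphEquiv F z) rfl v
    rw [hv1] at h2
    have h3 : conjHom 2 F g (graphEquiv F z) = z := hz
    rw [h3] at h2
    exact h2.symm
  have h2 := no_fix hq hδ hz hz1 ho h1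
  apply hv
  apply g.1.injective
  rw [h2, semi_zero hg]

end char2

end Cfsg.Agent.H332.RC
end

-- part: H385/RC/IndPsi
section
/-!
# S3510, symplectic groups in characteristic two: automorphisms induced by semisimilitudes (helper385)

* `IndPsi e g` : conjugation by `g` on `N ≅ PSp m F` is induced by a semisimilitude
* `indPsi_of_three` : always, for `m ≥ 3`
* `indPsi_of_odd` : elements of odd order
* `IndPsi.one`, `IndPsi.mul`, `IndPsi.inv`, `IndPsi.of_mem` : these elements form a subgroup containing `N`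
-/

set_option autoImplicit false

namespace Cfsg.Agent.H385.RC

open Cfsg Cfsg.Agent.H106.RC
open Cfsg.Agent.ClassicalGeometry.SympAutSemi Cfsg.Agent.ClassicalGeometry.SympBasic

section

variable {m : ℕ} {F : Type} [Field F] {G : Type} [Group G] {N : Subgroup G}

/-- conjugation by `g` on `N ≅ PSp m F` is induced by a semisimilitude -/
def IndPsi (e : N ≃* PSp m F) (g : G) : Prop :=
  ∃ p : semiSim m F, ∀ n : N, ((e.symm (Psi m F p (e n)) : N) : G) = g * n * g⁻¹

/-- the automorphism of `PSp m F` induced by `g` -/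
noncomputable def indAut (hN : N.Normal) (e : N ≃* PSp m F) : G →* MulAut (PSp m F) :=
  (MulAut.congr e).toMonoidHom.comp MulAut.conjNormal

theorem indAut_apply (hN : N.Normal) (e : N ≃* PSp m F) (g : G) (n : N) :
    ((e.symm (indAut hN e g (e n)) : N) : G) = g * n * g⁻¹ := by
  have h1 : indAut hN e g (e n) = e (MulAut.conjNormal g n) := by
    simp only [indAut, MulAut.congr, _root_.MulEquiv.toMonoidHom_eq_coe, _root_.MonoidHom.coe_comp, _root_.MonoidHom.coe_coe, _root_.MulEquiv.coe_mk, _root_.Equiv.coe_fn_mk, _root_.Function.comp_apply, _root_.MulEquiv.trans_apply, _root_.MulEquiv.symm_apply_apply]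
  rw [h1, e.symm_apply_apply, MulAut.conjNormal_apply]

theorem indPsi_iff (hN : N.Normal) (e : N ≃* PSp m F) (g : G) :
    IndPsi e g ↔ ∃ p : semiSim m F, Psi m F p = indAut hN e g := by
  constructor
  · rintro ⟨p, hp⟩
    refine ⟨p, MulEquiv.ext fun y => ?_⟩
    obtain ⟨n, rfl⟩ := e.surjective y
    apply e.symm.injective
    apply Subtype.ext
    rw [hp, indAut_apply]
  · rintro ⟨p, hp⟩
    exact ⟨p, fun n => by rw [hp, indAut_apply]⟩

theorem IndPsi.mul (e : N ≃* PSp m F) {g k : G} (hN : N.Normal) (h1 : IndPsi e g) (h2 : IndPsi e k) :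
    IndPsi e (g * k) := by
  rw [indPsi_iff hN] at h1 h2 ⊢
  obtain ⟨p, hp⟩ := h1
  obtain ⟨p', hp'⟩ := h2
  exact ⟨p * p', by rw [map_mul, map_mul, hp, hp']⟩

theorem IndPsi.inv (e : N ≃* PSp m F) {g : G} (hN : N.Normal) (h1 : IndPsi e g) : IndPsi e g⁻¹ := by
  rw [indPsi_iff hN] at h1 ⊢
  obtain ⟨p, hp⟩ := h1
  exact ⟨p⁻¹, by rw [map_inv, map_inv, hp]⟩

theorem IndPsi.one (e : N ≃* PSp m F) : IndPsi e (1 : G) :=
  ⟨1, fun n => by rw [map_one, MulAut.one_apply, e.symm_apply_apply]; simp⟩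

theorem indPsi_of (hm : 2 ≤ m) [Finite F] (hs : m = 2 → 3 ≤ Nat.card F) (hN : N.Normal) (e : N ≃* PSp m F) {g : G}
    (hg : (3 ≤ m ∨ (2 : F) ≠ 0) ∨ Odd (orderOf g)) : IndPsi e g := by
  rw [indPsi_iff hN]
  refine Cfsg.Agent.H206.PspFix.mem_range_Psi hm hs _ ?_
  rcases hg with hg | hg
  · exact Or.inl hg
  · right
    exact hg.of_dvd_nat (orderOf_map_dvd _ g)

/-- elements of prime order not induced by a semisimilitude are involutions -/
theorem eq_two_of_not_indPsi (hm : 2 ≤ m) [Finite F] (hs : m = 2 → 3 ≤ Nat.card F) (hN : N.Normal) (e : N ≃* PSp m F)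
    {ι : Type} {x : ι → G} {r : ι → ℕ} (hx : PF x r) {i : ι} (hi : ¬ IndPsi e (x i)) : r i = 2 := by
  by_contra h
  apply hi
  apply indPsi_of hm hs hN e
  right
  have h1 : orderOf (x i) ∣ r i := orderOf_dvd_of_pow_eq_one (hx.pow i)
  exact ((hx.prime i).odd_of_ne_two h).of_dvd_nat h1

end

end Cfsg.Agent.H385.RC
end

private theorem dce_ff8adee8ad87 : _root_.True := by
  try have : _root_.True := by simp only [_root_.Cfsg.Agent.H385.RC.indAut.eq_1]
  try have : _root_.True := by simp only [_root_.Cfsg.Agent.H319.FC.blk.eq_1]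
  exact _root_.True.intro
end

-- part: H327/RC/GrOne
section
prune_inst 0x424600000010000000000001400001c42aa00040000080000488000000480ac02080200208020040010000004003000400000001000400000040004000118018000801004a0480000020090000000000000000000000000000000000000000000000000000
set_option linter.all false
open scoped Cfsg.Agent.FastGrp

-- part: H327/RC/EndTwo
section
/-!
# S3510, row D, `q` even: the end of the field automorphism case (helper327)

* `Pe` : the elementary abelian group of the `ph hw c` (characteristic two);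
* `cm_ph` : commutators of `ph hw c` with a semisimilitude fixing `e`;
* `field_end` : `{ρ y, x}` is not a cover, `x` a field automorphism, `y = tv a t⁻¹ * tv b t⁻¹` of order three.
-/

set_option autoImplicit false

namespace Cfsg.Agent.H327.RC

open Module MulAction Cfsg.Agent.H520.RC Cfsg.Agent.H106.RC Cfsg.Agent.H380.RC

section lin

variable {F : Type*} {V : Type*} [Field F] [AddCommGroup V] [Module F V] {B : LinearMap.BilinForm F V}

/-- the elements `ph` -/
def Pe (hB : NAlt B) (e : V) : Subgroup (Sp B) where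
  carrier := {g | ∃ (w : V) (hw : B w e = 0) (c : F), g = ph hB hw c}
  one_mem' := ⟨0, by rw [map_zero, LinearMap.zero_apply], 0, by rw [ph_zero, tv_zero]⟩
  mul_mem' := by
    rintro _ _ ⟨w, hw, c, rfl⟩ ⟨w', hw', c', rfl⟩
    exact ⟨_, pa hw hw', _, ph_mul hB hw hw' c c'⟩
  inv_mem' := by
    rintro _ ⟨w, hw, c, rfl⟩
    exact ⟨_, pn hw, _, ph_inv hB hw c⟩

theorem ph_mem_Pe (hB : NAlt B) {e w : V} (hw : B w e = 0) (c : F) : ph hB hw c ∈ Pe hB e := ⟨w, hw, c, rfl⟩

theorem Pe_ab (hB : NAlt B) (h2 : (2 : F) = 0) {e : V} {g h : Sp B} (hg : g ∈ Pe hB e) (hh : h ∈ Pe hB e) :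
    g * h = h * g := by
  obtain ⟨w, hw, c, rfl⟩ := hg
  obtain ⟨w', hw', c', rfl⟩ := hh
  have h1 := ph_comm hB hw hw' c c'
  rw [h2, zero_mul, tv_zero] at h1
  exact mul_inv_eq_iff_eq_mul.1 (mul_inv_eq_one.1 h1)

theorem ph_self (hB : NAlt B) (h2 : (2 : F) = 0) {e w : V} (hw : B w e = 0) (c : F) :
    ph hB hw c * ph hB hw c = 1 := by
  have h0 : B 0 e = 0 := by rw [map_zero, LinearMap.zero_apply]
  rw [ph_mul, ph_congr hB _ h0 (c' := 0) (by rw [← two_smul F w, h2, zero_smul])
    (by rw [hB.alt, add_zero, ← two_mul, h2, zero_mul]), ph_zero, tv_zero]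

theorem ph_inv2 (hB : NAlt B) (h2 : (2 : F) = 0) {e w : V} (hw : B w e = 0) (c : F) :
    (ph hB hw c)⁻¹ = ph hB hw c := by
  rw [inv_eq_iff_mul_eq_one, ph_self hB h2]

theorem cj_Pe (hB : NAlt B) {e : V} (he0 : e ≠ 0) (M : SS B) {μ : F} (he : M e = μ • e) {g : Sp B}
    (hg : g ∈ Pe hB e) : SS.cj M g ∈ Pe hB e := by
  obtain ⟨w, hw, c, rfl⟩ := hg
  have hμ : μ ≠ 0 := by
    rintro rfl
    rw [zero_smul] at he
    exact he0 (M.injective (he.trans M.map_zero.symm))
  have hw' : B ((M.l⁻¹ * μ) • M w) e = 0 := by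
    have h1 : B (M w) (M e) = 0 := by rw [M.form, hw, map_zero, mul_zero]
    rw [he, map_smul, smul_eq_mul] at h1
    rw [map_smul, LinearMap.smul_apply, (mul_eq_zero.1 h1).resolve_left hμ, smul_zero]
  rw [cj_ph hB hw c M hμ he hw']
  exact ph_mem_Pe hB hw' _

theorem lw {M : SS B} {e w : V} (he : M e = e) (hw : B w e = 0) : B (M.l⁻¹ • M w) e = 0 := by
  rw [map_smul, LinearMap.smul_apply]
  nth_rewrite 1 [← he]
  rw [M.form, hw, map_zero, mul_zero, smul_zero]

theorem cj_ph_one (hB : NAlt B) {e w : V} (hw : B w e = 0) (c : F) (M : SS B) (he : M e = e) :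
    SS.cj M (ph hB hw c) = ph hB (lw he hw) (M.σ c * M.l⁻¹) := by
  have he1 : M e = (1 : F) • e := by rw [one_smul, he]
  have hw' : B ((M.l⁻¹ * 1) • M w) e = 0 := by rw [mul_one]; exact lw he hw
  rw [cj_ph hB hw c M one_ne_zero he1 hw']
  exact ph_congr hB _ _ (by rw [mul_one]) (by rw [mul_one, mul_one])

variable {G : Type*} [Group G] {ρ : ↥(Sp B) →* G}

/-- commutators -/
theorem cm_ph (hB : NAlt B) (h2 : (2 : F) = 0) {e w : V} (hw : B w e = 0) (c : F) {x : G} {M : SS B} (hM : Lf ρ x M)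
    (he : M e = e) :
    ρ (ph hB hw c) * x * (ρ (ph hB hw c))⁻¹ * x⁻¹ =
      ρ (ph hB (pa hw (lw he hw)) (c + M.σ c * M.l⁻¹ + B (M.l⁻¹ • M w) w)) := by
  have h1 : ρ (ph hB hw c) * x * (ρ (ph hB hw c))⁻¹ * x⁻¹ =
      ρ (ph hB hw c) * (x * ρ (ph hB hw c) * x⁻¹)⁻¹ := by group
  rw [h1, hM, cj_ph_one hB hw c M he, ← map_inv, ph_inv2 hB h2, ← map_mul, ph_mul]

theorem exists_orth2 [FiniteDimensional F V] (hd : 3 ≤ finrank F V) (a b : V) :
    ∃ e : V, e ≠ 0 ∧ B a e = 0 ∧ B b e = 0 := by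
  have h3 : finrank F V ≤ finrank F (LinearMap.ker (B a)) + 1 := by
    have := LinearMap.finrank_range_add_finrank_ker (B a)
    have h4 : finrank F (LinearMap.range (B a)) ≤ 1 := by
      calc finrank F (LinearMap.range (B a)) ≤ finrank F F := Submodule.finrank_le _
        _ = 1 := finrank_self F
    omega
  have h5 : finrank F V ≤ finrank F (LinearMap.ker (B b)) + 1 := by
    have := LinearMap.finrank_range_add_finrank_ker (B b)
    have h4 : finrank F (LinearMap.range (B b)) ≤ 1 := by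
      calc finrank F (LinearMap.range (B b)) ≤ finrank F F := Submodule.finrank_le _
        _ = 1 := finrank_self F
    omega
  have h6 := Submodule.finrank_sup_add_finrank_inf_eq (LinearMap.ker (B a)) (LinearMap.ker (B b))
  have h7 := Submodule.finrank_le (LinearMap.ker (B a) ⊔ LinearMap.ker (B b))
  have : Nontrivial ↥(LinearMap.ker (B a) ⊓ LinearMap.ker (B b)) :=
    Module.nontrivial_of_finrank_pos (R := F) (by omega)
  obtain ⟨⟨w, hw⟩, hw0⟩ := exists_ne (0 : ↥(LinearMap.ker (B a) ⊓ LinearMap.ker (B b)))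
  exact ⟨w, fun h => hw0 (Subtype.ext h), LinearMap.mem_ker.1 hw.1, LinearMap.mem_ker.1 hw.2⟩

end lin

section rule

variable {F : Type*} {V : Type*} [Field F] [AddCommGroup V] [Module F V] {B : LinearMap.BilinForm F V}
  {G : Type*} [Group G] {Ω : Type*} [MulAction G Ω] {N : Subgroup G} {ρ : ↥(Sp B) →* G}

/-- the rule for two commuting elements (one of them of odd prime order) and the group `Pe` -/
theorem two_rule [Finite G] [Nonempty Ω] (E : SpEnv Ω N ρ) (h2 : (2 : F) = 0) {e : V} (he0 : e ≠ 0)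
    {x y : G} {X Y : SS B} (hX : Lf ρ x X) (hY : Lf ρ y Y) {μ ν : F} (hXe : X e = μ • e) (hYe : Y e = ν • e)
    {r s : ℕ} (hr : r.Prime) (hs : s.Prime) (hs2 : s ≠ 2) (hxr : x ^ r = 1) (hys : y ^ s = 1) (hxy : x * y = y * x)
    (hcov : ∀ ω : Ω, y • ω = ω ∨ x • ω = ω) {g : G} (hg1 : g ≠ 1) (hgx : g ∈ cmm ((Pe E.form e).map ρ) x)
    (hgy : g ∈ cmm ((Pe E.form e).map ρ) y) : False := by
  have hpg : IsPGroup 2 ((Pe E.form e).map ρ) := by
    rintro ⟨_, u, ⟨w, hw, c, rfl⟩, rfl⟩
    refine ⟨1, Subtype.ext ?_⟩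
    change (ρ (ph E.form hw c)) ^ (2 ^ 1) = 1
    rw [pow_one, pow_two, ← map_mul, ph_self E.form h2, map_one]
  have : Fact (Nat.Prime 2) := ⟨Nat.prime_two⟩
  obtain ⟨k, hk⟩ := IsPGroup.iff_card.1 hpg
  have hco : s.Coprime (Nat.card ((Pe E.form e).map ρ)) := by
    rw [hk]
    exact Nat.Coprime.pow_right _ ((Nat.coprime_primes hs Nat.prime_two).2 hs2)
  refine E.env.not_all hg1 fun ω => ?_
  obtain ⟨i, hi⟩ := cover_loc (x := ![y, x]) (r := ![s, r]) (U := (Pe E.form e).map ρ) (ω := ω)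
    (by
      intro i
      fin_cases i
      · exact hs
      · exact hr)
    (by
      intro i
      fin_cases i
      · exact hys
      · exact hxr)
    (by
      intro i j
      fin_cases i <;> fin_cases j
      · rfl
      · exact hxy.symm
      · exact hxy
      · rfl)
    (fun u _ => by
      rcases hcov (u • ω) with h | h
      · exact ⟨0, h⟩
      · exact ⟨1, h⟩)
    (by
      intro i u hu
      obtain ⟨t, ht, rfl⟩ := hu
      fin_cases i
      · exact ⟨_, cj_Pe E.form he0 Y hYe ht, (hY t).symm⟩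
      · exact ⟨_, cj_Pe E.form he0 X hXe ht, (hX t).symm⟩)
    (Or.inl ⟨by
      rintro _ ⟨u, hu, rfl⟩ _ ⟨v, hv, rfl⟩
      rw [← map_mul, ← map_mul, Pe_ab E.form h2 hu hv], by
      intro i j hi hj
      fin_cases i <;> fin_cases j
      · rfl
      · exact absurd hco hi
      · exact absurd hco hj
      · rfl⟩)
  fin_cases i
  · exact comm_le hi hgy
  · exact comm_le hi hgx

/-- **the end of the field automorphism case** -/
theorem field_end [Finite G] [Nonempty Ω] (E : SpEnv Ω N ρ) (h2 : (2 : F) = 0) {x : G} {Y : SS B} (hY : Lf ρ x Y)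
    (hσ : Y.σ ≠ 1) {r : ℕ} (hr : r.Prime) (hxr : x ^ r = 1) {t : F} (ht0 : t ≠ 0) (ht : Y.l * Y.σ t = t)
    {e a b : V} (he0 : e ≠ 0) (he : Y e = e) (ha : Y a = a) (hb : Y b = b) (hae : B a e = 0) (hbe : B b e = 0)
    (hab : B a b = t) (hcov : ∀ ω : Ω, ρ (tv E.form a t⁻¹ * tv E.form b t⁻¹) • ω = ω ∨ x • ω = ω) : False := by
  have hneg : ∀ c : F, -c = c := fun c => by
    rw [neg_eq_iff_add_eq_zero, ← two_mul, h2, zero_mul]
  have hba : B b a = t := by rw [E.form.swap b a, hneg, hab]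
  have hσt : Y.σ t ≠ 0 := (map_ne_zero Y.σ).2 ht0
  have hl := Y.hl
  have htt : Y.l⁻¹ * (Y.σ t)⁻¹ = t⁻¹ := by rw [← mul_inv, ht]
  set y : Sp B := tv E.form a t⁻¹ * tv E.form b t⁻¹ with hy
  have hyv : ∀ v, y.1 v = v + (t⁻¹ * B v b) • b + (t⁻¹ * (B v a + B v b)) • a := by
    intro v
    change (tv E.form a t⁻¹).1 ((tv E.form b t⁻¹).1 v) = _
    rw [tv_apply, tv_apply]
    simp only [map_add, map_smul, LinearMap.add_apply, LinearMap.smul_apply, smul_eq_mul, hba]
    congr 2
    field_simp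
  have hye : y.1 e = e := by
    rw [hyv, E.form.swap0 hbe, E.form.swap0 hae]
    simp
  have hya : y.1 a = b := by
    rw [hyv, hab, E.form.alt, zero_add, inv_mul_cancel₀ ht0, one_smul, one_smul, add_assoc, add_comm b a, ← add_assoc,
      ← two_smul F a, h2, zero_smul, zero_add]
  have hyb : y.1 b = b + a := by
    rw [hyv, hba, E.form.alt, add_zero, inv_mul_cancel₀ ht0, one_smul, mul_zero, zero_smul, add_zero]
  have hy3 : y ^ 3 = 1 := by
    refine sp_ext fun v => ?_
    change y.1 (y.1 (y.1 v)) = v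
    obtain ⟨α, β, h3⟩ : ∃ α β : F, y.1 v = v + β • b + (α + β) • a :=
      ⟨t⁻¹ * B v a, t⁻¹ * B v b, by rw [hyv, mul_add]⟩
    rw [h3]
    simp only [map_add, map_smul, hya, hyb, smul_add, h3]
    have h4 : v = v + (2 * (α + 3 * β)) • b + (2 * (α + 2 * β)) • a := by
      rw [h2, zero_mul, zero_mul, zero_smul, zero_smul, add_zero, add_zero]
    nth_rewrite 2 [h4]
    module
  obtain ⟨s, hs⟩ : ∃ s, Y.σ s ≠ s := by
    by_contra hno
    push Not at hno
    exact hσ (RingEquiv.ext hno)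
  set μ : F := s + Y.σ s with hμ
  have hμ0 : μ ≠ 0 := by
    intro h0
    apply hs
    have h3 : Y.σ s = -s := by linear_combination h0
    rw [h3, hneg]
  have habe : B (a + b) e = 0 := pa hae hbe
  have hz : B ((μ * t⁻¹) • (a + b)) e = 0 := by rw [map_smul, LinearMap.smul_apply, habe, smul_zero]
  have hLy : Lf ρ (ρ y) (SS.tg y) := Lf.tg y
  have hye' : SS.tg y e = e := hye
  refine two_rule E h2 he0 hY hLy (μ := 1) (ν := 1) (by rw [one_smul, he]) (by rw [one_smul, hye']) hr Nat.prime_three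
    (by norm_num) hxr (by rw [← map_pow, hy3, map_one]) ?_ hcov (g := ρ (ph E.form hz (μ * μ * t⁻¹))) ?_ ?_ ?_
  · -- commute
    have h1 : SS.cj Y y = y := by
      rw [hy, map_mul, cj_tv, cj_tv, ha, hb, map_inv₀, mul_comm (Y.σ t)⁻¹, htt]
    have h3 := hY y
    rw [h1] at h3
    exact mul_inv_eq_iff_eq_mul.1 h3
  · -- nontrivial
    intro h1
    obtain ⟨k, hk⟩ := (E.ker _).1 h1
    have h3 := hk e
    rw [ph_apply, E.form.alt, E.form.swap0 hz, zero_smul, mul_zero, add_zero, add_zero, zero_smul, add_zero] at h3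
    have hk1 : k = 1 := by
      have h4 : (k - 1) • e = 0 := by rw [sub_smul, one_smul, ← h3, sub_self]
      exact sub_eq_zero.1 ((smul_eq_zero.1 h4).resolve_right he0)
    have h4 := hk a
    rw [hk1, one_smul, ph_apply, hae, zero_smul, mul_zero, add_zero, add_zero, add_eq_left, smul_eq_zero] at h4
    have h5 := h4.resolve_right he0
    rw [map_smul, map_add, E.form.alt, zero_add, hab, smul_eq_mul, inv_mul_cancel_right₀ ht0] at h5
    exact hμ0 h5
  · -- the field automorphism
    have hw : B ((s * t⁻¹) • (a + b)) e = 0 := by rw [map_smul, LinearMap.smul_apply, habe, smul_zero]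
    have h1 := mem_cmm (x := x) (U := (Pe E.form e).map ρ) ⟨_, ph_mem_Pe E.form hw (s * s * t⁻¹), rfl⟩
    rw [cm_ph E.form h2 hw _ hY he] at h1
    have h3 : Y.l⁻¹ • Y ((s * t⁻¹) • (a + b)) = (Y.σ s * t⁻¹) • (a + b) := by
      rw [Y.map_smul, Y.map_add, ha, hb, smul_smul, map_mul, map_inv₀, ← htt]
      congr 1
      ring
    have h4 : ph E.form (pa hw (lw he hw)) (s * s * t⁻¹ + Y.σ (s * s * t⁻¹) * Y.l⁻¹ +
        B (Y.l⁻¹ • Y ((s * t⁻¹) • (a + b))) ((s * t⁻¹) • (a + b))) = ph E.form hz (μ * μ * t⁻¹) := by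
      refine ph_congr E.form _ _ ?_ ?_
      · rw [h3, ← add_smul, hμ]
        congr 1
        ring
      · rw [h3, map_smul, map_smul, LinearMap.smul_apply, E.form.alt, smul_zero, smul_zero, add_zero, map_mul,
          map_mul, map_inv₀, mul_assoc _ (Y.σ t)⁻¹, mul_comm (Y.σ t)⁻¹, htt, hμ]
        linear_combination (-(s * Y.σ s * t⁻¹)) * h2
    rwa [h4] at h1
  · -- the element of order three
    have hw : B ((μ * t⁻¹) • a) e = 0 := by rw [map_smul, LinearMap.smul_apply, hae, smul_zero]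
    have h1 := mem_cmm (x := ρ y) (U := (Pe E.form e).map ρ) ⟨_, ph_mem_Pe E.form hw 0, rfl⟩
    rw [cm_ph E.form h2 hw _ hLy hye'] at h1
    have h3 : (SS.tg y).l⁻¹ • SS.tg y ((μ * t⁻¹) • a) = (μ * t⁻¹) • b := by
      change (1 : F)⁻¹ • y.1 ((μ * t⁻¹) • a) = _
      rw [inv_one, one_smul, map_smul, hya]
    have h4 : ph E.form (pa hw (lw hye' hw)) (0 + (SS.tg y).σ 0 * (SS.tg y).l⁻¹ +
        B ((SS.tg y).l⁻¹ • SS.tg y ((μ * t⁻¹) • a)) ((μ * t⁻¹) • a)) = ph E.form hz (μ * μ * t⁻¹) := by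
      refine ph_congr E.form _ _ ?_ ?_
      · rw [h3, smul_add]
      · rw [h3, map_zero, zero_mul, zero_add, zero_add, map_smul, map_smul, LinearMap.smul_apply, hba, smul_eq_mul,
          smul_eq_mul]
        field_simp
    rwa [h4] at h1

end rule

end Cfsg.Agent.H327.RC
end

-- part: H327/RC/SemiTwo
section
/-!
# S3510, row D, `q` even: no member is a field automorphism with `|F_0| > 2` (or dimension at least six) (helper327)
-/

set_option autoImplicit false

namespace Cfsg.Agent.H327.RC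

open Module MulAction Cfsg.Agent.H520.RC Cfsg.Agent.H106.RC Cfsg.Agent.H380.RC

section

variable {F : Type*} {V : Type*} [Field F] [AddCommGroup V] [Module F V] {B : LinearMap.BilinForm F V}

/-- three fixed vectors `a`, `b`, `e` with `B a b = t`, `e` orthogonal to `a`, `b` -/
theorem exists_triple (hB : NAlt B) (hd : 4 ≤ finrank F V) {Y : SS B} {n : ℕ} {b : Basis (Fin n) F V}
    (hb : ∀ i, Y (b i) = b i) {t : F} (ht0 : t ≠ 0) (ht : Y.l * Y.σ t = t) :
    ∃ u v e : V, e ≠ 0 ∧ Y e = e ∧ Y u = u ∧ Y v = v ∧ B u e = 0 ∧ B v e = 0 ∧ B u v = t := by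
  have hn : n = finrank F V := by rw [Module.finrank_eq_card_basis b, Fintype.card_fin]
  have hV0 : finrank (Fx Y.σ) (V0 Y) = n := by
    rw [Module.finrank_eq_card_basis (b0 hb), Fintype.card_fin]
  have hfd : FiniteDimensional (Fx Y.σ) (V0 Y) := Module.Finite.of_basis (b0 hb)
  have hB0 := nalt_B0 ht0 ht hb hB
  have hnt : Nontrivial (V0 Y) := Module.nontrivial_of_finrank_pos (R := Fx Y.σ) (by omega)
  obtain ⟨u, hu⟩ := exists_ne (0 : V0 Y)
  obtain ⟨v, hv⟩ := hB0.exists_one hu
  obtain ⟨e, he0, hue, hve⟩ := exists_orth2 (B := B0 (Y := Y) ht0 ht) (by omega) u v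
  refine ⟨u, v, e, fun h => he0 (Subtype.ext h), V0_fix e, V0_fix u, V0_fix v, ?_, ?_, ?_⟩
  · rw [B_eq ht0 ht, hue]
    exact mul_zero t
  · rw [B_eq ht0 ht, hve]
    exact mul_zero t
  · rw [B_eq ht0 ht, hv]
    exact mul_one t

end

section dead

variable {F : Type} {V : Type} [Field F] [Finite F] [AddCommGroup V] [Module F V] [FiniteDimensional F V]
  {B : LinearMap.BilinForm F V} {G : Type} [Group G] [Finite G] {Ω : Type} [Nonempty Ω] [MulAction G Ω]
  {N : Subgroup G} {ρ : ↥(Sp B) →* G} {ι : Type} [Finite ι] {x : ι → G} {r : ι → ℕ} {M : ι → SS B}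

/-- **no member is a field automorphism with `|F_0| > 2`, `q` even** -/
theorem dead_field (E : SpEnv Ω N ρ) (hIH : IH (Nat.card N)) (h2 : (2 : F) = 0)
    (hx : PF x r) (hcov : Cov Ω x) (hM : ∀ i, Lf ρ (x i) (M i)) (i0 : ι) {Y : SS B} {n : ℕ} {b : Basis (Fin n) F V}
    (hY : Lf ρ (x i0) Y) (hb : ∀ i, Y (b i) = b i) (hσ : Y.σ ≠ 1)
    (h6 : 6 ≤ finrank F V ∨ 3 ≤ Nat.card (Fx Y.σ)) : False := by
  have hV := SpEnv_nontrivial E
  obtain ⟨t, ht0, ht⟩ := exists_t E.form hb
  obtain ⟨u, v, e, he0, he, hu, hv, hue, hve, huv⟩ := exists_triple E.form E.dim hb ht0 ht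
  refine field_end E h2 hY hσ (hx.prime i0) (hx.pow i0) ht0 ht he0 he hu hv hue hve huv fun ω => ?_
  rcases mrule_field E hIH hx hcov hM i0 hY hb hσ ht0 ht h6 ω with h | h
  · left
    have h5 := h (tv (nalt_B0 ht0 ht hb E.form) ⟨u, hu⟩ 1 * tv (nalt_B0 ht0 ht hb E.form) ⟨v, hv⟩ 1)
    (rewrite [map_mul] at h5; (conv at h5 => enter [@2, @5, @6, @5]; rw [ext_tv ht0 ht hb E.form]); rewrite [ext_tv ht0 ht hb E.form] at h5)
    have h6 : (((1 : Fx Y.σ) : F) * t⁻¹) = t⁻¹ := one_mul _
    rwa [h6] at h5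
  · exact Or.inr h

end dead

/-! ### the environment `Ev` -/

section ev

open Cfsg.Agent.H385.RC

theorem Ev_sp {F V G Ω : Type*} [Field F] [AddCommGroup V] [Module F V] [Group G] [DistribMulAction G V]
    [MulAction G Ω] {B : LinearMap.BilinForm F V} {N : Subgroup G} (h : Ev B N) (hE : Env G Ω N)
    (hd : 4 ≤ finrank F V) :
    ∃ ρ : ↥(Sp B) →* G, (∀ t v, ρ t • v = t.1 v) ∧ SpEnv Ω N ρ ∧ ∀ x : G, ∃ M : SS B, M.l = 1 ∧ (∀ v, M v = x • v) ∧
      Lf ρ x M := by
  choose g hg using fun t : ↥(Sp B) => h.surj t.1 t.2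
  let ρ : ↥(Sp B) →* G := MonoidHom.mk' g (fun s t => h.ext fun v => by
    rw [hg, mul_smul, hg, hg]
    rfl)
  have hρ : ∀ t v, ρ t • v = t.1 v := hg
  have hL : ∀ x : G, ∃ M : SS B, M.l = 1 ∧ (∀ v, M v = x • v) ∧ Lf ρ x M := by
    intro x
    obtain ⟨σ, h1, h2⟩ := h.semi x
    let M : SS B :=
      { f := DistribMulAction.toAddEquiv V x
        σ := σ
        l := 1
        hl := one_ne_zero
        smul' := h1
        form' := fun u v => by rw [one_mul]; exact h2 u v }
    have hMv : ∀ v, M v = x • v := fun v => rfl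
    refine ⟨M, rfl, hMv, fun t => h.ext fun v => ?_⟩
    obtain ⟨v, rfl⟩ := M.surjective v
    rw [hρ, SS.cj_apply, hMv, hMv, mul_smul, mul_smul, inv_smul_smul, hρ]
  refine ⟨ρ, hρ, ⟨hE, ⟨h.alt, h.nd⟩, ?_, fun t => ⟨fun ht => ⟨1, fun v => ?_⟩, ?_⟩, fun x => ?_, hd⟩, hL⟩
  · ext x
    constructor
    · rintro ⟨t, rfl⟩
      rw [h.mem]
      intro a v
      rw [hρ, hρ, map_smul]
    · intro hx
      refine ⟨⟨{ toFun := fun v => x • v
                 invFun := fun v => x⁻¹ • v
                 left_inv := fun v => inv_smul_smul _ _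
                 right_inv := fun v => smul_inv_smul _ _
                 map_add' := fun u v => smul_add _ _ _
                 map_smul' := fun a v => h.lin hx a v }, fun u v => h.isom hx u v⟩, h.ext fun v => ?_⟩
      rw [hρ]
      rfl
  · rw [← hρ, ht, one_smul, one_smul]
  · rintro ⟨a, ha⟩
    have hV : Nontrivial V := Module.nontrivial_of_finrank_pos (R := F) (by omega)
    obtain ⟨v, hv⟩ := _root_.exists_ne (0 : V)
    have hB : NAlt B := ⟨h.alt, h.nd⟩
    obtain ⟨w, hw⟩ := hB.exists_one hv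
    have h1 := t.2 v w
    rw [ha, ha, map_smul, map_smul, LinearMap.smul_apply, hw, smul_eq_mul, smul_eq_mul, mul_one] at h1
    have h2 : a = 1 := by
      have h3 : (a - 1) * (a - 1) = 0 := by linear_combination h1 + (1 - a) * h.two
      exact sub_eq_zero.1 (mul_self_eq_zero.1 h3)
    refine h.inj _ fun v => ?_
    rw [hρ, ha, h2, one_smul]
  · obtain ⟨M, -, -, hM⟩ := hL x
    exact ⟨M, hM⟩

/-- **no member is a field automorphism with `|F_0| > 2` (or dimension at least six), `q` even**, environment `Ev` -/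
theorem ev_field {F V G Ω S : Type} [Field F] [Finite F] [AddCommGroup V] [Module F V] [FiniteDimensional F V] [Group G]
    [Finite G] [DistribMulAction G V] {B : LinearMap.BilinForm F V} {N : Subgroup G} (h : Ev B N) [MulAction G Ω]
    [Nonempty Ω] (hE : Env G Ω N) [Group S] [Finite S] (hIH : IH (Nat.card S)) (eS : N ≃* S) {ι : Type} [Finite ι]
    {x : ι → G} {r : ι → ℕ} (hx : PF x r) (hcov : Cov Ω x) (hdim : 4 ≤ finrank F V) (i : ι) (hi : x i ∉ N)
    (hc : 6 ≤ finrank F V ∨ ∃ c : F, c ≠ 0 ∧ c ≠ 1 ∧ ∀ v : V, x i • c • v = c • x i • v) : False := by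
  obtain ⟨ρ, hρ, E, hL⟩ := Ev_sp h hE hdim
  choose M hMl hMv hM using fun i => hL (x i)
  have hi0 : ¬ (M i).IsLin := by
    intro h1
    apply hi
    rw [h.mem]
    intro a v
    rw [← hMv, ← hMv, h1.map_smul]
  obtain ⟨Y, b, hY, hb, hord⟩ := exists_Y E (hM i) (hx.prime i) (hx.pow i) hi0
  have hσ : Y.σ ≠ 1 := by
    intro h
    rw [h, orderOf_one] at hord
    exact (hx.prime i).ne_one hord.symm
  rw [← Nat.card_congr eS.toEquiv] at hIH
  refine dead_field E hIH h.two hx hcov hM i hY hb hσ ?_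
  rcases hc with hc | ⟨c, hc0, hc1, hc⟩
  · exact Or.inl hc
  · right
    have hV := SpEnv_nontrivial E
    obtain ⟨v, hv⟩ := _root_.exists_ne (0 : V)
    have hYc : Y.σ c = c := by
      obtain ⟨a, ha, h1⟩ := E.lf_unique (hM i) hY
      have h3 : Y (c • v) = c • Y v := by rw [h1, h1, hMv, hMv, hc, smul_comm]
      rw [Y.map_smul] at h3
      have h4 : (Y.σ c - c) • Y v = 0 := by rw [sub_smul, h3, sub_self]
      rcases smul_eq_zero.1 h4 with h5 | h5
      · exact sub_eq_zero.1 h5
      · exact absurd (Y.injective (h5.trans Y.map_zero.symm)) hv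
    have h4 : 2 ≤ Nat.card (Fx Y.σ) := Finite.one_lt_card
    by_contra h5
    have h6 : Nat.card (Fx Y.σ) = 2 := by omega
    rw [Nat.card_eq_two_iff' (0 : Fx Y.σ)] at h6
    obtain ⟨z, hz, hz'⟩ := h6
    have h7 := hz' 1 one_ne_zero
    have h8 := hz' ⟨c, mem_Fx.2 hYc⟩ (fun h9 => hc0 (congrArg Subtype.val h9))
    apply hc1
    exact congrArg Subtype.val (h8.trans h7.symm)

end ev

end Cfsg.Agent.H327.RC
end

-- part: H327/RC/Lift
section
/-!
# S3510, row D, `Sp_4(q)`, `q` even: lifts (helper327)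

`ρ : Sp B →* G`, range `N`, kernel the scalars.
* `exists_lf` : `x` sends some transvection to a transvection, characteristic two ==> `x` has a lift in `SS B`.
-/

set_option autoImplicit false
open Cfsg

namespace Cfsg.Agent.H327.RC

open Module MulAction Cfsg.Agent.H520.RC
open Cfsg.Agent.ClassicalGeometry.SympAutSemi Cfsg.Agent.ClassicalGeometry.SympBasic
  Cfsg.Agent.ClassicalGeometry.SympAutExists

variable {F : Type*} {V : Type*} [Field F] [AddCommGroup V] [Module F V]
  {B : LinearMap.BilinForm F V} {G : Type*} [Group G] {N : Subgroup G} {ρ : ↥(Sp B) →* G}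

/-- the semisimilitude of `B` given by a semisimilitude of the standard form -/
def ssOf {m : ℕ} (e : (Fin m ⊕ Fin m → F) ≃ₗ[F] V) (he : ∀ x y, B (e x) (e y) = sympForm m F x y)
    (g : Equiv.Perm (Fin m ⊕ Fin m → F)) {φ : F ≃+* F} {l : F} (hl : l ≠ 0) (hg : IsSemi g φ l) : SS B where
  f := { toFun := fun v => e (g (e.symm v))
         invFun := fun v => e (g.symm (e.symm v))
         left_inv := fun v => by simp
         right_inv := fun v => by simp
         map_add' := fun u v => by rw [map_add, hg.1, map_add] }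
  σ := φ
  l := l
  hl := hl
  smul' a v := by
    show e (g (e.symm (a • v))) = φ a • e (g (e.symm v))
    rw [map_smul, hg.2.1, map_smul]
  form' u v := by
    show B (e (g (e.symm u))) (e (g (e.symm v))) = l * φ (B u v)
    rw [he, hg.2.2, ← he, e.apply_symm_apply, e.apply_symm_apply]

theorem ssOf_apply {m : ℕ} (e : (Fin m ⊕ Fin m → F) ≃ₗ[F] V) (he : ∀ x y, B (e x) (e y) = sympForm m F x y)
    (g : Equiv.Perm (Fin m ⊕ Fin m → F)) {φ : F ≃+* F} {l : F} (hl : l ≠ 0) (hg : IsSemi g φ l)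
    (v : Fin m ⊕ Fin m → F) : ssOf e he g hl hg (e v) = e (g v) := by
  show e (g (e.symm (e v))) = _
  rw [e.symm_apply_apply]

/-- an element inducing a semisimilitude on `PSp` has a lift -/
theorem lf_of_semi {m : ℕ} (e : (Fin m ⊕ Fin m → F) ≃ₗ[F] V) (he : ∀ x y, B (e x) (e y) = sympForm m F x y)
    {x : G} (y : MulAut (PSp m F))
    (hy : ∀ A A' : Matrix.symplecticGroup (Fin m) F, y (pr A) = pr A' →
      x * ρ (spHom e he A) * x⁻¹ = ρ (spHom e he A')) (g : semiSim m F) (hg : Psi m F g = y) :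
    ∃ M : SS B, Lf ρ x M := by
  obtain ⟨τ, l, hl, hs⟩ := g.2
  refine ⟨ssOf e he g.1 hl hs, fun t => ?_⟩
  obtain ⟨A, rfl⟩ := (spHom_bijective e he).2 t
  rw [hy A (conjHom m F g A) (by rw [← hg]; rfl)]
  congr 1
  symm
  refine SS.cj_eq fun v => ?_
  obtain ⟨v, rfl⟩ := e.surjective v
  rw [ssOf_apply, spHom_apply, spHom_apply, e.symm_apply_apply, e.symm_apply_apply, ssOf_apply, rho_conjHom]
  rw [Equiv.Perm.mul_apply, Equiv.Perm.mul_apply, perm_inv_apply_self]

/-- the automorphism of `PSp` induced by an element normalising `N` -/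
theorem exists_ind_psp [hN : N.Normal] {m : ℕ} (e : (Fin m ⊕ Fin m → F) ≃ₗ[F] V)
    (he : ∀ x y, B (e x) (e y) = sympForm m F x y) (hr : ρ.range = N)
    (hk : ∀ t : ↥(Sp B), ρ t = 1 ↔ t ∈ Subgroup.center (Sp B)) (x : G) :
    ∃ y : MulAut (PSp m F), ∀ A A' : Matrix.symplecticGroup (Fin m) F, y (pr A) = pr A' ↔
      x * ρ (spHom e he A) * x⁻¹ = ρ (spHom e he A') := by
  let S : Matrix.symplecticGroup (Fin m) F ≃* Sp B := MulEquiv.ofBijective (spHom e he) (spHom_bijective e he)
  let Φ0 : Matrix.symplecticGroup (Fin m) F →* N :=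
    (ρ.codRestrict N (fun t => by rw [← hr]; exact ⟨t, rfl⟩)).comp (spHom e he)
  have hΦ0 : ∀ A, ((Φ0 A : N) : G) = ρ (spHom e he A) := fun A => rfl
  have hsurj : Function.Surjective Φ0 := by
    rintro ⟨n, hn⟩
    rw [← hr] at hn
    obtain ⟨t, rfl⟩ := hn
    obtain ⟨A, rfl⟩ := (spHom_bijective e he).2 t
    exact ⟨A, rfl⟩
  have hker : Φ0.ker = Subgroup.center (Matrix.symplecticGroup (Fin m) F) := by
    ext A
    rw [MonoidHom.mem_ker]
    have h1 : Φ0 A = 1 ↔ ρ (spHom e he A) = 1 := by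
      rw [← hΦ0]
      exact ⟨fun h => by rw [h]; rfl, fun h => Subtype.ext h⟩
    rw [h1, hk, Subgroup.mem_center_iff, Subgroup.mem_center_iff]
    constructor
    · intro h2 C
      apply (spHom_bijective e he).1
      rw [map_mul, map_mul, h2]
    · intro h2 t
      obtain ⟨C, rfl⟩ := (spHom_bijective e he).2 t
      rw [← map_mul, ← map_mul, h2]
  let Φ : PSp m F ≃* N := (QuotientGroup.quotientMulEquivOfEq hker.symm).trans
    (QuotientGroup.quotientKerEquivOfSurjective Φ0 hsurj)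
  have hΦ : ∀ A, Φ (pr A) = Φ0 A := fun A => rfl
  refine ⟨(Φ.trans (MulAut.conjNormal x)).trans Φ.symm, fun A A' => ?_⟩
  have h1 : ((Φ.trans (MulAut.conjNormal x)).trans Φ.symm) (pr A) = Φ.symm (MulAut.conjNormal x (Φ (pr A))) := rfl
  rw [h1, MulEquiv.symm_apply_eq, hΦ, hΦ, ← hΦ0, ← hΦ0, ← MulAut.conjNormal_apply]
  exact ⟨fun h => by rw [h], fun h => Subtype.ext h⟩

theorem exists_lf [Finite F] [FiniteDimensional F V] [hN : N.Normal] (hB : NAlt B) (h2 : (2 : F) = 0) (hd : 4 ≤ finrank F V) (hr : ρ.range = N)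
    (hk : ∀ t : ↥(Sp B), ρ t = 1 ↔ ∃ a : F, ∀ v, t.1 v = a • v) {x : G} {e e' : V} {c c' : F} (he : e ≠ 0)
    (he' : e' ≠ 0) (hc : c ≠ 0) (hc' : c' ≠ 0)
    (hx : x * ρ (tv hB e c) * x⁻¹ = ρ (tv hB e' c')) : ∃ M : SS B, Lf ρ x M := by
  obtain ⟨m, hm⟩ := exists_dim hB
  obtain ⟨E, hE⟩ := Cfsg.Agent.ClassicalGeometry.SympIso.exists_linearEquiv_sympForm B hB.alt hB.nd hm
  have hm2 : 2 ≤ m := by omega
  have hk' : ∀ t : ↥(Sp B), ρ t = 1 ↔ t ∈ Subgroup.center (Sp B) := fun t => by
    rw [mem_center_Sp hB, hk]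
  obtain ⟨y, hy⟩ := exists_ind_psp E hE hr hk' x
  obtain ⟨v, rfl⟩ := E.surjective e
  obtain ⟨v', rfl⟩ := E.surjective e'
  have hv : v ≠ 0 := fun h => he (by rw [h, map_zero])
  have hv' : v' ≠ 0 := fun h => he' (by rw [h, map_zero])
  have h1 : y (pr (transv v c)) = pr (transv v' c') := by
    rw [hy, spHom_transv E hE hB, spHom_transv E hE hB]
    exact hx
  have hP : Pres y := by
    intro w hw d hd'
    obtain ⟨g, hg⟩ := Cfsg.Agent.ClassicalGeometry.SympAutTwo.transv_conj h2 hv hw hc hd'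
    obtain ⟨w', hw', e1⟩ := Cfsg.Agent.ClassicalGeometry.AutPSpCount.exists_conj_mk_transv (y (pr g)) hv' c'
    refine ⟨w', hw', c', hc', ?_⟩
    change _ = (QuotientGroup.mk (transv w' c') : PSp m F)
    rw [← e1, ← hg, pr_mul, pr_mul, pr_inv, map_mul, map_mul, map_inv, h1]
    rfl
  obtain ⟨g, hg⟩ := exists_semi hm2 y hP
  exact lf_of_semi E hE y (fun A A' h => (hy A A').1 h) g hg

end Cfsg.Agent.H327.RC
end

-- part: H327/RC/GEnv
section
/-!
# S3510, row D: members without lift (graph automorphisms of `Sp_4(q)`, `q` even) (helper327)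

* `GEnv` : `SpEnv` without the hypothesis that all elements have lifts;
* `Lp ρ` : the subgroup of the elements which have lifts; `rp ρ`; `GEnv.sp` : `SpEnv` for `Lp ρ`;
* `mrule_f` : M-rule for a homomorphism `f : X →* G` whose kernel is central;
* `norm_fix` : every element commuting with a field automorphism normalises `ρ (ext Sp (V0))`;
* `gr_field` : no member is a field automorphism with `|F_0| > 2` (or dimension at least six).
-/

set_option autoImplicit false

namespace Cfsg.Agent.H327.RC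

open Module MulAction Cfsg.Agent.H520.RC Cfsg.Agent.H106.RC Cfsg.Agent.H380.RC

section defs

variable {F : Type*} {V : Type*} [Field F] [AddCommGroup V] [Module F V] {B : LinearMap.BilinForm F V}
  {G : Type*} [Group G]

/-- environment without lifts -/
structure GEnv (Ω : Type*) [MulAction G Ω] (N : Subgroup G) (ρ : ↥(Sp B) →* G) : Prop where
  env : Env G Ω N
  form : NAlt B
  range : ρ.range = N
  ker : ∀ t : ↥(Sp B), ρ t = 1 ↔ ∃ a : F, ∀ v, t.1 v = a • v
  dim : 4 ≤ finrank F V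

/-- the elements which have a lift -/
def Lp (ρ : ↥(Sp B) →* G) : Subgroup G where
  carrier := {x | ∃ M : SS B, Lf ρ x M}
  one_mem' := ⟨1, Lf.one⟩
  mul_mem' := by
    rintro x y ⟨M, hM⟩ ⟨L, hL⟩
    exact ⟨M * L, hM.mul hL⟩
  inv_mem' := by
    rintro x ⟨M, hM⟩
    exact ⟨M⁻¹, hM.inv⟩

variable {ρ : ↥(Sp B) →* G}

theorem rho_mem_Lp (t : ↥(Sp B)) : ρ t ∈ Lp ρ := ⟨_, Lf.tg t⟩

/-- `ρ` with values in the elements with lifts -/
def rp (ρ : ↥(Sp B) →* G) : ↥(Sp B) →* Lp ρ := ρ.codRestrict (Lp ρ) rho_mem_Lp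

theorem lf_rp {x : Lp ρ} {M : SS B} : Lf (rp ρ) x M ↔ Lf ρ (x : G) M := by
  constructor
  · intro h t
    have h1 := congrArg (fun z : Lp ρ => (z : G)) (h t)
    exact h1
  · intro h t
    exact Subtype.ext (h t)

variable {Ω : Type*} [MulAction G Ω] {N : Subgroup G}

theorem GEnv.le (E : GEnv Ω N ρ) : N ≤ Lp ρ := by
  intro n hn
  rw [← E.range] at hn
  obtain ⟨t, rfl⟩ := hn
  exact rho_mem_Lp t

theorem GEnv.sp (E : GEnv Ω N ρ) : SpEnv Ω (N.subgroupOf (Lp ρ)) (rp ρ) where
  env := by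
    have hN := E.env.norm
    have e := Subgroup.subgroupOfEquivOfLe E.le
    refine ⟨inferInstance, isSimple_cgr0 e.symm E.env.simple, fun h => E.env.ncomm ⟨⟨fun a b => ?_⟩⟩, ?_, fun ω h => ?_⟩
    · apply e.symm.injective
      rw [map_mul, map_mul]
      exact h.is_comm.comm _ _
    · rw [eq_bot_iff]
      intro x hx
      have h1 : (x : G) ∈ Subgroup.centralizer (N : Set G) := by
        rw [Subgroup.mem_centralizer_iff]
        intro n hn
        have h2 := Subgroup.mem_centralizer_iff.1 hx ⟨n, E.le hn⟩ (by exact hn)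
        exact congrArg Subtype.val h2
      rw [E.env.cent] at h1
      exact Subgroup.mem_bot.2 (Subtype.ext (Subgroup.mem_bot.1 h1))
    · apply E.env.nofix ω
      intro n hn
      have h2 : (⟨n, E.le hn⟩ : Lp ρ) ∈ stabilizer (Lp ρ) ω := h (by exact hn)
      exact h2
  form := E.form
  range := by
    ext x
    rw [Subgroup.mem_subgroupOf, ← E.range]
    constructor
    · rintro ⟨t, rfl⟩
      exact ⟨t, rfl⟩
    · rintro ⟨t, ht⟩
      exact ⟨t, Subtype.ext ht⟩
  ker := fun t => by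
    rw [← E.ker]
    exact ⟨fun h => congrArg Subtype.val h, fun h => Subtype.ext h⟩
  lift := fun x => by
    obtain ⟨M, hM⟩ := x.2
    exact ⟨M, lf_rp.2 hM⟩
  dim := E.dim

/-- in characteristic two `ρ` is injective -/
theorem GEnv.inj [FiniteDimensional F V] (E : GEnv Ω N ρ) (h2 : (2 : F) = 0) : Function.Injective ρ := by
  rw [injective_iff_map_eq_one]
  intro t ht
  obtain ⟨a, ha⟩ := (E.ker t).1 ht
  have hV : Nontrivial V := Module.nontrivial_of_finrank_pos (R := F) (by have := E.dim; omega)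
  obtain ⟨v, hv⟩ := _root_.exists_ne (0 : V)
  obtain ⟨w, hw⟩ := E.form.exists_one hv
  have h1 := t.2 v w
  rw [ha, ha, map_smul, map_smul, LinearMap.smul_apply, hw, smul_eq_mul, smul_eq_mul, mul_one] at h1
  have h3 : a = 1 := by
    have h3 : (a - 1) * (a - 1) = 0 := by linear_combination h1 + (1 - a) * h2
    exact sub_eq_zero.1 (mul_self_eq_zero.1 h3)
  refine sp_ext fun v => ?_
  rw [ha, h3, one_smul]
  rfl

end defs

section mrule

/-- `x` of finite order with `x K x⁻¹ ≤ K` normalises `K` -/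
theorem mem_norm_of_pow {G : Type*} [Group G] {K : Subgroup G} {x : G} {n : ℕ} (hn : 0 < n) (hx : x ^ n = 1)
    (h : ∀ m ∈ K, x * m * x⁻¹ ∈ K) : x ∈ Subgroup.normalizer (K : Set G) := by
  rw [Subgroup.mem_normalizer_iff]
  intro m
  refine ⟨fun hm => h m hm, fun hm => ?_⟩
  have h4 : ∀ k : ℕ, x ^ k * (x * m * x⁻¹) * (x ^ k)⁻¹ ∈ K := by
    intro k
    induction k with
    | zero => simpa using hm
    | succ k ih =>
      have h5 := h _ ih
      have h6 : x * (x ^ k * (x * m * x⁻¹) * (x ^ k)⁻¹) * x⁻¹ = x ^ (k + 1) * (x * m * x⁻¹) * (x ^ (k + 1))⁻¹ := by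
        rw [pow_succ']
        group
      rwa [h6] at h5
  obtain ⟨k, rfl⟩ : ∃ k, n = k + 1 := ⟨n - 1, by omega⟩
  have h4 := h4 k
  have h5 : x ^ k = x⁻¹ := by
    rw [eq_inv_iff_mul_eq_one, ← pow_succ]
    exact hx
  rw [h5] at h4
  have h6 : x⁻¹ * (x * m * x⁻¹) * (x⁻¹)⁻¹ = m := by group
  rwa [h6] at h4

/-- the data of the M-rule for a homomorphism with central kernel -/
theorem exists_proj {G X : Type*} [Group G] [Group X] (f : X →* G) (hker : ∀ s, f s = 1 → s ∈ Subgroup.center X) :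
    ∃ π : f.range →* X ⧸ Subgroup.center X, (∀ s, π ⟨f s, s, rfl⟩ = QuotientGroup.mk s) ∧
      Function.Surjective π ∧ π.ker ≤ Subgroup.center f.range := by
  have hlift : ∀ m : f.range, ∃ s, f s = m := fun m => m.2
  let π : f.range →* X ⧸ Subgroup.center X :=
    { toFun := fun m => QuotientGroup.mk (hlift m).choose
      map_one' := by
        rw [QuotientGroup.eq_one_iff]
        exact hker _ (hlift 1).choose_spec
      map_mul' := fun m n => by
        rw [← QuotientGroup.mk_mul, QuotientGroup.eq]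
        apply hker
        rw [map_mul, map_inv, map_mul, (hlift _).choose_spec, (hlift _).choose_spec, (hlift _).choose_spec]
        rw [Subgroup.coe_mul]
        group }
  have hπ : ∀ s, π ⟨f s, s, rfl⟩ = QuotientGroup.mk s := by
    intro s
    show QuotientGroup.mk (hlift ⟨f s, s, rfl⟩).choose = _
    rw [QuotientGroup.eq]
    apply hker
    rw [map_mul, map_inv, (hlift _).choose_spec, inv_mul_cancel]
  refine ⟨π, hπ, fun y => ?_, ?_⟩
  · obtain ⟨s, rfl⟩ := QuotientGroup.mk_surjective y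
    exact ⟨_, hπ s⟩
  · rintro ⟨_, s, rfl⟩ hs
    rw [MonoidHom.mem_ker] at hs
    rw [hπ, QuotientGroup.eq_one_iff] at hs
    rw [Subgroup.mem_center_iff]
    rintro ⟨_, t, rfl⟩
    apply Subtype.ext
    show f t * f s = f s * f t
    rw [← map_mul, ← map_mul, Subgroup.mem_center_iff.1 hs]

theorem range_perf {G X : Type*} [Group G] [Group X] (f : X →* G) (hperf : commutator X = ⊤) :
    ⁅f.range, f.range⁆ = f.range := by
  have h3 := Subgroup.map_commutator (⊤ : Subgroup X) ⊤ f
  rw [← commutator_def, hperf, ← MonoidHom.range_eq_map] at h3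
  exact h3.symm

/-- the M-rule for a homomorphism `f : X →* G` with central kernel -/
theorem mrule_f {G : Type} [Group G] [Finite G] {Ω : Type} [MulAction G Ω] {N : Subgroup G}
    (hIH : IH (Nat.card N)) {X : Type} [Group X] [Finite X] (f : X →* G)
    (hker : ∀ s, f s = 1 → s ∈ Subgroup.center X) (hle : f.range ≤ N) (hne : f.range ≠ N) (hperf : commutator X = ⊤)
    (h1 : IsSimpleGroup (X ⧸ Subgroup.center X)) (h2 : ¬ IsMulCommutative (X ⧸ Subgroup.center X))
    (h3 : Cl (X ⧸ Subgroup.center X)) (h4 : ¬ Exc (X ⧸ Subgroup.center X))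
    {ι : Type} [Finite ι] {x : ι → G} {r : ι → ℕ} (hx : PF x r)
    (hcov : Cov Ω x) (hnorm : ∀ i s, x i * f s * (x i)⁻¹ ∈ f.range) (ω : Ω) :
    (∀ s, f s • ω = ω) ∨ ∃ i, (∀ s, x i * f s = f s * x i) ∧ x i • ω = ω := by
  obtain ⟨π, -, hπ, hπk⟩ := exists_proj f hker
  have hnK : ∀ i, x i ∈ Subgroup.normalizer (f.range : Set G) := fun i =>
    mem_norm_of_pow (hx.prime i).pos (hx.pow i) (by
      rintro _ ⟨s, rfl⟩
      exact hnorm i s)
  rcases mrule_IH (S := N) hIH (MulEquiv.refl N) hle hne (range_perf f hperf) π hπ hπk h1 h2 h3 h4 hx hcov hnK ω with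
    h | ⟨i, h5, h6⟩
  · exact Or.inl fun s => h ⟨s, rfl⟩
  · exact Or.inr ⟨i, fun s => h5 _ ⟨s, rfl⟩, h6⟩

/-- the M-rule for a homomorphism `f : X →* G` with central kernel, the hypothesis on the induced automorphisms -/
theorem mrule_fRC {G : Type} [Group G] [Finite G] {Ω : Type} [MulAction G Ω]
    {X : Type} [Group X] [Finite X] (f : X →* G)
    (hker : ∀ s, f s = 1 → s ∈ Subgroup.center X) (hperf : commutator X = ⊤)
    (h1 : IsSimpleGroup (X ⧸ Subgroup.center X)) (h2 : ¬ IsMulCommutative (X ⧸ Subgroup.center X))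
    {ι : Type} [Finite ι] {x : ι → G} {r : ι → ℕ} (hx : PF x r)
    (hcov : Cov Ω x) (hnorm : ∀ i s, x i * f s * (x i)⁻¹ ∈ f.range)
    (hRC : ∀ g ∈ Subgroup.closure (Set.range x), ∀ α : MulAut (X ⧸ Subgroup.center X),
      (∀ s s', f s' = g * f s * g⁻¹ → α (QuotientGroup.mk s) = QuotientGroup.mk s') →
        RCe (X ⧸ Subgroup.center X) α) (ω : Ω) :
    (∀ s, f s • ω = ω) ∨ ∃ i, (∀ s, x i * f s = f s * x i) ∧ x i • ω = ω := by
  obtain ⟨π, hπ', hπ, hπk⟩ := exists_proj f hker
  have hnK : ∀ i, x i ∈ Subgroup.normalizer (f.range : Set G) := fun i =>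
    mem_norm_of_pow (hx.prime i).pos (hx.pow i) (by
      rintro _ ⟨s, rfl⟩
      exact hnorm i s)
  rcases mrule h1 h2 x r hx.prime hx.inj hx.pow hx.comm f.range (range_perf f hperf) π hπ hπk hnK
    (fun g hg α hα => hRC g hg α fun s s' hs => by
      rw [← hπ', ← hπ']
      exact hα _ _ hs) ω (fun m _ => hcov _) with h | ⟨i, h5, h6⟩
  · exact Or.inl fun s => h ⟨s, rfl⟩
  · exact Or.inr ⟨i, fun s => h5 _ ⟨s, rfl⟩, h6⟩

end mrule

section fix

variable {F : Type*} {V : Type*} [Field F] [AddCommGroup V] [Module F V] [FiniteDimensional F V]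
  {B : LinearMap.BilinForm F V} {G : Type*} [Group G] {Ω : Type*} [MulAction G Ω] {N : Subgroup G}
  {ρ : ↥(Sp B) →* G}

/-- an element of `N` commuting with the field automorphism is in `ρ (ext Sp (V0))` (characteristic two) -/
theorem mem_range_ext (E : GEnv Ω N ρ) (h2 : (2 : F) = 0) {x : G} {Y : SS B} (hY : Lf ρ x Y) {n : ℕ}
    {b : Basis (Fin n) F V} (hb : ∀ i, Y (b i) = b i) {t : F} (ht0 : t ≠ 0) (ht : Y.l * Y.σ t = t) {z : G}
    (hz : z ∈ N) (hxz : x * z = z * x) : ∃ m, ρ (ext ht0 ht hb m) = z := by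
  rw [← E.range] at hz
  obtain ⟨s, rfl⟩ := hz
  have h1 := hY s
  rw [hxz, mul_inv_cancel_right] at h1
  obtain ⟨m, hm⟩ := exists_ext ht0 ht hb (E.inj h2 h1).symm
  exact ⟨m, by rw [hm]⟩

theorem ext_comm {x : G} {Y : SS B} (hY : Lf ρ x Y) {n : ℕ}
    {b : Basis (Fin n) F V} (hb : ∀ i, Y (b i) = b i) {t : F} (ht0 : t ≠ 0) (ht : Y.l * Y.σ t = t)
    (m : Sp (B0 (Y := Y) ht0 ht)) : x * ρ (ext ht0 ht hb m) = ρ (ext ht0 ht hb m) * x := by
  have h1 := hY (ext ht0 ht hb m)
  ((conv at h1 => enter [@3, @6]; rw [ext_fix]))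
  exact mul_inv_eq_iff_eq_mul.1 h1

/-- **every element commuting with the field automorphism normalises `ρ (ext Sp (V0))`** -/
theorem norm_fix (E : GEnv Ω N ρ) (h2 : (2 : F) = 0) {x : G} {Y : SS B} (hY : Lf ρ x Y) {n : ℕ}
    {b : Basis (Fin n) F V} (hb : ∀ i, Y (b i) = b i) {t : F} (ht0 : t ≠ 0) (ht : Y.l * Y.σ t = t) {z : G}
    (hxz : x * z = z * x) (m : Sp (B0 (Y := Y) ht0 ht)) :
    ∃ m', z * ρ (ext ht0 ht hb m) * z⁻¹ = ρ (ext ht0 ht hb m') := by
  have hN := E.env.norm
  have h1 : ρ (ext ht0 ht hb m) ∈ N := by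
    rw [← E.range]
    exact ⟨_, rfl⟩
  have h3 := ext_comm hY hb ht0 ht m
  obtain ⟨m', hm'⟩ := mem_range_ext E h2 hY hb ht0 ht (hN.conj_mem _ h1 z) (by
    have h4 : x * z⁻¹ = z⁻¹ * x := by
      rw [eq_inv_mul_iff_mul_eq, ← mul_assoc, ← hxz, mul_inv_cancel_right]
    calc x * (z * ρ (ext ht0 ht hb m) * z⁻¹) = (x * z) * ρ (ext ht0 ht hb m) * z⁻¹ := by group
      _ = z * (x * ρ (ext ht0 ht hb m)) * z⁻¹ := by ((conv => enter [@2, @5, @5]; rw [hxz])); group
      _ = z * ρ (ext ht0 ht hb m) * (x * z⁻¹) := by simp only [h3]; group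
      _ = z * ρ (ext ht0 ht hb m) * z⁻¹ * x := by simp only [h4]; group)
  exact ⟨m', hm'.symm⟩

/-- an element centralising two transvections of `V0`... has a lift -/
theorem exists_lf_of_comm [Finite F] (E : GEnv Ω N ρ) (h2 : (2 : F) = 0) {e : V} (he : e ≠ 0) {c : F} (hc : c ≠ 0) {z : G}
    (hz : z * ρ (tv E.form e c) = ρ (tv E.form e c) * z) : ∃ M : SS B, Lf ρ z M := by
  have hN := E.env.norm
  exact exists_lf E.form h2 E.dim E.range E.ker he he hc hc (by rw [hz, mul_inv_cancel_right])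

end fix

section gr

variable {F : Type} {V : Type} [Field F] [Finite F] [AddCommGroup V] [Module F V] [FiniteDimensional F V]
  {B : LinearMap.BilinForm F V} {G : Type} [Group G] [Finite G] {Ω : Type} [MulAction G Ω]
  {N : Subgroup G} {ρ : ↥(Sp B) →* G} {ι : Type} [Finite ι] {x : ι → G} {r : ι → ℕ}

/-- a member centralising `ρ (ext X)`, `X` containing enough, is the field automorphism -/
theorem eq_of_cent (E : GEnv Ω N ρ) (h2 : (2 : F) = 0) (hx : PF x r) (j : ι) {Y : SS B} (hY : Lf ρ (x j) Y) {n : ℕ}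
    {b : Basis (Fin n) F V} (hb : ∀ i, Y (b i) = b i) {t : F} (ht0 : t ≠ 0) (ht : Y.l * Y.σ t = t) {i : ι}
    (hi : ∀ m, x i * ρ (ext ht0 ht hb m) = ρ (ext ht0 ht hb m) * x i) : i = j := by
  have hn : n = finrank F V := by rw [Module.finrank_eq_card_basis b, Fintype.card_fin]
  have hdim := E.dim
  obtain ⟨L, hL⟩ : ∃ L : SS B, Lf ρ (x i) L := by
    have h1 := hi (tv (nalt_B0 ht0 ht hb E.form) ⟨b ⟨0, by omega⟩, hb _⟩ 1)
    rw [ext_tv ht0 ht hb E.form] at h1
    exact exists_lf_of_comm E h2 (b.ne_zero _) (by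
      change (1 : F) * t⁻¹ ≠ 0
      rw [one_mul]
      exact inv_ne_zero ht0) h1
  obtain ⟨k, hk⟩ := cent_lift hb ht0 ht E.sp (x := (⟨x j, Y, hY⟩ : Lp ρ)) (y := (⟨x i, L, hL⟩ : Lp ρ)) (lf_rp.2 hY)
    (lf_rp.2 hL) (fun m => Subtype.ext (hi m))
  exact PF.eq_of_pow hx (k := k) (congrArg Subtype.val hk)

/-- **GR (1): no member is a field automorphism with `|F_0| > 2`, the other members are arbitrary** -/
theorem gr_field [Nonempty Ω] (E : GEnv Ω N ρ) (hIH : IH (Nat.card N)) (h2 : (2 : F) = 0) (hx : PF x r)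
    (hcov : Cov Ω x) (j : ι) {Y : SS B} (hY : Lf ρ (x j) Y) {n : ℕ} {b : Basis (Fin n) F V}
    (hb : ∀ i, Y (b i) = b i) (hσ : Y.σ ≠ 1) (h6 : 6 ≤ finrank F V ∨ 3 ≤ Nat.card (Fx Y.σ)) : False := by
  have hn : n = finrank F V := by rw [Module.finrank_eq_card_basis b, Fintype.card_fin]
  have hV := SpEnv_nontrivial E.sp
  obtain ⟨t, ht0, ht⟩ := exists_t E.form hb
  have hV0 : finrank (Fx Y.σ) (V0 Y) = n := by
    rw [Module.finrank_eq_card_basis (b0 hb), Fintype.card_fin]
  have hfd : FiniteDimensional (Fx Y.σ) (V0 Y) := Module.Finite.of_basis (b0 hb)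
  have hB0 := nalt_B0 ht0 ht hb E.form
  have hdim := E.dim
  obtain ⟨m, hm⟩ := exists_dim E.form
  have hc : 6 ≤ finrank (Fx Y.σ) (V0 Y) ∨ (finrank (Fx Y.σ) (V0 Y) = 4 ∧ 3 ≤ Nat.card (Fx Y.σ)) := by
    rw [hV0, hn]
    rcases h6 with h6 | h6
    · exact Or.inl h6
    · by_cases h7 : 6 ≤ finrank F V
      · exact Or.inl h7
      · exact Or.inr ⟨by omega, h6⟩
  have hc3 : 6 ≤ finrank (Fx Y.σ) (V0 Y) ∨ (finrank (Fx Y.σ) (V0 Y) = 4 ∧ 3 ≤ Nat.card (Fx Y.σ)) ∨
      (finrank (Fx Y.σ) (V0 Y) ≠ 0 ∧ 4 ≤ Nat.card (Fx Y.σ)) := by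
    rcases hc with h | h
    · exact Or.inl h
    · exact Or.inr (Or.inl h)
  have hc3' : 6 ≤ finrank (Fx Y.σ) (V0 Y) ∨ (finrank (Fx Y.σ) (V0 Y) = 4 ∧ 3 ≤ Nat.card (Fx Y.σ)) ∨
      4 ≤ Nat.card (Fx Y.σ) := by
    rcases hc with h | h
    · exact Or.inl h
    · exact Or.inr (Or.inl h)
  have hfin : Finite V := Module.finite_of_finite F
  have hfinS : Finite (Sp (B0 (Y := Y) ht0 ht)) := Finite.of_injective
    (fun s : Sp (B0 (Y := Y) ht0 ht) => (fun v : V0 Y => s.1 v)) (fun s s' h => by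
      apply Subtype.ext
      apply LinearEquiv.ext
      intro v
      exact congrFun h v)
  have hinj : Function.Injective (ρ.comp (ext ht0 ht hb)) := (E.inj h2).comp (ext_injective ht0 ht hb)
  obtain ⟨u, v, e, he0, he, hu, hv, hue, hve, huv⟩ := exists_triple E.form E.dim hb ht0 ht
  refine field_end E.sp h2 (x := (⟨x j, Y, hY⟩ : Lp ρ)) (lf_rp.2 hY) hσ (hx.prime j) (Subtype.ext (hx.pow j)) ht0 ht he0
    he hu hv hue hve huv fun ω => ?_
  have key : (∀ s, (ρ.comp (ext ht0 ht hb)) s • ω = ω) ∨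
      ∃ i, (∀ s, x i * (ρ.comp (ext ht0 ht hb)) s = (ρ.comp (ext ht0 ht hb)) s * x i) ∧ x i • ω = ω := by
    refine mrule_f hIH (ρ.comp (ext ht0 ht hb)) (fun s hs => ?_) ?_ (fun hN => ?_) (perfect_Sp hB0 hc3')
      (simple_Sp hB0 hc3) (ncomm_Sp hB0 hc3) (cl_Sp hB0 hc3) (not_exc_Sp hB0 hc) hx hcov (fun i s => ?_) ω
    · rw [hinj (hs.trans (map_one _).symm)]
      exact Subgroup.one_mem _
    · rintro _ ⟨s, rfl⟩
      rw [← E.range]
      exact ⟨_, rfl⟩
    · apply ext_not_surj E.sp hb ht0 ht hσ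
      intro s
      have h7 : ρ s ∈ (ρ.comp (ext ht0 ht hb)).range := by
        rw [hN, ← E.range]
        exact ⟨s, rfl⟩
      obtain ⟨m', hm'⟩ := h7
      exact ⟨m', E.inj h2 hm'⟩
    · obtain ⟨m', hm'⟩ := norm_fix E h2 hY hb ht0 ht (hx.comm j i) s
      exact ⟨m', hm'.symm⟩
  rcases key with h | ⟨i, h7, h8⟩
  · left
    have h5 := h (tv (nalt_B0 ht0 ht hb E.form) ⟨u, hu⟩ 1 * tv (nalt_B0 ht0 ht hb E.form) ⟨v, hv⟩ 1)
    (rewrite [map_mul] at h5; (conv at h5 => enter [@2, @5, @5]; rw [MonoidHom.comp_apply]); simp only [MonoidHom.comp_apply] at h5; (conv at h5 => enter [@2, @5, @5, @6]; rw [ext_tv ht0 ht hb E.form]); rewrite [ext_tv ht0 ht hb E.form, ← map_mul] at h5)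
    have h9 : (((1 : Fx Y.σ) : F) * t⁻¹) = t⁻¹ := one_mul _
    rw [h9] at h5
    exact h5
  · right
    rw [eq_of_cent E h2 hx j hY hb ht0 ht h7] at h8
    exact h8

end gr

end Cfsg.Agent.H327.RC
end

-- part: H327/RC/SixTwo
section
/-!
# S3510, row D, `Sp_4(q)`, `q` even, a field automorphism with `|F_0| = 2` (helper327)

`C_N(x_j) = Sp_4(2) = S_6`, M-rule for `A_6`.
-/

set_option autoImplicit false

namespace Cfsg.Agent.H327.RC

open Module MulAction Cfsg.Agent.H520.RC Cfsg.Agent.H106.RC Cfsg.Agent.H380.RC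
open scoped commutatorElement

section perm

theorem perm_cent {z : Equiv.Perm (Fin 6)} (hz : ∀ k ∈ alternatingGroup (Fin 6), z * k = k * z) : z = 1 := by
  by_contra hne
  obtain ⟨a, ha⟩ : ∃ a, z a ≠ a := by
    by_contra hno
    push Not at hno
    exact hne (Equiv.ext hno)
  obtain ⟨c, hc⟩ : ∃ c : Fin 6, c ∉ ({a, z a} : Finset (Fin 6)) := by
    by_contra hno
    push Not at hno
    have h1 : (Finset.univ : Finset (Fin 6)) ⊆ {a, z a} := fun c _ => hno c
    have h2 := (Finset.card_le_card h1).trans Finset.card_le_two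
    rw [Finset.card_univ, Fintype.card_fin] at h2
    omega
  obtain ⟨d, hd⟩ : ∃ d : Fin 6, d ∉ ({a, z a, c} : Finset (Fin 6)) := by
    by_contra hno
    push Not at hno
    have h1 : (Finset.univ : Finset (Fin 6)) ⊆ {a, z a, c} := fun c _ => hno c
    have h2 := (Finset.card_le_card h1).trans Finset.card_le_three
    rw [Finset.card_univ, Fintype.card_fin] at h2
    omega
  simp only [Finset.mem_insert, Finset.mem_singleton, not_or] at hc hd
  have h1 := hz (Equiv.swap a c * Equiv.swap c d) (by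
    rw [Equiv.Perm.mem_alternatingGroup, Equiv.Perm.sign_mul, Equiv.Perm.sign_swap (Ne.symm hc.1),
      Equiv.Perm.sign_swap (Ne.symm hd.2.2)]
    rfl)
  have h2 := congrArg (fun p : Equiv.Perm (Fin 6) => p a) h1
  simp only [Equiv.Perm.mul_apply] at h2
  rw [Equiv.swap_apply_of_ne_of_ne (Ne.symm hc.1) (Ne.symm hd.1), Equiv.swap_apply_left,
    Equiv.swap_apply_of_ne_of_ne (x := z a) (a := c) (b := d) (Ne.symm hc.2) (Ne.symm hd.2.1),
    Equiv.swap_apply_of_ne_of_ne (x := z a) (a := a) (b := c) ha (Ne.symm hc.2)] at h2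
  exact hc.1 (z.injective h2)

variable {T : Type*} [Group T]

theorem comm_map (e : T ≃* Equiv.Perm (Fin 6)) : (commutator T).map e.toMonoidHom = alternatingGroup (Fin 6) := by
  have h1 := Subgroup.map_commutator (⊤ : Subgroup T) ⊤ e.toMonoidHom
  rw [← commutator_def, ← MonoidHom.range_eq_map, MonoidHom.range_eq_top.2 e.surjective, ← commutator_def,
    alternatingGroup.commutator_perm_eq (by rw [Nat.card_fin]; norm_num)] at h1
  exact h1

/-- `T' = A_6` -/
noncomputable def commE (e : T ≃* Equiv.Perm (Fin 6)) : commutator T ≃* alternatingGroup (Fin 6) :=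
  (e.subgroupMap (commutator T)).trans (MulEquiv.subgroupCongr (comm_map e))

theorem comm_cent (e : T ≃* Equiv.Perm (Fin 6)) {z : T} (hz : ∀ k ∈ commutator T, z * k = k * z) : z = 1 := by
  apply e.injective
  rw [map_one]
  apply perm_cent
  intro k hk
  rw [← comm_map e] at hk
  obtain ⟨s, hs, rfl⟩ := hk
  change e z * e s = e s * e z
  rw [← map_mul, ← map_mul, hz s hs]

end perm

section altsix

variable {X : Type*} [Group X]

theorem perf_of_equiv (e : X ≃* alternatingGroup (Fin 6)) : commutator X = ⊤ := by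
  have h0 : commutator (alternatingGroup (Fin 6)) = ⊤ :=
    commutator_alternatingGroup_eq_top (by rw [Nat.card_fin]; norm_num)
  have h1 := Subgroup.map_commutator (⊤ : Subgroup (alternatingGroup (Fin 6))) ⊤ e.symm.toMonoidHom
  rw [← commutator_def, h0, ← MonoidHom.range_eq_map, MonoidHom.range_eq_top.2 e.symm.surjective] at h1
  exact h1.symm

theorem center_of_equiv (e : X ≃* alternatingGroup (Fin 6)) : Subgroup.center X = ⊥ := by
  rw [eq_bot_iff]
  intro z hz
  have h1 : e z ∈ Subgroup.center (alternatingGroup (Fin 6)) := by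
    rw [Subgroup.mem_center_iff]
    intro a
    obtain ⟨a, rfl⟩ := e.surjective a
    rw [← map_mul, ← map_mul, Subgroup.mem_center_iff.1 hz]
  rw [alternatingGroup.center_eq_bot (by rw [Nat.card_fin]; norm_num)] at h1
  exact Subgroup.mem_bot.2 (e.injective ((Subgroup.mem_bot.1 h1).trans (map_one e).symm))

/-- `X / Z(X) = A_6` -/
noncomputable def quotE (e : X ≃* alternatingGroup (Fin 6)) : (X ⧸ Subgroup.center X) ≃* alternatingGroup (Fin 6) :=
  ((QuotientGroup.quotientMulEquivOfEq (center_of_equiv e)).trans QuotientGroup.quotientBot).trans e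

theorem alt_ncomm : ¬ IsMulCommutative (alternatingGroup (Fin 6)) := by
  intro h
  have h1 : Subgroup.center (alternatingGroup (Fin 6)) = ⊤ := by
    rw [eq_top_iff]
    intro z _
    rw [Subgroup.mem_center_iff]
    intro g
    exact h.is_comm.comm g z
  rw [alternatingGroup.center_eq_bot (by rw [Nat.card_fin]; norm_num)] at h1
  have h2 : Nontrivial (alternatingGroup (Fin 6)) :=
    (alternatingGroup.isSimpleGroup (α := Fin 6) (by rw [Nat.card_fin]; norm_num)).toNontrivial
  exact bot_ne_top h1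

theorem quot_simple (e : X ≃* alternatingGroup (Fin 6)) : IsSimpleGroup (X ⧸ Subgroup.center X) :=
  isSimple_cgr0 (quotE e).symm (alternatingGroup.isSimpleGroup (α := Fin 6) (by rw [Nat.card_fin]; norm_num))

theorem quot_ncomm (e : X ≃* alternatingGroup (Fin 6)) : ¬ IsMulCommutative (X ⧸ Subgroup.center X) := by
  intro h
  refine alt_ncomm ⟨⟨fun a b => ?_⟩⟩
  apply (quotE e).symm.injective
  rw [map_mul, map_mul]
  exact h.is_comm.comm _ _

theorem quot_rce (hA6 : ∀ g : MulAut (alternatingGroup (Fin 6)), orderOf g ≠ 6 → RCe (alternatingGroup (Fin 6)) g)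
    (e : X ≃* alternatingGroup (Fin 6)) {α : MulAut (X ⧸ Subgroup.center X)} (hα : orderOf α ≠ 6) :
    RCe (X ⧸ Subgroup.center X) α := by
  have h1 := (hA6 (MulAut.congr (quotE e) α) (by
    rwa [← MulEquiv.coe_toMonoidHom, orderOf_injective _ (MulAut.congr (quotE e)).injective])).congr (quotE e).symm
  have h2 : MulAut.congr (quotE e).symm (MulAut.congr (quotE e) α) = α := by
    ext z
    simp [MulAut.congr]
  rwa [h2] at h1

end altsix

section ord

variable {G X ι : Type*} [Group G] [Group X] [Finite ι] {x : ι → G} {r : ι → ℕ}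

/-- the order of the induced automorphism divides the product of the orders of the members acting nontrivially -/
theorem ord_dvd (hx : PF x r) (j : ι) (f : X →* G) (hker : ∀ s, f s = 1 → s ∈ Subgroup.center X)
    (hnorm : ∀ i s, x i * f s * (x i)⁻¹ ∈ f.range) (hj : ∀ s, x j * f s = f s * x j)
    {g : G} (hg : g ∈ Subgroup.closure (Set.range x)) {α : MulAut (X ⧸ Subgroup.center X)}
    (hα : ∀ s s', f s' = g * f s * g⁻¹ → α (QuotientGroup.mk s) = QuotientGroup.mk s') {p : ℕ} (hp : p.Prime)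
    (hpα : p ∣ orderOf α) : ∃ i, i ≠ j ∧ r i = p := by
  classical
  have hfi : Fintype ι := Fintype.ofFinite ι
  set P : ℕ := ∏ i ∈ Finset.univ.erase j, r i with hP
  have key : (∀ i, Commute g (x i)) ∧ ∀ s, Commute (g ^ P) (f s) := by
    clear hα
    induction hg using Subgroup.closure_induction with
    | mem y hy =>
      obtain ⟨i, rfl⟩ := hy
      refine ⟨fun k => hx.comm i k, fun s => ?_⟩
      by_cases hij : i = j
      · rw [hij]
        exact Commute.pow_left (hj s) P
      · obtain ⟨c, hc⟩ : r i ∣ P := Finset.dvd_prod_of_mem r (Finset.mem_erase.2 ⟨hij, Finset.mem_univ i⟩)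
        rw [hc, pow_mul, hx.pow, one_pow]
        exact Commute.one_left _
    | one => exact ⟨fun i => Commute.one_left _, fun s => by rw [one_pow]; exact Commute.one_left _⟩
    | mul a b _ hb iha ihb =>
      refine ⟨fun i => (iha.1 i).mul_left (ihb.1 i), fun s => ?_⟩
      have hab : Commute a b := by
        have h1 : Subgroup.closure (Set.range x) ≤ Subgroup.centralizer {a} := by
          rw [Subgroup.closure_le]
          rintro _ ⟨i, rfl⟩
          exact Subgroup.mem_centralizer_singleton_iff.2 (iha.1 i).symm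
        exact (Subgroup.mem_centralizer_singleton_iff.1 (h1 hb)).symm
      rw [hab.mul_pow]
      exact (iha.2 s).mul_left (ihb.2 s)
    | inv a _ iha =>
      refine ⟨fun i => (iha.1 i).inv_left, fun s => ?_⟩
      rw [inv_pow]
      exact (iha.2 s).inv_left
  have hgn : ∀ s, ∃ s', f s' = g * f s * g⁻¹ := by
    have h1 : Subgroup.closure (Set.range x) ≤ Subgroup.normalizer (f.range : Set G) := by
      rw [Subgroup.closure_le]
      rintro _ ⟨i, rfl⟩
      exact mem_norm_of_pow (hx.prime i).pos (hx.pow i) (by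
        rintro _ ⟨s, rfl⟩
        exact hnorm i s)
    intro s
    exact (Subgroup.mem_normalizer_iff.1 (h1 hg) (f s)).1 ⟨s, rfl⟩
  have hpow : ∀ k : ℕ, ∀ s, ∃ s', f s' = g ^ k * f s * (g ^ k)⁻¹ ∧ (α ^ k) (QuotientGroup.mk s) = QuotientGroup.mk s' := by
    intro k
    induction k with
    | zero => exact fun s => ⟨s, by simp, rfl⟩
    | succ k ih =>
      intro s
      obtain ⟨s1, h1, h2⟩ := ih s
      obtain ⟨s2, h3⟩ := hgn s1
      refine ⟨s2, ?_, ?_⟩
      · rw [h3, h1, pow_succ']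
        group
      · rw [pow_succ', MulAut.mul_apply, h2]
        exact hα _ _ h3
  have hone : α ^ P = 1 := by
    apply MulEquiv.ext
    intro y
    obtain ⟨s, rfl⟩ := QuotientGroup.mk_surjective y
    obtain ⟨s', h1, h2⟩ := hpow P s
    rw [h2, (key.2 s).eq, mul_inv_cancel_right] at *
    change QuotientGroup.mk s' = QuotientGroup.mk s
    rw [eq_comm, QuotientGroup.eq]
    apply hker
    rw [map_mul, map_inv, h1, inv_mul_cancel]
  have h1 : p ∣ P := hpα.trans (orderOf_dvd_of_pow_eq_one hone)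
  rw [hP, hp.prime.dvd_finsetProd_iff] at h1
  obtain ⟨i, hi, h2⟩ := h1
  exact ⟨i, (Finset.mem_erase.1 hi).1, ((Nat.prime_dvd_prime_iff_eq hp (hx.prime i)).1 h2).symm⟩

end ord

section six

/-- **the M-rule for `A_6 < S_6`** -/
theorem six_rule {G Ω T ι : Type} [Group G] [Finite G] [MulAction G Ω] [Group T] [Finite T] [Finite ι]
    {x : ι → G} {r : ι → ℕ}
    (hA6 : ∀ g : MulAut (alternatingGroup (Fin 6)), orderOf g ≠ 6 → RCe (alternatingGroup (Fin 6)) g)
    (e6 : T ≃* Equiv.Perm (Fin 6)) (hx : PF x r) (hcov : Cov Ω x) (f : T →* G) (hf : Function.Injective f)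
    (j : ι) (hj : ∀ s, x j * f s = f s * x j) (hnorm : ∀ i s, ∃ s', x i * f s * (x i)⁻¹ = f s')
    (hno : (∀ i, i ≠ j → r i ≠ 2) ∨ (∀ i, i ≠ j → r i ≠ 3)) (ω : Ω) :
    (∀ s ∈ commutator T, f s • ω = ω) ∨ ∃ i, (∀ s, x i * f s = f s * x i) ∧ x i • ω = ω := by
  let φ : (commutator T) →* G := f.comp (commutator T).subtype
  have hφ : ∀ s : commutator T, φ s = f (s : T) := fun s => rfl
  have hφinj : Function.Injective φ := hf.comp Subtype.val_injective
  have hker : ∀ s, φ s = 1 → s ∈ Subgroup.center (commutator T) := fun s hs => by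
    rw [hφinj (hs.trans (map_one _).symm)]
    exact Subgroup.one_mem _
  have hn : ∀ i s, x i * φ s * (x i)⁻¹ ∈ φ.range := by
    intro i s
    choose ψ hψ using hnorm i
    let Ψ : T →* T := MonoidHom.mk' ψ (fun m m' => by
      apply hf
      rw [← hψ, map_mul, map_mul, ← hψ, ← hψ]
      group)
    have h1 : Ψ (s : T) ∈ commutator T := by
      have h2 : (commutator T).map Ψ ≤ commutator T := by
        rw [commutator_def, Subgroup.map_commutator]
        exact Subgroup.commutator_mono le_top le_top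
      exact h2 ⟨s, s.2, rfl⟩
    exact ⟨⟨Ψ (s : T), h1⟩, (hψ (s : T)).symm⟩
  rcases mrule_fRC φ hker (perf_of_equiv (commE e6)) (quot_simple (commE e6)) (quot_ncomm (commE e6)) hx hcov hn
    (fun g hg α hα => quot_rce hA6 (commE e6) fun h6 => by
      obtain ⟨i, hi, hi2⟩ := ord_dvd hx j φ hker hn (fun s => hj s) hg hα Nat.prime_two (by rw [h6]; norm_num)
      obtain ⟨k, hk, hk3⟩ := ord_dvd hx j φ hker hn (fun s => hj s) hg hα Nat.prime_three (by rw [h6]; norm_num)
      rcases hno with h | h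
      · exact h i hi hi2
      · exact h k hk hk3) ω with h | ⟨i, h7, h8⟩
  · left
    intro s hs
    exact h ⟨s, hs⟩
  · right
    refine ⟨i, fun m => ?_, h8⟩
    obtain ⟨m', hm'⟩ := hnorm i m
    have h9 : m' * m⁻¹ = 1 := by
      refine comm_cent e6 fun k hk => ?_
      have hk1 : m⁻¹ * k * m ∈ commutator T := by
        have : (commutator T).Normal := inferInstance
        simpa using this.conj_mem k hk m⁻¹
      have h10 : x i * f (m⁻¹ * k * m) = f (m⁻¹ * k * m) * x i := h7 ⟨m⁻¹ * k * m, hk1⟩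
      have h11 : x i * f k = f k * x i := h7 ⟨k, hk⟩
      apply hf
      rw [map_mul, map_mul, map_inv] at h10
      rw [map_mul, map_mul, map_mul, map_mul, map_inv, ← hm']
      generalize f m = a at *
      generalize f k = c at *
      have h12 : (x i)⁻¹ * (a⁻¹ * c * a) = (a⁻¹ * c * a) * (x i)⁻¹ := by
        rw [inv_mul_eq_iff_eq_mul, ← mul_assoc, h10, mul_inv_cancel_right]
      calc x i * a * (x i)⁻¹ * a⁻¹ * c = x i * a * ((x i)⁻¹ * (a⁻¹ * c * a)) * a⁻¹ := by group
        _ = (x i * c) * a * (x i)⁻¹ * a⁻¹ := by rw [h12]; group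
        _ = c * (x i * a * (x i)⁻¹ * a⁻¹) := by rw [h11]; group
    rw [mul_inv_eq_one.1 h9] at hm'
    exact mul_inv_eq_iff_eq_mul.1 hm'

end six

section gr

variable {F : Type} {V : Type} [Field F] [Finite F] [AddCommGroup V] [Module F V] [FiniteDimensional F V]
  {B : LinearMap.BilinForm F V} {G : Type} [Group G] [Finite G] {Ω : Type} [MulAction G Ω]
  {N : Subgroup G} {ρ : ↥(Sp B) →* G} {ι : Type} [Finite ι] {x : ι → G} {r : ι → ℕ}

/-- `tv u 1 * tv v 1` is a commutator -/
theorem tv_comm {F V : Type*} [Field F] [AddCommGroup V] [Module F V] {B : LinearMap.BilinForm F V} (hB : NAlt B)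
    (h2 : (2 : F) = 0) {u v : V} (huv : B u v = 1) : tv hB u 1 * tv hB v 1 ∈ commutator (Sp B) := by
  have h0 : ∀ w : V, w + w = 0 := fun w => by rw [← two_smul F w, h2, zero_smul]
  have hneg : ∀ c : F, -c = c := fun c => by
    rw [neg_eq_iff_add_eq_zero, ← two_mul, h2, zero_mul]
  have h1 : (tv hB (u + v) 1).1 u = v := by
    rw [tv_apply, map_add, hB.alt, huv, zero_add, mul_one, one_smul, ← add_assoc, h0, zero_add]
  have h3 : tv hB v 1 = tv hB (u + v) 1 * tv hB u 1 * (tv hB (u + v) 1)⁻¹ := by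
    rw [← SS.cj_tg, cj_tv]
    change tv hB v 1 = tv hB ((tv hB (u + v) 1).1 u) _
    rw [h1, map_one, one_mul]
    change _ = tv hB v (1 : F)⁻¹
    rw [inv_one]
  have h4 : tv hB u 1 = (tv hB u 1)⁻¹ := by rw [tv_inv, hneg]
  have h5 : tv hB u 1 * tv hB v 1 = ⁅tv hB u 1, tv hB (u + v) 1⁆ := by
    rw [commutatorElement_def, h3]
    nth_rewrite 2 [h4]
    group
  rw [h5]
  exact Subgroup.commutator_mem_commutator (Subgroup.mem_top _) (Subgroup.mem_top _)

omit [FiniteDimensional F V] in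
/-- `Sp (V0) = S_6` for `|F_0| = 2` -/
theorem exists_six {Y : SS B} {b : Basis (Fin 4) F V} (hB : NAlt B)
    (hb : ∀ i, Y (b i) = b i) {t : F} (ht0 : t ≠ 0) (ht : Y.l * Y.σ t = t) (hq : Nat.card (Fx Y.σ) = 2) :
    Nonempty (Sp (B0 (Y := Y) ht0 ht) ≃* Equiv.Perm (Fin 6)) := by
  have hB0 := nalt_B0 ht0 ht hb hB
  have hfd : FiniteDimensional (Fx Y.σ) (V0 Y) := Module.Finite.of_basis (b0 hb)
  have hV0 : finrank (Fx Y.σ) (V0 Y) = 4 := by
    rw [Module.finrank_eq_card_basis (b0 hb), Fintype.card_fin]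
  have : Fintype (Fx Y.σ) := Fintype.ofFinite _
  obtain ⟨e1⟩ := exists_spE hB0 (m := 2) (by rw [hV0])
  obtain ⟨e2⟩ := Cfsg.Agent.S0247.result (F := Fx Y.σ) (by rw [← Nat.card_eq_fintype_card, hq])
  exact ⟨e1.symm.trans e2⟩

/-- **a field automorphism with `|F_0| = 2`, the other members not of orders two and three** -/
theorem gr_field_two [Nonempty Ω]
    (hA6 : ∀ g : MulAut (alternatingGroup (Fin 6)), orderOf g ≠ 6 → RCe (alternatingGroup (Fin 6)) g)
    (E : GEnv Ω N ρ) (h2 : (2 : F) = 0) (hx : PF x r)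
    (hcov : Cov Ω x) (j : ι) {Y : SS B} (hY : Lf ρ (x j) Y) {b : Basis (Fin 4) F V}
    (hb : ∀ i, Y (b i) = b i) (hσ : Y.σ ≠ 1) (hq : Nat.card (Fx Y.σ) = 2)
    (hno : (∀ i, i ≠ j → r i ≠ 2) ∨ (∀ i, i ≠ j → r i ≠ 3)) : False := by
  have hV := SpEnv_nontrivial E.sp
  obtain ⟨t, ht0, ht⟩ := exists_t E.form hb
  have hB0 := nalt_B0 ht0 ht hb E.form
  have hfin : Finite V := Module.finite_of_finite F
  have hfinS : Finite (Sp (B0 (Y := Y) ht0 ht)) := Finite.of_injective
    (fun s : Sp (B0 (Y := Y) ht0 ht) => (fun v : V0 Y => s.1 v)) (fun s s' h => by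
      apply Subtype.ext
      apply LinearEquiv.ext
      intro v
      exact congrFun h v)
  have hinj : Function.Injective (ρ.comp (ext ht0 ht hb)) := (E.inj h2).comp (ext_injective ht0 ht hb)
  obtain ⟨e6⟩ := exists_six E.form hb ht0 ht hq
  obtain ⟨u, v, e, he0, he, hu, hv, hue, hve, huv⟩ := exists_triple E.form E.dim hb ht0 ht
  refine field_end E.sp h2 (x := (⟨x j, Y, hY⟩ : Lp ρ)) (lf_rp.2 hY) hσ (hx.prime j) (Subtype.ext (hx.pow j)) ht0 ht he0
    he hu hv hue hve huv fun ω => ?_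
  rcases six_rule hA6 e6 hx hcov (ρ.comp (ext ht0 ht hb)) hinj j (fun s => ext_comm hY hb ht0 ht s)
    (fun i s => norm_fix E h2 hY hb ht0 ht (hx.comm j i) s) hno ω with h | ⟨i, h7, h8⟩
  · left
    have h5 := h (tv hB0 ⟨u, hu⟩ 1 * tv hB0 ⟨v, hv⟩ 1) (tv_comm hB0 (Subtype.ext h2) (by
      apply Subtype.ext
      rw [B0_apply]
      change t⁻¹ * B u v = 1
      rw [huv, inv_mul_cancel₀ ht0]))
    (rewrite [map_mul] at h5; (conv at h5 => enter [@2, @5, @5]; rw [MonoidHom.comp_apply]); simp only [MonoidHom.comp_apply] at h5; (conv at h5 => enter [@2, @5, @5, @6]; rw [ext_tv ht0 ht hb E.form]); rewrite [ext_tv ht0 ht hb E.form, ← map_mul] at h5)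
    have h9 : (((1 : Fx Y.σ) : F) * t⁻¹) = t⁻¹ := one_mul _
    rw [h9] at h5
    exact h5
  · right
    rw [eq_of_cent E h2 hx j hY hb ht0 ht h7] at h8
    exact h8

end gr

section ev

open Cfsg.Agent.H385.RC

end ev

end Cfsg.Agent.H327.RC
end

-- part: H327/RC/GrOne
section
/-!
# S3510, row D, `Sp_4(q)`, `q` even: a graph automorphism and a field automorphism in the family (helper327)

* `gr_one` : box GR (1).
-/

set_option autoImplicit false

namespace Cfsg.Agent.H327.RC

open Cfsg Module MulAction Cfsg.Agent.H520.RC Cfsg.Agent.H106.RC Cfsg.Agent.H380.RC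
open Cfsg.Agent.H385.RC (IndPsi indPsi_iff indPsi_of eq_two_of_not_indPsi indAut indAut_apply)
open Cfsg.Agent.ClassicalGeometry.SympAutSemi Cfsg.Agent.ClassicalGeometry.SympBasic

section lin

variable {F : Type*} {V : Type*} [Field F] [AddCommGroup V] [Module F V] [FiniteDimensional F V]
  {B : LinearMap.BilinForm F V} {G : Type*} [Group G] {Ω : Type*} [MulAction G Ω] {N : Subgroup G}
  {ρ : ↥(Sp B) →* G}

/-- a linear member is in `N` (characteristic two) -/
theorem mem_of_lin [Finite F] (E : SpEnv Ω N ρ) (h2 : (2 : F) = 0) {x : G} {M : SS B} (hM : Lf ρ x M) (hl : M.IsLin) :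
    x ∈ N := by
  have hchar : CharP F 2 := CharTwo.of_one_ne_zero_of_two_eq_zero one_ne_zero h2
  obtain ⟨s, hs⟩ := FiniteField.isSquare_of_char_two (ringChar.eq F 2) M.l
  have hs0 : s ≠ 0 := by
    rintro rfl
    exact M.hl (by rw [hs, mul_zero])
  let t : V ≃ₗ[F] V := hl.lin.trans (LinearEquiv.smulOfUnit (Units.mk0 s hs0)⁻¹)
  have ht : ∀ v, t v = s⁻¹ • M v := fun v => rfl
  have htB : t ∈ Sp B := by
    intro u v
    rw [ht, ht, map_smul, map_smul, LinearMap.smul_apply, hl.form, hs, smul_eq_mul, smul_eq_mul]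
    field_simp
  have h1 : x = ρ ⟨t, htB⟩ := E.eq_of_lf hM (a := s) hs0 fun v => by
    change M v = s • t v
    rw [ht, smul_smul, mul_inv_cancel₀ hs0, one_smul]
  rw [h1, ← E.range]
  exact ⟨_, rfl⟩

end lin

/-- automorphisms of a field commute with ... the fixed field of `σ` has two elements ==> every automorphism is a power
of `σ` -/
theorem mem_zpowers_of_two {F : Type*} [Field F] [Finite F] {σ : F ≃+* F} (h : Nat.card (Fx σ) = 2) (τ : F ≃+* F) :
    τ ∈ Subgroup.zpowers σ := by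
  apply Cfsg.Agent.H206.PspFix.mem_zpowers_of_fix
  intro a ha
  rw [Nat.card_eq_two_iff' (0 : Fx σ)] at h
  obtain ⟨z, hz, hz'⟩ := h
  have h1 := hz' 1 one_ne_zero
  by_cases ha0 : a = 0
  · rw [ha0, map_zero]
  · have h3 := hz' ⟨a, mem_Fx.2 ha⟩ (fun h9 => ha0 (congrArg Subtype.val h9))
    have h4 : a = 1 := congrArg Subtype.val (h3.trans h1.symm)
    rw [h4, map_one]

section pow

variable {F : Type*} {V : Type*} [Field F] [AddCommGroup V] [Module F V] [FiniteDimensional F V]
  {B : LinearMap.BilinForm F V} {G : Type*} [Group G] {Ω : Type*} [MulAction G Ω] {N : Subgroup G}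
  {ρ : ↥(Sp B) →* G}

theorem σ_pow (E : SpEnv Ω N ρ) {x : G} {M : SS B} (hM : Lf ρ x M) {n : ℕ} (hx : x ^ n = 1) : M.σ ^ n = 1 := by
  obtain ⟨a, ha, h1⟩ := E.pow_scal hM hx
  have hV := SpEnv_nontrivial E
  obtain ⟨v, hv⟩ := _root_.exists_ne (0 : V)
  ext c
  have h2 : (M ^ n) (c • v) = (M ^ n).σ c • (M ^ n) v := SS.map_smul _ _ _
  rw [SS.pow_apply, SS.pow_apply, h1, h1, pow_σ, smul_smul, smul_smul] at h2
  have h3 : ((M.σ ^ n) c * a - a * c) • v = 0 := by rw [sub_smul, ← h2, sub_self]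
  have h4 := (smul_eq_zero.1 h3).resolve_right hv
  have h5 : ((M.σ ^ n) c - c) * a = 0 := by linear_combination h4
  exact sub_eq_zero.1 ((mul_eq_zero.1 h5).resolve_right ha)

end pow

open Cfsg.Agent.H319.FC (mkE congE congE_apply congE_mem_range) in
/-- a graph automorphism does not centralise an element of order three -/
theorem no_three {F : Type} [Field F] [Finite F] [CharP F 2] (hq : 4 ≤ Nat.card F) {G : Type} [Group G]
    {N : Subgroup G} (hN : N.Normal) (e : N ≃* PSp 2 F) {g y : G} (hg : ¬ IndPsi e g) (hy : y ∈ N) (hy1 : y ≠ 1)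
    (hy3 : y ^ 3 = 1) (hgy : g * y = y * g) : False := by
  set δ : MulAut (Cfsg.Agent.H319.FC.Sp4 F) := (congE F).symm (indAut hN e g) with hδ
  set z : Cfsg.Agent.H319.FC.Sp4 F := (mkE F).symm (e ⟨y, hy⟩) with hz
  have hδr : δ ∉ (conjHom 2 F).range := by
    intro h
    rw [← congE_mem_range, hδ, MulEquiv.apply_symm_apply] at h
    exact hg ((indPsi_iff hN e g).2 h)
  have hδz : δ z = z := by
    apply (mkE F).injective
    have h1 := congE_apply δ (e ⟨y, hy⟩)
    rw [← hz] at h1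
    rw [← h1, hδ, MulEquiv.apply_symm_apply, hz, MulEquiv.apply_symm_apply]
    apply e.symm.injective
    apply Subtype.ext
    rw [indAut_apply, e.symm_apply_apply]
    change g * y * g⁻¹ = y
    rw [hgy, mul_inv_cancel_right]
  have hz1 : z ≠ 1 := by
    intro h
    have h1 : e ⟨y, hy⟩ = 1 := by
      have := congrArg (mkE F) h
      rwa [hz, MulEquiv.apply_symm_apply, map_one] at this
    have h3 : (⟨y, hy⟩ : N) = 1 := e.injective (h1.trans (map_one e).symm)
    exact hy1 (congrArg Subtype.val h3)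
  have hz3 : z ^ 3 = 1 := by
    have h1 : (⟨y, hy⟩ : N) ^ 3 = 1 := Subtype.ext hy3
    rw [hz, ← map_pow, ← map_pow, h1, map_one, map_one]
  have ho : Odd (orderOf z) := by
    have h1 : orderOf z ∣ 3 := orderOf_dvd_of_pow_eq_one hz3
    exact Odd.of_dvd_nat (by decide) h1
  refine Cfsg.Agent.H332.RC.no_quad hq hδr hδz hz1 ho ⟨1, fun v => ?_⟩
  apply Cfsg.Agent.H332.RC.no_fix hq hδr hδz hz1 ho
  have h3 : rho 2 F z (rho 2 F z (rho 2 F z v)) = v := by
    rw [← Cfsg.Agent.H332.RC.rho_mul_apply, ← Cfsg.Agent.H332.RC.rho_mul_apply, ← pow_two, ← pow_succ, hz3,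
      Cfsg.Agent.H332.RC.rho_one_apply]
  rw [one_smul, (isSemi_rho z).1, (isSemi_rho z).1, h3]
  abel

/-- **Box GR (1).** -/
theorem gr_one {F : Type} [Field F] [Finite F] (h2 : (2 : F) = 0) (hq : 3 ≤ Nat.card F) {G Ω : Type} [Group G]
    [Finite G] [MulAction G Ω] [Nonempty Ω] {N : Subgroup G} (hE : Env G Ω N) (e : N ≃* PSp 2 F)
    (hIH : IH (Nat.card (PSp 2 F)))
    (hA6 : ∀ g : MulAut (alternatingGroup (Fin 6)), orderOf g ≠ 6 → RCe (alternatingGroup (Fin 6)) g)
    {ι : Type} [Finite ι] {x : ι → G} {r : ι → ℕ} (hx : PF x r) (hcov : Cov Ω x) (i0 : ι)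
    (hi0 : ¬ IndPsi e (x i0)) (j : ι) (hj0 : j ≠ i0) (hj : x j ∉ N) : False := by
  have hN := hE.norm
  have hchar : CharP F 2 := CharTwo.of_one_ne_zero_of_two_eq_zero one_ne_zero h2
  have hq4 : 4 ≤ Nat.card F := by
    have : Fintype F := Fintype.ofFinite F
    have h1 : ((Nat.card F : ℕ) : F) = 0 := by
      rw [Nat.card_eq_fintype_card]
      exact FiniteField.cast_card_eq_zero F
    have h3 := (CharP.cast_eq_zero_iff F 2 _).1 h1
    omega
  have hr0 : r i0 = 2 := eq_two_of_not_indPsi le_rfl (fun _ => hq) hN e hx hi0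
  obtain ⟨ρ, hρr, hρk, -, hρl⟩ := Cfsg.Agent.H194.RC.exists_rho e
  have hfr : finrank F (Fin 2 ⊕ Fin 2 → F) = 4 := by
    rw [Module.finrank_fintype_fun_eq_card, Fintype.card_sum, Fintype.card_fin]
  have E : GEnv Ω N ρ := ⟨hE, Cfsg.Agent.H194.RC.nalt_symp 2 F, hρr, hρk, by rw [hfr]⟩
  have hlift : ∀ i, i ≠ i0 → ∃ M, Lf ρ (x i) M := by
    intro i hi
    have h3 : r i ≠ 2 := fun h => hi (hx.inj (h.trans hr0.symm))
    have h4 : orderOf (x i) ∣ r i := orderOf_dvd_of_pow_eq_one (hx.pow i)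
    obtain ⟨p, hp⟩ := indPsi_of le_rfl (fun _ => hq) hN e (g := x i)
      (Or.inr (((hx.prime i).odd_of_ne_two h3).of_dvd_nat h4))
    obtain ⟨M, -, hM⟩ := hρl (x i) p hp
    exact ⟨M, hM⟩
  obtain ⟨M, hM⟩ := hlift j hj0
  have hnl : ¬ M.IsLin := fun h => hj
    (mem_of_lin E.sp h2 (x := (⟨x j, M, hM⟩ : Lp ρ)) (lf_rp.2 hM) h)
  obtain ⟨Y, b, hY, hb, hord⟩ := exists_Y E.sp (x := (⟨x j, M, hM⟩ : Lp ρ)) (lf_rp.2 hM) (hx.prime j)
    (Subtype.ext (hx.pow j)) hnl
  have hY' : Lf ρ (x j) Y := lf_rp.1 hY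
  have hσ : Y.σ ≠ 1 := by
    intro h
    rw [h, orderOf_one] at hord
    exact (hx.prime j).ne_one hord.symm
  by_cases h6 : 3 ≤ Nat.card (Fx Y.σ)
  · exact gr_field E (by rwa [Nat.card_congr e.toEquiv]) h2 hx hcov j hY' hb hσ (Or.inr h6)
  have h5 : Nat.card (Fx Y.σ) = 2 := by
    have h4 : 2 ≤ Nat.card (Fx Y.σ) := Finite.one_lt_card
    omega
  have hb' : ∀ k, Y ((b.reindex (finCongr hfr)) k) = (b.reindex (finCongr hfr)) k := fun k => by
    rw [Basis.reindex_apply]
    exact hb _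
  refine gr_field_two hA6 E h2 hx hcov j hY' hb' hσ h5 (Or.inr fun i hij hi3 => ?_)
  have hii0 : i ≠ i0 := by
    rintro rfl
    omega
  obtain ⟨L, hL⟩ := hlift i hii0
  have hLl : L.IsLin := by
    have h3 : L.σ ^ 3 = 1 := by
      rw [← hi3]
      exact σ_pow E.sp (x := (⟨x i, L, hL⟩ : Lp ρ)) (lf_rp.2 hL) (Subtype.ext (hx.pow i))
    have h4 : orderOf L.σ ∣ r j := by
      have h7 := orderOf_dvd_of_mem_zpowers (mem_zpowers_of_two h5 L.σ)
      rwa [hord] at h7
    have hco : (3 : ℕ).Coprime (r j) := by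
      rw [← hi3]
      exact (Nat.coprime_primes (hx.prime i) (hx.prime j)).2 fun h => hij (hx.inj h)
    exact orderOf_eq_one_iff.1 (Nat.eq_one_of_dvd_coprimes hco (orderOf_dvd_of_pow_eq_one h3) h4)
  have hiN : x i ∈ N := mem_of_lin E.sp h2 (x := (⟨x i, L, hL⟩ : Lp ρ)) (lf_rp.2 hL) hLl
  exact no_three hq4 hN e hi0 hiN (hx.ne i) (by rw [← hi3]; exact hx.pow i) (hx.comm i0 i)

end Cfsg.Agent.H327.RC
end

private theorem dce_577b194c651b : _root_.True := by
  try have : _root_.True := by simp only [_root_.Cfsg.Agent.H327.RC.ext.congr_simp]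
  exact _root_.True.intro
end

-- part: H442/RC/KilledU_mg
section
prune_inst 0x2050040030c000000000058431000000040000900000040004010040000100000000000102000001400800000000000000000080404000000e2000000004010000000400a0080008000090000000000000000000000000000000000000000004000000000
set_option linter.all false
open scoped Cfsg.Agent.FastGrp

-- part: H442/RC/KilledU
section
/-!
# S3510 part B, box BU: unitary polarities of `PSL_n(q ^ 2)` (helper442)
-/

set_option autoImplicit false

open Matrix Cfsg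
open Cfsg.Agent.H106.RC Cfsg.Agent.H999.PslGraph Cfsg.Agent.H384.RC
open Cfsg.Agent.ClassicalGeometry.AutPSL.Auto
open Cfsg.Agent.LieClassical.HermBasic Cfsg.Agent.LieClassical.HermSiegel
open scoped commutatorElement

namespace Cfsg.Agent.H442.RC.KU

section Basic

variable {F : Type} [Field F] {n q : ℕ}

/-- `SU` acting on `PSL` by conjugation -/
noncomputable def fU (n : ℕ) (F : Type) [Field F] (q : ℕ) :
    SU n F q →* MulAut (Matrix.ProjectiveSpecialLinearGroup (Fin n) F) :=
  Cj.comp (Matrix.SpecialLinearGroup.toGL.comp (SU n F q).subtype)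

/-- the element of `GL` -/
def gU (k : SU n F q) : GL (Fin n) F := Matrix.SpecialLinearGroup.toGL (k : Matrix.SpecialLinearGroup (Fin n) F)

theorem fU_apply (k : SU n F q) : fU n F q k = Cj (gU k) := rfl

theorem coe_gU (k : SU n F q) : (gU k : Matrix (Fin n) (Fin n) F) = mat k := rfl

theorem fU_mem (k : SU n F q) : fU n F q k ∈ inn (Matrix.ProjectiveSpecialLinearGroup (Fin n) F) :=
  Cj_mem_inn _ (det_mat k)

/-- the unitary polarity -/
noncomputable def tU (n : ℕ) {F : Type} [Field F] (σ : F ≃+* F) :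
    MulAut (Matrix.ProjectiveSpecialLinearGroup (Fin n) F) := lift (fld σ) * It

theorem tU_mul_Cj (σ : F ≃+* F) (g : GL (Fin n) F) : tU n σ * Cj g = Cj (mg σ (ct g)) * tU n σ := by
  rw [tU, mul_assoc, It_mul_Cj, ← mul_assoc, fld_Cj, mul_assoc]

theorem fld_mul (σ τ : F ≃+* F) :
    (lift (fld σ) * lift (fld τ) : MulAut (Matrix.ProjectiveSpecialLinearGroup (Fin n) F)) = lift (fld (σ * τ)) := by
  rw [← map_mul, ← map_mul]

theorem mg_mg (σ τ : F ≃+* F) (g : GL (Fin n) F) : mg σ (mg τ g) = mg (σ * τ) g := by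
  apply Units.ext
  rfl

theorem mg_one (g : GL (Fin n) F) : mg 1 g = g := by
  apply Units.ext
  rfl

theorem ct_mg (σ : F ≃+* F) (g : GL (Fin n) F) : ct (mg σ g) = mg σ (ct g) := by
  apply Units.ext
  rw [coe_ct, ← map_inv]
  rfl

theorem tU_sq {σ : F ≃+* F} (hσσ : σ * σ = 1) : tU n σ * tU n σ = 1 := by
  have h1 : (It * lift (fld σ) : MulAut (Matrix.ProjectiveSpecialLinearGroup (Fin n) F)) = lift (fld σ) * It :=
    (fld_It σ).symm
  calc tU n σ * tU n σ = lift (fld σ) * (It * lift (fld σ)) * It := by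
        rw [tU]; simp only [mul_assoc]
    _ = (lift (fld σ) * lift (fld σ)) * (It * It) := by rw [h1]; simp only [mul_assoc]
    _ = 1 := by rw [It_mul_It, fld_mul, hσσ, map_one, map_one, mul_one]

theorem tU_mul_Sem {σ τ : F ≃+* F} (hc : σ * τ = τ * σ) (A : GL (Fin n) F) :
    tU n σ * Sem A τ = Sem (mg σ (ct A)) τ * tU n σ := by
  rw [Sem, ← mul_assoc, tU_mul_Cj, Sem, mul_assoc, mul_assoc]
  congr 1
  rw [tU, mul_assoc, ← fld_It, ← mul_assoc, ← mul_assoc, fld_mul, fld_mul, hc]

variable [Fintype F]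

theorem sig_sig (hq : Fintype.card F = q ^ 2) {σ : F ≃+* F} (hσ : ∀ a, σ a = a ^ q) : σ * σ = 1 := by
  apply RingEquiv.ext
  intro a
  show σ (σ a) = a
  rw [hσ, hσ, pow_q_pow_q hq]

omit [Fintype F] in
theorem sig_comm {σ : F ≃+* F} (hσ : ∀ a, σ a = a ^ q) (τ : F ≃+* F) : σ * τ = τ * σ := by
  apply RingEquiv.ext
  intro a
  show σ (τ a) = τ (σ a)
  rw [hσ, hσ, map_pow]

omit [Fintype F] in
theorem herm_eq {σ : F ≃+* F} (hσ : ∀ a, σ a = a ^ q) (u v : Fin n → F) :
    hermForm n F q u v = u ⬝ᵥ (fun i => σ (v i)) := by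
  rw [herm_def, dotProduct]
  exact Finset.sum_congr rfl fun i _ => by rw [hσ]

omit [Fintype F] in
theorem map_mulVec' (σ : F ≃+* F) (M : Matrix (Fin n) (Fin n) F) (v : Fin n → F) :
    (fun i => σ ((M *ᵥ v) i)) = M.map σ *ᵥ (fun i => σ (v i)) := by
  funext i
  show σ (∑ j, M i j * v j) = ∑ j, σ (M i j) * σ (v j)
  rw [map_sum]
  exact Finset.sum_congr rfl fun j _ => map_mul _ _ _

omit [Fintype F] in
/-- membership in `SU` by matrices -/
theorem mem_SU_mat {σ : F ≃+* F} (hσ : ∀ a, σ a = a ^ q) (g : Matrix.SpecialLinearGroup (Fin n) F) :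
    g ∈ SU n F q ↔ (g : Matrix (Fin n) (Fin n) F)ᵀ * (g : Matrix (Fin n) (Fin n) F).map σ = 1 := by
  have key : ∀ u v : Fin n → F, hermForm n F q ((g : Matrix (Fin n) (Fin n) F) *ᵥ u)
      ((g : Matrix (Fin n) (Fin n) F) *ᵥ v) =
      u ⬝ᵥ (((g : Matrix (Fin n) (Fin n) F)ᵀ * (g : Matrix (Fin n) (Fin n) F).map σ) *ᵥ fun i => σ (v i)) := by
    intro u v
    rw [herm_eq hσ, map_mulVec', ← Matrix.mulVec_mulVec, Matrix.dotProduct_mulVec u, Matrix.vecMul_transpose]
  rw [mem_SU_iff]
  constructor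
  · intro h
    ext i j
    have h1 := h (Pi.single i 1) (Pi.single j 1)
    rw [key, herm_eq hσ] at h1
    have h2 : (fun l => σ ((Pi.single j 1 : Fin n → F) l)) = Pi.single j 1 := by
      funext l
      by_cases hl : l = j
      · subst hl; rw [Pi.single_eq_same, map_one]
      · rw [Pi.single_eq_of_ne hl, map_zero]
    rw [h2, single_one_dotProduct, single_one_dotProduct, Matrix.mulVec_single_one] at h1
    rw [Matrix.one_apply]
    change ((g : Matrix (Fin n) (Fin n) F)ᵀ * (g : Matrix (Fin n) (Fin n) F).map σ) i j = _ at h1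
    rw [h1, Pi.single_apply]
  · intro h u v
    rw [key, h, Matrix.one_mulVec, herm_eq hσ]

omit [Fintype F] in
theorem ct_eq_of_mat {σ : F ≃+* F} {g : GL (Fin n) F}
    (h : (g : Matrix (Fin n) (Fin n) F)ᵀ * (g : Matrix (Fin n) (Fin n) F).map σ = 1) : ct g = mg σ g := by
  have h1 : (ct g)⁻¹ * mg σ g = 1 := by
    apply Units.ext
    rw [Units.val_mul, coe_ct_inv, coe_mg, h, Units.val_one]
  exact inv_mul_eq_one.1 h1

omit [Fintype F] in
theorem mat_of_ct_eq {σ : F ≃+* F} {g : GL (Fin n) F} (h : ct g = mg σ g) :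
    (g : Matrix (Fin n) (Fin n) F)ᵀ * (g : Matrix (Fin n) (Fin n) F).map σ = 1 := by
  have h1 : (((ct g)⁻¹ * mg σ g : GL (Fin n) F) : Matrix (Fin n) (Fin n) F) = 1 := by
    rw [h, inv_mul_cancel, Units.val_one]
  rwa [Units.val_mul, coe_ct_inv, coe_mg] at h1

omit [Fintype F] in
theorem ct_gU {σ : F ≃+* F} (hσ : ∀ a, σ a = a ^ q) (k : SU n F q) : ct (gU k) = mg σ (gU k) :=
  ct_eq_of_mat ((mem_SU_mat hσ _).1 k.2)

/-- `t` centralises the unitary group -/
theorem t_comm (hq : Fintype.card F = q ^ 2) {σ : F ≃+* F} (hσ : ∀ a, σ a = a ^ q) (k : SU n F q) :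
    tU n σ * fU n F q k = fU n F q k * tU n σ := by
  rw [fU_apply, tU_mul_Cj, ct_gU hσ, mg_mg, sig_sig hq hσ, mg_one]

/-- everything commuting with `t` normalises the unitary group -/
theorem norm_fU [Nontrivial (Fin n)] (hq : Fintype.card F = q ^ 2) {σ : F ≃+* F} (hσ : ∀ a, σ a = a ^ q)
    {A : GL (Fin n) F} {τ : F ≃+* F} (h : tU n σ * Sem A τ = Sem A τ * tU n σ) (k : SU n F q) :
    ∃ k' : SU n F q, Sem A τ * fU n F q k * (Sem A τ)⁻¹ = fU n F q k' := by
  rw [tU_mul_Sem (sig_comm hσ τ)] at h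
  have h1 := mul_right_cancel h
  rw [Sem, Sem] at h1
  have h2 := (Cj_eq_iff.1 (mul_right_cancel h1).symm)
  obtain ⟨c, hc, h2⟩ := h2
  -- `σ(A⁻ᵀ) = c A`
  have hz : ∃ z : GL (Fin n) F, (∀ g, z * g = g * z) ∧ ct A = z * mg σ A := by
    refine ⟨mg σ (mg σ (ct A) * A⁻¹), ?_, ?_⟩
    · intro g
      have e : mg σ (mg σ (ct A) * A⁻¹) =
          (Units.mk ((σ c) • (1 : Matrix (Fin n) (Fin n) F)) ((σ c)⁻¹ • (1 : Matrix (Fin n) (Fin n) F))
            (by rw [smul_mul_smul_comm, mul_inv_cancel₀ ((map_ne_zero σ).2 hc), one_mul, one_smul])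
            (by rw [smul_mul_smul_comm, inv_mul_cancel₀ ((map_ne_zero σ).2 hc), one_mul, one_smul])) := by
        apply Units.ext
        ((conv => enter [@2]; rw [coe_mg]); (conv => enter [@2, @5]; rw [Units.val_mul]); (conv => enter [@2, @5, @5]; rw [h2]); (conv => enter [@2, @5]; rw [Matrix.smul_mul]); (conv => enter [@2, @5, @6]; rw [← Units.val_mul]); (conv => enter [@2, @5, @6, @3]; rw [mul_inv_cancel]); (conv => enter [@2, @5, @6]; rw [Units.val_one]))
        ext i j
        show σ (c * (1 : Matrix (Fin n) (Fin n) F) i j) = σ c * (1 : Matrix (Fin n) (Fin n) F) i j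
        rw [map_mul]
        congr 1
        rw [Matrix.one_apply]
        split
        · exact map_one σ
        · exact map_zero σ
      apply Units.ext
      rw [e, Units.val_mul, Units.val_mul]
      show ((σ c) • (1 : Matrix (Fin n) (Fin n) F)) * (g : Matrix (Fin n) (Fin n) F) =
        (g : Matrix (Fin n) (Fin n) F) * ((σ c) • (1 : Matrix (Fin n) (Fin n) F))
      rw [Matrix.smul_mul, Matrix.mul_smul, Matrix.one_mul, Matrix.mul_one]
    · rw [map_mul, mg_mg, sig_sig hq hσ, mg_one, map_inv, inv_mul_cancel_right]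
  obtain ⟨z, hz, hA⟩ := hz
  have hg : ct (A * mg τ (gU k) * A⁻¹) = mg σ (A * mg τ (gU k) * A⁻¹) := by
    have hzz : ∀ X B : GL (Fin n) F, z * X * B * (z * X)⁻¹ = X * B * X⁻¹ := by
      intro X B
      calc z * X * B * (z * X)⁻¹ = z * (X * B * X⁻¹) * z⁻¹ := by group
        _ = (X * B * X⁻¹) * z * z⁻¹ := by rw [hz]
        _ = _ := by group
    rw [ct_mul, ct_mul, ct_inv, ct_mg, ct_gU hσ, hA, hzz, map_mul, map_mul, mg_mg, mg_mg, sig_comm hσ τ, map_inv]
  have hdet : ((A * mg τ (gU k) * A⁻¹ : GL (Fin n) F) : Matrix (Fin n) (Fin n) F).det = 1 := by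
    rw [Units.val_mul, Units.val_mul, Matrix.det_mul, Matrix.det_mul, coe_mg, mul_right_comm, ← Matrix.det_mul,
      ← Units.val_mul, mul_inv_cancel, Units.val_one, Matrix.det_one, one_mul, coe_gU]
    have : ((mat k).map τ).det = τ (mat k).det := (RingEquiv.map_det τ (mat k)).symm
    rw [this, det_mat, map_one]
  let g' : Matrix.SpecialLinearGroup (Fin n) F := ⟨_, hdet⟩
  refine ⟨⟨g', (mem_SU_mat hσ g').2 ((mat_of_ct_eq hg :))⟩, ?_⟩
  rw [fU_apply, Sem_conj_Cj, fU_apply]
  congr 1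
  apply Units.ext
  rfl

/-- transvections -/
theorem isSiegel {u : Fin n → F} (_ : Fintype.card F = q ^ 2) (hu : hermForm n F q u u = 0) {c : F}
    (hc : c + c ^ q = 0) : IsSiegel q u 0 c :=
  ⟨hu, herm_zero_left u, by rw [herm_zero_left, add_zero, hc]⟩

theorem act_trans {u : Fin n → F} (hq : Fintype.card F = q ^ 2) (hu : hermForm n F q u u = 0) {c : F}
    (hc : c + c ^ q = 0) (v : Fin n → F) :
    act (siegel hq u 0 c (isSiegel hq hu hc)) v = v + (c * hermForm n F q v u) • u := by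
  rw [act_siegel, smul_zero, add_zero, herm_zero_right hq, sub_zero]

/-- a semilinear map commuting with the transvection at `u` maps `u` to a multiple -/
theorem fix_of_comm [Nontrivial (Fin n)] (hq : Fintype.card F = q ^ 2) {A : GL (Fin n) F} {τ : F ≃+* F}
    (h : ∀ k : SU n F q, Sem A τ * fU n F q k = fU n F q k * Sem A τ) {u : Fin n → F}
    (hu : hermForm n F q u u = 0) :
    ∃ μ : F, (A : Matrix (Fin n) (Fin n) F) *ᵥ (fun i => τ (u i)) = μ • u := by
  by_cases hu0 : u = 0
  · subst hu0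
    refine ⟨0, ?_⟩
    have e : (fun i => τ ((0 : Fin n → F) i)) = 0 := by
      funext i
      exact map_zero τ
    rw [e, Matrix.mulVec_zero, smul_zero]
  obtain ⟨c, hc0, hc⟩ := exists_trace_zero_ne hq
  obtain ⟨k, hk⟩ : ∃ k : SU n F q, ∀ v, mat k *ᵥ v = v + (c * hermForm n F q v u) • u :=
    ⟨_, act_trans hq hu hc⟩
  obtain ⟨d, -, hd⟩ := (Sem_comm_iff A τ (gU k)).1 (h k)
  have hnil : IsNilpotent ((gU k : Matrix (Fin n) (Fin n) F) - 1) := by
    rw [coe_gU]
    refine ⟨2, ?_⟩
    apply Matrix.ext_of_mulVec_single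
    intro i
    have key : ∀ v : Fin n → F, (mat k - 1) *ᵥ v = (c * hermForm n F q v u) • u := by
      intro v
      rw [Matrix.sub_mulVec, Matrix.one_mulVec, hk, add_sub_cancel_left]
    rw [Matrix.zero_mulVec, pow_two, ← Matrix.mulVec_mulVec, key, key, herm_smul_left, hu, mul_zero, mul_zero,
      zero_smul]
  have hex := unip_exact A τ _ hnil hd
  rw [coe_gU] at hex
  obtain ⟨x, hx⟩ : ∃ x, hermForm n F q x u ≠ 0 := by
    obtain ⟨v, hv⟩ := exists_herm_ne_zero hq hu0
    refine ⟨v, fun h => hv ?_⟩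
    rw [herm_swap hq v u, h, zero_pow_q hq]
  have h1 := congrArg (fun M : Matrix (Fin n) (Fin n) F => M *ᵥ (fun i => τ (x i))) hex
  simp only [← Matrix.mulVec_mulVec] at h1
  rw [← map_mulVec'] at h1
  have h2 : (fun i => τ ((mat k *ᵥ x) i)) =
      (fun i => τ (x i)) + τ (c * hermForm n F q x u) • (fun i => τ (u i)) := by
    funext i
    rw [hk, Pi.add_apply, map_add, Pi.smul_apply, smul_eq_mul, map_mul]
    rfl
  rw [h2, Matrix.mulVec_add, Matrix.mulVec_smul, hk] at h1
  have h4 := add_left_cancel h1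
  have h5 : τ (c * hermForm n F q x u) ≠ 0 := (map_ne_zero τ).2 (mul_ne_zero hc0 hx)
  refine ⟨(τ (c * hermForm n F q x u))⁻¹ *
    (c * hermForm n F q ((A : Matrix (Fin n) (Fin n) F) *ᵥ fun i => τ (x i)) u), ?_⟩
  rw [mul_smul, ← h4, smul_smul, inv_mul_cancel₀ h5, one_smul]

/-- **nothing centralises the unitary group** -/
theorem sem_eq_one (hn : 3 ≤ n) (hq : Fintype.card F = q ^ 2) {A : GL (Fin n) F} {τ : F ≃+* F}
    (h : ∀ k : SU n F q, Sem A τ * fU n F q k = fU n F q k * Sem A τ) : Sem A τ = 1 := by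
  have : Nontrivial (Fin n) := Fin.nontrivial_iff_two_le.2 (by omega)
  have hfix := fun (u : Fin n → F) (hu : hermForm n F q u u = 0) => fix_of_comm hq h hu
  obtain ⟨a, ha0, ha⟩ := exists_norm_eq_ne hq (c := (-1 : F))
    (by rw [neg_pow_q hq, one_pow]) (neg_ne_zero.2 one_ne_zero)
  -- three distinct indices
  have hthird : ∀ i j : Fin n, ∃ k : Fin n, k ≠ i ∧ k ≠ j := by
    intro i j
    obtain ⟨k, hk⟩ : ∃ k : Fin n, k ∉ ({i, j} : Finset (Fin n)) := by
      by_contra hcon
      push Not at hcon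
      have h1 : (Finset.univ : Finset (Fin n)).card ≤ ({i, j} : Finset (Fin n)).card :=
        Finset.card_le_card fun k _ => hcon k
      have h2 : ({i, j} : Finset (Fin n)).card ≤ 2 := Finset.card_le_two
      rw [Finset.card_univ, Fintype.card_fin] at h1
      omega
    simp only [Finset.mem_insert, Finset.mem_singleton, not_or] at hk
    exact ⟨k, hk.1, hk.2⟩
  have hss : ∀ i j : Fin n, hermForm n F q (Pi.single i 1) (Pi.single j 1) = if i = j then 1 else 0 := by
    intro i j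
    rw [herm_single_right hq, one_pow, mul_one, Pi.single_apply]
    by_cases e : i = j
    · rw [if_pos e, if_pos e.symm]
    · rw [if_neg e, if_neg (Ne.symm e)]
  -- the isotropic vectors
  have hiso : ∀ (i j k : Fin n) (b c : F), i ≠ j → i ≠ k → j ≠ k → 1 + b * b ^ q + c * c ^ q = 0 →
      hermForm n F q (Pi.single i 1 + (b • Pi.single j 1 + c • Pi.single k 1))
        (Pi.single i 1 + (b • Pi.single j 1 + c • Pi.single k 1)) = 0 := by
    intro i j k b c hij hik hjk hbc
    simp only [herm_add_left, herm_add_right hq, herm_smul_left, herm_smul_right, hss, if_true, if_neg hij,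
      if_neg hij.symm, if_neg hik, if_neg hik.symm, if_neg hjk, if_neg hjk.symm]
    linear_combination hbc
  have hτs : ∀ (i j k : Fin n) (b c : F),
      (fun l => τ ((Pi.single i 1 + (b • Pi.single j 1 + c • Pi.single k 1) : Fin n → F) l)) =
      (Pi.single i 1 + (τ b • Pi.single j 1 + τ c • Pi.single k 1) : Fin n → F) := by
    intro i j k b c
    have e : ∀ (i l : Fin n), τ ((Pi.single i 1 : Fin n → F) l) = (Pi.single i 1 : Fin n → F) l := by
      intro i l
      rw [Pi.single_apply]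
      split
      · exact map_one τ
      · exact map_zero τ
    funext l
    simp only [Pi.add_apply, Pi.smul_apply, smul_eq_mul, map_add, map_mul, e]
  have hrel : ∀ (i j k : Fin n) (b c : F), i ≠ j → i ≠ k → j ≠ k → 1 + b * b ^ q + c * c ^ q = 0 →
      ∃ μ : F, ∀ l, (A : Matrix (Fin n) (Fin n) F) l i + (τ b * (A : Matrix (Fin n) (Fin n) F) l j +
        τ c * (A : Matrix (Fin n) (Fin n) F) l k) =
        μ * ((Pi.single i 1 + (b • Pi.single j 1 + c • Pi.single k 1) : Fin n → F) l) := by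
    intro i j k b c hij hik hjk hbc
    obtain ⟨μ, hμ⟩ := hfix _ (hiso i j k b c hij hik hjk hbc)
    refine ⟨μ, fun l => ?_⟩
    have h1 := congrFun hμ l
    rw [hτs, Matrix.mulVec_add, Matrix.mulVec_add, Matrix.mulVec_smul, Matrix.mulVec_smul,
      Matrix.mulVec_single_one, Matrix.mulVec_single_one, Matrix.mulVec_single_one] at h1
    exact h1
  -- `A` is diagonal
  obtain ⟨b, hb⟩ := exists_not_fixed hq
  have hb0 : b ≠ 0 := by
    rintro rfl
    exact hb (zero_pow_q hq)
  have hζ : (b ^ q / b) * (b ^ q / b) ^ q = 1 := by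
    rw [div_pow, pow_q_pow_q hq]
    field_simp
  have hζ1 : b ^ q / b ≠ 1 := by
    intro h
    exact hb ((div_eq_one_iff_eq hb0).1 h)
  obtain ⟨a', ha', haa'⟩ : ∃ a' : F, a' * a' ^ q = -1 ∧ a' ≠ a := by
    refine ⟨a * (b ^ q / b), ?_, ?_⟩
    · rw [Cfsg.Agent.LieClassical.HermBasic.norm_mul, ha, hζ, mul_one]
    · intro h
      apply hζ1
      exact mul_left_cancel₀ ha0 (by rw [h, mul_one])
  have hoff : ∀ l j : Fin n, l ≠ j → (A : Matrix (Fin n) (Fin n) F) l j = 0 := by
    intro l j hlj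
    obtain ⟨i, hil, hij⟩ := hthird l j
    obtain ⟨μ, hμ⟩ := hrel i j l a 0 hij hil hlj.symm (by rw [zero_mul, add_zero, ha]; ring)
    obtain ⟨μ', hμ'⟩ := hrel i j l a' 0 hij hil hlj.symm (by rw [zero_mul, add_zero, ha']; ring)
    have h1 := hμ l
    have h2 := hμ' l
    simp only [Pi.add_apply, Pi.smul_apply, Pi.single_eq_of_ne hil.symm, Pi.single_eq_of_ne hlj, Pi.single_eq_same,
      smul_eq_mul, mul_zero, zero_mul, add_zero, map_zero] at h1 h2
    have h3 : (τ a - τ a') * (A : Matrix (Fin n) (Fin n) F) l j = 0 := by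
      linear_combination h1 - h2
    rcases mul_eq_zero.1 h3 with h3 | h3
    · exfalso
      exact haa' (τ.injective (sub_eq_zero.1 h3)).symm
    · exact h3
  have hAi : ∀ i : Fin n, (A : Matrix (Fin n) (Fin n) F) i i ≠ 0 := by
    intro i hi
    have h1 : (A : Matrix (Fin n) (Fin n) F) * ((A⁻¹ : GL (Fin n) F) : Matrix (Fin n) (Fin n) F) = 1 := by
      rw [← Units.val_mul, mul_inv_cancel, Units.val_one]
    have h2 := congrFun (congrFun h1 i) i
    rw [Matrix.mul_apply, Matrix.one_apply_eq, Finset.sum_eq_zero] at h2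
    · exact zero_ne_one h2
    · intro l _
      by_cases hl : l = i
      · rw [hl, hi, zero_mul]
      · rw [hoff i l (Ne.symm hl), zero_mul]
  have hd1 : ∀ i j : Fin n, i ≠ j → τ a * (A : Matrix (Fin n) (Fin n) F) j j = a * (A : Matrix (Fin n) (Fin n) F) i i := by
    intro i j hij
    obtain ⟨k, hki, hkj⟩ := hthird i j
    obtain ⟨μ, hμ⟩ := hrel i j k a 0 hij hki.symm hkj.symm (by rw [zero_mul, add_zero, ha]; ring)
    have h1 := hμ i
    have h2 := hμ j
    simp only [Pi.add_apply, Pi.smul_apply, Pi.single_eq_of_ne hij, Pi.single_eq_of_ne hij.symm, Pi.single_eq_same,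
      smul_eq_mul, mul_zero, zero_mul, add_zero, zero_add, map_zero, mul_one, hoff i j hij, hoff j i hij.symm] at h1 h2
    rw [h2, h1]
    ring
  have hconst : ∀ i j : Fin n, (A : Matrix (Fin n) (Fin n) F) i i = (A : Matrix (Fin n) (Fin n) F) j j := by
    intro i j
    by_cases hij : i = j
    · rw [hij]
    obtain ⟨k, hki, hkj⟩ := hthird i j
    have h1 := hd1 i k hki.symm
    have h2 := hd1 j k hkj.symm
    exact mul_left_cancel₀ ha0 (h1.symm.trans h2)
  -- `τ = 1`
  let i0 : Fin n := ⟨0, by omega⟩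
  let i1 : Fin n := ⟨1, by omega⟩
  let i2 : Fin n := ⟨2, by omega⟩
  have h01 : i0 ≠ i1 := fun e => absurd (congrArg Fin.val e) (show ¬ (0 : ℕ) = 1 by decide)
  have h02 : i0 ≠ i2 := fun e => absurd (congrArg Fin.val e) (show ¬ (0 : ℕ) = 2 by decide)
  have h12 : i1 ≠ i2 := fun e => absurd (congrArg Fin.val e) (show ¬ (1 : ℕ) = 2 by decide)
  have hτ : τ = RingEquiv.refl F := by
    apply RingEquiv.ext
    intro z
    obtain ⟨y, hy⟩ := _root_.Cfsg.Agent.LieClassical.HermBasic.exists_norm_eq hq (c := -1 - z * z ^ q) (by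
      rw [sub_pow_q hq, norm_pow_q hq, neg_pow_q hq, one_pow])
    obtain ⟨μ, hμ⟩ := hrel i0 i1 i2 y z h01 h02 h12 (by rw [hy]; ring)
    have h1 := hμ i0
    have h2 := hμ i2
    simp only [Pi.add_apply, Pi.smul_apply, Pi.single_eq_of_ne h01, Pi.single_eq_of_ne h02,
      Pi.single_eq_of_ne h02.symm, Pi.single_eq_of_ne h12.symm, Pi.single_eq_same,
      smul_eq_mul, mul_zero, add_zero, zero_add, mul_one, hoff i0 i1 h01, hoff i0 i2 h02,
      hoff i2 i0 h02.symm, hoff i2 i1 h12.symm] at h1 h2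
    show τ z = z
    rw [← h1, hconst i2 i0, mul_comm] at h2
    exact mul_left_cancel₀ (hAi i0) h2
  rw [hτ, Sem_one]
  refine Cj_eq_one_iff.2 ⟨(A : Matrix (Fin n) (Fin n) F) i0 i0, ?_⟩
  ext i j
  rw [Matrix.smul_apply, Matrix.one_apply, smul_eq_mul]
  by_cases e : i = j
  · rw [e, if_pos rfl, mul_one, hconst]
  · rw [if_neg e, mul_zero, hoff i j e]

/-- the kernel of `fU` is the centre -/
theorem fU_eq_one_iff (hn : 3 ≤ n) (hq : Fintype.card F = q ^ 2) (k : SU n F q) :
    fU n F q k = 1 ↔ k ∈ Subgroup.center (SU n F q) := by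
  have : Nontrivial (Fin n) := Fin.nontrivial_iff_two_le.2 (by omega)
  constructor
  · intro h
    obtain ⟨c, hc⟩ := Cj_eq_one_iff.1 h
    refine Cfsg.Agent.LieClassical.HermSimple.mem_center_of_scalar (d := c) fun v => ?_
    rw [act_def, ← coe_gU]
    have e : (gU k : Matrix (Fin n) (Fin n) F) = c • (1 : Matrix (Fin n) (Fin n) F) := hc
    rw [e, Matrix.smul_mulVec, Matrix.one_mulVec]
  · intro h
    have h1 : Sem (gU k) (RingEquiv.refl F) = 1 := by
      refine sem_eq_one hn hq fun k' => ?_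
      rw [Sem_one, ← fU_apply, ← map_mul, ← map_mul, Subgroup.mem_center_iff.1 h]
    rwa [Sem_one] at h1

/-- the matrix of the map `x ↦ x + h(x, w) u` -/
def pM (q : ℕ) (u w : Fin n → F) : Matrix (Fin n) (Fin n) F := 1 + vecMulVec u (fun j => w j ^ q)

omit [Fintype F] in
theorem pM_mulVec (u w x : Fin n → F) : pM q u w *ᵥ x = x + hermForm n F q x w • u := by
  have h1 : (fun j => w j ^ q) ⬝ᵥ x = hermForm n F q x w := by
    rw [herm_def, dotProduct]; exact Finset.sum_congr rfl fun _ _ => mul_comm _ _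
  rw [pM, Matrix.add_mulVec, Matrix.one_mulVec, Matrix.vecMulVec_mulVec, h1, op_smul_eq_smul]

theorem det_pM (hq : Fintype.card F = q ^ 2) {u w : Fin n → F} (h : hermForm n F q u w = 0) :
    (pM q u w).det = 1 := by
  have h2 := two_le hq
  apply det_eq_one_of_unipotent (by rw [hq]; nlinarith only [h2])
  have key : ∀ v : Fin n → F, (pM q u w - 1) *ᵥ v = hermForm n F q v w • u := by
    intro v
    rw [Matrix.sub_mulVec, pM_mulVec, Matrix.one_mulVec, add_sub_cancel_left]
  apply Matrix.ext_of_mulVec_single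
  intro i
  rw [Matrix.zero_mulVec, ← Matrix.mulVec_mulVec, ← Matrix.mulVec_mulVec, key, key, key]
  simp only [herm_smul_left, h, mul_zero, zero_smul, herm_zero_left]

/-- the element of `GL` -/
noncomputable def pG (hq : Fintype.card F = q ^ 2) (u w : Fin n → F) (h : hermForm n F q u w = 0) : GL (Fin n) F :=
  Matrix.SpecialLinearGroup.toGL ⟨pM q u w, det_pM hq h⟩

theorem coe_pG (hq : Fintype.card F = q ^ 2) (u w : Fin n → F) (h : hermForm n F q u w = 0) :
    (pG hq u w h : Matrix (Fin n) (Fin n) F) = pM q u w := rfl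

theorem map_pM (hq : Fintype.card F = q ^ 2) {σ : F ≃+* F} (hσ : ∀ a, σ a = a ^ q) (u w : Fin n → F) :
    ((pM q u w)ᵀ).map σ = pM q w u := by
  ext i j
  show σ ((1 : Matrix (Fin n) (Fin n) F) j i + u j * w i ^ q) = (1 : Matrix (Fin n) (Fin n) F) i j + w i * u j ^ q
  rw [map_add, map_mul, hσ, hσ, hσ, pow_q_pow_q hq, Matrix.one_apply, Matrix.one_apply, mul_comm]
  congr 1
  by_cases e : i = j
  · rw [if_pos e, if_pos e.symm, one_pow]
  · rw [if_neg e, if_neg (Ne.symm e), zero_pow_q hq]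

omit [Fintype F] in
/-- the commutator of `Cj g` with `t` -/
theorem comm_t {σ : F ≃+* F} (g : GL (Fin n) F) :
    Cj g * tU n σ * (Cj g)⁻¹ * (tU n σ)⁻¹ = Cj (g * mg σ (ct g⁻¹)) := by
  rw [mul_assoc (Cj g), ← map_inv Cj g, tU_mul_Cj, ← mul_assoc, mul_inv_cancel_right, ← map_mul]

/-- the commutators -/
noncomputable def sG {σ : F ≃+* F} (hq : Fintype.card F = q ^ 2) (u w : Fin n → F)
    (h : hermForm n F q u w = 0) : GL (Fin n) F :=
  pG hq u w h * mg σ (ct (pG hq u w h)⁻¹)

theorem sG_mulVec (hq : Fintype.card F = q ^ 2) {σ : F ≃+* F} (hσ : ∀ a, σ a = a ^ q) {u w : Fin n → F}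
    (h : hermForm n F q u w = 0) (x : Fin n → F) :
    (sG (σ := σ) hq u w h : Matrix (Fin n) (Fin n) F) *ᵥ x = x + hermForm n F q x u • w +
      (hermForm n F q x w + hermForm n F q x u * hermForm n F q w w) • u := by
  have h1 : (mg σ (ct (pG hq u w h)⁻¹) : Matrix (Fin n) (Fin n) F) = pM q w u := by
    rw [coe_mg, coe_ct, inv_inv, coe_pG, map_pM hq hσ]
  rw [sG, Units.val_mul, h1, coe_pG, ← Matrix.mulVec_mulVec, pM_mulVec, pM_mulVec, herm_add_left, herm_smul_left]

/-- **the root element** -/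
theorem root (hn : 3 ≤ n) (hq : Fintype.card F = q ^ 2) {σ : F ≃+* F} (hσ : ∀ a, σ a = a ^ q) :
    ∃ k₀ : SU n F q, fU n F q k₀ ≠ 1 ∧ fU n F q k₀ ∈ Subgroup.closure
      {z | ∃ g ∈ inn (Matrix.ProjectiveSpecialLinearGroup (Fin n) F), g * fU n F q k₀ = fU n F q k₀ * g ∧
        z = g * tU n σ * g⁻¹ * (tU n σ)⁻¹} := by
  have : Nontrivial (Fin n) := Fin.nontrivial_iff_two_le.2 (by omega)
  obtain ⟨a, ha0, ha⟩ := exists_norm_eq_ne hq (c := (-1 : F))
    (by rw [neg_pow_q hq, one_pow]) (neg_ne_zero.2 one_ne_zero)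
  obtain ⟨b, hb0, hb⟩ := exists_trace_zero_ne hq
  let i0 : Fin n := ⟨0, by omega⟩
  let i1 : Fin n := ⟨1, by omega⟩
  let i2 : Fin n := ⟨2, by omega⟩
  have h01 : i0 ≠ i1 := fun e => absurd (congrArg Fin.val e) (show ¬ (0 : ℕ) = 1 by decide)
  have h02 : i0 ≠ i2 := fun e => absurd (congrArg Fin.val e) (show ¬ (0 : ℕ) = 2 by decide)
  have h12 : i1 ≠ i2 := fun e => absurd (congrArg Fin.val e) (show ¬ (1 : ℕ) = 2 by decide)
  have hss : ∀ i j : Fin n, hermForm n F q (Pi.single i 1) (Pi.single j 1) = if i = j then 1 else 0 := by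
    intro i j
    rw [herm_single_right hq, one_pow, mul_one, Pi.single_apply]
    by_cases e : i = j
    · rw [if_pos e, if_pos e.symm]
    · rw [if_neg e, if_neg (Ne.symm e)]
  obtain ⟨u, hu⟩ : ∃ u : Fin n → F, u = Pi.single i0 1 + a • Pi.single i1 1 := ⟨_, rfl⟩
  obtain ⟨w, hw⟩ : ∃ w : Fin n → F, w = Pi.single i2 1 := ⟨_, rfl⟩
  have huu : hermForm n F q u u = 0 := by
    rw [hu]
    simp only [herm_add_left, herm_add_right hq, herm_smul_left, herm_smul_right, hss, if_true, if_neg h01,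
      if_neg h01.symm]
    linear_combination ha
  have huw : hermForm n F q u w = 0 := by
    rw [hu, hw]
    simp only [herm_add_left, herm_smul_left, hss, if_neg h02, if_neg h12]
    ring
  have hwu : hermForm n F q w u = 0 := herm_eq_zero_swap hq huw
  have hww : hermForm n F q w w = 1 := by rw [hw, hss, if_pos rfl]
  have hu0 : u ≠ 0 := by
    intro h
    have h1 := congrFun h i0
    rw [hu, Pi.add_apply, Pi.smul_apply, Pi.single_eq_same, Pi.single_eq_of_ne h01, smul_zero, add_zero,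
      Pi.zero_apply] at h1
    exact one_ne_zero h1
  have hc : -b ^ q + (-b ^ q) ^ q = 0 := by
    rw [neg_pow_q hq, pow_q_pow_q hq]
    linear_combination -hb
  obtain ⟨k, hk⟩ : ∃ k : SU n F q, ∀ v, mat k *ᵥ v = v + ((-b ^ q) * hermForm n F q v u) • u :=
    ⟨_, act_trans hq huu hc⟩
  have hbq : -b ^ q ≠ 0 := neg_ne_zero.2 (pow_ne_zero _ hb0)
  refine ⟨k, ?_, ?_⟩
  · intro h1
    obtain ⟨d, hd⟩ := Cj_eq_one_iff.1 h1
    have hd' : mat k = d • (1 : Matrix (Fin n) (Fin n) F) := hd
    have h2 : ∀ v, d • v = v + ((-b ^ q) * hermForm n F q v u) • u := by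
      intro v
      rw [← hk, hd', Matrix.smul_mulVec, Matrix.one_mulVec]
    have h3 : d = 1 := by
      have h4 := h2 u
      rw [huu, mul_zero, zero_smul, add_zero] at h4
      have h5 : (d - 1) • u = 0 := by rw [sub_smul, h4, one_smul, sub_self]
      rcases smul_eq_zero.1 h5 with h5 | h5
      · exact sub_eq_zero.1 h5
      · exact absurd h5 hu0
    obtain ⟨v, hv⟩ := exists_herm_ne_zero hq hu0
    have h4 := h2 v
    rw [h3, one_smul] at h4
    have h5 : ((-b ^ q) * hermForm n F q v u) • u = 0 := by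
      have := congrArg (fun z => z - v) h4
      simpa only [_root_.neg_mul, _root_.neg_smul, _root_.neg_eq_zero, _root_.smul_eq_zero, _root_.mul_eq_zero, _root_.pow_eq_zero_iff', _root_.ne_eq, _root_.add_sub_cancel_left, _root_.sub_self] using this.symm
    rcases smul_eq_zero.1 h5 with h5 | h5
    · rcases mul_eq_zero.1 h5 with h6 | h6
      · exact hbq h6
      · apply hv
        rw [herm_swap hq v u, h6, zero_pow_q hq]
    · exact hu0 h5
  · -- `S_{w + b w} k = S_w S_{b w}`
    have huw' : hermForm n F q u (b • w) = 0 := by rw [herm_smul_right, huw, mul_zero]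
    have huw'' : hermForm n F q u (w + b • w) = 0 := by rw [herm_add_right hq, huw, huw', add_zero]
    have hmem : ∀ (z : Fin n → F) (hz : hermForm n F q u z = 0), Cj (sG (σ := σ) hq u z hz) ∈ Subgroup.closure
        {z | ∃ g ∈ inn (Matrix.ProjectiveSpecialLinearGroup (Fin n) F), g * fU n F q k = fU n F q k * g ∧
          z = g * tU n σ * g⁻¹ * (tU n σ)⁻¹} := by
      intro z hz
      apply Subgroup.subset_closure
      refine ⟨Cj (pG hq u z hz), Cj_mem_inn _ (det_pM hq hz), ?_, (comm_t _).symm⟩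
      rw [fU_apply, ← map_mul, ← map_mul]
      congr 1
      apply Units.ext
      rw [Units.val_mul, Units.val_mul, coe_pG, coe_gU]
      apply Matrix.ext_of_mulVec_single
      intro i
      rw [← Matrix.mulVec_mulVec, ← Matrix.mulVec_mulVec, pM_mulVec, pM_mulVec, hk, hk, herm_add_left,
        herm_add_left, herm_smul_left, herm_smul_left, huu, hz]
      simp only [mul_zero, add_zero]
      abel
    have hrel : sG (σ := σ) hq u (w + b • w) huw'' * gU k = sG (σ := σ) hq u w huw * sG (σ := σ) hq u (b • w) huw' := by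
      apply Units.ext
      rw [Units.val_mul, Units.val_mul, coe_gU]
      apply Matrix.ext_of_mulVec_single
      intro i
      rw [← Matrix.mulVec_mulVec, ← Matrix.mulVec_mulVec, sG_mulVec hq hσ, sG_mulVec hq hσ, sG_mulVec hq hσ, hk]
      simp only [herm_add_left, herm_smul_left, herm_add_right hq, herm_smul_right, huu, huw, hwu, hww]
      funext l
      simp only [Pi.add_apply, Pi.smul_apply, smul_eq_mul]
      ring
    have hk2 : fU n F q k = (Cj (sG (σ := σ) hq u (w + b • w) huw''))⁻¹ *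
        (Cj (sG (σ := σ) hq u w huw) * Cj (sG (σ := σ) hq u (b • w) huw')) := by
      rw [← map_mul, ← hrel, map_mul, inv_mul_cancel_left, fU_apply]
    have h5 := Subgroup.mul_mem _ (Subgroup.inv_mem _ (hmem _ huw''))
      (Subgroup.mul_mem _ (hmem _ huw) (hmem _ huw'))
    rwa [← hk2] at h5

end Basic

/-- **box BU** -/
theorem killed_U {F : Type} [Field F] [Fintype F] {n q : ℕ} (hq : Fintype.card F = q ^ 2)
    (hn : 3 ≤ n) (hne : ¬ (n = 3 ∧ q = 2)) (σ : F ≃+* F) (hσ : ∀ a, σ a = a ^ q)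
    (hRC : Nat.card (PSU n F q) < Nat.card (Matrix.ProjectiveSpecialLinearGroup (Fin n) F) →
      RCo (PSU n F q)) :
    Killed (lift (fld σ) * It : MulAut (Matrix.ProjectiveSpecialLinearGroup (Fin n) F)) := by
  have : Nontrivial (Fin n) := Fin.nontrivial_iff_two_le.2 (by omega)
  have hS : IsSimpleGroup (Matrix.ProjectiveSpecialLinearGroup (Fin n) F) := Cfsg.Agent.S0249.result n hn
  obtain ⟨k₀, hk₀, hy⟩ := root (σ := σ) hn hq hσ
  have hSn : ¬ IsMulCommutative (Matrix.ProjectiveSpecialLinearGroup (Fin n) F) := by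
    intro h
    obtain ⟨s, hs⟩ := fU_mem k₀
    apply hk₀
    rw [← hs]
    apply MulEquiv.ext
    intro x
    rw [MulAut.conj_apply, h.is_comm.comm s x, mul_inv_cancel_right, MulAut.one_apply]
  have ht1 : tU n σ ≠ 1 := by
    intro h
    apply hk₀
    have hle : Subgroup.closure {z | ∃ g ∈ inn (Matrix.ProjectiveSpecialLinearGroup (Fin n) F),
        g * fU n F q k₀ = fU n F q k₀ * g ∧ z = g * tU n σ * g⁻¹ * (tU n σ)⁻¹} ≤ ⊥ := by
      rw [Subgroup.closure_le]
      rintro _ ⟨g, -, -, rfl⟩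
      rw [h, mul_one, mul_inv_cancel, inv_one, mul_one]
      exact Subgroup.one_mem _
    exact Subgroup.mem_bot.1 (hle hy)
  have hK : IsSimpleGroup (SU n F q ⧸ Subgroup.center (SU n F q)) := Cfsg.Agent.S0283.result hq n hn hne
  have hKn : ¬ IsMulCommutative (SU n F q ⧸ Subgroup.center (SU n F q)) := by
    intro hcm
    have h1 : commutator (SU n F q) ≤ Subgroup.center (SU n F q) := by
      rw [commutator_def, Subgroup.commutator_le]
      intro a _ b _
      apply (QuotientGroup.eq_one_iff _).1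
      have h2 : ((⁅a, b⁆ : SU n F q) : SU n F q ⧸ Subgroup.center (SU n F q)) =
        ⁅(a : SU n F q ⧸ Subgroup.center (SU n F q)), (b : SU n F q ⧸ Subgroup.center (SU n F q))⁆ :=
        map_commutatorElement (QuotientGroup.mk' (Subgroup.center (SU n F q))) a b
      rw [h2, commutatorElement_eq_one_iff_mul_comm]
      exact hcm.is_comm.comm _ _
    rw [Cfsg.Agent.LieClassical.HermPerfect.commutator_SU_eq_top hq hn hne] at h1
    obtain ⟨y, hy⟩ := exists_ne (1 : SU n F q ⧸ Subgroup.center (SU n F q))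
    obtain ⟨s, rfl⟩ := QuotientGroup.mk_surjective y
    exact hy ((QuotientGroup.eq_one_iff s).2 (h1 (Subgroup.mem_top s)))
  have hf := fU_eq_one_iff (F := F) (q := q) hn hq
  have hRC' : RCo (SU n F q ⧸ Subgroup.center (SU n F q)) :=
    hRC (card_lt_of_cent hS hSn (fU n F q) hf fU_mem (tU n σ) ht1 (t_comm hq hσ))
  refine (killed_iff _).2 ?_
  intro κ _ x r hF H hcov
  have hform : ∀ i, ∃ (A : GL (Fin n) F) (τ : F ≃+* F), x i = Sem A τ := fun i =>
    exists_sem_of_odd (by rw [Fintype.card_fin]; omega) (x i) ((hF.pr i).odd_of_ne_two (hF.ne2 i)) (hF.pow i)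
  refine fam_K hS hF (tU_sq (sig_sig hq hσ)) hcov (fU n F q) hf hK hKn hRC' fU_mem (t_comm hq hσ) ?_ ?_ k₀ hk₀ hy
  · intro i k
    obtain ⟨A, τ, hA⟩ := hform i
    have h1 := hF.commt i
    rw [hA] at h1 ⊢
    exact norm_fU hq hσ h1 k
  · intro i h
    obtain ⟨A, τ, hA⟩ := hform i
    apply hF.ne1 i
    rw [hA] at h ⊢
    exact sem_eq_one hn hq h

end Cfsg.Agent.H442.RC.KU
end

-- part: H679/RC/OrthPol
section
/-!
# S3510 part B, box BO: the orthogonal polarity in odd characteristic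
-/

set_option autoImplicit false
set_option linter.unusedSectionVars false
set_option linter.unusedSimpArgs false

namespace Cfsg.Agent.H679.RC

open Matrix Cfsg
open scoped commutatorElement
open Cfsg.Agent.H106.RC Cfsg.Agent.H999.PslGraph Cfsg.Agent.H384.RC
open Cfsg.Agent.ClassicalGeometry.AutPSL.Auto

variable {F : Type} [Field F] {ι : Type} [Fintype ι] [DecidableEq ι]

/-! ### bilinear algebra -/

theorem ext_mulVec {M N : Matrix ι ι F} (h : ∀ x, M *ᵥ x = N *ᵥ x) : M = N :=
  Matrix.ext_iff_mulVec.2 h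

section bil

variable (B : Matrix ι ι F)

theorem bil_add_left (u v w : ι → F) : bil B (u + v) w = bil B u w + bil B v w := add_dotProduct _ _ _

theorem bil_sub_left (u v w : ι → F) : bil B (u - v) w = bil B u w - bil B v w := sub_dotProduct _ _ _

theorem bil_smul_left (c : F) (u w : ι → F) : bil B (c • u) w = c * bil B u w := by
  rw [bil, bil, smul_dotProduct, smul_eq_mul]

theorem bil_add_right (u v w : ι → F) : bil B u (v + w) = bil B u v + bil B u w := by
  rw [bil, bil, bil, mulVec_add, dotProduct_add]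

theorem bil_sub_right (u v w : ι → F) : bil B u (v - w) = bil B u v - bil B u w := by
  rw [bil, bil, bil, mulVec_sub, dotProduct_sub]

theorem bil_smul_right (c : F) (u w : ι → F) : bil B u (c • w) = c * bil B u w := by
  rw [bil, bil, mulVec_smul, dotProduct_smul, smul_eq_mul]

variable {B}

theorem bil_comm (hB : Bᵀ = B) (u v : ι → F) : bil B u v = bil B v u := by
  rw [bil, bil, dotProduct_mulVec, dotProduct_comm, ← mulVec_transpose, hB]

end bil

/-- nondegeneracy -/
theorem bil_nd (B : GL ι F) {x : ι → F} (h : ∀ y, bil (B : Matrix ι ι F) x y = 0) : x = 0 := by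
  have h1 : x ᵥ* (B : Matrix ι ι F) = 0 := by
    funext i
    have := h (Pi.single i 1)
    rw [bil, dotProduct_mulVec, dotProduct_single, mul_one] at this
    exact this
  have h2 : x ᵥ* ((B : Matrix ι ι F) * ((B⁻¹ : GL ι F) : Matrix ι ι F)) = 0 := by
    rw [← vecMul_vecMul, h1, zero_vecMul]
  rwa [← Units.val_mul, mul_inv_cancel, Units.val_one, vecMul_one] at h2

/-- isometries -/
theorem mem_iso_iff (h2 : (2 : F) ≠ 0) {Q : (ι → F) → F} {B : Matrix ι ι F} (hB : Bᵀ = B)
    (hQ : ∀ v, bil B v v = 2 * Q v) (g : GL ι F) :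
    g ∈ isometryGroup F Q ↔ (g : Matrix ι ι F)ᵀ * B * g = B := by
  constructor
  · intro h
    have h1 : ∀ u, bil B ((g : Matrix ι ι F) *ᵥ u) ((g : Matrix ι ι F) *ᵥ u) = bil B u u := by
      intro u
      rw [hQ, hQ]
      congr 1
      exact h u u
    apply bil_ext
    intro u v
    rw [← bil_mulVec]
    have h3 := h1 (u + v)
    rw [mulVec_add] at h3
    simp only [bil_add_left, bil_add_right] at h3
    rw [h1 u, h1 v, bil_comm hB ((g : Matrix ι ι F) *ᵥ v), bil_comm hB v u] at h3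
    have h4 : 2 * bil B ((g : Matrix ι ι F) *ᵥ u) ((g : Matrix ι ι F) *ᵥ v) = 2 * bil B u v := by
      linear_combination h3
    exact mul_left_cancel₀ h2 h4
  · intro h u v
    show Q ((g : Matrix ι ι F) *ᵥ u) = Q u
    apply mul_left_cancel₀ h2
    rw [← hQ, ← hQ, bil_mulVec, h]

/-- an invertible matrix from an isometry -/
def isoGL (B : GL ι F) (M : Matrix ι ι F) (h : Mᵀ * (B : Matrix ι ι F) * M = B) : GL ι F :=
  have e : (((B⁻¹ : GL ι F) : Matrix ι ι F) * Mᵀ * (B : Matrix ι ι F)) * M = 1 := by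
    rw [Matrix.mul_assoc, Matrix.mul_assoc, ← Matrix.mul_assoc Mᵀ, h, ← Units.val_mul, inv_mul_cancel,
      Units.val_one]
  ⟨M, ((B⁻¹ : GL ι F) : Matrix ι ι F) * Mᵀ * (B : Matrix ι ι F), mul_eq_one_comm.1 e, e⟩

/-! ### Siegel transformations -/

/-- `x ↦ x + b(x,e) w - b(x,w) e - q b(x,e) e` -/
def Sg (B : Matrix ι ι F) (q : F) (e w : ι → F) : Matrix ι ι F :=
  1 + vecMulVec w (B *ᵥ e) - vecMulVec e (B *ᵥ w) - q • vecMulVec e (B *ᵥ e)

theorem vmv (B : Matrix ι ι F) (u v x : ι → F) : vecMulVec u (B *ᵥ v) *ᵥ x = bil B x v • u := by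
  rw [vecMulVec_mulVec]
  funext i
  rw [bil, dotProduct_comm x]
  simp only [mul_comm, _root_.Pi.smul_apply, _root_.MulOpposite.smul_eq_mul_unop, _root_.MulOpposite.unop_op, _root_.smul_eq_mul]

theorem Sg_mulVec (B : Matrix ι ι F) (q : F) (e w x : ι → F) :
    Sg B q e w *ᵥ x = x + bil B x e • w - bil B x w • e - (q * bil B x e) • e := by
  rw [Sg, sub_mulVec, sub_mulVec, add_mulVec, one_mulVec, smul_mulVec, vmv, vmv, vmv, smul_smul]

theorem Sg_iso {B : Matrix ι ι F} (hB : Bᵀ = B) {q : F} {e w : ι → F} (he : bil B e e = 0)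
    (hew : bil B e w = 0) (hq : bil B w w = 2 * q) : (Sg B q e w)ᵀ * B * Sg B q e w = B := by
  have hwe : bil B w e = 0 := by rw [bil_comm hB, hew]
  apply bil_ext
  intro u v
  rw [← bil_mulVec, Sg_mulVec, Sg_mulVec]
  simp only [bil_add_left, bil_add_right, bil_sub_left, bil_sub_right, bil_smul_left, bil_smul_right, he, hew,
    hwe, hq]
  rw [bil_comm hB e v, bil_comm hB w v]
  ring

theorem Sg_nilp {B : Matrix ι ι F} (hB : Bᵀ = B) {q : F} {e w : ι → F} (he : bil B e e = 0)
    (hew : bil B e w = 0) (hq : bil B w w = 2 * q) : IsNilpotent (Sg B q e w - 1) := by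
  have hwe : bil B w e = 0 := by rw [bil_comm hB, hew]
  have h1 : ∀ x, (Sg B q e w - 1) *ᵥ x = bil B x e • w - bil B x w • e - (q * bil B x e) • e := by
    intro x
    rw [sub_mulVec, Sg_mulVec, one_mulVec]
    abel
  refine ⟨3, ext_mulVec fun x => ?_⟩
  rw [pow_succ, pow_two, ← mulVec_mulVec, ← mulVec_mulVec, h1, h1, h1, zero_mulVec]
  simp only [bil_add_left, bil_add_right, bil_sub_left, bil_sub_right, bil_smul_left, bil_smul_right, he, hew,
    hwe, hq]
  simp

/-- `-1` on the hyperbolic plane -/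
def Dm (B : Matrix ι ι F) (e f : ι → F) : Matrix ι ι F :=
  1 - (2 : F) • vecMulVec e (B *ᵥ f) - (2 : F) • vecMulVec f (B *ᵥ e)

theorem Dm_mulVec (B : Matrix ι ι F) (e f x : ι → F) :
    Dm B e f *ᵥ x = x - (2 * bil B x f) • e - (2 * bil B x e) • f := by
  rw [Dm, sub_mulVec, sub_mulVec, one_mulVec, smul_mulVec, smul_mulVec, vmv, vmv, smul_smul, smul_smul]

theorem Dm_iso {B : Matrix ι ι F} (hB : Bᵀ = B) {e f : ι → F} (he : bil B e e = 0) (hf : bil B f f = 0)
    (hef : bil B e f = 1) : (Dm B e f)ᵀ * B * Dm B e f = B := by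
  have hfe : bil B f e = 1 := by rw [bil_comm hB, hef]
  apply bil_ext
  intro u v
  rw [← bil_mulVec, Dm_mulVec, Dm_mulVec]
  simp only [bil_add_left, bil_add_right, bil_sub_left, bil_sub_right, bil_smul_left, bil_smul_right, he, hf,
    hef, hfe]
  rw [bil_comm hB e v, bil_comm hB f v]
  ring

theorem Dm_Sg {B : Matrix ι ι F} (hB : Bᵀ = B) {q : F} {e f w : ι → F} (he : bil B e e = 0)
    (_hf : bil B f f = 0) (hef : bil B e f = 1) (hew : bil B e w = 0) (hfw : bil B f w = 0)
    (hq : bil B w w = 2 * q) :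
    Dm B e f * Sg B q e w = Sg B (4 * q) e ((-2 : F) • w) * Sg B q e w * Dm B e f := by
  have hfe : bil B f e = 1 := by rw [bil_comm hB, hef]
  have hwe : bil B w e = 0 := by rw [bil_comm hB, hew]
  have hwf : bil B w f = 0 := by rw [bil_comm hB, hfw]
  apply ext_mulVec
  intro x
  rw [← mulVec_mulVec, ← mulVec_mulVec, ← mulVec_mulVec, Sg_mulVec, Sg_mulVec, Sg_mulVec, Dm_mulVec, Dm_mulVec]
  simp only [bil_add_left, bil_add_right, bil_sub_left, bil_sub_right, bil_smul_left, bil_smul_right, he, hew,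
    hwe, hq, hef, hfe, hfw, hwf]
  module

/-! ### the homomorphism `GL_2 → GL` on a nondegenerate plane -/

/-- `1 + P (M - 1) N`, `N P = 1` -/
def Phi (P : Matrix ι (Fin 2) F) (N : Matrix (Fin 2) ι F) (h : N * P = 1) :
    Matrix (Fin 2) (Fin 2) F →* Matrix ι ι F where
  toFun M := 1 + P * (M - 1) * N
  map_one' := by simp
  map_mul' M M' := by
    have e : P * (M - 1) * N * (P * (M' - 1) * N) = P * ((M - 1) * (M' - 1)) * N := by
      calc P * (M - 1) * N * (P * (M' - 1) * N) = P * (M - 1) * (N * P) * (M' - 1) * N := by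
            simp only [Matrix.mul_assoc]
        _ = _ := by rw [h, Matrix.mul_one]; simp only [Matrix.mul_assoc]
    rw [add_mul, one_mul, mul_add, mul_one, e]
    have e2 : M * M' - 1 = (M' - 1) + ((M - 1) + (M - 1) * (M' - 1)) := by noncomm_ring
    rw [e2, Matrix.mul_add, Matrix.mul_add, Matrix.add_mul, Matrix.add_mul]
    abel

theorem Phi_apply (P : Matrix ι (Fin 2) F) (N : Matrix (Fin 2) ι F) (h : N * P = 1)
    (M : Matrix (Fin 2) (Fin 2) F) : Phi P N h M = 1 + P * (M - 1) * N := rfl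

theorem Phi_det (P : Matrix ι (Fin 2) F) (N : Matrix (Fin 2) ι F) (h : N * P = 1)
    (M : Matrix (Fin 2) (Fin 2) F) : (Phi P N h M).det = M.det := by
  rw [Phi_apply, Matrix.mul_assoc, det_one_add_mul_comm, Matrix.mul_assoc, h, Matrix.mul_one]
  congr 1
  abel

theorem Phi_tr {P : Matrix ι (Fin 2) F} {N : Matrix (Fin 2) ι F} (h : N * P = 1) {B : Matrix ι ι F}
    (hB : Bᵀ = B) {c : F} (hN : N = c • (Pᵀ * B)) (M : Matrix (Fin 2) (Fin 2) F) :
    (Phi P N h M)ᵀ * B = B * Phi P N h Mᵀ := by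
  rw [Phi_apply, Phi_apply, transpose_add, transpose_one, transpose_mul, transpose_mul, transpose_sub,
    transpose_one, hN, transpose_smul, transpose_mul, transpose_transpose, hB, add_mul, one_mul, mul_add, mul_one]
  congr 1
  simp only [Matrix.mul_smul, Matrix.smul_mul, Matrix.mul_assoc]

theorem Phi_iso {P : Matrix ι (Fin 2) F} {N : Matrix (Fin 2) ι F} (h : N * P = 1) {B : Matrix ι ι F}
    (hB : Bᵀ = B) {c : F} (hN : N = c • (Pᵀ * B)) (M : Matrix (Fin 2) (Fin 2) F) (hM : Mᵀ * M = 1) :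
    (Phi P N h M)ᵀ * B * Phi P N h M = B := by
  rw [Phi_tr h hB hN, Matrix.mul_assoc, ← map_mul, hM, map_one, Matrix.mul_one]

/-! ### elements of `Ω` -/

section om

variable {Q : (ι → F) → F} (B : GL ι F)

theorem exists_Sg_mem (h2 : (2 : F) ≠ 0) (hB : (B : Matrix ι ι F)ᵀ = B) (hQ : ∀ v, bil (B : Matrix ι ι F) v v = 2 * Q v)
    {e f w : ι → F} (he : bil (B : Matrix ι ι F) e e = 0) (hf : bil (B : Matrix ι ι F) f f = 0)
    (hef : bil (B : Matrix ι ι F) e f = 1) (hew : bil (B : Matrix ι ι F) e w = 0)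
    (hfw : bil (B : Matrix ι ι F) f w = 0) :
    ∃ k : Omega F Q, (((k : isometryGroup F Q) : GL ι F) : Matrix ι ι F) = Sg (B : Matrix ι ι F) (Q w) e w := by
  set w' : ι → F := (-(2 : F)⁻¹) • w with hw'
  have hew' : bil (B : Matrix ι ι F) e w' = 0 := by rw [hw', bil_smul_right, hew, mul_zero]
  have hfw' : bil (B : Matrix ι ι F) f w' = 0 := by rw [hw', bil_smul_right, hfw, mul_zero]
  have hd := Dm_iso hB he hf hef
  have hs := Sg_iso hB he hew' (hQ w')
  have hd' : isoGL B _ hd ∈ isometryGroup F Q := (mem_iso_iff h2 hB hQ _).2 hd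
  have hs' : isoGL B _ hs ∈ isometryGroup F Q := (mem_iso_iff h2 hB hQ _).2 hs
  let d : isometryGroup F Q := ⟨_, hd'⟩
  let s : isometryGroup F Q := ⟨_, hs'⟩
  refine ⟨⟨⁅d, s⁆, Subgroup.commutator_mem_commutator (Subgroup.mem_top d) (Subgroup.mem_top s)⟩, ?_⟩
  have hq : 4 * Q w' = Q w := by
    apply mul_left_cancel₀ h2
    have h1 : 2 * (4 * Q w') = 4 * (2 * Q w') := by ring
    rw [h1, ← hQ, ← hQ, hw', bil_smul_left, bil_smul_right]
    field_simp
    ring
  have hww : (-2 : F) • w' = w := by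
    rw [hw', smul_smul]
    have : (-2 : F) * -(2 : F)⁻¹ = 1 := by field_simp
    rw [this, one_smul]
  have h1 := Dm_Sg hB he hf hef hew' hfw' (hQ w')
  rw [hq, hww] at h1
  -- the matrix of the commutator
  have hs'' := Sg_iso hB he hew (hQ w)
  have h3 : isoGL B _ hd * isoGL B _ hs = isoGL B _ hs'' * isoGL B _ hs * isoGL B _ hd := Units.ext h1
  have h4 : isoGL B _ hd * isoGL B _ hs * (isoGL B _ hd)⁻¹ * (isoGL B _ hs)⁻¹ = isoGL B _ hs'' := by
    rw [h3]
    group
  exact congrArg Units.val h4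

end om

/-! ### semilinear maps commuting with the Siegel transformations -/

section cent

variable (B : GL ι F)

/-- the common fixed vectors of the `S_{e,w}` -/
theorem fixed_line {Q : (ι → F) → F} (hB : (B : Matrix ι ι F)ᵀ = B) {e f w₀ x : ι → F}
    (he : bil (B : Matrix ι ι F) e e = 0) (hf : bil (B : Matrix ι ι F) f f = 0)
    (hef : bil (B : Matrix ι ι F) e f = 1) (hw₀ : w₀ ≠ 0) (h0e : bil (B : Matrix ι ι F) e w₀ = 0)
    (h0f : bil (B : Matrix ι ι F) f w₀ = 0)
    (h : ∀ w, bil (B : Matrix ι ι F) e w = 0 → bil (B : Matrix ι ι F) f w = 0 →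
      Sg (B : Matrix ι ι F) (Q w) e w *ᵥ x = x) : x = bil (B : Matrix ι ι F) x f • e := by
  have hfe : bil (B : Matrix ι ι F) f e = 1 := by rw [bil_comm hB, hef]
  have h1 : ∀ w, bil (B : Matrix ι ι F) e w = 0 → bil (B : Matrix ι ι F) f w = 0 →
      bil (B : Matrix ι ι F) x e • w = (bil (B : Matrix ι ι F) x w + Q w * bil (B : Matrix ι ι F) x e) • e := by
    intro w hw hw'
    have h2 := h w hw hw'
    rw [Sg_mulVec] at h2
    have h3 := congrArg (fun y => y - x) h2
    simp only [sub_self] at h3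
    rw [← sub_eq_zero, ← h3]
    module
  have h2 : ∀ w, bil (B : Matrix ι ι F) e w = 0 → bil (B : Matrix ι ι F) f w = 0 →
      bil (B : Matrix ι ι F) x w + Q w * bil (B : Matrix ι ι F) x e = 0 := by
    intro w hw hw'
    have h3 := congrArg (bil (B : Matrix ι ι F) f) (h1 w hw hw')
    rw [bil_smul_right, bil_smul_right, hw', hfe, mul_zero, mul_one] at h3
    exact h3.symm
  have hxe : bil (B : Matrix ι ι F) x e = 0 := by
    have h3 := h1 w₀ h0e h0f
    rw [h2 w₀ h0e h0f, zero_smul] at h3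
    exact (smul_eq_zero.1 h3).resolve_right hw₀
  have hxw : ∀ w, bil (B : Matrix ι ι F) e w = 0 → bil (B : Matrix ι ι F) f w = 0 →
      bil (B : Matrix ι ι F) x w = 0 := by
    intro w hw hw'
    have h3 := h2 w hw hw'
    rwa [hxe, mul_zero, add_zero] at h3
  rw [← sub_eq_zero]
  apply bil_nd B
  intro y
  set w := y - bil (B : Matrix ι ι F) y f • e - bil (B : Matrix ι ι F) y e • f with hw
  have hwe : bil (B : Matrix ι ι F) e w = 0 := by
    rw [hw]
    simp only [bil_sub_right, bil_smul_right, he, hef]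
    rw [bil_comm hB e y]
    ring
  have hwf : bil (B : Matrix ι ι F) f w = 0 := by
    rw [hw]
    simp only [bil_sub_right, bil_smul_right, hf, hfe]
    rw [bil_comm hB f y]
    ring
  have hy : y = w + bil (B : Matrix ι ι F) y f • e + bil (B : Matrix ι ι F) y e • f := by
    rw [hw]; abel
  rw [hy]
  simp only [bil_add_right, bil_sub_left, bil_smul_left, bil_smul_right, hxw w hwe hwf, hxe, hwe, he, hef]
  ring

theorem cent_main {Q : (ι → F) → F} (hB : (B : Matrix ι ι F)ᵀ = B) {e f w₀ : ι → F}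
    (he : bil (B : Matrix ι ι F) e e = 0) (hf : bil (B : Matrix ι ι F) f f = 0)
    (hef : bil (B : Matrix ι ι F) e f = 1) (hw₀ : w₀ ≠ 0) (h0e : bil (B : Matrix ι ι F) e w₀ = 0)
    (h0f : bil (B : Matrix ι ι F) f w₀ = 0) (A : GL ι F) (σ : F ≃+* F)
    (h1 : ∀ w, bil (B : Matrix ι ι F) e w = 0 → bil (B : Matrix ι ι F) f w = 0 →
      (A : Matrix ι ι F) * (Sg (B : Matrix ι ι F) (Q w) e w).map σ = Sg (B : Matrix ι ι F) (Q w) e w * A)
    (h2 : ∀ w, bil (B : Matrix ι ι F) e w = 0 → bil (B : Matrix ι ι F) f w = 0 →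
      (A : Matrix ι ι F) * (Sg (B : Matrix ι ι F) (Q w) f w).map σ = Sg (B : Matrix ι ι F) (Q w) f w * A) :
    σ = RingEquiv.refl F ∧ ∃ c : F, (A : Matrix ι ι F) = c • (1 : Matrix ι ι F) := by
  have hfe : bil (B : Matrix ι ι F) f e = 1 := by rw [bil_comm hB, hef]
  -- the semilinear map
  set a : (ι → F) → (ι → F) := fun v => (A : Matrix ι ι F) *ᵥ (fun i => σ (v i)) with ha
  have a_add : ∀ u v, a (u + v) = a u + a v := by
    intro u v
    rw [ha]
    simp only
    rw [← mulVec_add]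
    congr 1
    funext i
    simp
  have a_smul : ∀ (c : F) v, a (c • v) = σ c • a v := by
    intro c v
    rw [ha]
    simp only
    rw [← mulVec_smul]
    congr 1
    funext i
    simp
  have a_sub : ∀ u v, a (u - v) = a u - a v := by
    intro u v
    have h3 : u - v = u + (-1 : F) • v := by rw [neg_one_smul, sub_eq_add_neg]
    rw [h3, a_add, a_smul, map_neg, map_one, neg_one_smul, sub_eq_add_neg]
  have a_mul : ∀ (M : Matrix ι ι F), (A : Matrix ι ι F) * M.map σ = M * A → ∀ v, a (M *ᵥ v) = M *ᵥ a v := by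
    intro M hM v
    rw [ha]
    simp only
    have h3 : (fun i => σ ((M *ᵥ v) i)) = M.map σ *ᵥ (fun i => σ (v i)) := by
      funext i
      exact RingHom.map_mulVec (σ : F →+* F) M v i
    rw [h3, mulVec_mulVec, hM, ← mulVec_mulVec]
  have a_inj : ∀ v, a v = 0 → v = 0 := by
    intro v hv
    have h3 := congrArg (fun y => ((A⁻¹ : GL ι F) : Matrix ι ι F) *ᵥ y) hv
    simp only [ha] at h3
    rw [mulVec_mulVec, ← Units.val_mul, inv_mul_cancel, Units.val_one, one_mulVec, mulVec_zero] at h3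
    funext i
    have h4 := congrFun h3 i
    simp only [Pi.zero_apply] at h4 ⊢
    exact (map_eq_zero_iff σ σ.injective).1 h4
  -- `a e` and `a f`
  have hae : a e = bil (B : Matrix ι ι F) (a e) f • e := by
    apply fixed_line B (Q := Q) hB he hf hef hw₀ h0e h0f
    intro w hw hw'
    rw [← a_mul _ (h1 w hw hw'), Sg_mulVec, he, hw]
    simp
  have haf : a f = bil (B : Matrix ι ι F) (a f) e • f := by
    apply fixed_line B (Q := Q) hB hf he hfe hw₀ h0f h0e
    intro w hw hw'
    rw [← a_mul _ (h2 w hw' hw), Sg_mulVec, hf, hw]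
    simp
  set ε := bil (B : Matrix ι ι F) (a e) f with hε
  set φ := bil (B : Matrix ι ι F) (a f) e with hφ
  have hw1 : ∀ w, bil (B : Matrix ι ι F) e w = 0 → bil (B : Matrix ι ι F) f w = 0 →
      a w = φ • w + (σ (Q w) * ε - φ * Q w) • e := by
    intro w hw hw'
    have h3 := a_mul _ (h1 w hw hw') f
    rw [Sg_mulVec, hfe, hw', haf] at h3
    rw [mulVec_smul, Sg_mulVec, hfe, hw', one_smul, zero_smul, sub_zero, mul_one, a_sub, a_add, a_smul, haf,
      hae] at h3
    have h4 : a w = (φ • f + a w - σ (Q w) • ε • e) - φ • f + σ (Q w) • ε • e := by abel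
    rw [h4, h3]
    module
  have hw2 : ∀ w, bil (B : Matrix ι ι F) e w = 0 → bil (B : Matrix ι ι F) f w = 0 →
      a w = ε • w + (σ (Q w) * φ - ε * Q w) • f := by
    intro w hw hw'
    have h3 := a_mul _ (h2 w hw hw') e
    rw [Sg_mulVec, hef, hw, hae] at h3
    rw [mulVec_smul, Sg_mulVec, hef, hw, one_smul, zero_smul, sub_zero, mul_one, a_sub, a_add, a_smul, haf,
      hae] at h3
    have h4 : a w = (ε • e + a w - σ (Q w) • φ • f) - ε • e + σ (Q w) • φ • f := by abel
    rw [h4, h3]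
    module
  have hw3 : ∀ w, bil (B : Matrix ι ι F) e w = 0 → bil (B : Matrix ι ι F) f w = 0 → a w = φ • w := by
    intro w hw hw'
    have h3 := hw1 w hw hw'
    have h4 := hw2 w hw hw'
    have h5 := congrArg (bil (B : Matrix ι ι F) f) (h3.symm.trans h4)
    simp only [bil_add_right, bil_smul_right, hw', hfe, hf, mul_zero, mul_one, zero_add, add_zero] at h5
    rw [h3, h5, zero_smul, add_zero]
  have hw4 : ∀ w, bil (B : Matrix ι ι F) e w = 0 → bil (B : Matrix ι ι F) f w = 0 → a w = ε • w := by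
    intro w hw hw'
    have h3 := hw1 w hw hw'
    have h4 := hw2 w hw hw'
    have h5 := congrArg (bil (B : Matrix ι ι F) e) (h3.symm.trans h4)
    simp only [bil_add_right, bil_smul_right, hw, hef, he, mul_zero, mul_one, zero_add, add_zero] at h5
    rw [h4, ← h5, zero_smul, add_zero]
  have hεφ : ε = φ := by
    have h3 : (ε - φ) • w₀ = 0 := by
      rw [sub_smul, ← hw3 w₀ h0e h0f, ← hw4 w₀ h0e h0f, sub_self]
    exact sub_eq_zero.1 ((smul_eq_zero.1 h3).resolve_right hw₀)
  have hφ0 : φ ≠ 0 := by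
    intro h3
    apply hw₀
    apply a_inj
    rw [hw3 w₀ h0e h0f, h3, zero_smul]
  have hσ : σ = RingEquiv.refl F := by
    apply RingEquiv.ext
    intro c
    have h3 := hw3 (c • w₀) (by rw [bil_smul_right, h0e, mul_zero]) (by rw [bil_smul_right, h0f, mul_zero])
    rw [a_smul, hw3 w₀ h0e h0f, smul_smul, smul_smul] at h3
    have h4 : (σ c * φ - φ * c) • w₀ = 0 := by rw [sub_smul, h3, sub_self]
    have h5 := (smul_eq_zero.1 h4).resolve_right hw₀
    have h6 : φ * (σ c - c) = 0 := by linear_combination h5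
    have h7 := (mul_eq_zero.1 h6).resolve_left hφ0
    exact sub_eq_zero.1 h7
  refine ⟨hσ, φ, ext_mulVec fun y => ?_⟩
  have hay : a y = (A : Matrix ι ι F) *ᵥ y := by
    rw [ha, hσ]
    rfl
  rw [← hay, smul_mulVec, one_mulVec]
  set w := y - bil (B : Matrix ι ι F) y f • e - bil (B : Matrix ι ι F) y e • f with hw
  have hwe : bil (B : Matrix ι ι F) e w = 0 := by
    rw [hw]
    simp only [bil_sub_right, bil_smul_right, he, hef]
    rw [bil_comm hB e y]
    ring
  have hwf : bil (B : Matrix ι ι F) f w = 0 := by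
    rw [hw]
    simp only [bil_sub_right, bil_smul_right, hf, hfe]
    rw [bil_comm hB f y]
    ring
  have hy : y = w + bil (B : Matrix ι ι F) y f • e + bil (B : Matrix ι ι F) y e • f := by
    rw [hw]; abel
  have hy' : a y = a w + a (bil (B : Matrix ι ι F) y f • e) + a (bil (B : Matrix ι ι F) y e • f) := by
    conv_lhs => rw [hy]
    rw [a_add, a_add]
  rw [hy', hw3 w hwe hwf, a_smul, a_smul, haf, hae, hεφ, hσ]
  conv_rhs => rw [hy]
  simp only [RingEquiv.refl_apply]
  module

end cent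

/-! ### a square root of the square root of `-1` -/

theorem exists_sq_add_sq {F : Type} [Field F] [Fintype F] (h2 : (2 : F) ≠ 0) (x : F) :
    ∃ a b : F, a ^ 2 + b ^ 2 = x := by
  have hodd : Fintype.card F % 2 = 1 := by
    apply FiniteField.odd_card_of_char_ne_two
    intro h
    apply h2
    have h3 := (ringChar.spec F 2).2 (by rw [h])
    exact_mod_cast h3
  obtain ⟨a, b, hab⟩ := FiniteField.exists_root_sum_quadratic (f := (Polynomial.X ^ 2 : Polynomial F))
    (g := Polynomial.X ^ 2 - Polynomial.C x) (Polynomial.degree_X_pow 2)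
    (Polynomial.degree_X_pow_sub_C (by decide) _) hodd
  refine ⟨a, b, ?_⟩
  rw [← sub_eq_zero]
  simpa only [Polynomial.eval_C, Polynomial.eval_X, Polynomial.eval_pow, Polynomial.eval_sub,
    ← add_sub_assoc] using hab

theorem exists_s {F : Type} [Field F] [Fintype F] (h2 : (2 : F) ≠ 0) :
    ∃ s : Matrix (Fin 2) (Fin 2) F, s.det = 1 ∧ s * sᵀ * (s * sᵀ) = -1 := by
  obtain ⟨x, y, hxy, hx⟩ : ∃ x y : F, x ^ 2 + y ^ 2 = -1 ∧ x ≠ 0 := by
    obtain ⟨x, y, hxy⟩ := exists_sq_add_sq h2 (-1)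
    by_cases hx : x = 0
    · refine ⟨y, x, by rw [add_comm]; exact hxy, ?_⟩
      rintro rfl
      rw [hx] at hxy
      norm_num at hxy
    · exact ⟨x, y, hxy, hx⟩
  obtain ⟨p, r, hpr⟩ := exists_sq_add_sq h2 x
  refine ⟨!![p, r; (y * p - r) / x, (y * r + p) / x], ?_, ?_⟩
  · rw [det_fin_two_of]
    field_simp
    linear_combination hpr
  · have h1 : !![p, r; (y * p - r) / x, (y * r + p) / x] * !![p, r; (y * p - r) / x, (y * r + p) / x]ᵀ =
        !![x, y; y, -x] := by
      ext i j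
      (revert i j; simp only [Matrix.mul_apply, Fin.sum_univ_two, _root_.Fin.forall_fin_succ, _root_.Matrix.of_apply, _root_.Matrix.cons_val', _root_.Matrix.cons_val_fin_one, _root_.Matrix.transpose_apply, Fin.isValue, _root_.Matrix.cons_val_zero, _root_.Matrix.cons_val_one, _root_.Matrix.cons_val_succ, _root_.forall_const, _root_.and_true, _root_.true_and]) <;> (repeat' with_reducible apply And.intro)
      · linear_combination hpr
      · field_simp
        linear_combination y * hpr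
      · field_simp
        linear_combination y * hpr
      · field_simp
        linear_combination (y ^ 2 + 1) * hpr + x * hxy
    rw [h1]
    ext i j
    (revert i j; simp only [Matrix.mul_apply, Fin.sum_univ_two, _root_.Fin.forall_fin_succ, _root_.Matrix.of_apply, _root_.Matrix.cons_val', _root_.Matrix.cons_val_fin_one, Fin.isValue, _root_.Matrix.cons_val_zero, _root_.Matrix.cons_val_one, _root_.Matrix.neg_apply, _root_.Matrix.cons_val_succ, _root_.mul_neg, _root_.IsEmpty.forall_iff, _root_.Matrix.one_apply_eq, Nat.reduceAdd, _root_.Fin.succ_zero_eq_one, _root_.ne_eq, _root_.zero_ne_one, _root_.not_false_eq_true, _root_.Matrix.one_apply_ne, _root_.neg_zero, _root_.neg_mul, _root_.Fin.succ_ne_zero, _root_.neg_neg, _root_.and_true, _root_.true_and]) <;> (repeat' with_reducible apply And.intro)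
    · linear_combination hxy
    · ring
    · ring
    · linear_combination hxy

/-! ### the theorem -/

/-- the map from `Ω` to the automorphism group of `PSL` -/
noncomputable def fO (F : Type) [Field F] {ι : Type} [Fintype ι] [DecidableEq ι] (Q : (ι → F) → F) :
    Omega F Q →* MulAut (Matrix.ProjectiveSpecialLinearGroup ι F) :=
  (Cj : GL ι F →* _).comp ((isometryGroup F Q).subtype.comp (Omega F Q).subtype)

theorem fO_apply (Q : (ι → F) → F) (k : Omega F Q) : fO F Q k = Cj ((k : isometryGroup F Q) : GL ι F) := rfl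

theorem det_omega (Q : (ι → F) → F) (k : Omega F Q) :
    (((k : isometryGroup F Q) : GL ι F) : Matrix ι ι F).det = 1 := by
  let φ : isometryGroup F Q →* Fˣ := (Matrix.GeneralLinearGroup.det : GL ι F →* Fˣ).comp (isometryGroup F Q).subtype
  have h : (k : isometryGroup F Q) ∈ φ.ker := Abelianization.commutator_subset_ker φ k.2
  have h1 : φ (k : isometryGroup F Q) = 1 := h
  exact congrArg Units.val h1

/-- an anisotropic vector orthogonal to a hyperbolic pair -/
theorem exists_aniso (h2 : (2 : F) ≠ 0) (hι : 3 ≤ Fintype.card ι) (B : GL ι F)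
    (hB : (B : Matrix ι ι F)ᵀ = B) {e f : ι → F}
    (he : bil (B : Matrix ι ι F) e e = 0) (hf : bil (B : Matrix ι ι F) f f = 0)
    (hef : bil (B : Matrix ι ι F) e f = 1) :
    ∃ w, bil (B : Matrix ι ι F) e w = 0 ∧ bil (B : Matrix ι ι F) f w = 0 ∧ bil (B : Matrix ι ι F) w w ≠ 0 := by
  have hfe : bil (B : Matrix ι ι F) f e = 1 := by rw [bil_comm hB, hef]
  by_contra hcon
  push Not at hcon
  -- a nonzero vector of `W`
  let L : (ι → F) →ₗ[F] (Fin 2 → F) :=
    { toFun := fun v => ![bil (B : Matrix ι ι F) e v, bil (B : Matrix ι ι F) f v]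
      map_add' := fun u v => by
        funext i
        fin_cases i <;> simp [bil_add_right]
      map_smul' := fun c v => by
        funext i
        fin_cases i <;> simp [bil_smul_right] }
  obtain ⟨w, hw, hw0⟩ : ∃ w, L w = 0 ∧ w ≠ 0 := by
    have h1 : LinearMap.ker L ≠ ⊥ := by
      apply LinearMap.ker_ne_bot_of_finrank_lt
      rw [Module.finrank_fintype_fun_eq_card, Module.finrank_fintype_fun_eq_card, Fintype.card_fin]
      omega
    obtain ⟨w, hw, hw0⟩ := (Submodule.ne_bot_iff _).1 h1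
    exact ⟨w, LinearMap.mem_ker.1 hw, hw0⟩
  have hwe : bil (B : Matrix ι ι F) e w = 0 := congrFun hw 0
  have hwf : bil (B : Matrix ι ι F) f w = 0 := congrFun hw 1
  apply hw0
  apply bil_nd B
  intro y
  set w' := y - bil (B : Matrix ι ι F) y f • e - bil (B : Matrix ι ι F) y e • f with hw'
  have hwe' : bil (B : Matrix ι ι F) e w' = 0 := by
    rw [hw']
    simp only [bil_sub_right, bil_smul_right, he, hef]
    rw [bil_comm hB e y]
    ring
  have hwf' : bil (B : Matrix ι ι F) f w' = 0 := by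
    rw [hw']
    simp only [bil_sub_right, bil_smul_right, hf, hfe]
    rw [bil_comm hB f y]
    ring
  have hy : y = w' + bil (B : Matrix ι ι F) y f • e + bil (B : Matrix ι ι F) y e • f := by
    rw [hw']; abel
  have h1 : bil (B : Matrix ι ι F) w w' = 0 := by
    have h3 := hcon (w + w') (by rw [bil_add_right, hwe, hwe', add_zero])
      (by rw [bil_add_right, hwf, hwf', add_zero])
    simp only [bil_add_left, bil_add_right] at h3
    rw [hcon w hwe hwf, hcon w' hwe' hwf', bil_comm hB w' w] at h3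
    have h4 : 2 * bil (B : Matrix ι ι F) w w' = 0 := by linear_combination h3
    exact (mul_eq_zero.1 h4).resolve_left h2
  rw [hy]
  simp only [bil_add_right, bil_smul_right, h1]
  rw [bil_comm hB w e, bil_comm hB w f, hwe, hwf]
  ring

/-- `Cj` of a similarity normalises `Ω` -/
theorem norm_omega (h2 : (2 : F) ≠ 0) {Q : (ι → F) → F} (B : GL ι F) (hB : (B : Matrix ι ι F)ᵀ = B)
    (hQ : ∀ v, bil (B : Matrix ι ι F) v v = 2 * Q v) (A : GL ι F) (σ : F ≃+* F) {c : F} (hc : c ≠ 0)
    (h : (B : Matrix ι ι F).map σ = c • ((A : Matrix ι ι F)ᵀ * B * A)) (k : Omega F Q) :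
    ∃ k' : Omega F Q, Sem A σ * fO F Q k * (Sem A σ)⁻¹ = fO F Q k' := by
  have hmem : ∀ g : isometryGroup F Q, A * mg σ (g : GL ι F) * A⁻¹ ∈ isometryGroup F Q := by
    intro g
    have hg := (mem_iso_iff h2 hB hQ (g : GL ι F)).1 g.2
    rw [mem_iso_iff h2 hB hQ]
    have e1 : ((A⁻¹ : GL ι F) : Matrix ι ι F)ᵀ * (A : Matrix ι ι F)ᵀ = 1 := by
      rw [← transpose_mul, ← Units.val_mul, mul_inv_cancel, Units.val_one, transpose_one]
    have e2 : (A : Matrix ι ι F) * ((A⁻¹ : GL ι F) : Matrix ι ι F) = 1 := by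
      rw [← Units.val_mul, mul_inv_cancel, Units.val_one]
    have e3 : (A : Matrix ι ι F)ᵀ * B * A = c⁻¹ • (B : Matrix ι ι F).map σ := by
      rw [h, smul_smul, inv_mul_cancel₀ hc, one_smul]
    have e4 : ((g : GL ι F) : Matrix ι ι F).map σ = ((g : GL ι F) : Matrix ι ι F).map (σ : F →+* F) := rfl
    have e5 : (((g : GL ι F) : Matrix ι ι F).map σ)ᵀ * (B : Matrix ι ι F).map σ *
        ((g : GL ι F) : Matrix ι ι F).map σ = (B : Matrix ι ι F).map σ := by
      have h3 := congrArg (fun M : Matrix ι ι F => M.map (σ : F →+* F)) hg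
      simp only [Matrix.map_mul, Matrix.transpose_map] at h3
      exact h3
    rw [Units.val_mul, Units.val_mul, coe_mg, transpose_mul, transpose_mul]
    calc ((A⁻¹ : GL ι F) : Matrix ι ι F)ᵀ * ((((g : GL ι F) : Matrix ι ι F).map σ)ᵀ * (A : Matrix ι ι F)ᵀ) *
          (B : Matrix ι ι F) * ((A : Matrix ι ι F) * ((g : GL ι F) : Matrix ι ι F).map σ *
            ((A⁻¹ : GL ι F) : Matrix ι ι F)) =
        ((A⁻¹ : GL ι F) : Matrix ι ι F)ᵀ * ((((g : GL ι F) : Matrix ι ι F).map σ)ᵀ *
          ((A : Matrix ι ι F)ᵀ * B * A) * ((g : GL ι F) : Matrix ι ι F).map σ) *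
            ((A⁻¹ : GL ι F) : Matrix ι ι F) := by simp only [Matrix.mul_assoc]
      _ = c⁻¹ • (((A⁻¹ : GL ι F) : Matrix ι ι F)ᵀ * ((((g : GL ι F) : Matrix ι ι F).map σ)ᵀ *
          (B : Matrix ι ι F).map σ * ((g : GL ι F) : Matrix ι ι F).map σ) *
            ((A⁻¹ : GL ι F) : Matrix ι ι F)) := by
          rw [e3]
          simp only [Matrix.mul_smul, Matrix.smul_mul]
      _ = ((A⁻¹ : GL ι F) : Matrix ι ι F)ᵀ * (c⁻¹ • (B : Matrix ι ι F).map σ) *
            ((A⁻¹ : GL ι F) : Matrix ι ι F) := by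
          rw [e5]
          simp only [Matrix.mul_smul, Matrix.smul_mul]
      _ = (((A⁻¹ : GL ι F) : Matrix ι ι F)ᵀ * (A : Matrix ι ι F)ᵀ) * B *
            ((A : Matrix ι ι F) * ((A⁻¹ : GL ι F) : Matrix ι ι F)) := by
          rw [← e3]
          simp only [Matrix.mul_assoc]
      _ = B := by rw [e1, e2, Matrix.one_mul, Matrix.mul_one]
  let θ : isometryGroup F Q →* isometryGroup F Q :=
    { toFun := fun g => ⟨A * mg σ (g : GL ι F) * A⁻¹, hmem g⟩
      map_one' := by
        apply Subtype.ext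
        simp only [_root_.OneMemClass.coe_one, _root_.map_one, _root_.mul_one, _root_.mul_inv_cancel]
      map_mul' := fun g g' => by
        apply Subtype.ext
        simp only [Subgroup.coe_mul, map_mul]
        group }
  have hθ : θ (k : isometryGroup F Q) ∈ Omega F Q := by
    have h1 : (commutator (isometryGroup F Q)).map θ ≤ commutator (isometryGroup F Q) := by
      rw [commutator_def, Subgroup.map_commutator]
      exact Subgroup.commutator_mono le_top le_top
    exact h1 ⟨_, k.2, rfl⟩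
  exact ⟨⟨_, hθ⟩, Sem_conj_Cj A σ _⟩

seal _root_.Finset.card _root_.Finset.sum _root_.dotProduct in
/-- the element `-1` on a plane with form `ν I`: it is in `Ω`, acts nontrivially and is a product of
commutators `[q, gam B]` -/
theorem exists_root (h2 : (2 : F) ≠ 0) [Fintype F] [Nontrivial ι] {Q : (ι → F) → F} (B : GL ι F)
    (hB : (B : Matrix ι ι F)ᵀ = B) (hQ : ∀ v, bil (B : Matrix ι ι F) v v = 2 * Q v) {a b y : ι → F} {ν : F}
    (hν : ν ≠ 0) (ha : bil (B : Matrix ι ι F) a a = ν) (hb : bil (B : Matrix ι ι F) b b = ν)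
    (hab : bil (B : Matrix ι ι F) a b = 0) (hy : y ≠ 0) (hya : bil (B : Matrix ι ι F) a y = 0)
    (hyb : bil (B : Matrix ι ι F) b y = 0) :
    ∃ k₀ : Omega F Q, fO F Q k₀ ≠ 1 ∧ fO F Q k₀ ∈ Subgroup.closure
      {z | ∃ q ∈ inn (Matrix.ProjectiveSpecialLinearGroup ι F), q * fO F Q k₀ = fO F Q k₀ * q ∧
        z = q * gam B * q⁻¹ * (gam B)⁻¹} := by
  have hba : bil (B : Matrix ι ι F) b a = 0 := by rw [bil_comm hB, hab]
  let V : Fin 2 → ι → F := ![a, b]
  let P : Matrix ι (Fin 2) F := (Matrix.of V)ᵀ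
  let N : Matrix (Fin 2) ι F := ν⁻¹ • (Pᵀ * (B : Matrix ι ι F))
  have hNP : N * P = 1 := by
    show (ν⁻¹ • (Pᵀ * (B : Matrix ι ι F))) * P = 1
    rw [Matrix.smul_mul]
    have hG : Pᵀ * (B : Matrix ι ι F) * P = ν • (1 : Matrix (Fin 2) (Fin 2) F) := by
      have hij : ∀ i j, (Pᵀ * (B : Matrix ι ι F) * P) i j = bil (B : Matrix ι ι F) (V i) (V j) := by
        intro i j
        rw [Matrix.mul_assoc]
        rfl
      ext i j
      rw [hij]
      fin_cases i <;> fin_cases j
      · simpa [V] using ha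
      · simpa [V] using hab
      · simpa [V] using hba
      · simpa [V] using hb
    rw [hG, smul_smul, inv_mul_cancel₀ hν, one_smul]
  let Φ : Matrix (Fin 2) (Fin 2) F →* Matrix ι ι F := Phi P N hNP
  have hΦiso : ∀ M : Matrix (Fin 2) (Fin 2) F, Mᵀ * M = 1 → (Φ M)ᵀ * (B : Matrix ι ι F) * Φ M = B :=
    fun M hM => Phi_iso hNP hB rfl M hM
  let Ψ : GL (Fin 2) F →* GL ι F := Units.map Φ
  have hΨ : ∀ g : GL (Fin 2) F, (Ψ g : Matrix ι ι F) = Φ (g : Matrix (Fin 2) (Fin 2) F) := fun g => rfl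
  let D : GL (Fin 2) F := ⟨!![-1, 0; 0, 1], !![-1, 0; 0, 1], by simp [Matrix.one_fin_two], by
    simp [Matrix.one_fin_two]⟩
  let T : GL (Fin 2) F := ⟨!![0, 1; 1, 0], !![0, 1; 1, 0], by simp [Matrix.one_fin_two], by
    simp [Matrix.one_fin_two]⟩
  have hD : Ψ D ∈ isometryGroup F Q := (mem_iso_iff h2 hB hQ _).2 (hΦiso _ (by
    show !![-1, 0; 0, 1]ᵀ * !![-1, 0; 0, 1] = (1 : Matrix (Fin 2) (Fin 2) F)
    ext i j
    (revert i j; simp only [Matrix.mul_apply, Fin.sum_univ_two, _root_.Fin.forall_fin_succ, _root_.Matrix.transpose_apply, _root_.Matrix.of_apply, _root_.Matrix.cons_val', _root_.Matrix.cons_val_fin_one, Fin.isValue, _root_.Matrix.cons_val_zero, _root_.Matrix.cons_val_one, _root_.mul_neg, _root_.mul_one, _root_.MulZeroClass.mul_zero, _root_.add_zero, _root_.Matrix.cons_val_succ, _root_.zero_add, _root_.IsEmpty.forall_iff, _root_.and_true, _root_.neg_neg, _root_.Matrix.one_apply_eq, Nat.reduceAdd, _root_.Fin.succ_zero_eq_one, _root_.ne_eq, _root_.zero_ne_one,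 _root_.not_false_eq_true, _root_.Matrix.one_apply_ne, _root_.and_self, _root_.neg_zero, _root_.Fin.succ_ne_zero, _root_.true_and])))
  have hT : Ψ T ∈ isometryGroup F Q := (mem_iso_iff h2 hB hQ _).2 (hΦiso _ (by
    show !![0, 1; 1, 0]ᵀ * !![0, 1; 1, 0] = (1 : Matrix (Fin 2) (Fin 2) F)
    ext i j
    (revert i j; simp only [Matrix.mul_apply, Fin.sum_univ_two, _root_.Fin.forall_fin_succ, _root_.Matrix.transpose_apply, _root_.Matrix.of_apply, _root_.Matrix.cons_val', _root_.Matrix.cons_val_fin_one, Fin.isValue, _root_.Matrix.cons_val_zero, _root_.Matrix.cons_val_one, _root_.MulZeroClass.mul_zero, _root_.mul_one, _root_.zero_add, _root_.Matrix.cons_val_succ, _root_.add_zero, _root_.IsEmpty.forall_iff, _root_.and_true, _root_.Matrix.one_apply_eq, Nat.reduceAdd, _root_.Fin.succ_zero_eq_one, _root_.ne_eq, _root_.zero_ne_one, _root_.not_false_eq_true, _root_.Matrix.one_apply_ne, _root_.and_self, _root_.Fin.succ_ne_zero, _root_.true_and])))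
  let d : isometryGroup F Q := ⟨_, hD⟩
  let t : isometryGroup F Q := ⟨_, hT⟩
  let k₀ : Omega F Q := ⟨⁅d, t⁆, Subgroup.commutator_mem_commutator (Subgroup.mem_top d) (Subgroup.mem_top t)⟩
  have hDT : D * T * D⁻¹ * T⁻¹ = -1 := by
    apply Units.ext
    show !![-1, 0; 0, 1] * !![0, 1; 1, 0] * !![-1, 0; 0, 1] * !![0, 1; 1, 0] =
      (-1 : Matrix (Fin 2) (Fin 2) F)
    rw [Matrix.one_fin_two]
    simp
  have hk₀ : ((k₀ : isometryGroup F Q) : GL ι F) = Ψ (-1) := by
    show Ψ D * Ψ T * (Ψ D)⁻¹ * (Ψ T)⁻¹ = Ψ (-1)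
    rw [← map_inv, ← map_inv, ← map_mul, ← map_mul, ← map_mul, hDT]
  have hfk : fO F Q k₀ = Cj (Ψ (-1)) := by rw [fO_apply, hk₀]
  refine ⟨k₀, ?_, ?_⟩
  · -- nontrivial
    rw [hfk]
    intro h
    obtain ⟨c, hc⟩ := Cj_eq_one_iff.1 h
    have hc' : Φ (-1) = c • (1 : Matrix ι ι F) := hc
    have hNy : N *ᵥ y = 0 := by
      show (ν⁻¹ • (Pᵀ * (B : Matrix ι ι F))) *ᵥ y = 0
      rw [smul_mulVec, ← mulVec_mulVec]
      have : Pᵀ *ᵥ ((B : Matrix ι ι F) *ᵥ y) = 0 := by
        funext i
        show V i ⬝ᵥ ((B : Matrix ι ι F) *ᵥ y) = 0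
        fin_cases i
        · exact hya
        · exact hyb
      rw [this, smul_zero]
    have h3 : Φ (-1) *ᵥ y = y := by
      show (1 + P * ((-1 : Matrix (Fin 2) (Fin 2) F) - 1) * N) *ᵥ y = y
      rw [add_mulVec, one_mulVec, ← mulVec_mulVec, hNy, mulVec_zero, add_zero]
    rw [hc', smul_mulVec, one_mulVec] at h3
    have hc1 : c = 1 := by
      have h4 : (c - 1) • y = 0 := by rw [sub_smul, h3, one_smul, sub_self]
      exact sub_eq_zero.1 ((smul_eq_zero.1 h4).resolve_right hy)
    have h5 : N * Φ (-1) = -N := by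
      show N * (1 + P * ((-1 : Matrix (Fin 2) (Fin 2) F) - 1) * N) = -N
      rw [Matrix.mul_add, Matrix.mul_one, ← Matrix.mul_assoc, ← Matrix.mul_assoc, hNP, Matrix.one_mul,
        Matrix.sub_mul, Matrix.neg_mul, Matrix.one_mul]
      abel
    rw [hc', hc1, one_smul, Matrix.mul_one] at h5
    have h6 : (N * P) 0 0 = (-N * P) 0 0 := by rw [← h5]
    rw [Matrix.neg_mul, hNP] at h6
    simp at h6
    apply h2
    linear_combination h6
  · obtain ⟨s, hs1, hs2⟩ := exists_s h2
    let s' : GL (Fin 2) F := Matrix.SpecialLinearGroup.toGL ⟨s, hs1⟩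
    have hs' : (s' : Matrix (Fin 2) (Fin 2) F) = s := rfl
    have hdet : (Ψ s' : Matrix ι ι F).det = 1 := by
      rw [hΨ, hs']
      show (Phi P N hNP s).det = 1
      rw [Phi_det, hs1]
    have hcomm : Cj (Ψ s') * Cj (Ψ (-1)) = Cj (Ψ (-1)) * Cj (Ψ s') := by
      rw [← map_mul, ← map_mul, ← map_mul, ← map_mul]
      congr 2
      rw [mul_neg, mul_one, neg_mul, one_mul]
    have hz : Cj (Ψ s') * gam B * (Cj (Ψ s'))⁻¹ * (gam B)⁻¹ ∈ Subgroup.closure
      {z | ∃ q ∈ inn (Matrix.ProjectiveSpecialLinearGroup ι F), q * fO F Q k₀ = fO F Q k₀ * q ∧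
        z = q * gam B * q⁻¹ * (gam B)⁻¹} :=
      Subgroup.subset_closure ⟨Cj (Ψ s'), Cj_mem_inn _ hdet, by rw [hfk, hcomm], rfl⟩
    have hz2 := Subgroup.mul_mem _ hz hz
    rw [comm_gam, ← map_mul] at hz2
    have hfin : Ψ s' * (B⁻¹ * (ct (Ψ s'))⁻¹ * B) * (Ψ s' * (B⁻¹ * (ct (Ψ s'))⁻¹ * B)) = Ψ (-1) := by
      apply Units.ext
      have h1 : ((Ψ s' * (B⁻¹ * (ct (Ψ s'))⁻¹ * B) : GL ι F) : Matrix ι ι F) = Φ (s * sᵀ) := by
        rw [Units.val_mul, coe_adj, hΨ, hs', Matrix.mul_assoc ((B⁻¹ : GL ι F) : Matrix ι ι F)]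
        show Φ s * (((B⁻¹ : GL ι F) : Matrix ι ι F) * ((Phi P N hNP s)ᵀ * (B : Matrix ι ι F))) = Φ (s * sᵀ)
        rw [Phi_tr hNP hB rfl, ← Matrix.mul_assoc ((B⁻¹ : GL ι F) : Matrix ι ι F), ← Units.val_mul,
          inv_mul_cancel, Units.val_one, Matrix.one_mul]
        exact (map_mul Φ s sᵀ).symm
      rw [Units.val_mul, h1, ← map_mul, hs2, hΨ]
      rfl
    rw [hfin] at hz2
    rw [hfk]
    rw [hfk] at hz2
    exact hz2

seal _root_.Finset.sum _root_.dotProduct in
/-- box BO of S3510 part B -/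
theorem killed_O {F : Type} [Field F] [Fintype F] (h2 : (2 : F) ≠ 0) {ι : Type} [Fintype ι]
    [DecidableEq ι] (hι : 3 ≤ Fintype.card ι) (Q : (ι → F) → F) (B : GL ι F)
    (hBs : (B : Matrix ι ι F)ᵀ = B) (hQ : ∀ v, v ⬝ᵥ ((B : Matrix ι ι F) *ᵥ v) = 2 * Q v)
    (e f : ι → F) (he : Q e = 0) (hf : Q f = 0) (hef : e ⬝ᵥ ((B : Matrix ι ι F) *ᵥ f) = 1)
    (hs : IsSimpleGroup (POmega F Q)) (hnc : ¬ IsMulCommutative (POmega F Q))
    (hRC : Nat.card (POmega F Q) < Nat.card (Matrix.ProjectiveSpecialLinearGroup ι F) →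
      RCo (POmega F Q)) :
    Killed (gam B) := by
  have hnt : Nontrivial ι := nontrivial_of_card hι
  have hQ' : ∀ v, bil (B : Matrix ι ι F) v v = 2 * Q v := hQ
  have he' : bil (B : Matrix ι ι F) e e = 0 := by rw [hQ', he, mul_zero]
  have hf' : bil (B : Matrix ι ι F) f f = 0 := by rw [hQ', hf, mul_zero]
  have hef' : bil (B : Matrix ι ι F) e f = 1 := hef
  have hfe' : bil (B : Matrix ι ι F) f e = 1 := by rw [bil_comm hBs, hef']
  obtain ⟨w₀, h0e, h0f, hν⟩ := exists_aniso h2 hι B hBs he' hf' hef'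
  have hw₀ : w₀ ≠ 0 := by
    rintro rfl
    apply hν
    rw [bil, zero_dotProduct]
  have hfi : ∀ k, fO F Q k ∈ inn (Matrix.ProjectiveSpecialLinearGroup ι F) := fun k =>
    Cj_mem_inn _ (det_omega Q k)
  have ht : ∀ k, gam B * fO F Q k = fO F Q k * gam B := by
    intro k
    rw [fO_apply, gam_comm_Cj_iff]
    refine ⟨1, one_ne_zero, ?_⟩
    rw [one_smul]
    exact ((mem_iso_iff h2 hBs hQ' _).1 (k : isometryGroup F Q).2).symm
  have hcen : ∀ (A : GL ι F) (σ : F ≃+* F), (∀ k, Sem A σ * fO F Q k = fO F Q k * Sem A σ) → Sem A σ = 1 := by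
    intro A σ h
    have key : ∀ {u v w : ι → F}, bil (B : Matrix ι ι F) u u = 0 → bil (B : Matrix ι ι F) v v = 0 →
        bil (B : Matrix ι ι F) u v = 1 → bil (B : Matrix ι ι F) u w = 0 → bil (B : Matrix ι ι F) v w = 0 →
        (A : Matrix ι ι F) * (Sg (B : Matrix ι ι F) (Q w) u w).map σ = Sg (B : Matrix ι ι F) (Q w) u w * A := by
      intro u v w hu hv huv huw hvw
      obtain ⟨k, hk⟩ := exists_Sg_mem (Q := Q) B h2 hBs hQ' hu hv huv huw hvw
      have h1 := h k
      rw [fO_apply, Sem_comm_iff] at h1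
      obtain ⟨c, -, hc⟩ := h1
      have h3 := unip_exact A σ ((k : isometryGroup F Q) : GL ι F) (by
        rw [hk]
        exact Sg_nilp hBs hu huw (hQ' w)) hc
      rwa [hk] at h3
    obtain ⟨hσ, c, hc⟩ := cent_main (Q := Q) B hBs he' hf' hef' hw₀ h0e h0f A σ
      (fun w hw hw' => key he' hf' hef' hw hw') (fun w hw hw' => key hf' he' hfe' hw' hw)
    rw [hσ, Sem_one, Cj_eq_one_iff]
    exact ⟨c, hc⟩
  have hfc : ∀ k, fO F Q k = 1 ↔ k ∈ Subgroup.center (Omega F Q) := by
    intro k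
    constructor
    · intro h
      obtain ⟨c, hc⟩ := Cj_eq_one_iff.1 h
      have hc' : (((k : isometryGroup F Q) : GL ι F) : Matrix ι ι F) = c • (1 : Matrix ι ι F) := hc
      rw [Subgroup.mem_center_iff]
      intro g
      apply Subtype.ext
      apply Subtype.ext
      apply Units.ext
      simp only [Subgroup.coe_mul, Units.val_mul]
      rw [hc', Matrix.mul_smul, Matrix.smul_mul, Matrix.mul_one, Matrix.one_mul]
    · intro h
      have h1 := hcen ((k : isometryGroup F Q) : GL ι F) (RingEquiv.refl F) (by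
        intro g
        rw [Sem_one, ← fO_apply, ← map_mul, ← map_mul, Subgroup.mem_center_iff.1 h g])
      rwa [Sem_one] at h1
  have hSs : IsSimpleGroup (Matrix.ProjectiveSpecialLinearGroup ι F) :=
    Cfsg.Agent.LieClassical.SLGen.psl_isSimpleGroup hι
  have hSn : ¬ IsMulCommutative (Matrix.ProjectiveSpecialLinearGroup ι F) := by
    intro hcom
    apply hnc
    have h1 : ∀ k, fO F Q k = 1 := by
      intro k
      obtain ⟨s, hs⟩ := hfi k
      rw [← hs]
      apply MulEquiv.ext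
      intro z
      show s * z * s⁻¹ = z
      rw [hcom.is_comm.comm s z, mul_inv_cancel_right]
    have h3 : ∀ a b : POmega F Q, a * b = b * a := by
      intro a b
      obtain ⟨a, rfl⟩ := QuotientGroup.mk_surjective a
      have : (QuotientGroup.mk a : POmega F Q) = 1 := (QuotientGroup.eq_one_iff a).2 ((hfc a).1 (h1 a))
      rw [this, one_mul, mul_one]
    exact ⟨⟨h3⟩⟩
  have hfin : Finite (Matrix.ProjectiveSpecialLinearGroup ι F) := by
    unfold Matrix.ProjectiveSpecialLinearGroup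
    infer_instance
  have hRC' := hRC (card_lt_of_cent hSs hSn (fO F Q) hfc hfi (gam B) (gam_ne_one hι B) ht)
  -- the root element
  set ν := bil (B : Matrix ι ι F) w₀ w₀ with hνdef
  obtain ⟨k₀, hk₀, hy⟩ := exists_root (Q := Q) (a := w₀) (b := e + (ν / 2) • f) (y := e - (ν / 2) • f) (ν := ν)
    h2 B hBs hQ' hν hνdef.symm
    (by
      simp only [bil_add_left, bil_add_right, bil_smul_left, bil_smul_right, he', hf', hef', hfe']
      field_simp
      ring)
    (by
      simp only [bil_add_right, bil_smul_right]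
      rw [bil_comm hBs w₀ e, bil_comm hBs w₀ f, h0e, h0f]
      ring)
    (by
      intro h
      have h1 := congrArg (bil (B : Matrix ι ι F) f) h
      simp only [bil_sub_right, bil_smul_right, hfe', hf'] at h1
      rw [bil, mulVec_zero, dotProduct_zero] at h1
      simp at h1)
    (by
      simp only [bil_sub_right, bil_smul_right]
      rw [bil_comm hBs w₀ e, bil_comm hBs w₀ f, h0e, h0f]
      ring)
    (by
      simp only [bil_add_left, bil_sub_right, bil_smul_left, bil_smul_right, he', hf', hef', hfe']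
      ring)
  rw [killed_iff]
  intro κ _ x r hF H hcov
  have hx : ∀ i, ∃ (A : GL ι F) (σ : F ≃+* F), x i = Sem A σ := fun i =>
    exists_sem_of_odd (by omega) (x i) ((hF.pr i).odd_of_ne_two (hF.ne2 i)) (hF.pow i)
  refine fam_K hSs hF (gam_sq B (Or.inl hBs)) hcov (fO F Q) hfc hs hnc hRC' hfi ht ?_ ?_ k₀ hk₀ hy
  · intro i k
    obtain ⟨A, σ, hA⟩ := hx i
    have h1 := hF.commt i
    rw [hA, gam_comm_iff] at h1
    obtain ⟨c, hc, h1⟩ := h1
    rw [hA]
    exact norm_omega h2 B hBs hQ' A σ hc h1 k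
  · intro i h
    obtain ⟨A, σ, hA⟩ := hx i
    apply hF.ne1 i
    rw [hA]
    rw [hA] at h
    exact hcen A σ h

end Cfsg.Agent.H679.RC
end

-- part: H686/RC/K52
section
/-!
# S3510 part B, box B52: `PSL₅(2)` (helper686)
-/

set_option autoImplicit false
open Matrix Cfsg
open Cfsg.Agent.H106.RC Cfsg.Agent.H999.PslGraph Cfsg.Agent.H384.RC
open Cfsg.Agent.ClassicalGeometry.AutPSL.Auto

namespace Cfsg.Agent.H686.RC.K52

section perm

open Equiv

theorem card_five {g : Perm (Fin 6)} (hg : orderOf g = 5) :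
    Nat.card (Subgroup.centralizer ({g} : Set (Perm (Fin 6)))) = 5 := by
  obtain ⟨n, hn⟩ := Equiv.Perm.cycleType_prime_order (σ := g) (by rw [hg]; norm_num)
  rw [hg] at hn
  have h1 : g.cycleType.sum ≤ 6 := by
    have := g.sum_cycleType
    rw [this]
    exact (Finset.card_le_univ _).trans (by simp)
  rw [hn, Multiset.sum_replicate, smul_eq_mul] at h1
  have h2 : n = 0 := by omega
  rw [Equiv.Perm.nat_card_centralizer, hn]
  subst h2
  decide

theorem no_comm {a b : Perm (Fin 6)} (ha : orderOf a = 5) (hb : orderOf b = 3)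
    (h : a * b = b * a) : False := by
  have h1 := card_five ha
  have hb' : b ∈ Subgroup.centralizer ({a} : Set (Perm (Fin 6))) := by
    rw [Subgroup.mem_centralizer_iff]
    rintro _ rfl
    exact h
  have h2 : orderOf (⟨b, hb'⟩ : Subgroup.centralizer ({a} : Set (Perm (Fin 6)))) = 3 := by
    rw [← hb, ← Subgroup.orderOf_coe]
  have h3 := orderOf_dvd_natCard (⟨b, hb'⟩ : Subgroup.centralizer ({a} : Set (Perm (Fin 6))))
  rw [h1, h2] at h3
  omega

/-- the order of an element of odd prime order -/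
theorem prime_cases {g : Perm (Fin 6)} {p : ℕ} (hp : p.Prime) (hp2 : p ≠ 2) (hg : g ^ p = 1)
    (hg1 : g ≠ 1) : orderOf g = p ∧ (p = 3 ∨ p = 5) := by
  have := Fact.mk hp
  have h1 : orderOf g = p := orderOf_eq_prime hg hg1
  refine ⟨h1, ?_⟩
  have h2 := orderOf_dvd_natCard g
  rw [h1, Nat.card_eq_fintype_card, Fintype.card_perm, Fintype.card_fin] at h2
  have h3 : p ≤ 6 := (hp.dvd_factorial).1 h2
  have h4 : 2 ≤ p := hp.two_le
  have h5 : p = 2 ∨ p = 3 ∨ p = 4 ∨ p = 5 ∨ p = 6 := by omega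
  rcases h5 with h5 | h5 | h5 | h5 | h5
  · exact absurd h5 hp2
  · exact Or.inl h5
  · rw [h5] at hp
    exact absurd hp (by norm_num)
  · exact Or.inr h5
  · rw [h5] at hp
    exact absurd hp (by norm_num)

theorem alt_le {g : Perm (Fin 6)} {p : ℕ} (hp : p.Prime) (hp2 : p ≠ 2) (hg : g ^ p = 1)
    (hg1 : g ≠ 1) : alternatingGroup (Fin 6) ≤ Subgroup.normalClosure {g} := by
  have hs : IsSimpleGroup (alternatingGroup (Fin 6)) := alternatingGroup.isSimpleGroup (by simp)
  have hgA : g ∈ alternatingGroup (Fin 6) := by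
    rw [Equiv.Perm.mem_alternatingGroup]
    have h3 : Equiv.Perm.sign g ^ p = 1 := by rw [← map_pow, hg, map_one]
    have h4 : Odd p := hp.odd_of_ne_two hp2
    rcases Int.units_eq_one_or (Equiv.Perm.sign g) with h5 | h5
    · exact h5
    · rw [h5, h4.neg_one_pow] at h3
      exact absurd h3 (by decide)
  have hN : (Subgroup.normalClosure {g}).Normal := Subgroup.normalClosure_normal
  rcases (hN.subgroupOf (alternatingGroup (Fin 6))).eq_bot_or_eq_top with h1 | h1
  · exfalso
    have h2 := Subgroup.subgroupOf_eq_bot.1 h1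
    exact hg1 (Subgroup.disjoint_def.1 h2 (Subgroup.subset_normalClosure rfl) hgA)
  · exact Subgroup.subgroupOf_eq_top.1 h1

end perm

section field

variable {F : Type} [Field F] [Fintype F] (hF : Fintype.card F = 2)

include hF

theorem two_cases (a : F) : a = 0 ∨ a = 1 := by
  by_contra h
  push Not at h
  classical
  have h1 : ({0, 1, a} : Finset F).card = 3 := by
    rw [Finset.card_insert_of_notMem, Finset.card_insert_of_notMem, Finset.card_singleton]
    · simpa using h.2.symm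
    · simp only [Finset.mem_insert, Finset.mem_singleton, not_or]
      exact ⟨zero_ne_one, h.1.symm⟩
  have h2 := Finset.card_le_univ ({0, 1, a} : Finset F)
  omega

theorem one_add_one : (1 : F) + 1 = 0 := by
  rcases two_cases hF (1 + 1 : F) with h | h
  · exact h
  · exact absurd h (by simp)

theorem ring_refl (σ : F ≃+* F) : σ = RingEquiv.refl F := by
  ext a
  rcases two_cases hF a with rfl | rfl <;> simp only [_root_.map_zero, _root_.RingEquiv.refl_apply, _root_.map_one]

/-- the map from `ZMod 2` -/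
theorem exists_hom : ∃ φ : ZMod 2 →+* F, Function.Injective φ := by
  have h : CharP F 2 := by
    have h1 : ringChar F = 2 := by
      have h2 := CharP.ringChar_of_prime_eq_zero Nat.prime_two (R := F) (by
        push_cast
        rw [← one_add_one_eq_two]
        exact one_add_one hF)
      exact h2
    rw [← h1]
    exact ringChar.charP F
  exact ⟨ZMod.castHom (dvd_refl 2) F, RingHom.injective _⟩

theorem ne_zero_eq {c : F} (hc : c ≠ 0) : c = 1 := (two_cases hF c).resolve_left hc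

end field

section emb

variable {F : Type} [Field F]

abbrev I := Unit ⊕ (Fin 2 ⊕ Fin 2)

instance : Nontrivial I := ⟨Sum.inl (), Sum.inr (Sum.inl 0), by simp⟩

/-- block embedding -/
def blk : symplecticGroup (Fin 2) F →* Matrix I I F where
  toFun k := fromBlocks 1 0 0 (k : Matrix (Fin 2 ⊕ Fin 2) (Fin 2 ⊕ Fin 2) F)
  map_one' := by simp only [_root_.OneMemClass.coe_one, _root_.Matrix.fromBlocks_one]
  map_mul' a b := by
    rw [fromBlocks_multiply]
    simp only [_root_.Submonoid.coe_mul, _root_.mul_one, _root_.Matrix.mul_zero, _root_.add_zero, _root_.Matrix.zero_mul, _root_.Matrix.mul_one, _root_.zero_add]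

/-- the embedding into `GL` -/
def emb : symplecticGroup (Fin 2) F →* GL I F := blk.toHomUnits

theorem coe_emb (k : symplecticGroup (Fin 2) F) : (emb k : Matrix I I F) =
    fromBlocks 1 0 0 (k : Matrix (Fin 2 ⊕ Fin 2) (Fin 2 ⊕ Fin 2) F) := rfl

/-- the map to the automorphism group -/
noncomputable def f : symplecticGroup (Fin 2) F →* MulAut (Matrix.ProjectiveSpecialLinearGroup I F) :=
  Cj.comp emb

theorem f_apply (k : symplecticGroup (Fin 2) F) : f k = Cj (emb k) := rfl

theorem f_eq_one {k : symplecticGroup (Fin 2) F} (h : f k = 1) : k = 1 := by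
  rw [f_apply, Cj_eq_one_iff] at h
  obtain ⟨c, hc⟩ := h
  rw [coe_emb] at hc
  have h1 := congrFun (congrFun hc (Sum.inl ())) (Sum.inl ())
  have h2 : c = 1 := by
    simpa using h1.symm
  rw [h2, one_smul] at hc
  apply Subtype.ext
  ext i j
  have h3 := congrFun (congrFun hc (Sum.inr i)) (Sum.inr j)
  rw [fromBlocks_apply₂₂] at h3
  rw [h3]
  show (1 : Matrix I I F) (Sum.inr i) (Sum.inr j) =
    (1 : Matrix (Fin 2 ⊕ Fin 2) (Fin 2 ⊕ Fin 2) F) i j
  rw [Matrix.one_apply, Matrix.one_apply]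
  simp

theorem f_inj : Function.Injective (f (F := F)) :=
  (injective_iff_map_eq_one _).2 fun _ h => f_eq_one h

/-- matrices preserving the form `1 ⊕ J` -/
theorem exists_emb [Fintype F] (hF : Fintype.card F = 2) (A : GL I F)
    (h : (A : Matrix I I F)ᵀ * fromBlocks 1 0 0 (J (Fin 2) F) * (A : Matrix I I F) =
    fromBlocks 1 0 0 (J (Fin 2) F)) : ∃ k : symplecticGroup (Fin 2) F, A = emb k := by
  obtain ⟨a, b, c, D, hA⟩ : ∃ (a : Matrix Unit Unit F) (b : Matrix Unit (Fin 2 ⊕ Fin 2) F)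
      (c : Matrix (Fin 2 ⊕ Fin 2) Unit F) (D : Matrix (Fin 2 ⊕ Fin 2) (Fin 2 ⊕ Fin 2) F),
      (A : Matrix I I F) = fromBlocks a b c D := ⟨_, _, _, _, (fromBlocks_toBlocks _).symm⟩
  rw [hA, fromBlocks_transpose, fromBlocks_multiply, fromBlocks_multiply] at h
  simp only [Matrix.mul_zero, Matrix.mul_one, zero_add, add_zero] at h
  obtain ⟨h1, h2, h3, h4⟩ := fromBlocks_inj.1 h
  have hb : b = 0 := by
    ext u j
    obtain ⟨⟩ := u
    have h5 := congrFun (congrFun h4 j) j
    have h6 : (J (Fin 2) F) j j = 0 := by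
      rcases j with j | j <;> simp [J]
    have h7 : (Dᵀ * J (Fin 2) F * D) j j = 0 := by
      simp only [Matrix.mul_apply, Fintype.sum_sum_type, Fin.sum_univ_two, J, Matrix.transpose_apply,
        fromBlocks_apply₁₁, fromBlocks_apply₁₂, fromBlocks_apply₂₁, fromBlocks_apply₂₂, Matrix.neg_apply,
        Matrix.one_apply, Matrix.zero_apply]
      simp only [_root_.Fin.isValue, _root_.MulZeroClass.mul_zero, _root_.add_zero, ↓ _root_.reduceIte, _root_.mul_one, _root_.one_ne_zero, _root_.zero_add, _root_.zero_ne_one, _root_.mul_neg, _root_.neg_zero, _root_.neg_mul]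
      ring
    have h8 : (bᵀ * b) j j = b () j * b () j := by
      simp [Matrix.mul_apply]
    rw [h6, Matrix.add_apply, h7, add_zero, h8] at h5
    simpa using h5
  subst hb
  simp only [Matrix.transpose_zero, Matrix.zero_mul, Matrix.mul_zero, zero_add] at h1 h2 h3 h4
  have hD : D ∈ symplecticGroup (Fin 2) F := SymplecticGroup.mem_iff'.2 h4
  have hu : IsUnit (J (Fin 2) F) := by
    rw [Matrix.isUnit_iff_isUnit_det]
    exact isUnit_det_J (Fin 2) F
  have hDJ : IsUnit (Dᵀ * J (Fin 2) F) := by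
    rw [Matrix.isUnit_iff_isUnit_det] at hu ⊢
    have h9 := congrArg Matrix.det h4
    rw [Matrix.det_mul] at h9
    rw [← h9] at hu
    exact isUnit_of_mul_isUnit_left hu
  have hc : c = 0 := by
    obtain ⟨u, hu⟩ := hDJ
    have h9 : ((u⁻¹ : (Matrix (Fin 2 ⊕ Fin 2) (Fin 2 ⊕ Fin 2) F)ˣ) :
        Matrix (Fin 2 ⊕ Fin 2) (Fin 2 ⊕ Fin 2) F) * (u : Matrix (Fin 2 ⊕ Fin 2) (Fin 2 ⊕ Fin 2) F) = 1 := by
      rw [← Units.val_mul, inv_mul_cancel, Units.val_one]
    calc c = (((u⁻¹ : (Matrix (Fin 2 ⊕ Fin 2) (Fin 2 ⊕ Fin 2) F)ˣ) :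
        Matrix (Fin 2 ⊕ Fin 2) (Fin 2 ⊕ Fin 2) F) * (u : Matrix (Fin 2 ⊕ Fin 2) (Fin 2 ⊕ Fin 2) F)) * c := by
          rw [h9, Matrix.one_mul]
      _ = _ := by rw [Matrix.mul_assoc, hu, h3, Matrix.mul_zero]
  subst hc
  refine ⟨⟨D, hD⟩, ?_⟩
  apply Units.ext
  rw [coe_emb, hA]
  congr 1
  simp only [Matrix.mul_zero, add_zero] at h1
  ext ⟨⟩ ⟨⟩
  have h9 := congrFun (congrFun h1 ()) ()
  simp only [Matrix.mul_apply, Finset.univ_unique, Finset.sum_singleton, Matrix.transpose_apply,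
    PUnit.default_eq_unit, Matrix.one_apply_eq] at h9 ⊢
  refine (two_cases hF (a () ())).resolve_left ?_
  intro h0
  rw [h0] at h9
  simp at h9

end emb

section root

/-- the transvections over the prime field -/
def tauZ (i : Fin 2) : Matrix (Fin 2 ⊕ Fin 2) (Fin 2 ⊕ Fin 2) (ZMod 2) :=
  1 + Matrix.of fun a b => if a = Sum.inl i ∧ b = Sum.inr i then 1 else 0

/-- the swap -/
def swZ : Matrix (Fin 2 ⊕ Fin 2) (Fin 2 ⊕ Fin 2) (ZMod 2) :=
  Matrix.of fun a b => if a = b.map (Equiv.swap 0 1) (Equiv.swap 0 1) then 1 else 0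

def qZ (i : Fin 2) : Matrix I I (ZMod 2) :=
  1 + Matrix.of fun a b => if a = Sum.inr (Sum.inl i) ∧ b = Sum.inl () then 1 else 0

theorem tauZ_mem (i : Fin 2) : tauZ i ∈ symplecticGroup (Fin 2) (ZMod 2) := by
  rw [SymplecticGroup.mem_iff]
  revert i
  decide +kernel

theorem swZ_mem : swZ ∈ symplecticGroup (Fin 2) (ZMod 2) := by
  rw [SymplecticGroup.mem_iff]
  decide +kernel

theorem swZ_tau : swZ * tauZ 0 = tauZ 1 * swZ := by decide +kernel

theorem qZ_sq (i : Fin 2) : qZ i * qZ i = 1 := by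
  revert i
  decide +kernel

theorem BZ_sq : (fromBlocks 1 0 0 (J (Fin 2) (ZMod 2)) : Matrix I I (ZMod 2)) *
    fromBlocks 1 0 0 (J (Fin 2) (ZMod 2)) = 1 := by decide +kernel

theorem qZ_root (i : Fin 2) : (qZ i * (fromBlocks 1 0 0 (J (Fin 2) (ZMod 2)) * (qZ i)ᵀ *
    fromBlocks 1 0 0 (J (Fin 2) (ZMod 2)))) * (qZ i * (fromBlocks 1 0 0 (J (Fin 2) (ZMod 2)) * (qZ i)ᵀ *
    fromBlocks 1 0 0 (J (Fin 2) (ZMod 2)))) = fromBlocks 1 0 0 (tauZ i) := by
  revert i
  decide +kernel

theorem qZ_comm (i : Fin 2) : qZ i * fromBlocks 1 0 0 (tauZ 0 * tauZ 1) =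
    fromBlocks 1 0 0 (tauZ 0 * tauZ 1) * qZ i := by
  revert i
  decide +kernel

theorem tauZ_ne : tauZ 0 * tauZ 1 ≠ 1 := by decide +kernel

end root

section main

variable {F : Type} [Field F]

theorem J_map (φ : ZMod 2 →+* F) : (J (Fin 2) (ZMod 2)).map φ = J (Fin 2) F := by
  rw [J, J, fromBlocks_map, Matrix.map_zero φ (map_zero φ), Matrix.map_neg φ (map_neg φ),
    Matrix.map_one φ (map_zero φ) (map_one φ)]

theorem blk_map (φ : ZMod 2 →+* F) (k : Matrix (Fin 2 ⊕ Fin 2) (Fin 2 ⊕ Fin 2) (ZMod 2)) :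
    (fromBlocks 1 0 0 k : Matrix I I (ZMod 2)).map φ = fromBlocks 1 0 0 (k.map φ) := by
  rw [fromBlocks_map, Matrix.map_zero φ (map_zero φ), Matrix.map_one φ (map_zero φ) (map_one φ),
    Matrix.map_zero φ (map_zero φ)]

/-- the symplectic group map -/
def spm (φ : ZMod 2 →+* F) (k : Matrix (Fin 2 ⊕ Fin 2) (Fin 2 ⊕ Fin 2) (ZMod 2))
    (hk : k ∈ symplecticGroup (Fin 2) (ZMod 2)) : symplecticGroup (Fin 2) F :=
  ⟨k.map φ, by
    rw [SymplecticGroup.mem_iff] at hk ⊢
    rw [← J_map φ, ← Matrix.transpose_map, ← Matrix.map_mul, ← Matrix.map_mul, hk]⟩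

theorem coe_spm (φ : ZMod 2 →+* F) (k : Matrix (Fin 2 ⊕ Fin 2) (Fin 2 ⊕ Fin 2) (ZMod 2))
    (hk : k ∈ symplecticGroup (Fin 2) (ZMod 2)) :
    (spm φ k hk : Matrix (Fin 2 ⊕ Fin 2) (Fin 2 ⊕ Fin 2) F) = k.map φ := rfl

/-- the units `q` -/
def qF (φ : ZMod 2 →+* F) (i : Fin 2) : GL I F :=
  ⟨(qZ i).map φ, (qZ i).map φ, by
    rw [← Matrix.map_mul, qZ_sq, Matrix.map_one φ (map_zero φ) (map_one φ)], by
    rw [← Matrix.map_mul, qZ_sq, Matrix.map_one φ (map_zero φ) (map_one φ)]⟩

theorem coe_qF (φ : ZMod 2 →+* F) (i : Fin 2) : (qF φ i : Matrix I I F) = (qZ i).map φ := rfl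

variable [Fintype F]

theorem inn_Cj (hF : Fintype.card F = 2) (g : GL I F) :
    Cj g ∈ inn (Matrix.ProjectiveSpecialLinearGroup I F) := by
  apply Cj_mem_inn
  apply ne_zero_eq hF
  exact (Matrix.isUnit_iff_isUnit_det _ |>.1 g.isUnit).ne_zero

omit [Fintype F] in
theorem simple_S : IsSimpleGroup (Matrix.ProjectiveSpecialLinearGroup I F) := by
  let e : I ≃ Fin 5 := Fintype.equivFinOfCardEq (by simp)
  have h := Cfsg.Agent.S0249.result (F := F) 5 (by norm_num)
  have h2 : Nontrivial (Matrix.ProjectiveSpecialLinearGroup I F) := (rePSL (F := F) e).toEquiv.nontrivial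
  exact IsSimpleGroup.isSimpleGroup_of_surjective (rePSL (F := F) e).symm.toMonoidHom
    (rePSL (F := F) e).symm.surjective

/-- **box B52** -/
theorem killed_52 (hF : Fintype.card F = 2)
    (B : GL (Unit ⊕ (Fin 2 ⊕ Fin 2)) F)
    (hB : (B : Matrix (Unit ⊕ (Fin 2 ⊕ Fin 2)) (Unit ⊕ (Fin 2 ⊕ Fin 2)) F) =
      fromBlocks 1 0 0 (J (Fin 2) F)) : Killed (gam B) := by
  obtain ⟨φ, hφ⟩ := exists_hom hF
  have hS : IsSimpleGroup (Matrix.ProjectiveSpecialLinearGroup I F) := simple_S
  -- `B` is an involution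
  have hB' : (B : Matrix I I F) = (fromBlocks 1 0 0 (J (Fin 2) (ZMod 2)) : Matrix I I (ZMod 2)).map φ := by
    rw [hB, blk_map, J_map]
  have hBB : B * B = 1 := by
    apply Units.ext
    rw [Units.val_mul, Units.val_one, hB', ← Matrix.map_mul, BZ_sq,
      Matrix.map_one φ (map_zero φ) (map_one φ)]
  have hBi : B⁻¹ = B := inv_eq_of_mul_eq_one_right hBB
  have hBs : (B : Matrix I I F)ᵀ = B := by
    rw [hB, fromBlocks_transpose, Matrix.J_transpose]
    have h1 : ∀ M : Matrix (Fin 2 ⊕ Fin 2) (Fin 2 ⊕ Fin 2) F, -M = M := by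
      intro M
      ext i j
      rw [Matrix.neg_apply, neg_eq_iff_add_eq_zero]
      rcases two_cases hF (M i j) with h | h <;> rw [h]
      · simp
      · exact one_add_one hF
    rw [h1]
    simp
  have ht2 : gam B * gam B = 1 := gam_sq B (Or.inl hBs)
  -- `f k` commutes with `t`
  have hft : ∀ k : symplecticGroup (Fin 2) F, gam B * f k = f k * gam B := by
    intro k
    rw [f_apply, gam_comm_Cj_iff]
    refine ⟨1, one_ne_zero, ?_⟩
    rw [one_smul, hB, coe_emb, fromBlocks_transpose, fromBlocks_multiply, fromBlocks_multiply]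
    have hk := SymplecticGroup.mem_iff'.1 k.2
    simp only [hk, _root_.Matrix.transpose_one, _root_.mul_one, _root_.Matrix.transpose_zero, _root_.Matrix.mul_zero, _root_.add_zero, _root_.Matrix.zero_mul, _root_.Matrix.mul_one, _root_.zero_add]
  let τ : Fin 2 → symplecticGroup (Fin 2) F := fun i => spm φ (tauZ i) (tauZ_mem i)
  -- the root elements
  have hroot : ∀ i, (Cj (qF φ i) * gam B * (Cj (qF φ i))⁻¹ * (gam B)⁻¹) ^ 2 = f (τ i) := by
    intro i
    rw [comm_gam, ← map_pow, f_apply]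
    congr 1
    apply Units.ext
    rw [pow_two, Units.val_mul, Units.val_mul, coe_adj, hBi, hB', coe_qF, ← Matrix.transpose_map,
      ← Matrix.map_mul, ← Matrix.map_mul, ← Matrix.map_mul, ← Matrix.map_mul, qZ_root, coe_emb, coe_spm,
      blk_map]
  have hk0 : ((τ 0 * τ 1 : symplecticGroup (Fin 2) F) : Matrix (Fin 2 ⊕ Fin 2) (Fin 2 ⊕ Fin 2) F) =
      (tauZ 0 * tauZ 1).map φ := by
    rw [Submonoid.coe_mul, coe_spm, coe_spm, Matrix.map_mul]
  have hqc : ∀ i, Cj (qF φ i) * f (τ 0 * τ 1) = f (τ 0 * τ 1) * Cj (qF φ i) := by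
    intro i
    rw [f_apply, ← map_mul, ← map_mul]
    congr 1
    apply Units.ext
    rw [Units.val_mul, Units.val_mul, coe_emb, hk0, coe_qF, ← blk_map, ← Matrix.map_mul,
      ← Matrix.map_mul, qZ_comm]
  have hy : f (τ 0 * τ 1) ∈ Subgroup.closure
      {z | ∃ q ∈ inn (Matrix.ProjectiveSpecialLinearGroup I F),
        q * f (τ 0 * τ 1) = f (τ 0 * τ 1) * q ∧ z = q * gam B * q⁻¹ * (gam B)⁻¹} := by
    have h1 : ∀ i, f (τ i) ∈ Subgroup.closure
        {z | ∃ q ∈ inn (Matrix.ProjectiveSpecialLinearGroup I F),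
        q * f (τ 0 * τ 1) = f (τ 0 * τ 1) * q ∧ z = q * gam B * q⁻¹ * (gam B)⁻¹} := by
      intro i
      rw [← hroot i]
      refine Subgroup.pow_mem _ (Subgroup.subset_closure ?_) 2
      exact ⟨_, inn_Cj hF _, hqc i, rfl⟩
    have h2 := Subgroup.mul_mem _ (h1 0) (h1 1)
    rwa [← map_mul] at h2
  have hyi : f (τ 0 * τ 1) ∈ inn (Matrix.ProjectiveSpecialLinearGroup I F) := inn_Cj hF _
  have hy1 : f (τ 0 * τ 1) ≠ 1 := by
    intro h
    have h1 := congrArg Subtype.val (f_eq_one h)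
    rw [hk0] at h1
    apply tauZ_ne
    apply Matrix.map_injective hφ
    show (tauZ 0 * tauZ 1).map φ = (1 : Matrix (Fin 2 ⊕ Fin 2) (Fin 2 ⊕ Fin 2) (ZMod 2)).map φ
    rw [h1, Matrix.map_one φ (map_zero φ) (map_one φ)]
    rfl
  rw [killed_iff]
  intro κ _ x r hFam H hcov
  obtain ⟨e⟩ := Cfsg.Agent.S0247.result hF
  -- the elements of the family
  have hx : ∀ i, ∃ k : symplecticGroup (Fin 2) F, x i = f k := by
    intro i
    obtain ⟨A, σ, hA⟩ := exists_sem_of_odd (F := F) (ι := I) (by simp) (x i)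
      ((hFam.pr i).odd_of_ne_two (hFam.ne2 i)) (hFam.pow i)
    have h1 := hFam.commt i
    rw [hA, ring_refl hF σ, Sem_one, gam_comm_Cj_iff] at h1
    obtain ⟨c, hc, h2⟩ := h1
    rw [ne_zero_eq hF hc, one_smul] at h2
    rw [hB] at h2
    obtain ⟨k, hk⟩ := exists_emb hF A h2.symm
    refine ⟨k, ?_⟩
    rw [hA, ring_refl hF σ, Sem_one, hk]
    rfl
  choose k hk using hx
  have hpk : ∀ i, (e (k i)) ^ r i = 1 := by
    intro i
    rw [← map_pow]
    have : k i ^ r i = 1 := by
      apply f_eq_one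
      rw [map_pow, ← hk]
      exact hFam.pow i
    rw [this, map_one]
  have hnk : ∀ i, e (k i) ≠ 1 := by
    intro i h
    apply hFam.ne1 i
    rw [hk, (map_eq_one_iff e e.injective).1 h, map_one]
  have hord := fun i => prime_cases (hFam.pr i) (hFam.ne2 i) (hpk i) (hnk i)
  have hck : ∀ i j, e (k i) * e (k j) = e (k j) * e (k i) := by
    intro i j
    rw [← map_mul, ← map_mul]
    congr 1
    apply f_inj
    rw [map_mul, map_mul, ← hk, ← hk]
    exact hFam.comm i j
  have hκ : ∀ i j : κ, i = j := by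
    intro i j
    apply hFam.inj
    obtain ⟨h1, h2⟩ := hord i
    obtain ⟨h3, h4⟩ := hord j
    rcases h2 with h2 | h2 <;> rcases h4 with h4 | h4
    · rw [h2, h4]
    · exact (no_comm (h3.trans h4) (h1.trans h2) (hck j i)).elim
    · exact (no_comm (h1.trans h2) (h3.trans h4) (hck i j)).elim
    · rw [h2, h4]
  rcases isEmpty_or_nonempty κ with h0 | ⟨⟨i₀⟩⟩
  · refine fam_root hS (gam B) H _ hyi hy1 ?_ hy
    intro n hn
    rcases hcov.pt n hn with h | ⟨i, -⟩
    · exact Or.inr h
    · exact h0.elim i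
  · refine fam_one hS hcov i₀ (fun i => hκ i i₀) _ hyi hy1 ?_ hy
    -- the normal closure
    have h1 := alt_le (hFam.pr i₀) (hFam.ne2 i₀) (hpk i₀) (hnk i₀)
    have h2 : e (τ 0 * τ 1) ∈ alternatingGroup (Fin 6) := by
      rw [Equiv.Perm.mem_alternatingGroup, map_mul, map_mul]
      let w : symplecticGroup (Fin 2) F := spm φ swZ swZ_mem
      have h3 : w * τ 0 = τ 1 * w := by
        apply Subtype.ext
        rw [Submonoid.coe_mul, Submonoid.coe_mul, coe_spm, coe_spm, coe_spm, ← Matrix.map_mul,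
          ← Matrix.map_mul, swZ_tau]
      have h4 := congrArg (fun z => Equiv.Perm.sign (e z)) h3
      simp only [map_mul] at h4
      have h5 : Equiv.Perm.sign (e (τ 0)) = Equiv.Perm.sign (e (τ 1)) := by
        rw [mul_comm] at h4
        exact mul_right_cancel h4
      rw [h5, Int.units_mul_self]
    have h3 := h1 h2
    -- transport
    have h4 : Subgroup.normalClosure {e (k i₀)} ≤
        ((Subgroup.closure {z | ∃ c ∈ inn (Matrix.ProjectiveSpecialLinearGroup I F),
          c * gam B = gam B * c ∧ z = c * x i₀ * c⁻¹}).comap f).map e.toMonoidHom := by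
      rw [Subgroup.normalClosure, Subgroup.closure_le]
      intro v hv
      obtain ⟨w, hw, hvw⟩ := Group.mem_conjugatesOfSet_iff.1 hv
      rw [Set.mem_singleton_iff] at hw
      subst hw
      obtain ⟨c, rfl⟩ := isConj_iff.1 hvw
      refine ⟨e.symm c * k i₀ * (e.symm c)⁻¹, ?_, ?_⟩
      · show f (e.symm c * k i₀ * (e.symm c)⁻¹) ∈
          Subgroup.closure {z | ∃ c ∈ inn (Matrix.ProjectiveSpecialLinearGroup I F),
          c * gam B = gam B * c ∧ z = c * x i₀ * c⁻¹}
        apply Subgroup.subset_closure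
        refine ⟨f (e.symm c), inn_Cj hF _, (hft _).symm, ?_⟩
        simp only [map_mul, map_mul, map_inv, hk]
      · simp only [_root_.MulEquiv.toMonoidHom_eq_coe, _root_.MonoidHom.coe_coe, _root_.map_mul, _root_.MulEquiv.apply_symm_apply, _root_.map_inv]
    obtain ⟨z, hz, hze⟩ := h4 h3
    have h5 : z = τ 0 * τ 1 := e.injective hze
    rw [← h5]
    exact hz

end main

end Cfsg.Agent.H686.RC.K52
end

-- part: H417/RC/BThreeThree
section
/-!
# S3510 part B, box B33: `PSL₃(3)` (helper417)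

`killed_33` : the orthogonal involutory dualities of `PSL₃(3)`.
-/

set_option autoImplicit false

open Matrix Cfsg
open Cfsg.Agent.H106.RC Cfsg.Agent.H999.PslGraph Cfsg.Agent.H384.RC
open Cfsg.Agent.ClassicalGeometry.AutPSL.Auto

namespace Cfsg.Agent.H417.RC

/-! ### the field with three elements -/

section field

variable {F : Type*} [Field F] [Fintype F] (hF : Fintype.card F = 3)
include hF

theorem three_eq : (3 : F) = 0 := by
  have h := Nat.cast_card_eq_zero F
  rw [hF] at h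
  exact_mod_cast h

theorem cases3 (a : F) : a = 0 ∨ a = 1 ∨ a = -1 := by
  have h := FiniteField.pow_card a
  rw [hF] at h
  have h1 : a * ((a - 1) * (a + 1)) = 0 := by linear_combination h
  rcases mul_eq_zero.1 h1 with h2 | h2
  · exact Or.inl h2
  rcases mul_eq_zero.1 h2 with h3 | h3
  · exact Or.inr (Or.inl (by linear_combination h3))
  · exact Or.inr (Or.inr (by linear_combination h3))

theorem sq3 {a : F} (ha : a ≠ 0) : a * a = 1 := by
  rcases cases3 hF a with h | h | h
  · exact (ha h).elim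
  · rw [h, one_mul]
  · rw [h, neg_mul_neg, one_mul]

theorem eq_refl3 (σ : F ≃+* F) : σ = RingEquiv.refl F := by
  apply RingEquiv.ext
  intro a
  rw [RingEquiv.refl_apply]
  rcases cases3 hF a with h | h | h
  · rw [h, map_zero]
  · rw [h, map_one]
  · rw [h, map_neg, map_one]

theorem one_of_sum {a b c : F} (h : a * a + b * b + c * c = 1) :
    (a ≠ 0 ∧ b = 0 ∧ c = 0) ∨ (a = 0 ∧ b ≠ 0 ∧ c = 0) ∨ (a = 0 ∧ b = 0 ∧ c ≠ 0) := by
  have h3 := three_eq hF
  have h1 : (1 : F) ≠ 0 := one_ne_zero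
  by_cases ha : a = 0
  · by_cases hb : b = 0
    · by_cases hc : c = 0
      · exfalso
        rw [ha, hb, hc] at h
        apply h1
        linear_combination -h
      · exact Or.inr (Or.inr ⟨ha, hb, hc⟩)
    · by_cases hc : c = 0
      · exact Or.inr (Or.inl ⟨ha, hb, hc⟩)
      · exfalso
        rw [ha, sq3 hF hb, sq3 hF hc] at h
        apply h1
        linear_combination h
  · by_cases hb : b = 0
    · by_cases hc : c = 0
      · exact Or.inl ⟨ha, hb, hc⟩
      · exfalso
        rw [hb, sq3 hF ha, sq3 hF hc] at h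
        apply h1
        linear_combination h
    · by_cases hc : c = 0
      · exfalso
        rw [hc, sq3 hF ha, sq3 hF hb] at h
        apply h1
        linear_combination h
      · exfalso
        rw [sq3 hF ha, sq3 hF hb, sq3 hF hc] at h
        apply h1
        linear_combination h3 - h

end field

/-! ### signed permutation matrices -/

section mat

variable {F : Type*} [Field F] [Fintype F] (hF : Fintype.card F = 3)

/-- an orthogonal matrix is a signed permutation matrix -/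
theorem exists_perm (hF : Fintype.card F = 3) (A : Matrix (Fin 3) (Fin 3) F) (hA : Aᵀ * A = 1) :
    ∃ π : Equiv.Perm (Fin 3), ∀ i j, A i j ≠ 0 ↔ i = π j := by
  have hmul : ∀ j k, A 0 j * A 0 k + A 1 j * A 1 k + A 2 j * A 2 k = (1 : Matrix (Fin 3) (Fin 3) F) j k := by
    intro j k
    rw [← hA, Matrix.mul_apply, Fin.sum_univ_three]
    rfl
  have h1 : ∀ j, ∃ i, A i j ≠ 0 ∧ ∀ k, k ≠ i → A k j = 0 := by
    intro j
    have h2 := hmul j j
    rw [Matrix.one_apply_eq] at h2
    rcases one_of_sum hF h2 with ⟨h3, h4, h5⟩ | ⟨h3, h4, h5⟩ | ⟨h3, h4, h5⟩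
    · refine ⟨0, h3, fun k hk => ?_⟩
      fin_cases k
      · exact (hk rfl).elim
      · exact h4
      · exact h5
    · refine ⟨1, h4, fun k hk => ?_⟩
      fin_cases k
      · exact h3
      · exact (hk rfl).elim
      · exact h5
    · refine ⟨2, h5, fun k hk => ?_⟩
      fin_cases k
      · exact h3
      · exact h4
      · exact (hk rfl).elim
  choose f hf1 hf2 using h1
  have hf : Function.Injective f := by
    intro j k hjk
    by_contra hne
    have h2 := hmul j k
    rw [Matrix.one_apply_ne hne] at h2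
    have h3 : A 0 j * A 0 k + A 1 j * A 1 k + A 2 j * A 2 k = ∑ i, A i j * A i k := by
      rw [Fin.sum_univ_three]
    rw [h3, Finset.sum_eq_single (f j) (fun i _ hi => by rw [hf2 j i hi, zero_mul])
      (fun h => (h (Finset.mem_univ _)).elim)] at h2
    rcases mul_eq_zero.1 h2 with h4 | h4
    · exact hf1 j h4
    · rw [hjk] at h4
      exact hf1 k h4
  refine ⟨Equiv.ofBijective f (Finite.injective_iff_bijective.1 hf), fun i j => ?_⟩
  rw [Equiv.ofBijective_apply]
  constructor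
  · intro h
    by_contra hne
    exact h (hf2 j i hne)
  · intro h
    rw [h]
    exact hf1 j

theorem pow_entry {A : Matrix (Fin 3) (Fin 3) F} {π : Equiv.Perm (Fin 3)} (h : ∀ i j, A i j ≠ 0 ↔ i = π j) (k : ℕ) :
    ∀ i j, (A ^ k) i j ≠ 0 ↔ i = (π ^ k) j := by
  induction k with
  | zero =>
    intro i j
    rw [pow_zero, pow_zero, Equiv.Perm.one_apply]
    by_cases hij : i = j
    · rw [hij, Matrix.one_apply_eq]
      exact ⟨fun _ => rfl, fun _ => one_ne_zero⟩
    · rw [Matrix.one_apply_ne hij]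
      exact ⟨fun h => (h rfl).elim, fun h => (hij h).elim⟩
  | succ k ih =>
    intro i j
    rw [pow_succ, Matrix.mul_apply, Finset.sum_eq_single (π j) (fun l _ hl => by
      have h1 : A l j = 0 := by
        by_contra hne
        exact hl ((h l j).1 hne)
      rw [h1, mul_zero]) (fun h => (h (Finset.mem_univ _)).elim), pow_succ, Equiv.Perm.mul_apply, ← ih i (π j)]
    constructor
    · exact fun h => left_ne_zero_of_mul h
    · exact fun h1 => mul_ne_zero h1 ((h (π j) j).2 rfl)

end mat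

theorem perm_three (π : Equiv.Perm (Fin 3)) (h : π ^ 3 = 1) (h1 : π ≠ 1) :
    (π 0 = 1 ∧ π 1 = 2 ∧ π 2 = 0) ∨ (π 0 = 2 ∧ π 1 = 0 ∧ π 2 = 1) := by
  revert π
  decide +kernel

theorem perm_prime (π : Equiv.Perm (Fin 3)) {r : ℕ} (hr : r.Prime) (hr2 : r ≠ 2) (h : π ^ r = 1) (h1 : π ≠ 1) : r = 3 := by
  have := Fact.mk hr
  have h2 : orderOf π = r := orderOf_eq_prime h h1
  have h3 : orderOf π ∣ 6 := by
    have h4 := orderOf_dvd_card (x := π)
    rw [Fintype.card_perm, Fintype.card_fin] at h4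
    exact h4
  rw [h2] at h3
  have h4 : r ∣ 2 * 3 := h3
  rcases hr.dvd_mul.1 h4 with h5 | h5
  · exact (hr2 ((Nat.prime_dvd_prime_iff_eq hr Nat.prime_two).1 h5)).elim
  · exact (Nat.prime_dvd_prime_iff_eq hr Nat.prime_three).1 h5

/-! ### the elements -/

section elts

variable {F : Type*} [Field F]

/-- a diagonal sign matrix -/
def dg (d : Fin 3 → Fˣ) : GL (Fin 3) F where
  val := Matrix.diagonal fun i => (d i : F)
  inv := Matrix.diagonal fun i => ((d i)⁻¹ : Fˣ)
  val_inv := by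
    rw [Matrix.diagonal_mul_diagonal]
    simp
  inv_val := by
    rw [Matrix.diagonal_mul_diagonal]
    simp

theorem coe_dg (d : Fin 3 → Fˣ) : (dg d : Matrix (Fin 3) (Fin 3) F) = Matrix.diagonal fun i => (d i : F) := rfl

/-- the root matrix -/
def qm (F : Type*) [Field F] : GL (Fin 3) F where
  val := !![1, 0, 0; 1, 1, 0; 0, 0, 1]
  inv := !![1, 0, 0; -1, 1, 0; 0, 0, 1]
  val_inv := by
    ext i j
    (revert i j; simp only [Matrix.mul_apply, Fin.sum_univ_three, _root_.Fin.forall_fin_succ, _root_.Matrix.of_apply, _root_.Matrix.cons_val', _root_.Matrix.cons_val_fin_one, Fin.isValue, _root_.Matrix.cons_val_zero, _root_.Matrix.cons_val_one, _root_.Matrix.cons_val, _root_.mul_one, _root_.mul_neg, _root_.MulZeroClass.mul_zero, _root_.add_zero, _root_.Matrix.cons_val_succ, _root_.zero_add, _root_.IsEmpty.forall_iff, _root_.and_true, _root_.neg_zero, _root_.Matrix.one_apply_eq, Nat.reduceAdd, _root_.Fin.succ_zero_eq_one, _root_.ne_eq, _root_.zero_ne_one, _root_.not_false_eq_true,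 _root_.Matrix.one_apply_ne, _root_.Fin.succ_one_eq_two, Fin.reduceEq, _root_.and_self, _root_.add_neg_cancel, _root_.Fin.succ_ne_zero, _root_.true_and])
  inv_val := by
    ext i j
    (revert i j; simp only [Matrix.mul_apply, Fin.sum_univ_three, _root_.Fin.forall_fin_succ, _root_.Matrix.of_apply, _root_.Matrix.cons_val', _root_.Matrix.cons_val_fin_one, Fin.isValue, _root_.Matrix.cons_val_zero, _root_.Matrix.cons_val_one, _root_.Matrix.cons_val, _root_.mul_one, _root_.MulZeroClass.mul_zero, _root_.add_zero, _root_.Matrix.cons_val_succ, _root_.zero_add, _root_.IsEmpty.forall_iff, _root_.and_true, _root_.Matrix.one_apply_eq, Nat.reduceAdd, _root_.Fin.succ_zero_eq_one, _root_.ne_eq, _root_.zero_ne_one, _root_.not_false_eq_true, _root_.Matrix.one_apply_ne, _root_.Fin.succ_one_eq_two, Fin.reduceEq, _root_.and_self, _root_.Fin.succ_ne_zero, _root_.neg_add_cancel, _root_.true_and])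

theorem coe_qm : (qm F : Matrix (Fin 3) (Fin 3) F) = !![1, 0, 0; 1, 1, 0; 0, 0, 1] := rfl

theorem det_qm : (qm F : Matrix (Fin 3) (Fin 3) F).det = 1 := by
  rw [coe_qm, Matrix.det_fin_three]
  simp

/-- `diag(-1,-1,1)` -/
def dE (F : Type*) [Field F] : Fin 3 → Fˣ := ![-1, -1, 1]

theorem qm_dE : qm F * dg (dE F) = dg (dE F) * qm F := by
  apply Units.ext
  rw [Units.val_mul, Units.val_mul, coe_qm, coe_dg]
  ext i j
  (revert i j; simp only [Matrix.mul_apply, Fin.sum_univ_three, dE, Matrix.diagonal, _root_.Fin.forall_fin_succ, _root_.Matrix.of_apply, _root_.Matrix.cons_val', _root_.Matrix.cons_val_fin_one, _root_.mul_ite, _root_.MulZeroClass.mul_zero, _root_.Finset.sum_ite_eq', _root_.Finset.mem_univ, ↓reduceIte, _root_.ite_mul, _root_.MulZeroClass.zero_mul, _root_.Finset.sum_ite_eq, Fin.isValue, _root_.Matrix.cons_val_zero, _root_.Units.val_neg, _root_.Units.val_one, _root_.mul_neg, _root_.mul_one, _root_.Matrix.cons_val_succ, _root_.forall_const, _root_.neg_zero,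 _root_.and_self, _root_.and_self_left, _root_.implies_true])

theorem qm_t : (!![1, 0, 0; 1, 1, 0; 0, 0, 1] : Matrix (Fin 3) (Fin 3) F)ᵀ = !![1, 1, 0; 0, 1, 0; 0, 0, 1] := by
  ext i j
  fin_cases i <;> fin_cases j <;> rfl

theorem coe_W : ((qm F * (ct (qm F))⁻¹ : GL (Fin 3) F) : Matrix (Fin 3) (Fin 3) F) = !![1, 1, 0; 1, 2, 0; 0, 0, 1] := by
  rw [Units.val_mul, coe_ct_inv, coe_qm, qm_t, Matrix.mul_fin_three]
  congr 1
  ext i j
  (revert i j; simp only [_root_.Fin.forall_fin_succ, _root_.Nat.succ_eq_add_one, Nat.reduceAdd, _root_.mul_one, _root_.MulZeroClass.mul_zero, _root_.add_zero, _root_.zero_add, _root_.Matrix.cons_val', _root_.Matrix.cons_val_fin_one, Fin.isValue, _root_.Matrix.cons_val_zero, _root_.Matrix.cons_val_succ, _root_.implies_true, _root_.and_true, _root_.true_and]) <;> (repeat' with_reducible apply And.intro) <;> norm_num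

theorem qm_sq (h3 : (3 : F) = 0) : qm F * (ct (qm F))⁻¹ * (qm F * (ct (qm F))⁻¹) = dg (dE F) := by
  apply Units.ext
  rw [Units.val_mul, coe_W, coe_dg, Matrix.mul_fin_three]
  ext i j
  (revert i j; simp only [dE, Matrix.diagonal, _root_.Fin.forall_fin_succ, _root_.mul_one, _root_.MulZeroClass.mul_zero, _root_.add_zero, _root_.one_mul, _root_.MulZeroClass.zero_mul, _root_.zero_add, _root_.Matrix.of_apply, _root_.Matrix.cons_val', _root_.Matrix.cons_val_fin_one, Fin.isValue, _root_.Matrix.cons_val_zero, _root_.Matrix.cons_val_succ, _root_.Fin.succ_zero_eq_one, _root_.Fin.succ_one_eq_two, _root_.IsEmpty.forall_iff, ↓reduceIte, _root_.Units.val_neg, _root_.Units.val_one, _root_.zero_ne_one, Fin.reduceEq, _root_.Fin.succ_ne_zero, _root_.right_eq_ite_iff, _root_.imp_false, _root_.left_eq_ite_iff, _root_.one_ne_zero, _root_.Decidable.not_not, _root_.not_false_eq_true, _root_.and_true, _root_.true_and]) <;> (repeat' with_reducible apply And.intro)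
  all_goals try linear_combination h3
  all_goals try linear_combination 2 * h3

/-- the commutator of a diagonal sign matrix with a signed permutation matrix -/
theorem comm_dg {A : GL (Fin 3) F} {π : Equiv.Perm (Fin 3)} (h : ∀ i j, (A : Matrix (Fin 3) (Fin 3) F) i j ≠ 0 ↔ i = π j)
    (d e : Fin 3 → Fˣ) (hde : ∀ j, d (π j) = e (π j) * d j) : dg d * A = dg e * A * dg d := by
  apply Units.ext
  rw [Units.val_mul, Units.val_mul, Units.val_mul, coe_dg, coe_dg]
  ext i j
  rw [Matrix.diagonal_mul, Matrix.mul_diagonal, Matrix.diagonal_mul]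
  by_cases hij : (A : Matrix (Fin 3) (Fin 3) F) i j = 0
  · rw [hij, mul_zero, mul_zero, zero_mul]
  · rw [(h i j).1 hij, hde j, Units.val_mul]
    ring

end elts

/-! ### the theorem -/

section main

variable {F : Type} [Field F] [Fintype F] (hF : Fintype.card F = 3)
  (B : GL (Fin 3) F) (hB : (B : Matrix (Fin 3) (Fin 3) F) = 1)
include hF hB

/-- the elements commuting with the duality -/
theorem exists_orth {x : MulAut (Matrix.ProjectiveSpecialLinearGroup (Fin 3) F)} {r : ℕ} (hr : Odd r) (hx : x ^ r = 1)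
    (hc : gam B * x = x * gam B) : ∃ A : GL (Fin 3) F, x = Cj A ∧ (A : Matrix (Fin 3) (Fin 3) F)ᵀ * A = 1 := by
  obtain ⟨A, σ, rfl⟩ := exists_sem_of_odd (by rw [Fintype.card_fin]; norm_num) x hr hx
  have hσ := eq_refl3 hF σ
  subst hσ
  obtain ⟨c, hc0, h1⟩ := (gam_comm_iff A (RingEquiv.refl F) B).1 hc
  refine ⟨A, Sem_one A, ?_⟩
  rw [hB, Matrix.mul_one, Matrix.map_one _ (map_zero _) (map_one _)] at h1
  have h2 := congrArg Matrix.det h1
  rw [Matrix.det_one, Matrix.det_smul, Fintype.card_fin, Matrix.det_mul, Matrix.det_transpose] at h2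
  have h3 : (A : Matrix (Fin 3) (Fin 3) F).det ≠ 0 := by
    intro h4
    rw [h4, mul_zero, mul_zero] at h2
    exact one_ne_zero h2
  rw [sq3 hF h3, mul_one] at h2
  have h4 : c = 1 := by
    rcases cases3 hF c with h | h | h
    · exact (hc0 h).elim
    · exact h
    · rw [h] at h2
      linear_combination h - h2
  rw [h4, one_smul] at h1
  exact h1.symm

/-- the root element -/
theorem root_mem : Cj (dg (dE F)) ∈ Subgroup.closure {z | ∃ q ∈ inn (Matrix.ProjectiveSpecialLinearGroup (Fin 3) F),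
    q * Cj (dg (dE F)) = Cj (dg (dE F)) * q ∧ z = q * gam B * q⁻¹ * (gam B)⁻¹} := by
  have hB1 : B = 1 := Units.ext hB
  have h1 : Cj (qm F) * gam B * (Cj (qm F))⁻¹ * (gam B)⁻¹ = Cj (qm F * (ct (qm F))⁻¹) := by
    rw [comm_gam, hB1, inv_one, one_mul, mul_one]
  have h2 : Cj (qm F * (ct (qm F))⁻¹) ∈ Subgroup.closure {z | ∃ q ∈ inn (Matrix.ProjectiveSpecialLinearGroup (Fin 3) F),
      q * Cj (dg (dE F)) = Cj (dg (dE F)) * q ∧ z = q * gam B * q⁻¹ * (gam B)⁻¹} := by
    apply Subgroup.subset_closure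
    refine ⟨Cj (qm F), Cj_mem_inn _ det_qm, ?_, h1.symm⟩
    rw [← map_mul, ← map_mul, qm_dE]
  have h3 : Cj (dg (dE F)) = Cj (qm F * (ct (qm F))⁻¹) * Cj (qm F * (ct (qm F))⁻¹) := by
    rw [← map_mul, qm_sq (three_eq hF)]
  rw [h3]
  rw [h3] at h2
  exact Subgroup.mul_mem _ h2 h2

omit hF in
theorem dg_comm (d : Fin 3 → Fˣ) (hd : ∀ i, d i * d i = 1) : Cj (dg d) * gam B = gam B * Cj (dg d) := by
  symm
  rw [gam_comm_Cj_iff]
  refine ⟨1, one_ne_zero, ?_⟩
  rw [hB, Matrix.mul_one, one_smul, coe_dg, Matrix.diagonal_transpose, Matrix.diagonal_mul_diagonal]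
  symm
  rw [← Matrix.diagonal_one]
  congr 1
  funext i
  rw [← Units.val_mul, hd i, Units.val_one]

theorem killed_33 : Killed (gam B) := by
  have h3 := three_eq hF
  have hS : IsSimpleGroup (Matrix.ProjectiveSpecialLinearGroup (Fin 3) F) := Cfsg.Agent.S0249.result 3 le_rfl
  have h11 : (-1 : F) ≠ 1 := by
    intro h
    apply one_ne_zero (α := F)
    linear_combination h3 + h
  have hyi : Cj (dg (dE F)) ∈ inn (Matrix.ProjectiveSpecialLinearGroup (Fin 3) F) := by
    apply Cj_mem_inn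
    rw [coe_dg, Matrix.det_diagonal, Fin.prod_univ_three]
    simp [dE]
  have hy1 : Cj (dg (dE F)) ≠ 1 := by
    rw [Ne, Cj_eq_one_iff]
    rintro ⟨c, hc⟩
    have h1 := congrFun (congrFun hc 0) 0
    have h2 := congrFun (congrFun hc 2) 2
    rw [coe_dg] at h1 h2
    simp [dE] at h1 h2
    exact h11 (h1.trans h2.symm)
  rw [killed_iff]
  intro κ _ x r hFam H hcov
  -- the structure of the elements
  have hx : ∀ i, r i = 3 ∧ ∃ (A : GL (Fin 3) F) (π : Equiv.Perm (Fin 3)), x i = Cj A ∧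
      (∀ k j, (A : Matrix (Fin 3) (Fin 3) F) k j ≠ 0 ↔ k = π j) ∧
      ((π 0 = 1 ∧ π 1 = 2 ∧ π 2 = 0) ∨ (π 0 = 2 ∧ π 1 = 0 ∧ π 2 = 1)) := by
    intro i
    obtain ⟨A, hA, hA2⟩ := exists_orth hF B hB ((hFam.pr i).odd_of_ne_two (hFam.ne2 i)) (hFam.pow i) (hFam.commt i)
    obtain ⟨π, hπ⟩ := exists_perm hF (A : Matrix (Fin 3) (Fin 3) F) hA2
    -- `π ^ r = 1`
    have h4 : π ^ r i = 1 := by
      have h5 : Cj (A ^ r i) = 1 := by rw [map_pow, ← hA, hFam.pow i]
      obtain ⟨c, hc⟩ := Cj_eq_one_iff.1 h5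
      ext1 j
      rw [Equiv.Perm.one_apply]
      have h6 := (pow_entry hπ (r i) ((π ^ r i) j) j).2 rfl
      rw [Units.val_pow_eq_pow_val] at hc
      rw [hc, Matrix.smul_apply, smul_eq_mul] at h6
      have h7 := right_ne_zero_of_mul h6
      by_contra hne
      exact h7 (Matrix.one_apply_ne hne)
    have h5 : π ≠ 1 := by
      intro h6
      rw [h6] at hπ
      -- `A` is diagonal, `A ^ 2 = 1`
      have h7 : A * A = 1 := by
        apply Units.ext
        rw [Units.val_mul, Units.val_one]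
        ext k j
        have h8 : ∀ k j, k ≠ j → (A : Matrix (Fin 3) (Fin 3) F) k j = 0 := by
          intro k j hkj
          by_contra hne
          exact hkj ((hπ k j).1 hne)
        rw [Matrix.mul_apply, Finset.sum_eq_single j (fun l _ hl => by rw [h8 l j hl, mul_zero])
          (fun h => (h (Finset.mem_univ _)).elim)]
        by_cases hkj : k = j
        · rw [hkj, Matrix.one_apply_eq]
          exact sq3 hF ((hπ j j).2 rfl)
        · rw [h8 k j hkj, zero_mul, Matrix.one_apply_ne hkj]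
      have h8 : x i * x i = 1 := by rw [hA, ← map_mul, h7, map_one]
      have h9 : x i ^ 1 = 1 := by
        have h10 : orderOf (x i) ∣ 1 := by
          have h11 : orderOf (x i) ∣ 2 := orderOf_dvd_of_pow_eq_one (by rw [pow_two, h8])
          have h12 : orderOf (x i) ∣ r i := orderOf_dvd_of_pow_eq_one (hFam.pow i)
          have h13 : Nat.Coprime 2 (r i) := (Nat.coprime_primes Nat.prime_two (hFam.pr i)).2 (hFam.ne2 i).symm
          rw [← h13.gcd_eq_one]
          exact Nat.dvd_gcd h11 h12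
        exact orderOf_dvd_iff_pow_eq_one.1 h10
      rw [pow_one] at h9
      exact hFam.ne1 i h9
    have h6 := perm_prime π (hFam.pr i) (hFam.ne2 i) h4 h5
    rw [h6] at h4
    exact ⟨h6, A, π, hA, hπ, perm_three π h4 h5⟩
  by_cases hκ : Nonempty κ
  · obtain ⟨i₀⟩ := hκ
    refine fam_one hS hcov i₀ (fun i => hFam.inj ((hx i).1.trans (hx i₀).1.symm)) (Cj (dg (dE F))) hyi hy1 ?_
      (root_mem hF B hB)
    obtain ⟨-, A, π, hA, hπ, hcase⟩ := hx i₀
    obtain ⟨d, hdd, hdet, hd⟩ : ∃ d : Fin 3 → Fˣ, (∀ i, d i * d i = 1) ∧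
        (dg d : Matrix (Fin 3) (Fin 3) F).det = 1 ∧ ∀ j, d (π j) = dE F (π j) * d j := by
      rcases hcase with ⟨h0, h1, h2⟩ | ⟨h0, h1, h2⟩
      · refine ⟨![1, -1, -1], ?_, ?_, ?_⟩
        · intro i
          fin_cases i <;> simp
        · rw [coe_dg, Matrix.det_diagonal, Fin.prod_univ_three]
          simp
        · intro j
          fin_cases j
          · change ![1, -1, -1] (π 0) = dE F (π 0) * _
            rw [h0]
            simp [dE]
          · change ![1, -1, -1] (π 1) = dE F (π 1) * _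
            rw [h1]
            simp [dE]
          · change ![1, -1, -1] (π 2) = dE F (π 2) * _
            rw [h2]
            simp [dE]
      · refine ⟨![-1, 1, -1], ?_, ?_, ?_⟩
        · intro i
          fin_cases i <;> simp
        · rw [coe_dg, Matrix.det_diagonal, Fin.prod_univ_three]
          simp
        · intro j
          fin_cases j
          · change ![-1, 1, -1] (π 0) = dE F (π 0) * _
            rw [h0]
            simp [dE]
          · change ![-1, 1, -1] (π 1) = dE F (π 1) * _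
            rw [h1]
            simp [dE]
          · change ![-1, 1, -1] (π 2) = dE F (π 2) * _
            rw [h2]
            simp [dE]
    have h4 := comm_dg hπ d (dE F) hd
    have h5 : Cj (dg (dE F)) = (Cj (dg d) * x i₀ * (Cj (dg d))⁻¹) * (x i₀)⁻¹ := by
      rw [hA, eq_mul_inv_iff_mul_eq, eq_mul_inv_iff_mul_eq, ← map_mul, ← map_mul, ← map_mul, h4]
    rw [h5]
    refine Subgroup.mul_mem _ (Subgroup.subset_closure ⟨Cj (dg d), Cj_mem_inn _ hdet, dg_comm B hB d hdd, rfl⟩)
      (Subgroup.inv_mem _ (Subgroup.subset_closure ⟨1, Subgroup.one_mem _, by rw [one_mul, mul_one], by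
        rw [one_mul, inv_one, mul_one]⟩))
  · refine fam_root hS (gam B) H (Cj (dg (dE F))) hyi hy1 ?_ (root_mem hF B hB)
    intro n hn
    rcases hcov.pt n hn with h | ⟨i, -⟩
    · exact Or.inr h
    · exact (hκ ⟨i⟩).elim

end main

end Cfsg.Agent.H417.RC
end

private theorem dce_64029a5ddf3b : _root_.True := by
  try have : _root_.True := by simp only [_root_.Cfsg.Agent.H679.RC.isoGL.congr_simp]
  try have : _root_.True := by simp only [_root_.Cfsg.Agent.H417.RC.dE.eq_1]
  try have : _root_.True := by simp only [_root_.Cfsg.Agent.H442.RC.KU.sG.eq_1]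
  try have : _root_.True := by simp only [_root_.Cfsg.Agent.H679.RC.Dm.eq_1]
  try have : _root_.True := by simp only [_root_.Cfsg.Agent.H679.RC.Dm.congr_simp]
  try have : _root_.True := by simp only [_root_.Cfsg.Agent.H442.RC.KU.pM.eq_1]
  try have : _root_.True := by simp only [_root_.Cfsg.Agent.H679.RC.Sg.eq_1]
  try have : _root_.True := by simp only [_root_.Cfsg.Agent.H679.RC.Sg.congr_simp]
  try have : _root_.True := by simp only [_root_.Cfsg.Agent.H442.RC.KU.tU.eq_1]
  exact _root_.True.intro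
end

-- part: H566/RC/TriFrame
section
set_option linter.all false
open scoped Cfsg.Agent.FastGrp

/-!
# S3510, triality of `PΩ₈⁺(q)`: the frame (helper566)

* `Rp Q N σ` : `σ : P Q →* G` is injective with image `N`;
* `La σ x α` : `x ∈ G` induces the automorphism `α` of `P Q`;
* `La.lf` : the connection with `Lf` (`H93.RC`);
* `Rp.change` : change of `σ` by an automorphism of `P Q`;
* `mv_rot`, `mv_rot'` : replacing `x i₁` of a cover by elements attached to `b b₁ b₂ = 1`, `b₁ = x b x⁻¹`, `b₂ = x b₁ x⁻¹`.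
-/

set_option autoImplicit false
open Cfsg

namespace Cfsg.Agent.H566.RC

open QuadraticMap MulAction
open Cfsg.Agent.LieClassical.OrthCore Cfsg.Agent.LieClassical.OrthTrans
open Cfsg.Agent.LieClassical.OrthSimple Cfsg.Agent.ClassicalGeometry.OrthSemi
open Cfsg.Agent.ClassicalGeometry.OrthAut1 Cfsg.Agent.H106.RC Cfsg.Agent.H93.RC

section basic

variable {F V : Type*} [Field F] [AddCommGroup V] [Module F V] {Q : QuadraticForm F V}
variable {G : Type*} [Group G]

/-- `σ` is an embedding of `P Q` with image `N` -/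
structure Rp (Q : QuadraticForm F V) (N : Subgroup G) (σ : P Q →* G) : Prop where
  inj : Function.Injective σ
  range : σ.range = N

/-- `x` induces the automorphism `α` of `P Q` -/
def La (σ : P Q →* G) (x : G) (α : MulAut (P Q)) : Prop := ∀ a : P Q, x * σ a * x⁻¹ = σ (α a)

/-- the homomorphism of `E Q` -/
def up (σ : P Q →* G) : ↥(E Q) →* G := σ.comp (QuotientGroup.mk' _)

theorem up_apply (σ : P Q →* G) (t : ↥(E Q)) : up σ t = σ (t : P Q) := rfl

theorem Rp.rep {N : Subgroup G} {σ : P Q →* G} (h : Rp Q N σ) : Rep Q N (up σ) := by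
  refine ⟨?_, ?_⟩
  · rw [up, MonoidHom.range_comp, MonoidHom.range_eq_top.2 (QuotientGroup.mk'_surjective _), ← MonoidHom.range_eq_map,
      h.range]
  · ext t
    rw [MonoidHom.mem_ker, up_apply, map_eq_one_iff σ h.inj, QuotientGroup.eq_one_iff]

theorem exists_rp {N : Subgroup G} {S : Type*} [Group S] (e : N ≃* S) (f : S ≃* P Q) :
    ∃ σ : P Q →* G, Rp Q N σ := by
  refine ⟨N.subtype.comp ((e.trans f).symm.toMonoidHom), ?_, ?_⟩
  · exact N.subtype_injective.comp (e.trans f).symm.injective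
  · rw [MonoidHom.range_comp, MonoidHom.range_eq_top.2 (e.trans f).symm.surjective, ← MonoidHom.range_eq_map,
      Subgroup.range_subtype]

section

variable {σ : P Q →* G} {x y : G} {α β : MulAut (P Q)}

theorem La.lf {M : Gam Q} : La σ x (Psi Q M) ↔ Lf (up σ) x M := by
  constructor
  · intro h t
    rw [up_apply, h, Psi_mk]
    rfl
  · intro h a
    obtain ⟨t, rfl⟩ := QuotientGroup.mk_surjective a
    rw [Psi_mk]
    exact h t

theorem La.one : La σ 1 (1 : MulAut (P Q)) := fun a => by simp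

theorem La.mul (h : La σ x α) (h' : La σ y β) : La σ (x * y) (α * β) := fun a => by
  rw [MulAut.mul_apply, ← h, ← h']; group

theorem La.inv (h : La σ x α) : La σ x⁻¹ α⁻¹ := fun a => by
  have h1 := h (α⁻¹ a)
  have h2 : α (α⁻¹ a) = a := by rw [← MulAut.mul_apply, mul_inv_cancel]; rfl
  rw [h2] at h1
  rw [← h1]
  group

theorem La.pow (h : La σ x α) (n : ℕ) : La σ (x ^ n) (α ^ n) := by
  induction n with
  | zero => rw [pow_zero, pow_zero]; exact La.one
  | succ n ih => rw [pow_succ, pow_succ]; exact ih.mul h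

theorem La.inner (a : P Q) : La σ (σ a) (MulAut.conj a) := fun b => by
  rw [MulAut.conj_apply, map_mul, map_mul, map_inv]

/-- the automorphism is unique -/
theorem La.unique {N : Subgroup G} (hσ : Rp Q N σ) (h : La σ x α) (h' : La σ x β) : α = β := by
  ext a
  exact hσ.inj ((h a).symm.trans (h' a))

/-- two elements inducing the same automorphism are equal -/
theorem La.eq {N : Subgroup G} {Ω : Type*} [MulAction G Ω] (hE : Env G Ω N) (hσ : Rp Q N σ) (h : La σ x α)
    (h' : La σ y α) : x = y := by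
  have h1 : x * y⁻¹ ∈ Subgroup.centralizer (N : Set G) := by
    rw [Subgroup.mem_centralizer_iff]
    intro n hn
    have hn' : n ∈ N := hn
    rw [← hσ.range] at hn'
    obtain ⟨a, rfl⟩ := hn'
    have h3 := (h.mul h'.inv) a
    rw [mul_inv_cancel] at h3
    have h4 : x * y⁻¹ * σ a * (x * y⁻¹)⁻¹ = σ a := h3
    rw [mul_inv_eq_iff_eq_mul] at h4
    exact h4.symm
  rw [hE.cent] at h1
  exact mul_inv_eq_one.1 (Subgroup.mem_bot.1 h1)

/-- every element induces an automorphism -/
theorem exists_La {N : Subgroup G} (hN : N.Normal) (hσ : Rp Q N σ) (x : G) : ∃ α : MulAut (P Q), La σ x α := by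
  have hmem : ∀ a, σ a ∈ N := fun a => by rw [← hσ.range]; exact ⟨a, rfl⟩
  have hs : ∀ n ∈ N, ∃ a, σ a = n := fun n hn => by
    rw [← hσ.range] at hn
    exact hn
  let e : P Q ≃* N := MulEquiv.ofBijective (σ.codRestrict N hmem)
    ⟨fun a b h => hσ.inj (congrArg Subtype.val h), fun n => by
      obtain ⟨a, ha⟩ := hs n.1 n.2
      exact ⟨a, Subtype.ext ha⟩⟩
  refine ⟨e.trans ((MulAut.conjNormal x).trans e.symm), fun a => ?_⟩
  have h1 : e ((e.trans ((MulAut.conjNormal x).trans e.symm)) a) = MulAut.conjNormal x (e a) :=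
    e.apply_symm_apply _
  have h2 := congrArg Subtype.val h1
  rw [MulAut.conjNormal_apply] at h2
  exact h2.symm

/-- change of `σ` by an automorphism -/
theorem Rp.change {N : Subgroup G} (hσ : Rp Q N σ) (γ : MulAut (P Q)) :
    ∃ σ' : P Q →* G, Rp Q N σ' ∧ ∀ x α, La σ x α → La σ' x (γ * α * γ⁻¹) := by
  refine ⟨σ.comp (γ⁻¹ : MulAut (P Q)).toMonoidHom, ⟨hσ.inj.comp (γ⁻¹ : MulAut (P Q)).injective, ?_⟩, ?_⟩
  · rw [MonoidHom.range_comp, MonoidHom.range_eq_top.2 (γ⁻¹ : MulAut (P Q)).surjective, ← MonoidHom.range_eq_map,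
      hσ.range]
  · intro x α h a
    change x * σ (γ⁻¹ a) * x⁻¹ = σ (γ⁻¹ ((γ * α * γ⁻¹) a))
    rw [h]
    congr 1
    have : γ⁻¹ ((γ * α * γ⁻¹) a) = (γ⁻¹ * (γ * α * γ⁻¹)) a := rfl
    rw [this]
    have h2 : γ⁻¹ * (γ * α * γ⁻¹) = α * γ⁻¹ := by group
    rw [h2]
    rfl

/-- conjugation of a semisimilitude by an automorphism -/
theorem La.conj_lf {M M' : Gam Q} (hx : La σ x α) (hy : Lf (up σ) y M)
    (h : α * Psi Q M * α⁻¹ = Psi Q M') : Lf (up σ) (x * y * x⁻¹) M' := by
  rw [← La.lf, ← h]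
  exact (hx.mul (La.lf.2 hy)).mul hx.inv

end

end basic

section mv

variable {G Ω ι : Type*} [Group G] [MulAction G Ω] [DecidableEq ι] {x : ι → G} {i : ι} {b b₁ : G}

omit [DecidableEq ι] in
theorem mem_cl (hb : ∀ j, j ≠ i → b * x j = x j * b) :
    b * x i * b⁻¹ * (x i)⁻¹ ∈ Subgroup.closure {z | ∃ c : G, (∀ j, j ≠ i → c * x j = x j * c) ∧ z = c * x i * c⁻¹} := by
  apply Subgroup.mul_mem
  · exact Subgroup.subset_closure ⟨b, hb, rfl⟩
  · apply Subgroup.inv_mem
    exact Subgroup.subset_closure ⟨1, by simp, by simp⟩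

/-- the element `b⁻¹ (x b x⁻¹)` -/
theorem mv_one (h : Cov Ω x) (hb : ∀ j, j ≠ i → b * x j = x j * b) (h1 : b₁ = x i * b * (x i)⁻¹) :
    Cov Ω (Function.update x i (b⁻¹ * b₁)) := by
  have h2 : b⁻¹ * b₁ = b⁻¹ * x i * (b⁻¹)⁻¹ * (x i)⁻¹ := by rw [h1]; group
  rw [h2]
  apply h.mv
  apply mem_cl
  intro j hj
  have := hb j hj
  rw [inv_mul_eq_iff_eq_mul, ← mul_assoc, this, mul_inv_cancel_right]

/-- the cube of `b`, if `b b₁ b₂ = 1` -/
theorem mv_cube (h : Cov Ω x) (hb : ∀ j, j ≠ i → b * x j = x j * b) (hx : ∀ j, x i * x j = x j * x i)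
    (h1 : b₁ = x i * b * (x i)⁻¹) (hc : b * b₁ = b₁ * b) (h3 : b * b₁ * (x i * b₁ * (x i)⁻¹) = 1) :
    Cov Ω (Function.update x i (b ^ 3)) := by
  have hinv : ∀ c : G, (∀ j, j ≠ i → c * x j = x j * c) → ∀ j, j ≠ i → c⁻¹ * x j = x j * c⁻¹ := by
    intro c hc j hj
    rw [inv_mul_eq_iff_eq_mul, ← mul_assoc, hc j hj, mul_inv_cancel_right]
  have hb1 : ∀ j, j ≠ i → b₁ * x j = x j * b₁ := by
    intro j hj
    have e1 := hx j
    have e2 : (x i)⁻¹ * x j = x j * (x i)⁻¹ := by rw [inv_mul_eq_iff_eq_mul, ← mul_assoc, e1, mul_inv_cancel_right]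
    calc b₁ * x j = x i * b * ((x i)⁻¹ * x j) := by rw [h1]; group
      _ = x i * (b * x j) * (x i)⁻¹ := by rw [e2]; group
      _ = (x i * x j) * b * (x i)⁻¹ := by rw [hb j hj]; group
      _ = x j * (x i * b * (x i)⁻¹) := by rw [e1]; group
      _ = x j * b₁ := by rw [h1]
  apply h.mv
  have m1 := Subgroup.inv_mem _ (mem_cl (hinv b hb))
  have m2 := Subgroup.inv_mem _ (mem_cl (hinv b₁ hb1))
  set b₂ := x i * b₁ * (x i)⁻¹ with hb2
  have e1 : (b⁻¹ * x i * b⁻¹⁻¹ * (x i)⁻¹)⁻¹ = b₁⁻¹ * b := by rw [h1]; group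
  have e2 : (b₁⁻¹ * x i * b₁⁻¹⁻¹ * (x i)⁻¹)⁻¹ = b₂⁻¹ * b₁ := by rw [hb2]; group
  rw [e1] at m1
  rw [e2] at m2
  have e3 : b₂ = b₁⁻¹ * b⁻¹ := by
    rw [← mul_inv_rev]
    exact eq_inv_of_mul_eq_one_right h3
  have e4 : b ^ 3 = (b₂⁻¹ * b₁) * (b₁⁻¹ * b) * (b₁⁻¹ * b) := by
    rw [e3]
    have hc' : Commute b b₁ := hc
    have h5 : b * b₁⁻¹ = b₁⁻¹ * b := (hc'.inv_right).eq
    calc b ^ 3 = b * b * b := by rw [pow_three, mul_assoc]
      _ = b * b₁ * (b₁⁻¹ * b) * b := by group
      _ = b * b₁ * (b * b₁⁻¹) * b := by rw [h5]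
      _ = _ := by group
  rw [e4]
  exact Subgroup.mul_mem _ (Subgroup.mul_mem _ m2 m1) m1

end mv

end Cfsg.Agent.H566.RC

private theorem dce_8da23f47ff81 : _root_.True := by
  try have : _root_.True := by simp only [_root_.Cfsg.Agent.H566.RC.up.eq_1]
  exact _root_.True.intro
end

-- part: H566/RC/Dia
section
set_option linter.all false
open scoped Cfsg.Agent.FastGrp

/-!
# S3510, triality: the symmetric composition `dia τ`, `τ` a linear octonion automorphism, `τ³ = 1` (helper566)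

`(u ⋄ w) ⋄ u = Q(u) w = u ⋄ (w ⋄ u)`, `Q(u ⋄ w) = Q(u) Q(w)`, `(u ⋄ w, z) = (u, w ⋄ z)` and the linearised identities.
-/

set_option autoImplicit false
set_option linter.unusedSectionVars false

namespace Cfsg.Agent.H566.RC

open Module QuadraticMap Cfsg.Agent.LieClassical.OrthCore Cfsg.Agent.LieClassical.OrthTrans
  Cfsg.Agent.LieClassical.OrthSimple Cfsg.Agent.ClassicalGeometry.OrthAut1
  Cfsg.Agent.ClassicalGeometry.OrthSemi Cfsg.Agent.H198.Classes
  Cfsg.Agent.LieClassical.QuadForms Cfsg.Agent.H198.ClassesPlus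
  Cfsg.Agent.ClassicalGeometry.TrialityOct Cfsg.Agent.ClassicalGeometry.Triality
  Cfsg.Agent.ClassicalGeometry.TrialitySpaces Cfsg.Agent.H198.TriBase Cfsg.Agent.H198.TriAut
  Cfsg.Agent.H198.TriDia Cfsg.Agent.H198.TriTC

universe u

variable {F : Type u} [Field F]

/-- a linear octonion automorphism with `τ³ = 1` -/
structure Au (τ : G8 F) : Prop where
  tri : TriS τ τ τ
  lin : IsLin τ
  cube : τ ^ 3 = 1

section

variable {τ : G8 F} (h : Au τ)

include h

theorem Au.add (x y : V8 F) : τ.1 (x + y) = τ.1 x + τ.1 y := by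
  obtain ⟨c, hc⟩ := h.lin
  exact hc.add x y

theorem Au.smul (a : F) (x : V8 F) : τ.1 (a • x) = a • τ.1 x := by
  obtain ⟨c, hc⟩ := h.lin
  exact hc.smul a x

theorem Au.norm (x : V8 F) : plusForm 4 F (τ.1 x) = plusForm 4 F x := by
  obtain ⟨c, hc⟩ := h.lin
  have h1 := aut_mult h.tri hc
  rw [hc.form, h1, one_mul]
  rfl

theorem Au.polar_map (x y : V8 F) : polar (plusForm 4 F) (τ.1 x) (τ.1 y) = polar (plusForm 4 F) x y := by
  simp only [QuadraticMap.polar]
  rw [← h.add, h.norm, h.norm, h.norm]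

theorem Au.t3 (x : V8 F) : τ.1 (τ.1 (τ.1 x)) = x := by
  have h1 := congrArg (fun z : G8 F => z.1 x) h.cube
  rw [pow_three] at h1
  exact h1

theorem Au.inv_eq (x : V8 F) : τ⁻¹.1 x = τ.1 (τ.1 x) := by
  have h1 : τ⁻¹.1 (τ.1 (τ.1 (τ.1 x))) = τ.1 (τ.1 x) := τ.1.symm_apply_apply _
  rwa [h.t3] at h1

theorem Au.mul (x y : V8 F) : τ.1 (omul x y) = omul (τ.1 x) (τ.1 y) := h.tri x y

theorem Au.conj (x : V8 F) : τ.1 (oconj x) = oconj (τ.1 x) := aut_oconj h.tri x

theorem Au.dia_eq (u w : V8 F) : dia τ u w = omul (oconj (τ.1 (τ.1 u))) (oconj (τ.1 w)) := by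
  rw [dia, h.inv_eq, h.conj, h.conj, h.conj]

theorem Au.dia_add_left (u u' w : V8 F) : dia τ (u + u') w = dia τ u w + dia τ u' w := by
  rw [h.dia_eq, h.dia_eq, h.dia_eq, h.add, h.add, oconj_add, add_omul]

theorem Au.dia_add_right (u w w' : V8 F) : dia τ u (w + w') = dia τ u w + dia τ u w' := by
  rw [h.dia_eq, h.dia_eq, h.dia_eq, h.add, oconj_add, omul_add]

theorem Au.dia_smul_left (c : F) (u w : V8 F) : dia τ (c • u) w = c • dia τ u w := by
  rw [h.dia_eq, h.dia_eq, h.smul, h.smul, oconj_smul, smul_omul]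

theorem Au.dia_smul_right (c : F) (u w : V8 F) : dia τ u (c • w) = c • dia τ u w := by
  rw [h.dia_eq, h.dia_eq, h.smul, oconj_smul, omul_smul]

theorem Au.dia_norm (u w : V8 F) :
    plusForm 4 F (dia τ u w) = plusForm 4 F u * plusForm 4 F w := by
  rw [h.dia_eq, norm_omul, norm_oconj, norm_oconj, h.norm, h.norm, h.norm]

/-- `(u ⋄ w) ⋄ u = Q(u) w` -/
theorem Au.dia_dia (u w : V8 F) : dia τ (dia τ u w) u = plusForm 4 F u • w := by
  have e1 : oconj (τ.1 (τ.1 (dia τ u w))) = omul w (τ.1 u) := by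
    rw [h.dia_eq, h.mul, h.mul, h.conj, h.conj, h.t3, h.conj, h.conj, h.t3, oconj_omul, oconj_oconj, oconj_oconj]
  rw [h.dia_eq (dia τ u w) u, e1, omul_omul_oconj, h.norm]

/-- `u ⋄ (w ⋄ u) = Q(u) w` -/
theorem Au.dia_dia' (u w : V8 F) : dia τ u (dia τ w u) = plusForm 4 F u • w := by
  have e1 : oconj (τ.1 (dia τ w u)) = omul (τ.1 (τ.1 u)) w := by
    rw [h.dia_eq, h.mul, h.conj, h.conj, h.t3, oconj_omul, oconj_oconj, oconj_oconj]
  rw [h.dia_eq u (dia τ w u), e1, oconj_omul_omul, h.norm, h.norm]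

/-- linearised identities -/
theorem Au.lin1 (u w z : V8 F) : dia τ (dia τ u w) z + dia τ (dia τ z w) u =
    polar (plusForm 4 F) u z • w := by
  have h1 := h.dia_dia (u + z) w
  rw [h.dia_add_left, h.dia_add_left, h.dia_add_right, h.dia_add_right, h.dia_dia, h.dia_dia] at h1
  have h2 : plusForm 4 F (u + z) = plusForm 4 F u + plusForm 4 F z + polar (plusForm 4 F) u z := by
    rw [QuadraticMap.polar]; ring
  rw [h2, add_smul, add_smul] at h1
  have h3 : dia τ (dia τ u w) z + dia τ (dia τ z w) u =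
      (plusForm 4 F u • w + dia τ (dia τ u w) z + (dia τ (dia τ z w) u + plusForm 4 F z • w)) -
        (plusForm 4 F u • w + plusForm 4 F z • w) := by abel
  rw [h3, h1]
  abel

theorem Au.lin2 (u w z : V8 F) : dia τ u (dia τ w z) + dia τ z (dia τ w u) =
    polar (plusForm 4 F) u z • w := by
  have h1 := h.dia_dia' (u + z) w
  rw [h.dia_add_right, h.dia_add_left, h.dia_add_right, h.dia_add_right, h.dia_dia', h.dia_dia'] at h1
  have h2 : plusForm 4 F (u + z) = plusForm 4 F u + plusForm 4 F z + polar (plusForm 4 F) u z := by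
    rw [QuadraticMap.polar]; ring
  rw [h2, add_smul, add_smul] at h1
  have h3 : dia τ u (dia τ w z) + dia τ z (dia τ w u) =
      (plusForm 4 F u • w + dia τ u (dia τ w z) + (dia τ z (dia τ w u) + plusForm 4 F z • w)) -
        (plusForm 4 F u • w + plusForm 4 F z • w) := by abel
  rw [h3, h1]
  abel

/-- associativity of the polar form -/
theorem Au.assoc (u w z : V8 F) :
    polar (plusForm 4 F) (dia τ u w) z = polar (plusForm 4 F) u (dia τ w z) := by
  have e1 : τ.1 (τ.1 (dia τ w z)) = omul (oconj (τ.1 w)) (oconj z) := by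
    rw [h.dia_eq, h.mul, h.mul, h.conj, h.conj, h.t3, h.conj, h.conj, h.t3]
  rw [← h.polar_map u, ← h.polar_map (τ.1 u), e1, h.dia_eq, polar_omul, oconj_oconj]
  have e2 : ∀ x y : V8 F, polar (plusForm 4 F) (oconj x) (oconj y) = polar (plusForm 4 F) x y := by
    intro x y
    simp only [QuadraticMap.polar]
    rw [← oconj_add, norm_oconj, norm_oconj, norm_oconj]
  rw [← e2, oconj_oconj, oconj_omul]

end

end Cfsg.Agent.H566.RC
end

-- part: H675/RC/DetFam
section
set_option linter.all false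
open scoped Cfsg.Agent.FastGrp

/-!
# S3510, triality: automorphisms of `dia τ` have determinant one; a commuting family is cyclic (helper675)

* `exists_gen` : commuting elements `M j` of pairwise different prime orders are powers of one element;
* `det_gamO` : `det x = kp x` for isometries;
* `mem_T1_of_aut`, `det_of_aut` : an automorphism of the product `dia τ` is in `T1 F`, so its determinant is one.
-/

set_option autoImplicit false

namespace Cfsg.Agent.H675.RC

open Module QuadraticMap Cfsg.Agent.LieClassical.OrthCore Cfsg.Agent.LieClassical.OrthTrans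
  Cfsg.Agent.LieClassical.OrthSimple Cfsg.Agent.ClassicalGeometry.OrthAut1
  Cfsg.Agent.ClassicalGeometry.OrthSemi Cfsg.Agent.H198.Classes
  Cfsg.Agent.LieClassical.QuadForms Cfsg.Agent.H198.ClassesPlus
  Cfsg.Agent.ClassicalGeometry.TrialityOct Cfsg.Agent.ClassicalGeometry.Triality
  Cfsg.Agent.ClassicalGeometry.TrialitySpaces Cfsg.Agent.H198.TriBase Cfsg.Agent.H198.TriAut
  Cfsg.Agent.H198.TriDia Cfsg.Agent.H198.TriTC

universe u

/-! ### families -/

/-- two commuting elements with coprime exponents are powers of their product -/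
theorem mem_zpowers_mul {G : Type*} [Group G] {a b : G} {m n : ℕ} (hab : a * b = b * a) (ha : a ^ m = 1)
    (hb : b ^ n = 1) (hmn : m.Coprime n) :
    a ∈ Subgroup.zpowers (a * b) ∧ b ∈ Subgroup.zpowers (a * b) := by
  have hc : Commute a b := hab
  have key : ∀ (a b : G) (m n : ℕ), Commute a b → a ^ m = 1 → b ^ n = 1 → m.Coprime n →
      a ∈ Subgroup.zpowers (a * b) := by
    intro a b m n hc ha hb hmn
    have h1 : (a * b) ^ n = a ^ n := by rw [hc.mul_pow, hb, mul_one]
    have h2 : a ∈ Subgroup.zpowers (a ^ n) := by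
      obtain ⟨k, hk⟩ := exists_pow_eq_self_of_coprime (x := a) (n := n)
        ((hmn.symm).coprime_dvd_right (orderOf_dvd_of_pow_eq_one ha))
      exact ⟨k, by simpa using hk⟩
    rw [← h1] at h2
    exact (Subgroup.zpowers_le.2 (Subgroup.npow_mem_zpowers _ _)) h2
  refine ⟨key a b m n hc ha hb hmn, ?_⟩
  rw [hab]
  exact key b a n m hc.symm hb ha hmn.symm

/-- **A commuting family of elements of pairwise different prime orders is cyclic.** -/
theorem exists_gen {G ι : Type*} [Group G] (M : ι → G) (r : ι → ℕ) (hr : ∀ j, (r j).Prime)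
    (hinj : Function.Injective r) (hM : ∀ j, M j ^ r j = 1) (hc : ∀ i j, M i * M j = M j * M i) (A : Finset ι) :
    ∃ s ∈ Subgroup.closure (M '' (A : Set ι)), (∀ j ∈ A, M j ∈ Subgroup.zpowers s) ∧ s ^ (∏ j ∈ A, r j) = 1 := by
  classical
  induction A using Finset.induction_on with
  | empty => exact ⟨1, one_mem _, by simp, one_pow _⟩
  | insert i A hi ih =>
    obtain ⟨s, hs, hsM, hs1⟩ := ih
    have hcs : M i * s = s * M i := by
      have h1 : s ∈ Subgroup.centralizer ({M i} : Set G) := by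
        refine (Subgroup.closure_le _).2 ?_ hs
        rintro _ ⟨j, -, rfl⟩
        exact Subgroup.mem_centralizer_singleton_iff.2 (hc j i)
      exact (Subgroup.mem_centralizer_singleton_iff.1 h1).symm
    have hcop : (r i).Coprime (∏ j ∈ A, r j) := by
      refine Nat.Coprime.prod_right fun j hj => ?_
      exact (Nat.coprime_primes (hr i) (hr j)).2 fun h => hi (by rw [hinj h]; exact hj)
    obtain ⟨h1, h2⟩ := mem_zpowers_mul hcs (hM i) hs1 hcop
    refine ⟨M i * s, ?_, ?_, ?_⟩
    · refine Subgroup.mul_mem _ (Subgroup.subset_closure ⟨i, by simp, rfl⟩) ?_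
      refine Subgroup.closure_mono ?_ hs
      exact Set.image_mono (by simp)
    · intro j hj
      rcases Finset.mem_insert.1 hj with rfl | hj
      · exact h1
      · exact (Subgroup.zpowers_le.2 h2) (hsM j hj)
    · rw [Finset.prod_insert hi, (show Commute (M i) s from hcs).mul_pow, pow_mul, hM, one_pow, one_mul, mul_comm,
        pow_mul, hs1, one_pow]

/-! ### the determinant -/

variable {F : Type u} [Field F]

/-- an automorphism of the product `dia τ` is the first member of a triple -/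
theorem tri_of_aut {τ s : G8 F} (hs : ∀ u w, s.1 (dia τ u w) = dia τ (s.1 u) (s.1 w)) :
    TriS s (τ⁻¹ * kapG F * s * kapG F * τ) (τ * kapG F * s * kapG F * τ⁻¹) := by
  intro x y
  have h1 : omul x y = dia τ (oconj (τ.1 x)) (oconj (τ⁻¹.1 y)) := by
    unfold dia
    rw [oconj_oconj, oconj_oconj]
    congr 1
    · exact (τ.1.symm_apply_apply x).symm
    · exact (τ.1.apply_symm_apply y).symm
  rw [h1, hs]
  rfl

theorem mem_T1_of_aut {τ s : G8 F} (hs : ∀ u w, s.1 (dia τ u w) = dia τ (s.1 u) (s.1 w)) : s ∈ T1 F :=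
  ⟨_, _, tri_of_aut hs⟩

end Cfsg.Agent.H675.RC
end
end
end
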